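import Cfsg.Agent.Lib.H01.Coprime3
import Cfsg.Agent.Lib.H01.Fitting
import Cfsg.Agent.Lib.H03.PSolv
import Cfsg.Agent.Lib.H06.FittingHall
import Cfsg.Agent.Lib.H08.PCoreL
import Cfsg.Agent.Lib.H23.CovApp

/-!
# Commuting Sylow subgroups: the group-theoretic part
-/

set_option autoImplicit false
set_option linter.style.haveILetI false
set_option linter.unusedSectionVars false

namespace Cfsg.Agent.H23

open Cfsg

universe u

variable {G : Type u} [Group G] [Finite G]

theorem cs_one_of_mem {p q : ℕ} [Fact p.Prime] [Fact q.Prime] (hpq : p ≠ q) {A B : Subgroup G}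
    (hA : IsPGroup p A) (hB : IsPGroup q B) {x : G} (ha : x ∈ A) (hb : x ∈ B) : x = 1 :=
  Subgroup.disjoint_def.1 (IsPGroup.disjoint_of_ne p q hpq A B hA hB) ha hb

theorem cs_one_of_cop {A B : Subgroup G} (h : (Nat.card A).Coprime (Nat.card B)) {x : G}
    (ha : x ∈ A) (hb : x ∈ B) : x = 1 :=
  orderOf_eq_one_iff.1 (Nat.eq_one_of_dvd_coprimes h (Subgroup.orderOf_dvd_natCard A ha)
    (Subgroup.orderOf_dvd_natCard B hb))

theorem cs_le_normalizer {A T : Subgroup G} (h : ∀ x ∈ A, ∀ t ∈ T, x * t * x⁻¹ ∈ T) :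
    A ≤ Subgroup.normalizer (T : Set G) := by
  intro x hx
  rw [Subgroup.mem_normalizer_iff]
  intro t
  constructor
  · exact h x hx t
  · intro ht
    have := h x⁻¹ (A.inv_mem hx) _ ht
    simpa [mul_assoc] using this

/-- **The easy fact**: a `q`-group commuting with a Sylow `p`-subgroup of a `p`-solvable group
lies in `O_{p'}`. -/
theorem cs_le_core {p q : ℕ} [hp : Fact p.Prime] [hq : Fact q.Prime] (hpq : p ≠ q)
    (hs : IsPSolvable p G) (P : Sylow p G) (Q : Subgroup G) (hQ : IsPGroup q Q)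
    (hc : ∀ x ∈ (P : Subgroup G), ∀ y ∈ Q, x * y = y * x) : Q ≤ pPrimeCore p G := by
  classical
  let O : Subgroup G := pPrimeCore p G
  haveI hOn : O.Normal := pPrimeCore_normal p G
  let f := QuotientGroup.mk' O
  have hf : Function.Surjective f := QuotientGroup.mk'_surjective O
  have hQ0 : pPrimeCore p (G ⧸ O) = ⊥ := H08.pPrimeCore_quotient_eq_bot p
  have hS : IsPSolvable p (G ⧸ O) := H03.isPSolvable_of_surjective hf hs
  have hC := H03.centralizer_pCore_le_of_isPSolvable hS hQ0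
  let S : Sylow p (G ⧸ O) := P.mapSurjective hf
  have hle : pCore p (G ⧸ O) ≤ S := H01.pCore_le_sylow p S
  intro y hy
  have h1 : f y ∈ pCore p (G ⧸ O) := hC (by
    rw [Subgroup.mem_centralizer_iff]
    intro z hz
    obtain ⟨x, hx, rfl⟩ := hle hz
    rw [← map_mul, ← map_mul, hc x hx y hy])
  have hQf : IsPGroup q (Q.map f) := hQ.map f
  have h2 : f y = 1 :=
    cs_one_of_mem hpq (H01.pCore_isPGroup p) hQf h1 (Subgroup.mem_map_of_mem f hy)
  exact (QuotientGroup.eq_one_iff _).1 h2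

/-- Sylow subgroups of a subgroup containing a Sylow subgroup of the group are Sylow. -/
theorem cs_sylow_of_map {q : ℕ} [hq : Fact q.Prime] (T : Subgroup G) (Q : Sylow q G)
    (hQ : (Q : Subgroup G) ≤ T) (R : Sylow q T) :
    ∃ Q₁ : Sylow q G, (Q₁ : Subgroup G) = (R : Subgroup T).map T.subtype := by
  obtain ⟨t, ht⟩ := MulAction.exists_smul_eq T (Q.subtype hQ) R
  refine ⟨t • Q, ?_⟩
  rw [← ht, Sylow.smul_subtype, Sylow.coe_subtype, Subgroup.subgroupOf_map_subtype,
    inf_eq_left.2 (Sylow.smul_le hQ t)]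

theorem cs_solvable_of_pgroup {p : ℕ} [hp : Fact p.Prime] {A : Subgroup G} (hA : IsPGroup p A) :
    Group.IsSolvable A := by
  haveI := hA.isNilpotent
  infer_instance

/-- **Case I**. -/
theorem cs_caseI {p q : ℕ} [hp : Fact p.Prime] [hq : Fact q.Prime]
    (K L : Subgroup G) [hK : K.Normal] [hL : L.Normal] (hKc : (Nat.card K).Coprime p)
    (hLc : (Nat.card L).Coprime q) (P : Sylow p G) (Q : Sylow q G)
    (hP : (P : Subgroup G) ≤ L) (hQ : (Q : Subgroup G) ≤ K) :
    ∃ Q₁ : Sylow q G, ∀ x ∈ (P : Subgroup G), ∀ y ∈ (Q₁ : Subgroup G), x * y = y * x := by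
  classical
  let D : Subgroup G := K ⊓ L
  haveI hDn : D.Normal := inferInstance
  let T : Subgroup G := D ⊔ (Q : Subgroup G)
  have hTK : T ≤ K := sup_le inf_le_left hQ
  have hQT : (Q : Subgroup G) ≤ T := le_sup_right
  have hcomm : ∀ x ∈ (P : Subgroup G), ∀ y ∈ K, x * y * x⁻¹ * y⁻¹ ∈ D := by
    intro x hx y hy
    refine Subgroup.mem_inf.2 ⟨?_, ?_⟩
    · exact K.mul_mem (hK.conj_mem y hy x) (K.inv_mem hy)
    · have h1 : x * y * x⁻¹ * y⁻¹ = x * (y * x⁻¹ * y⁻¹) := by group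
      rw [h1]
      exact L.mul_mem (hP hx) (hL.conj_mem _ (L.inv_mem (hP hx)) y)
  have hnorm : (P : Subgroup G) ≤ Subgroup.normalizer (T : Set G) := by
    apply cs_le_normalizer
    intro x hx t ht
    obtain ⟨d, hd, y, hy, rfl⟩ := Subgroup.mem_sup_of_normal_left.1 ht
    have h1 : x * (d * y) * x⁻¹ = (x * d * x⁻¹) * ((x * y * x⁻¹ * y⁻¹) * y) := by group
    rw [h1]
    refine T.mul_mem (Subgroup.mem_sup_left (hDn.conj_mem d hd x)) (T.mul_mem ?_ (hQT hy))
    exact Subgroup.mem_sup_left (hcomm x hx y (hQ hy))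
  have hcop : (Nat.card (P : Subgroup G)).Coprime (Nat.card T) := by
    obtain ⟨n, hn⟩ := IsPGroup.iff_card.1 P.isPGroup'
    rw [hn]
    apply Nat.Coprime.pow_left
    exact (Nat.Coprime.coprime_dvd_left (Subgroup.card_dvd_of_le hTK) hKc).symm
  obtain ⟨R, hR⟩ := H01.exists_invariant_sylow hnorm hcop (Or.inl (cs_solvable_of_pgroup P.isPGroup')) q
  obtain ⟨Q₁, hQ₁⟩ := cs_sylow_of_map T Q hQT R
  refine ⟨Q₁, ?_⟩
  intro x hx y hy
  have hyT : y ∈ T := by
    rw [hQ₁] at hy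
    obtain ⟨r, -, rfl⟩ := hy
    exact r.2
  have h1 : x * y * x⁻¹ ∈ (Q₁ : Subgroup G) := by
    rw [hQ₁]
    have h2 := hR hx
    rw [Subgroup.mem_normalizer_iff] at h2
    have h3 := (h2 y).1 (by rw [← hQ₁]; exact hy)
    exact h3
  have h2 : x * y * x⁻¹ * y⁻¹ ∈ (Q₁ : Subgroup G) := Subgroup.mul_mem _ h1 (Subgroup.inv_mem _ hy)
  have h3 : x * y * x⁻¹ * y⁻¹ ∈ L := (hcomm x hx y (hTK hyT)).2
  have h4 : x * y * x⁻¹ * y⁻¹ = 1 := by
    obtain ⟨n, hn⟩ := IsPGroup.iff_card.1 Q₁.isPGroup'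
    refine cs_one_of_cop (A := (Q₁ : Subgroup G)) (B := L) ?_ h2 h3
    rw [hn]
    exact Nat.Coprime.pow_left _ hLc.symm
  calc x * y = x * y * x⁻¹ * y⁻¹ * (y * x) := by group
    _ = y * x := by rw [h4, one_mul]

/-- A Sylow subgroup of a subgroup of `q'`-index is a Sylow subgroup. -/
theorem cs_exists_sylow_sub {q : ℕ} [hq : Fact q.Prime] {C T : Subgroup G} (hCT : C ≤ T)
    (hi : ¬ q ∣ C.relIndex T) (R : Sylow q C) :
    ∃ R₀ : Sylow q T, (R₀ : Subgroup T).map T.subtype = (R : Subgroup C).map C.subtype := by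
  classical
  have h0 : (C.subgroupOf T).index = C.relIndex T := rfl
  let R₁ : Subgroup G := (R : Subgroup C).map C.subtype
  have hR₁T : R₁ ≤ T := by
    rintro _ ⟨r, -, rfl⟩
    exact hCT r.2
  have hcard1 : Nat.card R₁ = Nat.card (R : Subgroup C) :=
    Subgroup.card_map_of_injective C.subtype_injective
  have hcard2 : Nat.card (R₁.subgroupOf T) = Nat.card R₁ :=
    Nat.card_congr (Subgroup.subgroupOfEquivOfLe hR₁T).toEquiv
  have hT : Nat.card T = C.relIndex T * Nat.card C := by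
    have h1 := Subgroup.card_mul_index (C.subgroupOf T)
    have h2 : Nat.card (C.subgroupOf T) = Nat.card C := by
      exact Nat.card_congr (Subgroup.subgroupOfEquivOfLe hCT).toEquiv
    rw [h2, h0] at h1
    rw [← h1, mul_comm]
  have hne1 : C.relIndex T ≠ 0 := by
    intro h
    rw [h, zero_mul] at hT
    exact Nat.card_pos.ne' hT
  have hne2 : Nat.card C ≠ 0 := Nat.card_pos.ne'
  have hfac : (Nat.card T).factorization q = (Nat.card C).factorization q := by
    rw [hT, Nat.factorization_mul hne1 hne2, Finsupp.add_apply,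
      Nat.factorization_eq_zero_of_not_dvd hi, zero_add]
  have hcard3 : Nat.card (R₁.subgroupOf T) = q ^ (Nat.card T).factorization q := by
    rw [hcard2, hcard1, hfac]
    exact Sylow.card_eq_multiplicity R
  refine ⟨Sylow.ofCard (R₁.subgroupOf T) hcard3, ?_⟩
  rw [Sylow.coe_ofCard, Subgroup.subgroupOf_map_subtype, inf_eq_left.2 hR₁T]

/-- **The key lemma on stabilizers.** -/
theorem cs_AL {p q : ℕ} [hp : Fact p.Prime] [hq : Fact q.Prime]
    (D : Subgroup G) [hD : D.Normal] (P : Sylow p G) (Q : Sylow q G)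
    (hc : ∀ x ∈ (P : Subgroup G), ∀ y ∈ (Q : Subgroup G), x * y = y * x)
    (hT : (D ⊔ (Q : Subgroup G)).Normal) (hTp : (Nat.card (D ⊔ (Q : Subgroup G) : Subgroup G)).Coprime p)
    (hfix : ∀ x ∈ D, (∀ g ∈ (P : Subgroup G), g * x = x * g) → ∀ a ∈ (Q : Subgroup G), a * x = x * a)
    (S : Subgroup G) (hPS : (P : Subgroup G) ≤ S) (hS : ¬ q ∣ S.index) :
    (Q : Subgroup G) ≤ S := by
  classical
  let T : Subgroup G := D ⊔ (Q : Subgroup G)
  have hQT : (Q : Subgroup G) ≤ T := le_sup_right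
  let C : Subgroup G := S ⊓ T
  have hCT : C ≤ T := inf_le_right
  have hPC : (P : Subgroup G) ≤ Subgroup.normalizer (C : Set G) := by
    apply cs_le_normalizer
    intro x hx t ht
    exact Subgroup.mem_inf.2 ⟨S.mul_mem (S.mul_mem (hPS hx) ht.1) (S.inv_mem (hPS hx)),
      hT.conj_mem t ht.2 x⟩
  have hPT : (P : Subgroup G) ≤ Subgroup.normalizer (T : Set G) := by
    apply cs_le_normalizer
    intro x hx t ht
    exact hT.conj_mem t ht x
  have hcopT : (Nat.card (P : Subgroup G)).Coprime (Nat.card T) := by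
    obtain ⟨n, hn⟩ := IsPGroup.iff_card.1 P.isPGroup'
    rw [hn]
    exact Nat.Coprime.pow_left _ hTp.symm
  have hcopC : (Nat.card (P : Subgroup G)).Coprime (Nat.card C) :=
    Nat.Coprime.coprime_dvd_right (Subgroup.card_dvd_of_le hCT) hcopT
  have hsol := cs_solvable_of_pgroup P.isPGroup'
  obtain ⟨R, hR⟩ := H01.exists_invariant_sylow hPC hcopC (Or.inl hsol) q
  have hidx : ¬ q ∣ C.relIndex T := by
    have h1 : C.relIndex T = S.relIndex T := Subgroup.inf_relIndex_right S T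
    rw [h1]
    haveI : T.Normal := hT
    exact fun h => hS (h.trans (cov_relIndex_dvd T S))
  obtain ⟨R₀, hR₀⟩ := cs_exists_sylow_sub hCT hidx R
  have hQ₀ : ((Q.subtype hQT : Sylow q T) : Subgroup T).map T.subtype = Q := by
    rw [Sylow.coe_subtype, Subgroup.subgroupOf_map_subtype, inf_eq_left.2 hQT]
  have hQnorm : (P : Subgroup G) ≤ Subgroup.normalizer
      ((((Q.subtype hQT : Sylow q T) : Subgroup T).map T.subtype : Subgroup G) : Set G) := by
    rw [hQ₀]
    apply cs_le_normalizer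
    intro x hx t ht
    rw [hc x hx t ht]
    simpa using ht
  have hR₀norm : (P : Subgroup G) ≤ Subgroup.normalizer
      (((R₀ : Subgroup T).map T.subtype : Subgroup G) : Set G) := by
    rw [hR₀]
    exact hR
  obtain ⟨c, hcC, hcQ⟩ := H01.conj_invariant_sylow hPT hcopT (Or.inl hsol) q _ _ hQnorm hR₀norm
  -- write `c = d y`
  obtain ⟨d, hd, y₀, hy₀, hcd⟩ := Subgroup.mem_sup_of_normal_left.1 c.2
  have hdcomm : ∀ g ∈ (P : Subgroup G), g * d = d * g := by
    intro g hg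
    have h1 : g * (c : G) = (c : G) * g := (Subgroup.mem_centralizer_iff.1 hcC) g hg
    rw [← hcd] at h1
    have h2 := hc g hg y₀ hy₀
    have h3 : g * d * y₀ = d * g * y₀ := by
      calc g * d * y₀ = g * (d * y₀) := by group
        _ = d * y₀ * g := h1
        _ = d * (y₀ * g) := by group
        _ = d * (g * y₀) := by rw [h2]
        _ = d * g * y₀ := by group
    exact mul_right_cancel h3
  have hdQ := hfix d hd hdcomm
  intro a ha
  -- `a = c a' c⁻¹` with `a' ∈ Q`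
  let a' : G := y₀⁻¹ * a * y₀
  have ha' : a' ∈ (Q : Subgroup G) :=
    Subgroup.mul_mem _ (Subgroup.mul_mem _ (Subgroup.inv_mem _ hy₀) ha) hy₀
  have ha'T : a' ∈ T := hQT ha'
  have hac : (c : G) * a' * (c : G)⁻¹ = a := by
    rw [← hcd]
    show d * y₀ * (y₀⁻¹ * a * y₀) * (d * y₀)⁻¹ = a
    have h1 := hdQ a ha
    calc d * y₀ * (y₀⁻¹ * a * y₀) * (d * y₀)⁻¹ = d * a * d⁻¹ := by group
      _ = a * d * d⁻¹ := by rw [h1]
      _ = a := by group
  have hmem : (c : G) * a' * (c : G)⁻¹ ∈ (R₀ : Subgroup T).map T.subtype := by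
    have h1 : (⟨a', ha'T⟩ : T) ∈ (Q.subtype hQT : Subgroup T) := by
      rw [Sylow.coe_subtype]
      exact ha'
    have h2 : MulAut.conj c • (⟨a', ha'T⟩ : T) ∈ (R₀ : Subgroup T) := by
      rw [← hcQ]
      show _ ∈ ((MulAut.conj c • (Q.subtype hQT) : Sylow q T) : Subgroup T)
      rw [Sylow.pointwise_smul_def]
      exact Subgroup.smul_mem_pointwise_smul _ _ _ h1
    exact ⟨_, h2, rfl⟩
  rw [hac, hR₀] at hmem
  obtain ⟨r, -, hr⟩ := hmem
  rw [← hr]
  exact (r.2 : (r : G) ∈ C).1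

end Cfsg.Agent.H23
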