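import Cfsg.Agent.Lib.H23.CommSyl1
import Cfsg.Agent.Lib.H23.RealGlaub
import Cfsg.Agent.Lib.H21.FongOne
import Cfsg.Agent.Lib.H22.NormalAb
import Cfsg.Agent.Lib.H22.Height0Stab
import Cfsg.Agent.Lib.H26.QuadSL2

/-!
# Commuting Sylow subgroups: the character-theoretic part in the quotient
-/

set_option autoImplicit false
set_option linter.style.haveILetI false
set_option linter.unusedSectionVars false
set_option linter.unusedSimpArgs false

namespace Cfsg.Agent.H23

open Cfsg Cfsg.Agent.H21 Cfsg.Agent.H22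
open scoped ComplexConjugate

universe u

section Over

variable {G : Type u} [Group G] [Finite G] {p : ℕ} [hp : Fact p.Prime]

/-- If `θ` extends to a subgroup containing a Sylow `p`-subgroup and `p ∤ θ(1)`, there is a character
of `p'`-degree over `θ`. -/
theorem cs_over_of_ext (N L : Subgroup G) [hN : N.Normal] (hNL : N ≤ L) (P : Sylow p G)
    (hPL : (P : Subgroup G) ≤ L) (θ : IrrCharacter N) (η : IrrCharacter L)
    (hη : ∀ n : N, η.1 ⟨n, hNL n.2⟩ = θ.1 n) (hd : ¬ p ∣ charDegree θ.1) :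
    ∃ χ : IrrCharacter G, ∑ n : N, conj (θ.1 n) * χ.1 n ≠ 0 ∧ ¬ p ∣ charDegree χ.1 := by
  classical
  have hη' : ∀ n : N.subgroupOf L, η.1 n = (thetaT hNL θ).1 n := by
    intro n
    rw [thetaT_apply]
    exact hη ⟨(n : L), Subgroup.mem_subgroupOf.mp n.2⟩
  have hη0 : ∑ n : N.subgroupOf L, conj ((thetaT hNL θ).1 n) * η.1 n ≠ 0 := by
    have h1 := classInner_irr (thetaT hNL θ) (thetaT hNL θ)
    rw [if_pos rfl] at h1
    intro h2
    have h3 : ∑ n : N.subgroupOf L, conj ((thetaT hNL θ).1 n) * η.1 n =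
        ∑ n : N.subgroupOf L, (thetaT hNL θ).1 n * conj ((thetaT hNL θ).1 n) :=
      Finset.sum_congr rfl fun n _ => by rw [hη' n, mul_comm]
    unfold classInner at h1
    rw [h3] at h2
    rw [h2] at h1
    simp at h1
  have hηdeg : ¬ p ∣ charDegree η.1 := by
    have h1 : η.1 1 = θ.1 1 := hη 1
    have h2 : charDegree η.1 = charDegree θ.1 := by
      unfold charDegree
      rw [h1]
    rw [h2]
    exact hd
  -- induce
  have hφ : IsCharacter G (indFun L η.1) := isCharacter_indFun L (isCharacter_of_irr η.2)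
  have hφ1 : indFun L η.1 1 = ((L.index * charDegree η.1 : ℕ) : ℂ) := by
    rw [indFun_one, one_eq_charDegree (isCharacter_of_irr η.2)]
    push_cast
    rfl
  have hLi : ¬ p ∣ L.index := fun h =>
    P.not_dvd_index (h.trans (Subgroup.index_dvd_of_le hPL))
  have hd' : ¬ p ∣ L.index * charDegree η.1 := fun h =>
    (hp.out.dvd_mul.1 h).elim hLi hηdeg
  obtain ⟨χ, hχ1, hχ2⟩ := exists_constituent_coprime hφ hφ1 hd'
  refine ⟨χ, ?_, hχ2⟩
  rw [frobenius_reciprocity L η.1 χ.1 (isClassFunction_of_isCharacter (isCharacter_of_irr χ.2))]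
    at hχ1
  have hχ3 : classInner (fun l : L => χ.1 l) η.1 ≠ 0 := by
    rw [← classInner_comm_conj]
    intro h0
    apply hχ1
    simpa using h0
  have h5 := const_of_expansion (isCharacter_restrict L (isCharacter_of_irr χ.2)) (N.subgroupOf L)
    hχ3 (thetaT hNL θ) hη0
  intro h6
  apply h5
  rw [← h6]
  refine Fintype.sum_equiv (phiN hNL).toEquiv _ _ fun n => ?_
  rw [thetaT_apply]
  rfl

/-- There is a character of degree prime to `p` over a `P`-invariant character of a normal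
`p'`-subgroup. -/
theorem cs_pprime_over (N : Subgroup G) [hN : N.Normal] (hNc : (Nat.card N).Coprime p)
    (P : Sylow p G) (θ : IrrCharacter N)
    (hinv : ∀ g ∈ (P : Subgroup G), ∀ n : N, θ.1 ⟨g * n * g⁻¹, hN.conj_mem n n.2 g⟩ = θ.1 n) :
    ∃ χ : IrrCharacter G, ∑ n : N, conj (θ.1 n) * χ.1 n ≠ 0 ∧ ¬ p ∣ charDegree χ.1 := by
  classical
  set L : Subgroup G := (P : Subgroup G) ⊔ N with hLdef
  have hNL : N ≤ L := le_sup_right
  have hSL : (P : Subgroup G) ≤ L := le_sup_left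
  obtain ⟨k, hk⟩ : ∃ k : ℕ, (N.subgroupOf L).index = p ^ k := by
    have h1 : (N.subgroupOf L).index = N.relIndex (P : Subgroup G) := by
      change N.relIndex L = _
      rw [hLdef]
      exact Subgroup.relIndex_sup_right _ _
    obtain ⟨n, hn⟩ := (IsPGroup.iff_card).1 P.isPGroup'
    have h2 : N.relIndex (P : Subgroup G) ∣ p ^ n := by
      rw [← hn]
      exact Subgroup.index_dvd_card _
    obtain ⟨j, -, hj⟩ := (Nat.dvd_prime_pow hp.out).1 h2
    exact ⟨j, by rw [h1, hj]⟩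
  haveI hKn : (N.subgroupOf L).Normal := Subgroup.normal_subgroupOf
  have hKcard : Nat.card (N.subgroupOf L) = Nat.card N :=
    Nat.card_congr (phiN hNL).toEquiv
  have hKc : (Nat.card (N.subgroupOf L)).Coprime p := by rw [hKcard]; exact hNc
  have hinvK : ∀ (x : L) (n : N.subgroupOf L), (thetaT hNL θ).1
      ⟨x * n * x⁻¹, hKn.conj_mem n n.2 x⟩ = (thetaT hNL θ).1 n := by
    intro x n
    rw [thetaT_apply, thetaT_apply]
    obtain ⟨s, hs, m, hm, hsm⟩ := Subgroup.mem_sup_of_normal_right.1 x.2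
    have hcl := H21.isCharacter_conj (isCharacter_of_irr θ.2)
      (⟨(n : L), Subgroup.mem_subgroupOf.mp n.2⟩ : N) (⟨m, hm⟩ : N)
    have h1 := hinv s hs ((⟨m, hm⟩ : N) * ⟨(n : L), Subgroup.mem_subgroupOf.mp n.2⟩ * (⟨m, hm⟩ : N)⁻¹)
    rw [← hcl, ← h1]
    refine congrArg θ.1 (Subtype.ext ?_)
    show ((x : G) * ((n : L) : G) * (x : G)⁻¹) = _
    rw [← hsm]
    simp [mul_assoc]
  have hcop : Nat.Coprime (N.subgroupOf L).index (Nat.card (N.subgroupOf L)) := by
    rw [hk]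
    exact Nat.Coprime.pow_left _ hKc.symm
  obtain ⟨η, hη⟩ := exists_ext_coprime (N.subgroupOf L) hcop (thetaT hNL θ) hinvK
  refine cs_over_of_ext N L hNL P hSL θ η ?_ ?_
  · intro n
    have h1 := hη ⟨⟨n, hNL n.2⟩, Subgroup.mem_subgroupOf.mpr n.2⟩
    rw [thetaT_apply] at h1
    exact h1
  · intro h3
    have h4 := h3.trans (charDegree_dvd_card θ)
    exact (Nat.Prime.coprime_iff_not_dvd hp.out).1 hNc.symm h4

/-- The Clifford divisibility in the form with the sum. -/
theorem cs_index_dvd (N : Subgroup G) [hN : N.Normal] (θ : IrrCharacter N) (χ : IrrCharacter G)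
    (h : ∑ n : N, conj (θ.1 n) * χ.1 n ≠ 0) :
    (H06.inertiaSub N θ.1).index * charDegree θ.1 ∣ charDegree χ.1 := by
  classical
  haveI := Fintype.ofFinite G
  refine clifford_degree_dvd N (H06.inertiaSub N θ.1)
    (H06.le_inertiaSub N (isClassFunction_of_isCharacter (isCharacter_of_irr θ.2))) θ.2
    (fun g => Iff.rfl) χ.2 ?_
  unfold classInner
  refine mul_ne_zero (inv_ne_zero (by exact_mod_cast Nat.card_pos.ne')) ?_
  intro h0
  apply h
  rw [← h0]
  exact Finset.sum_congr rfl fun _ _ => mul_comm _ _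

end Over

section Centralizes

variable {X : Type u} [Group X] [Finite X] {p q : ℕ} [hp : Fact p.Prime] [hq : Fact q.Prime]

/-- If every `P`-invariant character of `D` is `Q`-invariant, then `Q` centralizes `C_D(P)`. -/
theorem cs_centralizes (D P Q : Subgroup X) [hD : D.Normal] (hDp : ¬ p ∣ Nat.card D)
    (hDq : ¬ q ∣ Nat.card D) (hP : IsPGroup p P) (hQ : IsPGroup q Q)
    (hPQ : ∀ x ∈ P, ∀ y ∈ Q, x * y = y * x)
    (hinv : ∀ η : IrrCharacter D, (∀ g ∈ P, ∀ n : D, η.1 ⟨g * n * g⁻¹, hD.conj_mem n n.2 g⟩ = η.1 n) →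
      ∀ a ∈ Q, ∀ n : D, η.1 ⟨a * n * a⁻¹, hD.conj_mem n n.2 a⟩ = η.1 n) :
    ∀ x ∈ D, (∀ g ∈ P, g * x = x * g) → ∀ a ∈ Q, a * x = x * a := by
  classical
  haveI := Fintype.ofFinite X
  haveI : Fintype D := Fintype.ofFinite _
  haveI : Fintype (IrrCharacter D) := Fintype.ofFinite _
  let D₁ : Subgroup X := D ⊓ Subgroup.centralizer (P : Set X)
  haveI : Fintype D₁ := Fintype.ofFinite _
  haveI : Fintype (IrrCharacter D₁) := Fintype.ofFinite _
  let φ : P →* MulAut D := Cfsg.Agent.H21.conjHom D P (fun s _ g hg => hD.conj_mem g hg s)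
  let ι : D₁ →* D := Subgroup.inclusion inf_le_left
  have hφ : ∀ (a : P) (g : D), ((φ a g : D) : X) = a.1 * g.1 * a.1⁻¹ := fun _ _ => rfl
  have hset : CopSetup φ ι p := by
    refine ⟨Subgroup.inclusion_injective _, ?_, hP, hDp⟩
    intro g
    constructor
    · intro h
      refine ⟨⟨g.1, g.2, ?_⟩, rfl⟩
      show g.1 ∈ Subgroup.centralizer (P : Set X)
      rw [Subgroup.mem_centralizer_iff]
      intro a ha
      have h1 : a * g.1 * a⁻¹ = g.1 := congrArg Subtype.val (h ⟨a, ha⟩)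
      calc a * g.1 = a * g.1 * a⁻¹ * a := by group
        _ = g.1 * a := by rw [h1]
    · rintro ⟨c, rfl⟩ a
      apply Subtype.ext
      show a.1 * c.1 * a.1⁻¹ = c.1
      have h1 : a.1 * c.1 = c.1 * a.1 := (Subgroup.mem_centralizer_iff.1 c.2.2) a.1 a.2
      rw [h1]
      group
  -- conjugation by `Q` preserves the classes of `D₁`
  have hQD₁ : ∀ s ∈ Q, ∀ g ∈ D₁, s * g * s⁻¹ ∈ D₁ := by
    intro s hs g hg
    refine Subgroup.mem_inf.2 ⟨hD.conj_mem g hg.1 s, ?_⟩
    rw [Subgroup.mem_centralizer_iff]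
    intro a ha
    have h1 : a * g = g * a := (Subgroup.mem_centralizer_iff.1 hg.2) a ha
    have h2 : a * s = s * a := hPQ a ha s hs
    calc a * (s * g * s⁻¹) = (a * s) * g * s⁻¹ := by group
      _ = s * (a * g) * s⁻¹ := by rw [h2]; group
      _ = s * g * (a * s⁻¹) := by rw [h1]; group
      _ = s * g * s⁻¹ * a := by
        have h3 : a * s⁻¹ = s⁻¹ * a := by
          have := (Commute.inv_right (show Commute a s from h2))
          exact this
        rw [h3]; group
  have hstep : ∀ (a : X) (ha : a ∈ Q) (x : D₁), IsConj (⟨a * x.1 * a⁻¹, hQD₁ a ha x.1 x.2⟩ : D₁) x := by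
    intro a ha x
    set y : D₁ := ⟨a * x.1 * a⁻¹, hQD₁ a ha x.1 x.2⟩ with hy
    letI := irrAct (G := D) φ
    have hsmul : ∀ (a : P) (χ : IrrCharacter D) g, (a • χ).1 g = χ.1 (φ a⁻¹ g) := fun _ _ _ => rfl
    let T : IrrCharacter D → ℂ := fun η => η.1 (ι y) * conj (η.1 (ι x)) - η.1 (ι x) * conj (η.1 (ι x))
    have hTint : ∀ η, IsIntegral ℤ (T η) := by
      intro η
      have hc : ∀ g : D, IsIntegral ℤ (conj (η.1 g)) := by
        intro g
        rw [← irr_inv']
        exact H21.isCharacter_isIntegral (isCharacter_of_irr η.2) _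
      have hi : ∀ g : D, IsIntegral ℤ (η.1 g) := fun g => H21.isCharacter_isIntegral (isCharacter_of_irr η.2) g
      exact ((hi _).mul (hc _)).sub ((hi _).mul (hc _))
    have hTinv : ∀ (b : P) η, T (b • η) = T η := by
      intro b η
      show (b • η).1 (ι y) * conj ((b • η).1 (ι x)) - (b • η).1 (ι x) * conj ((b • η).1 (ι x)) =
        η.1 (ι y) * conj (η.1 (ι x)) - η.1 (ι x) * conj (η.1 (ι x))
      rw [hsmul, hsmul, hset.fix_ι, hset.fix_ι]
    obtain ⟨w, hw, e⟩ := sum_eq_fixed_add hP T hTint hTinv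
    have hzero : ∀ η : IrrCharacter D, (∀ b : P, b • η = η) → T η = 0 := by
      intro η hη'
      have hPinv : ∀ g ∈ P, ∀ n : D, η.1 ⟨g * n * g⁻¹, hD.conj_mem n n.2 g⟩ = η.1 n := by
        intro g hg n
        have h1 := congrFun (congrArg Subtype.val (hη' ⟨g, hg⟩⁻¹)) n
        have h2 : ((⟨g, hg⟩ : P)⁻¹ • η).1 n = η.1 (φ ((⟨g, hg⟩ : P)⁻¹)⁻¹ n) := hsmul _ _ _
        rw [h2, inv_inv] at h1
        exact h1
      have h3 := hinv η hPinv a ha (ι x)
      have h4 : η.1 (ι y) = η.1 (ι x) := h3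
      show η.1 (ι y) * conj (η.1 (ι x)) - η.1 (ι x) * conj (η.1 (ι x)) = 0
      rw [h4, sub_self]
    replace e : ∑ η, T η = p * w := by
      rw [e, add_eq_right]
      apply Finset.sum_eq_zero
      intro η hη
      simp only [Finset.mem_filter, Finset.mem_univ, true_and] at hη
      exact hzero η hη
    by_contra hnc
    have hnc' : ¬ IsConj (ι y) (ι x) := fun h => hnc (hset.isConj_of_isConj h)
    have h1 : ∑ η : IrrCharacter D, T η =
        - (Nat.card (Subgroup.centralizer ({ι x} : Set D)) : ℂ) := by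
      show ∑ η : IrrCharacter D, (η.1 (ι y) * conj (η.1 (ι x)) - η.1 (ι x) * conj (η.1 (ι x))) = _
      rw [Finset.sum_sub_distrib, column_orthogonality_of_not_isConj hnc',
        column_orthogonality_of_isConj (IsConj.refl (ι x)), zero_sub]
    rw [h1] at e
    have h2 : (((- (Nat.card (Subgroup.centralizer ({ι x} : Set D)) : ℤ)) : ℤ) : ℂ) = p * w := by
      rw [← e]
      push_cast
      rfl
    have h3 := p_dvd_of_eq_mul hp.out _ w hw h2
    rw [dvd_neg] at h3
    have h4 : p ∣ Nat.card (Subgroup.centralizer ({ι x} : Set D)) := by exact_mod_cast h3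
    exact hDp (h4.trans (Subgroup.card_subgroup_dvd_card _))
  -- fixed points of `Q`
  let φ₂ : Q →* MulAut D₁ := Cfsg.Agent.H21.conjHom D₁ Q (fun s hs g hg => hQD₁ s hs g hg)
  let C₂ : Subgroup D₁ := (Subgroup.centralizer (Q : Set X)).subgroupOf D₁
  haveI : Fintype C₂ := Fintype.ofFinite _
  haveI : Fintype (IrrCharacter C₂) := Fintype.ofFinite _
  have hset₂ : CopSetup φ₂ C₂.subtype q := by
    refine ⟨Subtype.val_injective, ?_, hQ, ?_⟩
    · intro g
      constructor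
      · intro h
        refine ⟨⟨g, ?_⟩, rfl⟩
        rw [Subgroup.mem_subgroupOf, Subgroup.mem_centralizer_iff]
        intro a ha
        have h1 : a * g.1 * a⁻¹ = g.1 := congrArg Subtype.val (h ⟨a, ha⟩)
        calc a * g.1 = a * g.1 * a⁻¹ * a := by group
          _ = g.1 * a := by rw [h1]
      · rintro ⟨c, rfl⟩ a
        apply Subtype.ext
        show a.1 * (c.1 : X) * a.1⁻¹ = c.1
        have h1 : a.1 * ((c.1 : D₁) : X) = ((c.1 : D₁) : X) * a.1 :=
          (Subgroup.mem_centralizer_iff.1 (Subgroup.mem_subgroupOf.1 c.2)) a.1 a.2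
        rw [h1]
        group
    · intro h
      apply hDq
      exact h.trans (Subgroup.card_dvd_of_le inf_le_left)
  have hfix : ∀ g : D₁, ∃ c : C₂, IsConj (C₂.subtype c) g := by
    intro g
    apply exists_fixed_of_inv_class hset₂ g
    intro a z hz
    exact (hstep a.1 a.2 z).trans hz
  have hCtop : C₂ = ⊤ := by
    by_contra hne
    obtain ⟨g, hg⟩ := H20.exists_not_mem_conj C₂ hne
    obtain ⟨m, hm⟩ := hfix g
    obtain ⟨c, hc⟩ := isConj_iff.1 hm
    apply hg c
    have h3 : c⁻¹ * g * c = C₂.subtype m := by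
      rw [← hc]; group
    rw [h3]
    exact m.2
  intro x hxD hxP a ha
  have hxD₁ : x ∈ D₁ := ⟨hxD, by
    show x ∈ Subgroup.centralizer (P : Set X)
    rw [Subgroup.mem_centralizer_iff]
    intro g hg
    exact hxP g hg⟩
  have h3 : (⟨x, hxD₁⟩ : D₁) ∈ C₂ := by rw [hCtop]; trivial
  rw [Subgroup.mem_subgroupOf, Subgroup.mem_centralizer_iff] at h3
  exact h3 a ha

end Centralizes

section MainM

variable {X : Type u} [Group X] [Finite X] {p q : ℕ} [hp : Fact p.Prime] [hq : Fact q.Prime]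

theorem cs_le_of_normal_sylow {Y : Type*} [Group Y] [Finite Y] {q : ℕ} [Fact q.Prime] (R : Sylow q Y)
    (hR : (R : Subgroup Y).Normal) (A : Subgroup Y) (hA : IsPGroup q A) : A ≤ R := by
  obtain ⟨S, hS⟩ := hA.exists_le_sylow
  letI := Sylow.unique_of_normal R hR
  rw [Subsingleton.elim R S]
  exact hS

/-- **Lemma M**: if the degrees prime to `p` are prime to `q` and Sylow subgroups commute, every
subgroup of `q'`-index containing `P` contains `Q`. -/
theorem cs_M (hpq : p ≠ q) (hps : IsPSolvable p X) (hqs : IsPSolvable q X)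
    (P : Sylow p X) (Q : Sylow q X)
    (hc : ∀ x ∈ (P : Subgroup X), ∀ y ∈ (Q : Subgroup X), x * y = y * x)
    (hdeg : ∀ χ : IrrCharacter X, ¬ p ∣ charDegree χ.1 → ¬ q ∣ charDegree χ.1)
    (S : Subgroup X) (hPS : (P : Subgroup X) ≤ S) (hS : ¬ q ∣ S.index) : (Q : Subgroup X) ≤ S := by
  classical
  have hqp : q.Prime := hq.out
  have hpp : p.Prime := hp.out
  let K : Subgroup X := pPrimeCore p X
  let L : Subgroup X := pPrimeCore q X
  haveI hKn : K.Normal := pPrimeCore_normal p X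
  haveI hLn : L.Normal := pPrimeCore_normal q X
  have hKc : (Nat.card K).Coprime p := H06.coprime_card_pPrimeCore p
  have hLc : (Nat.card L).Coprime q := H06.coprime_card_pPrimeCore q
  have hQK : (Q : Subgroup X) ≤ K := cs_le_core hpq hps P Q Q.isPGroup' hc
  have hPL : (P : Subgroup X) ≤ L :=
    cs_le_core hpq.symm hqs Q P P.isPGroup' (fun x hx y hy => (hc y hy x hx).symm)
  let D : Subgroup X := K ⊓ L
  haveI hDn : D.Normal := inferInstance
  have hcomm : ∀ g ∈ (P : Subgroup X), ∀ n ∈ K, g * n * g⁻¹ * n⁻¹ ∈ D := by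
    intro x hx y hy
    refine Subgroup.mem_inf.2 ⟨?_, ?_⟩
    · exact K.mul_mem (hKn.conj_mem y hy x) (K.inv_mem hy)
    · have h1 : x * y * x⁻¹ * y⁻¹ = x * (y * x⁻¹ * y⁻¹) := by group
      rw [h1]
      exact L.mul_mem (hPL hx) (hLn.conj_mem _ (L.inv_mem (hPL hx)) y)
  -- the key degree statement
  have hkey : ∀ (E : Subgroup X) (hE : E.Normal), (Nat.card E).Coprime p → ∀ θ : IrrCharacter E,
      (∀ g ∈ (P : Subgroup X), ∀ n : E, θ.1 ⟨g * n * g⁻¹, hE.conj_mem n n.2 g⟩ = θ.1 n) →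
      ¬ q ∣ (@H06.inertiaSub X _ E hE θ.1).index * charDegree θ.1 := by
    intro E hE hEc θ hθ hd
    obtain ⟨χ, hχ1, hχ2⟩ := cs_pprime_over E hEc P θ hθ
    exact hdeg χ hχ2 (hd.trans (cs_index_dvd E θ χ hχ1))
  -- the quotient `K / D`
  let D₀ : Subgroup K := D.subgroupOf K
  haveI hD₀ : D₀.Normal := Subgroup.Normal.subgroupOf hDn K
  let f := QuotientGroup.mk' D₀
  have hf : Function.Surjective f := QuotientGroup.mk'_surjective D₀
  have hYdeg : ∀ ζ : IrrCharacter (K ⧸ D₀), ¬ q ∣ charDegree ζ.1 := by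
    intro ζ hd
    let ξ : IrrCharacter K := ⟨ζ.1 ∘ f, isIrr_inflate D₀ ζ.2⟩
    have h1 : charDegree ξ.1 = charDegree ζ.1 := by
      unfold charDegree
      simp [ξ]
    have hinv : ∀ g ∈ (P : Subgroup X), ∀ n : K,
        ξ.1 ⟨g * n * g⁻¹, hKn.conj_mem n n.2 g⟩ = ξ.1 n := by
      intro g hg n
      show ζ.1 (f _) = ζ.1 (f n)
      refine congrArg ζ.1 ?_
      apply QuotientGroup.eq.2
      rw [Subgroup.mem_subgroupOf]
      have h2 := hcomm g hg _ (K.inv_mem n.2)
      have h3 : ((⟨g * n * g⁻¹, hKn.conj_mem n n.2 g⟩ : K)⁻¹ * n : K).1 =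
          g * (n : X)⁻¹ * g⁻¹ * ((n : X)⁻¹)⁻¹ := by
        show (g * n * g⁻¹)⁻¹ * (n : X) = _
        group
      rw [h3]
      exact h2
    have h4 := hkey K hKn hKc ξ hinv
    exact h4 (Dvd.dvd.mul_left (h1 ▸ hd) _)
  have hYs : IsPSolvable q (K ⧸ D₀) :=
    H03.isPSolvable_of_surjective hf (H26.QuadSL.isPSolvable_subgroup hqs K)
  let R : Sylow q (K ⧸ D₀) := (Q.subtype hQK).mapSurjective hf
  have hRn : (R : Subgroup (K ⧸ D₀)).Normal :=
    (H22.normal_abelian_of_degrees _ _ rfl hYs hYdeg R).1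
  -- the normal subgroup `T = D Q`
  let T : Subgroup X := D ⊔ (Q : Subgroup X)
  have hTK : T ≤ K := sup_le inf_le_left hQK
  have hQT : (Q : Subgroup X) ≤ T := le_sup_right
  have hTn : T.Normal := by
    constructor
    intro t ht g
    obtain ⟨d, hd, y, hy, rfl⟩ := Subgroup.mem_sup_of_normal_left.1 ht
    have e : g * (d * y) * g⁻¹ = (g * d * g⁻¹) * (g * y * g⁻¹) := by group
    rw [e]
    refine T.mul_mem (Subgroup.mem_sup_left (hDn.conj_mem d hd g)) ?_
    have hbK : g * y * g⁻¹ ∈ K := hKn.conj_mem y (hQK hy) g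
    have hbQ : g * y * g⁻¹ ∈ ((g • Q : Sylow q X) : Subgroup X) := by
      rw [Sylow.coe_subgroup_smul]
      exact Subgroup.smul_mem_pointwise_smul y (MulAut.conj g) _ hy
    let A : Subgroup (K ⧸ D₀) := (((g • Q : Sylow q X) : Subgroup X).subgroupOf K).map f
    have hA : IsPGroup q A :=
      (IsPGroup.comap_of_injective (g • Q : Sylow q X).isPGroup' K.subtype Subtype.val_injective).map f
    have hmem : f ⟨g * y * g⁻¹, hbK⟩ ∈ (R : Subgroup (K ⧸ D₀)) :=
      cs_le_of_normal_sylow R hRn A hA ⟨⟨_, hbK⟩, hbQ, rfl⟩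
    obtain ⟨a, ha, hfa⟩ := hmem
    have h3 : (a : K)⁻¹ * ⟨g * y * g⁻¹, hbK⟩ ∈ D₀ := QuotientGroup.eq.1 hfa
    have ha' : (a : X) ∈ (Q : Subgroup X) := ha
    have h4 : ((a : K)⁻¹ * ⟨g * y * g⁻¹, hbK⟩ : K).1 ∈ D := h3
    have h5 : g * y * g⁻¹ = (a : X) * ((a : K)⁻¹ * ⟨g * y * g⁻¹, hbK⟩ : K).1 := by
      show g * y * g⁻¹ = (a : X) * ((a : X)⁻¹ * (g * y * g⁻¹))
      group
    rw [h5]
    exact T.mul_mem (hQT ha') (Subgroup.mem_sup_left h4)
  have hDKle : D ≤ K := inf_le_left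
  have hDp : (Nat.card D).Coprime p :=
    Nat.Coprime.coprime_dvd_left (Subgroup.card_dvd_of_le hDKle) hKc
  have hDq : (Nat.card D).Coprime q :=
    Nat.Coprime.coprime_dvd_left (Subgroup.card_dvd_of_le (inf_le_right : D ≤ L)) hLc
  have hDinv : ∀ η : IrrCharacter D,
      (∀ g ∈ (P : Subgroup X), ∀ n : D, η.1 ⟨g * n * g⁻¹, hDn.conj_mem n n.2 g⟩ = η.1 n) →
      ∀ a ∈ (Q : Subgroup X), ∀ n : D, η.1 ⟨a * n * a⁻¹, hDn.conj_mem n n.2 a⟩ = η.1 n := by
    intro η hη a ha n
    let I : Subgroup X := H06.inertiaSub D η.1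
    have h1 : ¬ q ∣ I.index := fun h => hkey D hDn hDp η hη (h.trans (Dvd.intro _ rfl))
    have hDI : D ≤ I := H06.le_inertiaSub D (isClassFunction_of_isCharacter (isCharacter_of_irr η.2))
    have h2 : I.relIndex T ∣ D.relIndex T := Subgroup.relIndex_dvd_of_le_left T hDI
    have h3 : D.relIndex T = D.relIndex (Q : Subgroup X) := Subgroup.relIndex_sup_left _ D
    obtain ⟨m, hm⟩ := IsPGroup.iff_card.1 Q.isPGroup'
    have h4 : I.relIndex T ∣ q ^ m := by
      rw [← hm]
      exact h2.trans (h3 ▸ Subgroup.relIndex_dvd_card _ _)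
    have h5 : ¬ q ∣ I.relIndex T := by
      haveI := hTn
      exact fun h => h1 (h.trans (cov_relIndex_dvd T I))
    have h6 : I.relIndex T = 1 := by
      obtain ⟨j, -, hj⟩ := (Nat.dvd_prime_pow hqp).1 h4
      rcases j with _ | j
      · simpa using hj
      · exact absurd (hj ▸ dvd_pow_self q (Nat.succ_ne_zero j)) h5
    have h7 : T ≤ I := Subgroup.relIndex_eq_one.1 h6
    exact h7 (hQT ha) n
  have hDp' : ¬ p ∣ Nat.card D := (Nat.Prime.coprime_iff_not_dvd hpp).1 hDp.symm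
  have hDq' : ¬ q ∣ Nat.card D := (Nat.Prime.coprime_iff_not_dvd hqp).1 hDq.symm
  have hfix := cs_centralizes D (P : Subgroup X) (Q : Subgroup X) hDp' hDq' P.isPGroup' Q.isPGroup' hc hDinv
  exact cs_AL D P Q hc hTn (Nat.Coprime.coprime_dvd_left (Subgroup.card_dvd_of_le hTK) hKc) hfix S hPS hS

end MainM

end Cfsg.Agent.H23
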