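import Cfsg.Agent.Lib.H23.CommSyl2
import Cfsg.Agent.Lib.H23.AcdTwo
import Cfsg.Agent.Lib.H06.CharLin2

/-!
# Commuting Sylow subgroups: an abelian normal `p`-subgroup
-/

set_option autoImplicit false
set_option linter.style.haveILetI false
set_option linter.unusedSectionVars false
set_option linter.unusedSimpArgs false

namespace Cfsg.Agent.H23

open Cfsg Cfsg.Agent.H21 Cfsg.Agent.H22
open scoped ComplexConjugate

universe u

theorem cs_exists_fixed {A W : Type*} [Group A] [Finite A] [Group W] [Finite W] [MulAction A W]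
    {p : ℕ} [hp : Fact p.Prime] (hA : IsPGroup p A) (hW : IsPGroup p W) (hne : ∃ w : W, w ≠ 1)
    (h1 : ∀ a : A, a • (1 : W) = 1) : ∃ w : W, w ≠ 1 ∧ ∀ a : A, a • w = w := by
  have hp1 : p ∣ Nat.card W := by
    obtain ⟨k, hk⟩ := IsPGroup.iff_card.1 hW
    obtain ⟨w, hw⟩ := hne
    haveI : Nontrivial W := ⟨⟨w, 1, hw⟩⟩
    have hc : 1 < Nat.card W := Finite.one_lt_card
    rcases k with _ | k
    · rw [hk] at hc
      simp at hc
    · rw [hk]
      exact dvd_pow_self p (Nat.succ_ne_zero k)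
  obtain ⟨b, hb, hne'⟩ := hA.exists_fixed_point_of_prime_dvd_card_of_fixed_point W hp1 (a := 1)
    (by intro a; exact h1 a)
  exact ⟨b, hne'.symm, hb⟩

/-- Linear characters of a finite group form a finite set. -/
theorem cs_finite_hom {N : Type*} [Group N] [Finite N] : Finite (N →* ℂˣ) := by
  classical
  haveI : NeZero (Nat.card N) := ⟨Nat.card_pos.ne'⟩
  let F : (N →* ℂˣ) → (N → rootsOfUnity (Nat.card N) ℂ) := fun l n =>
    ⟨l n, by
      rw [mem_rootsOfUnity, ← map_pow, pow_card_eq_one', map_one]⟩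
  refine Finite.of_injective F ?_
  intro a b h
  ext n
  have := congrFun h n
  have h2 := congrArg Subtype.val this
  exact congrArg Units.val h2

section Ext

variable {G : Type u} [Group G] [Finite G]

/-- **Frattini**. -/
theorem cs_frattini {q : ℕ} [hq : Fact q.Prime] (N : Subgroup G) [hN : N.Normal]
    (Q : Sylow q G) (g : G) (hcomm : ∀ y ∈ (Q : Subgroup G), g * y * g⁻¹ * y⁻¹ ∈ N) :
    ∃ n ∈ N, ∃ h ∈ Subgroup.normalizer ((Q : Subgroup G) : Set G), g = n * h := by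
  classical
  let K : Subgroup G := N ⊔ (Q : Subgroup G)
  have hQK : (Q : Subgroup G) ≤ K := le_sup_right
  have hgQK : ((g • Q : Sylow q G) : Subgroup G) ≤ K := by
    rw [Sylow.coe_subgroup_smul]
    intro z hz
    obtain ⟨y, hy, rfl⟩ := Subgroup.mem_smul_pointwise_iff_exists _ _ _ |>.1 hz
    have e : MulAut.conj g • y = (g * y * g⁻¹ * y⁻¹) * y := by
      rw [MulAut.smul_def, MulAut.conj_apply]
      group
    rw [e]
    exact K.mul_mem (Subgroup.mem_sup_left (hcomm y hy)) (hQK hy)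
  obtain ⟨t, ht⟩ := MulAction.exists_smul_eq K (Q.subtype hQK) ((g • Q : Sylow q G).subtype hgQK)
  rw [Sylow.smul_subtype] at ht
  have ht' : t • Q = g • Q := Sylow.subtype_injective ht
  obtain ⟨n, hn, y, hy, hny⟩ := Subgroup.mem_sup_of_normal_left.1 t.2
  have hyQ : y • Q = Q := by
    rw [Sylow.smul_eq_iff_mem_normalizer]
    exact Subgroup.le_normalizer hy
  have h1 : n • Q = g • Q := by
    rw [← ht']
    have e : t • Q = (n * y) • Q := by
      rw [hny]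
      rfl
    rw [e, mul_smul, hyQ]
  refine ⟨n, hn, n⁻¹ * g, ?_, by group⟩
  have h2 : (n⁻¹ * g) • Q = Q := by
    rw [mul_smul, ← h1, inv_smul_smul]
  exact Sylow.smul_eq_iff_mem_normalizer.1 h2

/-- Extending a linear character to `N P₁`. -/
theorem cs_ext (N L P₁ : Subgroup G) [hN : N.Normal] (hNL : N ≤ L) (hP₁ : P₁ ≤ L)
    (l : N →* ℂˣ) (hL : ∀ g ∈ L, ∃ n ∈ N, ∃ h ∈ P₁, g = n * h)
    (hfix : ∀ h ∈ P₁, ∀ n : N, l ⟨h * n * h⁻¹, hN.conj_mem n n.2 h⟩ = l n)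
    (htriv : ∀ c (hc : c ∈ N), c ∈ P₁ → l ⟨c, hc⟩ = 1) :
    ∃ m : L →* ℂˣ, ∀ n : N, m ⟨n, hNL n.2⟩ = l n := by
  classical
  choose! a ha b hb hab using hL
  have hwd : ∀ (g : G) (hg : g ∈ L) (n : N) (h : G), h ∈ P₁ → g = n * h →
      l n = l ⟨a g, ha g hg⟩ := by
    intro g hg n h hh e
    have h1 : (n : G) * h = a g * b g := by rw [← e]; exact hab g hg
    have h2 : (n : G)⁻¹ * a g = h * (b g)⁻¹ := by
      calc (n : G)⁻¹ * a g = (n : G)⁻¹ * (a g * b g) * (b g)⁻¹ := by group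
        _ = (n : G)⁻¹ * ((n : G) * h) * (b g)⁻¹ := by rw [h1]
        _ = h * (b g)⁻¹ := by group
    have hc : (n : G)⁻¹ * a g ∈ N := N.mul_mem (N.inv_mem n.2) (ha g hg)
    have h3 := htriv _ hc (h2 ▸ P₁.mul_mem hh (P₁.inv_mem (hb g hg)))
    have h4 : (⟨(n : G)⁻¹ * a g, hc⟩ : N) = n⁻¹ * ⟨a g, ha g hg⟩ := rfl
    rw [h4, map_mul, map_inv, inv_mul_eq_one] at h3
    exact h3
  refine ⟨MonoidHom.mk' (fun g : L => l ⟨a g, ha g g.2⟩) ?_, ?_⟩
  · intro x y
    have hxy : (x * y : L).1 = ((⟨a x, ha x x.2⟩ : N) *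
        ⟨b x * a y * (b x)⁻¹, hN.conj_mem _ (ha y y.2) _⟩ : N).1 * (b x * b y) := by
      show (x : G) * y = a x * (b x * a y * (b x)⁻¹) * (b x * b y)
      conv_lhs => rw [hab x x.2, hab y y.2]
      group
    have h1 := hwd ((x * y : L) : G) (x * y).2 _ (b x * b y) (P₁.mul_mem (hb x x.2) (hb y y.2)) hxy
    rw [← h1, map_mul]
    congr 1
    exact hfix (b x) (hb x x.2) ⟨a y, ha y y.2⟩
  · intro n
    have h1 := hwd (n : G) (hNL n.2) n 1 P₁.one_mem (by simp)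
    exact h1.symm

/-- An invariant linear character trivial on the fixed points of a coprime group is trivial. -/
theorem cs_trivial_of_inv {p q : ℕ} [hp : Fact p.Prime] [hq : Fact q.Prime] (hpq : p ≠ q)
    (N : Subgroup G) [hN : N.Normal] (hNp : IsPGroup p N) (hNa : ∀ x ∈ N, ∀ y ∈ N, x * y = y * x)
    (Q : Subgroup G) (hQ : IsPGroup q Q) (l : N →* ℂˣ)
    (hl : ∀ c (hc : c ∈ N), (∀ a ∈ Q, a * c = c * a) → l ⟨c, hc⟩ = 1)
    (hinv : ∀ a ∈ Q, ∀ n : N, l ⟨a * n * a⁻¹, hN.conj_mem n n.2 a⟩ = l n) (n : N) : l n = 1 := by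
  classical
  haveI : Fintype Q := Fintype.ofFinite _
  letI : CommGroup N :=
    { (inferInstance : Group N) with mul_comm := fun a b => Subtype.ext (hNa a a.2 b b.2) }
  let f : Q → N := fun a => ⟨a.1 * n * a.1⁻¹, hN.conj_mem n n.2 a.1⟩
  let c : N := ∏ a : Q, f a
  have hc : ∀ a ∈ Q, a * (c : G) = c * a := by
    intro b hb
    have h1 : MulAut.conjNormal b c = c := by
      rw [map_prod]
      refine Fintype.prod_equiv (Equiv.mulLeft (⟨b, hb⟩ : Q)) _ _ fun a => ?_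
      apply Subtype.ext
      simp only [f, MulAut.conjNormal_apply, Equiv.coe_mulLeft]
      show b * (a.1 * n * a.1⁻¹) * b⁻¹ = b * a.1 * n * (b * a.1)⁻¹
      group
    have h2 : b * (c : G) * b⁻¹ = c := by
      have := congrArg (Subtype.val) h1
      simpa [MulAut.conjNormal_apply] using this
    calc b * (c : G) = b * (c : G) * b⁻¹ * b := by group
      _ = c * b := by rw [h2]
  have h1 : l c = 1 := hl _ c.2 hc
  have h2 : l c = (l n) ^ Fintype.card Q := by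
    rw [map_prod]
    rw [← Finset.card_univ, ← Finset.prod_const]
    refine Finset.prod_congr rfl fun a _ => ?_
    exact hinv a.1 a.2 n
  have h3 : (l n) ^ Fintype.card Q = 1 := by rw [← h2, h1]
  have h4 : (l n) ^ Nat.card N = 1 := by
    rw [← map_pow, pow_card_eq_one', map_one]
  obtain ⟨i, hi⟩ := IsPGroup.iff_card.1 hQ
  obtain ⟨j, hj⟩ := IsPGroup.iff_card.1 hNp
  rw [← Nat.card_eq_fintype_card, hi] at h3
  rw [hj] at h4
  have h5 : orderOf (l n) = 1 := Nat.eq_one_of_dvd_coprimes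
    (Nat.Coprime.pow _ _ ((Nat.coprime_primes hq.out hp.out).2 hpq.symm))
    (orderOf_dvd_of_pow_eq_one h3) (orderOf_dvd_of_pow_eq_one h4)
  exact orderOf_eq_one_iff.1 h5

set_option synthInstance.maxHeartbeats 400000 in
/-- **Lemma N**. -/
theorem cs_N {p q : ℕ} [hp : Fact p.Prime] [hq : Fact q.Prime] (hpq : p ≠ q)
    (N : Subgroup G) [hN : N.Normal] (hNp : IsPGroup p N) (hNa : ∀ x ∈ N, ∀ y ∈ N, x * y = y * x)
    (P : Sylow p G) (Q : Sylow q G)
    (hcomm : ∀ x ∈ (P : Subgroup G), ∀ y ∈ (Q : Subgroup G), x * y * x⁻¹ * y⁻¹ ∈ N)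
    (hdeg : ∀ χ : IrrCharacter G, ¬ p ∣ charDegree χ.1 → ¬ q ∣ charDegree χ.1)
    (hM : ∀ T : Subgroup G, N ≤ T → (P : Subgroup G) ≤ T → ¬ q ∣ T.index → (Q : Subgroup G) ≤ T) :
    ∀ n ∈ N, ∀ a ∈ (Q : Subgroup G), a * n = n * a := by
  classical
  by_contra hcon
  push Not at hcon
  obtain ⟨n₀, hn₀, a₀, ha₀, hne⟩ := hcon
  haveI : Fintype N := Fintype.ofFinite _
  haveI : Fintype (P : Subgroup G) := Fintype.ofFinite _
  haveI : Finite (N →* ℂˣ) := cs_finite_hom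
  let Cn : Subgroup N := (Subgroup.centralizer ((Q : Subgroup G) : Set G)).subgroupOf N
  let P₁ : Subgroup G := (P : Subgroup G) ⊓ Subgroup.normalizer ((Q : Subgroup G) : Set G)
  have hNP : N ≤ (P : Subgroup G) := hNp.le_sylow_of_normal P
  let Ann : Subgroup (N →* ℂˣ) :=
    { carrier := {l | ∀ c ∈ Cn, l c = 1}
      one_mem' := fun c _ => rfl
      mul_mem' := fun {a b} ha hb c hc => by
        rw [MonoidHom.mul_apply, ha c hc, hb c hc, one_mul]
      inv_mem' := fun {a} ha c hc => by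
        rw [MonoidHom.inv_apply, ha c hc, inv_one] }
  have hAnnp : IsPGroup p Ann := by
    intro l
    obtain ⟨j, hj⟩ := IsPGroup.iff_card.1 hNp
    refine ⟨j, ?_⟩
    apply Subtype.ext
    ext n
    show (((l.1 ^ p ^ j) n : ℂˣ) : ℂ) = 1
    rw [MonoidHom.pow_apply, ← map_pow, ← hj, pow_card_eq_one', map_one]
    rfl
  have hAnnne : ∃ l : Ann, l ≠ 1 := by
    have hz : (⟨n₀, hn₀⟩ : N) ∉ Cn := by
      intro h
      rw [Subgroup.mem_subgroupOf, Subgroup.mem_centralizer_iff] at h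
      exact hne (h a₀ ha₀)
    obtain ⟨ω, hω, hω'⟩ := H06.exists_hom_trivial_ne
      (fun a b : N => Subtype.ext (hNa a a.2 b b.2)) Cn hz
    refine ⟨⟨ω, hω⟩, ?_⟩
    intro h
    apply hω'
    have := congrArg Subtype.val h
    have h2 : ω = 1 := this
    rw [h2]
    rfl
  have hconjmem : ∀ (h : G), h ∈ P₁ → ∀ c : N, c ∈ Cn → MulAut.conjNormal h⁻¹ c ∈ Cn := by
    intro h hh c hc
    have hhN : h ∈ Subgroup.normalizer ((Q : Subgroup G) : Set G) := hh.2
    rw [Subgroup.mem_subgroupOf, Subgroup.mem_centralizer_iff] at hc ⊢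
    intro a ha
    have h1 : h * a * h⁻¹ ∈ (Q : Subgroup G) := (Subgroup.mem_normalizer_iff.1 hhN a).1 ha
    have h2 := hc _ h1
    have h3 : ((MulAut.conjNormal h⁻¹ c : N) : G) = h⁻¹ * c * h := by
      rw [MulAut.conjNormal_apply]
      group
    rw [h3]
    calc a * (h⁻¹ * c * h) = h⁻¹ * ((h * a * h⁻¹) * c) * h := by group
      _ = h⁻¹ * (c * (h * a * h⁻¹)) * h := by rw [h2]
      _ = h⁻¹ * c * h * a := by group
  letI act : MulAction P₁ Ann :=
    { smul := fun h l => ⟨l.1.comp (MulAut.conjNormal (H := N) (h.1)⁻¹).toMonoidHom, fun c hc =>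
        l.2 _ (hconjmem h.1 h.2 c hc)⟩
      one_smul := by
        intro l
        apply Subtype.ext
        ext n
        show ((l.1 (MulAut.conjNormal ((1 : P₁).1)⁻¹ n) : ℂˣ) : ℂ) = (l.1 n : ℂˣ)
        simp
      mul_smul := by
        intro x y l
        apply Subtype.ext
        ext n
        show ((l.1 (MulAut.conjNormal ((x * y : P₁).1)⁻¹ n) : ℂˣ) : ℂ) =
          (l.1 (MulAut.conjNormal (y.1)⁻¹ (MulAut.conjNormal (x.1)⁻¹ n)) : ℂˣ)
        have e : (MulAut.conjNormal ((x * y : P₁).1)⁻¹ n) =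
            MulAut.conjNormal (y.1)⁻¹ (MulAut.conjNormal (x.1)⁻¹ n) := by
          apply Subtype.ext
          simp [MulAut.conjNormal_apply, mul_assoc]
        rw [e] }
  have hsmul : ∀ (h : P₁) (l : Ann) (n : N), ((h • l : Ann).1 n : ℂˣ) = l.1 (MulAut.conjNormal (h.1)⁻¹ n) :=
    fun _ _ _ => rfl
  have hP₁p : IsPGroup p P₁ := P.isPGroup'.to_le inf_le_left
  obtain ⟨l, hl1, hlfix⟩ := cs_exists_fixed hP₁p hAnnp hAnnne (fun a => by
    apply Subtype.ext
    ext n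
    rfl)
  have hfix : ∀ h ∈ P₁, ∀ n : N, l.1 ⟨h * n * h⁻¹, hN.conj_mem n n.2 h⟩ = l.1 n := by
    intro h hh n
    have h1 := hlfix (⟨h, hh⟩ : P₁)⁻¹
    have h2 := congrArg (fun z : Ann => z.1 n) h1
    simp only [hsmul] at h2
    rw [← h2]
    congr 1
    apply Subtype.ext
    simp [MulAut.conjNormal_apply]
  have htriv : ∀ c (hc : c ∈ N), c ∈ P₁ → l.1 ⟨c, hc⟩ = 1 := by
    intro c hc hcP
    apply l.2
    rw [Subgroup.mem_subgroupOf, Subgroup.mem_centralizer_iff]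
    intro a ha
    have hcn : c ∈ Subgroup.normalizer ((Q : Subgroup G) : Set G) := hcP.2
    have h1 : c * a * c⁻¹ ∈ (Q : Subgroup G) := (Subgroup.mem_normalizer_iff.1 hcn a).1 ha
    have h2 : c * a * c⁻¹ * a⁻¹ ∈ (Q : Subgroup G) := Subgroup.mul_mem _ h1 (Subgroup.inv_mem _ ha)
    have h3 : c * a * c⁻¹ * a⁻¹ ∈ N := by
      have e : c * a * c⁻¹ * a⁻¹ = c * (a * c⁻¹ * a⁻¹) := by group
      rw [e]
      exact N.mul_mem hc (hN.conj_mem _ (N.inv_mem hc) a)
    have h4 : c * a * c⁻¹ * a⁻¹ = 1 := cs_one_of_mem hpq hNp Q.isPGroup' h3 h2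
    show a * c = c * a
    have h5 : c * a = a * c := by
      calc c * a = c * a * c⁻¹ * a⁻¹ * (a * c) := by group
        _ = a * c := by rw [h4, one_mul]
    exact h5.symm
  have hL : ∀ g ∈ (P : Subgroup G), ∃ n ∈ N, ∃ h ∈ P₁, g = n * h := by
    intro g hg
    obtain ⟨n, hn, h, hh, e⟩ := cs_frattini N Q g (hcomm g hg)
    refine ⟨n, hn, h, ⟨?_, hh⟩, e⟩
    have e2 : h = n⁻¹ * g := by rw [e]; group
    rw [e2]
    exact Subgroup.mul_mem _ (Subgroup.inv_mem _ (hNP hn)) hg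
  obtain ⟨m, hm⟩ := cs_ext N (P : Subgroup G) P₁ hNP inf_le_left l.1 hL hfix htriv
  let θ : IrrCharacter N := ⟨fun n => (l.1 n : ℂ), isIrrCharacter_hom l.1⟩
  let η : IrrCharacter (P : Subgroup G) := ⟨fun g => (m g : ℂ), isIrrCharacter_hom m⟩
  have hd : ¬ p ∣ charDegree θ.1 := by
    have h1 : charDegree θ.1 = 1 := charDegree_hom l.1
    intro h
    rw [h1] at h
    exact hp.out.one_lt.ne' (Nat.dvd_one.1 h)
  obtain ⟨χ, hχ1, hχ2⟩ := cs_over_of_ext N (P : Subgroup G) hNP P le_rfl θ η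
    (fun n => by
      show ((m _ : ℂˣ) : ℂ) = (l.1 n : ℂˣ)
      rw [hm]) hd
  have hdvd := cs_index_dvd N θ χ hχ1
  have hI : ¬ q ∣ (H06.inertiaSub N θ.1).index := fun h =>
    hdeg χ hχ2 (h.trans ((Dvd.intro _ rfl).trans hdvd))
  have hNI : N ≤ H06.inertiaSub N θ.1 :=
    H06.le_inertiaSub N (isClassFunction_of_isCharacter (isCharacter_of_irr θ.2))
  have hPI : (P : Subgroup G) ≤ H06.inertiaSub N θ.1 := by
    intro g hg
    obtain ⟨n, hn, h, hh, rfl⟩ := hL g hg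
    refine Subgroup.mul_mem _ (hNI hn) ?_
    intro k
    show ((l.1 _ : ℂˣ) : ℂ) = (l.1 k : ℂˣ)
    rw [hfix h hh k]
  have hQI := hM _ hNI hPI hI
  have hinv : ∀ a ∈ (Q : Subgroup G), ∀ n : N, l.1 ⟨a * n * a⁻¹, hN.conj_mem n n.2 a⟩ = l.1 n := by
    intro a ha n
    have := hQI ha n
    exact Units.ext this
  have hlone : l.1 = 1 := by
    ext n
    have h1 := cs_trivial_of_inv hpq N hNp hNa (Q : Subgroup G) Q.isPGroup' l.1
      (fun c hc hh => l.2 _ (by
        rw [Subgroup.mem_subgroupOf, Subgroup.mem_centralizer_iff]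
        intro a ha
        exact hh a ha)) hinv n
    rw [h1]
    rfl
  exact hl1 (Subtype.ext hlone)

end Ext

end Cfsg.Agent.H23
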