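import Cfsg.Agent.Lib.H23.CommSyl3

/-!
# Commuting Sylow subgroups: the main theorem
-/

set_option autoImplicit false
set_option linter.style.haveILetI false
set_option linter.unusedSectionVars false
set_option linter.unusedSimpArgs false

namespace Cfsg.Agent.H23

open Cfsg Cfsg.Agent.H21 Cfsg.Agent.H22

universe u

section Aux

variable {G : Type u} [Group G] [Finite G]

theorem cs_deg_inflate (N : Subgroup G) [N.Normal] (χ : IrrCharacter (G ⧸ N)) :
    charDegree ((χ.1 ∘ (QuotientGroup.mk' N)) : G → ℂ) = charDegree χ.1 := by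
  unfold charDegree
  simp

/-- The hypothesis on principal block degrees. -/
def CsA (p q : ℕ) (M : Ideal AlgInt) (G : Type u) [Group G] : Prop :=
  ∀ χ : IrrCharacter G, χ ∈ principalBlock M G → ¬ p ∣ charDegree χ.1 → ¬ q ∣ charDegree χ.1

theorem cs_A_quot {p q : ℕ} {M : Ideal AlgInt} (hM : IsPModular p M) (h : CsA p q M G)
    (N : Subgroup G) [N.Normal] : CsA p q M (G ⧸ N) := by
  intro χ hχ hd hq
  haveI : M.IsPrime := hM.2.1.isPrime
  have h1 := h ⟨χ.1 ∘ QuotientGroup.mk' N, isIrr_inflate N χ.2⟩ (sameBlock_inflate N hχ)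
  simp only [cs_deg_inflate] at h1
  exact h1 hd hq

theorem cs_card_quot_lt (N : Subgroup G) [N.Normal] (hN : N ≠ ⊥) :
    Nat.card (G ⧸ N) < Nat.card G := by
  have h1 : Nat.card (G ⧸ N) * Nat.card N = Nat.card G := by
    rw [mul_comm]
    exact Subgroup.card_mul_index N
  have h2 : 1 < Nat.card N := by
    have h3 : Nat.card N ≠ 1 := fun h => hN (Subgroup.eq_bot_of_card_eq N h)
    have h4 : 0 < Nat.card N := Nat.card_pos
    omega
  have h5 : 0 < Nat.card (G ⧸ N) := Nat.card_pos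
  rw [← h1]
  nlinarith

theorem cs_sylow_one_of_not_dvd {q : ℕ} [hq : Fact q.Prime] (h : ¬ q ∣ Nat.card G) (Q : Sylow q G) :
    ∀ y ∈ (Q : Subgroup G), y = 1 := by
  intro y hy
  obtain ⟨k, hk⟩ := IsPGroup.iff_card.1 Q.isPGroup'
  have h1 : orderOf y ∣ q ^ k := hk ▸ Subgroup.orderOf_dvd_natCard _ hy
  have h2 : orderOf y ∣ Nat.card G := orderOf_dvd_natCard y
  have h3 : (q ^ k).Coprime (Nat.card G) :=
    Nat.Coprime.pow_left _ ((Nat.Prime.coprime_iff_not_dvd hq.out).2 h)
  exact orderOf_eq_one_iff.1 (Nat.eq_one_of_dvd_coprimes h3 h1 h2)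

/-- All Sylow `q`-subgroups lie in `K` when `G / K` has trivial `p'`-core and commuting Sylows. -/
theorem cs_sylow_le_of_quot {p q : ℕ} [hp : Fact p.Prime] [hq : Fact q.Prime] (hpq : p ≠ q)
    (K : Subgroup G) [hK : K.Normal] (h : pPrimeCore p (G ⧸ K) = ⊥) (hs : IsPSolvable p (G ⧸ K))
    (hex : ∃ (P : Sylow p (G ⧸ K)) (Q : Sylow q (G ⧸ K)),
      ∀ x ∈ (P : Subgroup (G ⧸ K)), ∀ y ∈ (Q : Subgroup (G ⧸ K)), x * y = y * x)
    (Q : Sylow q G) : (Q : Subgroup G) ≤ K := by
  classical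
  obtain ⟨P', Q', hc⟩ := hex
  have h1 := cs_le_core hpq hs P' Q' Q'.isPGroup' hc
  rw [h] at h1
  have h2 : ¬ q ∣ Nat.card (G ⧸ K) := by
    intro hd
    apply Q'.not_dvd_index
    have h3 : (Q' : Subgroup (G ⧸ K)) = ⊥ := le_bot_iff.1 h1
    rw [h3, Subgroup.index_bot]
    exact hd
  intro y hy
  have h3 : (y : G ⧸ K) = 1 := by
    obtain ⟨k, hk⟩ := Q.isPGroup' ⟨y, hy⟩
    have hk' : y ^ q ^ k = 1 := by
      have := congrArg Subtype.val hk
      simpa using this
    have h4 : (y : G ⧸ K) ^ q ^ k = 1 := by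
      have := congrArg (QuotientGroup.mk' K) hk'
      simpa using this
    have h5 : orderOf (y : G ⧸ K) ∣ q ^ k := orderOf_dvd_of_pow_eq_one h4
    have h6 : orderOf (y : G ⧸ K) ∣ Nat.card (G ⧸ K) := orderOf_dvd_natCard _
    have h7 : (q ^ k).Coprime (Nat.card (G ⧸ K)) :=
      Nat.Coprime.pow_left _ ((Nat.Prime.coprime_iff_not_dvd hq.out).2 h2)
    exact orderOf_eq_one_iff.1 (Nat.eq_one_of_dvd_coprimes h7 h5 h6)
  exact (QuotientGroup.eq_one_iff _).1 h3

end Aux

/-- **The main induction.** -/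
theorem cs_main (n : ℕ) : ∀ (G : Type u) [Group G] [Finite G], Nat.card G = n →
    ∀ (p q : ℕ) [hp : Fact p.Prime] [hq : Fact q.Prime], p ≠ q → ∀ Mp Mq : Ideal AlgInt,
    IsPModular p Mp → IsPModular q Mq → IsPSolvable p G → IsPSolvable q G →
    CsA p q Mp G → CsA q p Mq G →
    ∃ (P : Sylow p G) (Q : Sylow q G),
      ∀ x ∈ (P : Subgroup G), ∀ y ∈ (Q : Subgroup G), x * y = y * x := by
  induction n using Nat.strong_induction_on with
  | _ n ih =>
  intro G _ _ hcard
  have key : ∀ (p q : ℕ) [hp : Fact p.Prime] [hq : Fact q.Prime], p ≠ q → ∀ Mp Mq : Ideal AlgInt,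
      IsPModular p Mp → IsPModular q Mq → IsPSolvable p G → IsPSolvable q G →
      CsA p q Mp G → CsA q p Mq G → pPrimeCore p G = ⊥ → ¬ q ∣ Nat.card G := by
    intro p q hp hq hpq Mp Mq hMp hMq hps hqs hA hB hO
    classical
    by_cases hG : Nat.card G = 1
    · rw [hG]
      exact fun h => hq.out.one_lt.ne' (Nat.dvd_one.1 h)
    have hC := H03.centralizer_pCore_le_of_isPSolvable hps hO
    let U : Subgroup G := pCore p G
    haveI hUn : U.Normal := H01.pCore_normal p
    have hUp : IsPGroup p U := H01.pCore_isPGroup p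
    have hUne : U ≠ ⊥ := by
      intro h
      have h2 : pCore p G = ⊥ := h
      rw [h2] at hC
      apply hG
      have h3 : ∀ a : G, a = 1 := by
        intro a
        have h4 : a ∈ Subgroup.centralizer (((⊥ : Subgroup G) : Set G)) := by
          rw [Subgroup.mem_centralizer_iff]
          intro u hu
          have hu' : u = 1 := hu
          rw [hu', one_mul, mul_one]
        exact hC h4
      haveI : Subsingleton G := ⟨fun a b => by rw [h3 a, h3 b]⟩
      exact Nat.card_eq_one_iff_unique.2 ⟨inferInstance, ⟨1⟩⟩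
    haveI hUnt : Nontrivial U := (Subgroup.nontrivial_iff_ne_bot U).2 hUne
    have hZ : Nontrivial (Subgroup.center U) := hUp.center_nontrivial
    let N : Subgroup G := U ⊓ Subgroup.centralizer (U : Set G)
    haveI hNn : N.Normal := inferInstance
    have hNp : IsPGroup p N := hUp.to_le inf_le_left
    have hNa : ∀ x ∈ N, ∀ y ∈ N, x * y = y * x := by
      intro x hx y hy
      exact (Subgroup.mem_centralizer_iff.1 hy.2) x hx.1
    have hNne : N ≠ ⊥ := by
      obtain ⟨z, hz⟩ := exists_ne (1 : Subgroup.center U)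
      intro h
      apply hz
      have h1 : ((z : U) : G) ∈ N := by
        refine Subgroup.mem_inf.2 ⟨(z : U).2, ?_⟩
        show ((z : U) : G) ∈ Subgroup.centralizer (U : Set G)
        rw [Subgroup.mem_centralizer_iff]
        intro u hu
        have h2 := (Subgroup.mem_center_iff.1 z.2) ⟨u, hu⟩
        exact congrArg Subtype.val h2
      rw [h] at h1
      apply Subtype.ext
      apply Subtype.ext
      exact h1
    have hall : ∀ χ : IrrCharacter G, χ ∈ principalBlock Mp G := fun χ =>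
      sameBlock_of_centralizer_le hMp U hUp hC (oneIrr G) χ
    have hdeg : ∀ χ : IrrCharacter G, ¬ p ∣ charDegree χ.1 → ¬ q ∣ charDegree χ.1 := fun χ =>
      hA χ (hall χ)
    let f := QuotientGroup.mk' N
    have hf : Function.Surjective f := QuotientGroup.mk'_surjective N
    have hpsX : IsPSolvable p (G ⧸ N) := H03.isPSolvable_of_surjective hf hps
    have hqsX : IsPSolvable q (G ⧸ N) := H03.isPSolvable_of_surjective hf hqs
    have hlt : Nat.card (G ⧸ N) < n := hcard ▸ cs_card_quot_lt N hNne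
    obtain ⟨P', Q', hc⟩ := ih _ hlt (G ⧸ N) rfl p q hpq Mp Mq hMp hMq hpsX hqsX
      (cs_A_quot hMp hA N) (cs_A_quot hMq hB N)
    have hdegX : ∀ χ : IrrCharacter (G ⧸ N), ¬ p ∣ charDegree χ.1 → ¬ q ∣ charDegree χ.1 := by
      intro χ hd
      have h1 := hdeg ⟨χ.1 ∘ QuotientGroup.mk' N, isIrr_inflate N χ.2⟩
      simp only [cs_deg_inflate] at h1
      exact h1 hd
    have hMX := cs_M hpq hpsX hqsX P' Q' hc hdegX
    obtain ⟨P, hP⟩ := Sylow.mapSurjective_surjective hf p P'
    obtain ⟨Q, hQ⟩ := Sylow.mapSurjective_surjective hf q Q'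
    have hPmem : ∀ x ∈ (P : Subgroup G), f x ∈ (P' : Subgroup (G ⧸ N)) := by
      intro x hx
      rw [← hP]
      exact Subgroup.mem_map_of_mem f hx
    have hQmem : ∀ x ∈ (Q : Subgroup G), f x ∈ (Q' : Subgroup (G ⧸ N)) := by
      intro x hx
      rw [← hQ]
      exact Subgroup.mem_map_of_mem f hx
    have hcomm : ∀ x ∈ (P : Subgroup G), ∀ y ∈ (Q : Subgroup G), x * y * x⁻¹ * y⁻¹ ∈ N := by
      intro x hx y hy
      have h1 := hc _ (hPmem x hx) _ (hQmem y hy)
      have h2 : f (x * y * x⁻¹ * y⁻¹) = 1 := by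
        simp only [map_mul, map_inv]
        rw [h1]
        group
      exact (QuotientGroup.eq_one_iff _).1 h2
    have hM' : ∀ T : Subgroup G, N ≤ T → (P : Subgroup G) ≤ T → ¬ q ∣ T.index →
        (Q : Subgroup G) ≤ T := by
      intro T hNT hPT hT
      have hidx : (T.map f).index = T.index := by
        rw [Subgroup.index_map, QuotientGroup.ker_mk', sup_eq_left.2 hNT,
          MonoidHom.range_eq_top.2 hf, Subgroup.index_top, mul_one]
      have hPS : (P' : Subgroup (G ⧸ N)) ≤ T.map f := by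
        rw [← hP]
        exact Subgroup.map_mono hPT
      have h1 := hMX (T.map f) hPS (by rw [hidx]; exact hT)
      intro a ha
      obtain ⟨t, ht, hta⟩ := h1 (hQmem a ha)
      have h2 : t⁻¹ * a ∈ N := by
        have h3 : f (t⁻¹ * a) = 1 := by
          rw [map_mul, map_inv, hta]
          group
        exact (QuotientGroup.eq_one_iff _).1 h3
      have h4 : a = t * (t⁻¹ * a) := by group
      rw [h4]
      exact T.mul_mem ht (hNT h2)
    have hNQ := cs_N hpq N hNp hNa P Q hcomm hdeg hM'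
    have hPQ : ∀ x ∈ (P : Subgroup G), ∀ y ∈ (Q : Subgroup G), x * y = y * x := by
      intro x hx y hy
      have hz := hcomm x hx y hy
      set z := x * y * x⁻¹ * y⁻¹ with hzdef
      have hyz : Commute y z := hNQ z hz y hy
      obtain ⟨k, hk⟩ := Q.isPGroup' ⟨y, hy⟩
      have hk' : y ^ q ^ k = 1 := by
        have := congrArg Subtype.val hk
        simpa using this
      have h1 : x * y * x⁻¹ = z * y := by
        rw [hzdef]
        group
      have h2 : (z * y) ^ q ^ k = 1 := by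
        rw [← h1, conj_pow, hk']
        group
      rw [hyz.symm.mul_pow, hk', mul_one] at h2
      obtain ⟨j, hj⟩ := IsPGroup.iff_card.1 hNp
      have h3 : orderOf z ∣ p ^ j := hj ▸ Subgroup.orderOf_dvd_natCard N hz
      have h4 : orderOf z ∣ q ^ k := orderOf_dvd_of_pow_eq_one h2
      have h5 : orderOf z = 1 := Nat.eq_one_of_dvd_coprimes
        (Nat.Coprime.pow _ _ ((Nat.coprime_primes hp.out hq.out).2 hpq)) h3 h4
      have h6 : z = 1 := orderOf_eq_one_iff.1 h5
      calc x * y = z * (y * x) := by rw [hzdef]; group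
        _ = y * x := by rw [h6, one_mul]
    have hQtriv : ∀ y ∈ (Q : Subgroup G), y = 1 := by
      intro y hy
      have h1 : y ∈ Subgroup.centralizer (U : Set G) := by
        rw [Subgroup.mem_centralizer_iff]
        intro u hu
        exact hPQ u (H01.pCore_le_sylow p P hu) y hy
      exact cs_one_of_mem hpq hUp Q.isPGroup' (hC h1) hy
    intro hd
    apply Q.not_dvd_index
    have h1 : (Q : Subgroup G) = ⊥ := by
      rw [eq_bot_iff]
      intro y hy
      exact hQtriv y hy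
    rw [h1, Subgroup.index_bot]
    exact hd
  intro p q hp hq hpq Mp Mq hMp hMq hps hqs hA hB
  classical
  by_cases hK : pPrimeCore p G = ⊥
  · have h1 := key p q hpq Mp Mq hMp hMq hps hqs hA hB hK
    obtain ⟨P⟩ : Nonempty (Sylow p G) := inferInstance
    obtain ⟨Q⟩ : Nonempty (Sylow q G) := inferInstance
    refine ⟨P, Q, fun x _ y hy => ?_⟩
    rw [cs_sylow_one_of_not_dvd h1 Q y hy, mul_one, one_mul]
  by_cases hL : pPrimeCore q G = ⊥
  · have h1 := key q p hpq.symm Mq Mp hMq hMp hqs hps hB hA hL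
    obtain ⟨P⟩ : Nonempty (Sylow p G) := inferInstance
    obtain ⟨Q⟩ : Nonempty (Sylow q G) := inferInstance
    refine ⟨P, Q, fun x hx y _ => ?_⟩
    rw [cs_sylow_one_of_not_dvd h1 P x hx, mul_one, one_mul]
  let K : Subgroup G := pPrimeCore p G
  let L : Subgroup G := pPrimeCore q G
  haveI hKn : K.Normal := pPrimeCore_normal p G
  haveI hLn : L.Normal := pPrimeCore_normal q G
  have hKX : pPrimeCore p (G ⧸ K) = ⊥ := H08.pPrimeCore_quotient_eq_bot p
  have hLX : pPrimeCore q (G ⧸ L) = ⊥ := H08.pPrimeCore_quotient_eq_bot q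
  have hKlt : Nat.card (G ⧸ K) < n := hcard ▸ cs_card_quot_lt K hK
  have hLlt : Nat.card (G ⧸ L) < n := hcard ▸ cs_card_quot_lt L hL
  have hKs : IsPSolvable p (G ⧸ K) := H03.isPSolvable_of_surjective (QuotientGroup.mk'_surjective K) hps
  have hKs' : IsPSolvable q (G ⧸ K) := H03.isPSolvable_of_surjective (QuotientGroup.mk'_surjective K) hqs
  have hLs : IsPSolvable p (G ⧸ L) := H03.isPSolvable_of_surjective (QuotientGroup.mk'_surjective L) hps
  have hLs' : IsPSolvable q (G ⧸ L) := H03.isPSolvable_of_surjective (QuotientGroup.mk'_surjective L) hqs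
  have h1 := ih _ hKlt (G ⧸ K) rfl p q hpq Mp Mq hMp hMq hKs hKs'
    (cs_A_quot hMp hA K) (cs_A_quot hMq hB K)
  have h2 := ih _ hLlt (G ⧸ L) rfl q p hpq.symm Mq Mp hMq hMp hLs' hLs
    (cs_A_quot hMq hB L) (cs_A_quot hMp hA L)
  obtain ⟨P⟩ : Nonempty (Sylow p G) := inferInstance
  obtain ⟨Q⟩ : Nonempty (Sylow q G) := inferInstance
  have hQK := cs_sylow_le_of_quot hpq K hKX hKs h1 Q
  have hPL := cs_sylow_le_of_quot hpq.symm L hLX hLs' h2 P
  obtain ⟨Q₁, hQ₁⟩ := cs_caseI K L (H06.coprime_card_pPrimeCore p) (H06.coprime_card_pPrimeCore q) P Q hPL hQK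
  exact ⟨P, Q₁, hQ₁⟩

section Conv

variable {G : Type u} [Group G] [Finite G]

/-- The converse direction. -/
theorem cs_conv {p q : ℕ} [hp : Fact p.Prime] [hq : Fact q.Prime] (hpq : p ≠ q)
    {M : Ideal AlgInt} (hM : IsPModular p M) (hs : IsPSolvable p G) (P : Sylow p G) (Q : Sylow q G)
    (hc : ∀ x ∈ (P : Subgroup G), ∀ y ∈ (Q : Subgroup G), x * y = y * x)
    (χ : IrrCharacter G) (hχ : χ ∈ principalBlock M G) : ¬ q ∣ charDegree χ.1 := by
  classical
  let K : Subgroup G := pPrimeCore p G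
  haveI hKn : K.Normal := pPrimeCore_normal p G
  have hKc : (Nat.card K).Coprime p := H06.coprime_card_pPrimeCore p
  have hQK : (Q : Subgroup G) ≤ K := cs_le_core hpq hs P Q Q.isPGroup' hc
  have h1 := principal_trivial_on_normal hM K hKc χ hχ
  obtain ⟨χ', hχ', e⟩ := exists_descend K χ.2 h1
  have hd : charDegree χ.1 = charDegree χ' := by
    rw [← e]
    exact cs_deg_inflate K ⟨χ', hχ'⟩
  rw [hd]
  intro h
  have h2 : q ∣ Nat.card (G ⧸ K) := h.trans (charDegree_dvd_card ⟨χ', hχ'⟩)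
  apply Q.not_dvd_index
  exact h2.trans (Subgroup.index_dvd_of_le hQK)

/-- Equal principal block `p'`-parts force equal primes. -/
theorem cs_primes_eq {p q : ℕ} [hp : Fact p.Prime] [hq : Fact q.Prime]
    (hpd : p ∣ Nat.card G) (hps : IsPSolvable p G) (hqs : IsPSolvable q G)
    (Mp Mq : Ideal AlgInt) (hMp : IsPModular p Mp) (hMq : IsPModular q Mq)
    (h : ∀ χ : IrrCharacter G, (χ ∈ principalBlock Mp G ∧ ¬ p ∣ charDegree χ.1) ↔
      (χ ∈ principalBlock Mq G ∧ ¬ q ∣ charDegree χ.1)) : p = q := by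
  classical
  by_contra hpq
  have hA : CsA p q Mp G := fun χ h1 h2 => ((h χ).1 ⟨h1, h2⟩).2
  have hB : CsA q p Mq G := fun χ h1 h2 => ((h χ).2 ⟨h1, h2⟩).2
  obtain ⟨P, Q, hc⟩ := cs_main _ G rfl p q hpq Mp Mq hMp hMq hps hqs hA hB
  let L : Subgroup G := pPrimeCore q G
  haveI hLn : L.Normal := pPrimeCore_normal q G
  have hLc : (Nat.card L).Coprime q := H06.coprime_card_pPrimeCore q
  have hPL : (P : Subgroup G) ≤ L :=
    cs_le_core (Ne.symm hpq) hqs Q P P.isPGroup' (fun x hx y hy => (hc y hy x hx).symm)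
  let K : Subgroup G := pPrimeCore p G
  haveI hKn : K.Normal := pPrimeCore_normal p G
  have hKc : (Nat.card K).Coprime p := H06.coprime_card_pPrimeCore p
  let f := QuotientGroup.mk' K
  have hf : Function.Surjective f := QuotientGroup.mk'_surjective K
  have hO : pPrimeCore p (G ⧸ K) = ⊥ := H08.pPrimeCore_quotient_eq_bot p
  have hpsX : IsPSolvable p (G ⧸ K) := H03.isPSolvable_of_surjective hf hps
  have hC := H03.centralizer_pCore_le_of_isPSolvable hpsX hO
  haveI hUn : (pCore p (G ⧸ K)).Normal := H01.pCore_normal p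
  have hall : ∀ χ : IrrCharacter (G ⧸ K), χ ∈ principalBlock Mp (G ⧸ K) := fun χ =>
    sameBlock_of_centralizer_le hMp (pCore p (G ⧸ K)) (H01.pCore_isPGroup p) hC (oneIrr _) χ
  haveI : Mp.IsPrime := hMp.2.1.isPrime
  have hall' : ∀ χ : IrrCharacter (G ⧸ K),
      (⟨χ.1 ∘ QuotientGroup.mk' K, isIrr_inflate K χ.2⟩ : IrrCharacter G) ∈ principalBlock Mp G :=
    fun χ => sameBlock_inflate K (hall χ)
  let P' : Sylow p (G ⧸ K) := P.mapSurjective hf
  have hP'nt : Nontrivial (P' : Subgroup (G ⧸ K)) := by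
    by_contra hnt
    rw [not_nontrivial_iff_subsingleton] at hnt
    have hPK : (P : Subgroup G) ≤ K := by
      intro x hx
      have h1 : f x ∈ (P' : Subgroup (G ⧸ K)) := Subgroup.mem_map_of_mem f hx
      have h2 : (⟨f x, h1⟩ : (P' : Subgroup (G ⧸ K))) = 1 := Subsingleton.elim _ _
      have h3 : f x = 1 := congrArg Subtype.val h2
      exact (QuotientGroup.eq_one_iff _).1 h3
    have h1 : p ∣ Nat.card (P : Subgroup G) := P.dvd_card_of_dvd_card hpd
    have h2 : p ∣ Nat.card K := h1.trans (Subgroup.card_dvd_of_le hPK)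
    exact (Nat.Prime.coprime_iff_not_dvd hp.out).1 hKc.symm h2
  have hex : ∃ x : (P' : Subgroup (G ⧸ K)), ∃ χ : IrrCharacter (G ⧸ K),
      ¬ p ∣ charDegree χ.1 ∧ χ.1 x ≠ χ.1 1 := by
    by_contra hno
    push Not at hno
    haveI := P'.isPGroup'.isNilpotent
    have hlt := Group.IsSolvable.commutator_lt_top_of_nontrivial (P' : Subgroup (G ⧸ K))
    apply hlt.ne
    rw [eq_top_iff]
    intro x _
    exact mem_commutator_of_ker P' x (fun χ hχ => hno x χ hχ)
  obtain ⟨⟨x, hx⟩, χ, hχd, hχx⟩ := hex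
  obtain ⟨x₀, hx₀, rfl⟩ := hx
  let χ₀ : IrrCharacter G := ⟨χ.1 ∘ QuotientGroup.mk' K, isIrr_inflate K χ.2⟩
  have hd₀ : ¬ p ∣ charDegree χ₀.1 := by
    have e : charDegree χ₀.1 = charDegree χ.1 := cs_deg_inflate K χ
    rw [e]
    exact hχd
  have h3 := ((h χ₀).1 ⟨hall' χ, hd₀⟩).1
  have h4 := principal_trivial_on_normal hMq L hLc χ₀ h3 x₀ (hPL hx₀)
  apply hχx
  have e1 : χ₀.1 x₀ = χ.1 (f x₀) := rfl
  have e2 : χ₀.1 1 = χ.1 1 := by
    show χ.1 (QuotientGroup.mk' K 1) = χ.1 1
    rw [map_one]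
  rw [← e1, ← e2]
  exact h4

end Conv

end Cfsg.Agent.H23
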