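import Cfsg.Agent.Lib.H23.CovApp
import Cfsg.Agent.Lib.H04.Cliff.Det

/-!
# Extension of an invariant character of `p'`-degree with `p'`-order determinant in the
principal block (helper23)
-/

set_option autoImplicit false
set_option linter.unusedSectionVars false
set_option linter.style.haveILetI false
set_option linter.unusedVariables false

namespace Cfsg.Agent.H23

open Cfsg Cfsg.Agent.H22 Cfsg.Agent Cfsg.Agent.H04.Cliff Module

/-- Pushing the principal hypothesis along a homomorphism. -/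
theorem cov_hB_push {E G : Type*} [Group E] [Fintype E] [Group G] [Fintype G] {M : Ideal AlgInt}
    (hP : M.IsPrime) (π : E →* G) (N : Subgroup G) (hπ : ∀ n ∈ N, ∃ x, π x = n)
    (θ : IrrCharacter N) (hθ : θ ∈ principalBlock M N) (B₁ : G → ℂ)
    (hB₁ : ∀ n : N, B₁ n = θ.1 n / θ.1 1) (A : E → ℕ)
    (hA1 : ∀ k, π k ∈ N → ∀ v, A (k * v * k⁻¹) = A v) (hA2 : ∀ v, π v ∉ N → A v = 0) :
    MemLocalIdeal M (∑ v, (A v : ℂ) * (B₁ (π v) - 1)) := by
  classical
  let A₁ : G → ℕ := fun g => ∑ v ∈ Finset.univ.filter (fun v => π v = g), A v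
  have h1 : ∑ v, (A v : ℂ) * (B₁ (π v) - 1) = ∑ g, (A₁ g : ℂ) * (B₁ g - 1) := by
    rw [← Finset.sum_fiberwise Finset.univ π]
    refine Finset.sum_congr rfl fun g _ => ?_
    simp only [A₁]
    push_cast
    rw [Finset.sum_mul]
    refine Finset.sum_congr rfl fun v hv => ?_
    rw [(Finset.mem_filter.1 hv).2]
  rw [h1]
  refine cov_hB hP N θ hθ B₁ hB₁ A₁ ?_ ?_
  · intro k hk v
    obtain ⟨x, hx⟩ := hπ k hk
    refine Finset.sum_bij (fun u _ => x⁻¹ * u * x) ?_ ?_ ?_ ?_
    · intro u hu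
      have h2 := (Finset.mem_filter.1 hu).2
      refine Finset.mem_filter.2 ⟨Finset.mem_univ _, ?_⟩
      rw [map_mul, map_mul, map_inv, hx, h2]
      group
    · intro a _ b _ h
      simpa using h
    · intro u hu
      have h2 := (Finset.mem_filter.1 hu).2
      refine ⟨x * u * x⁻¹, Finset.mem_filter.2 ⟨Finset.mem_univ _, ?_⟩, by group⟩
      rw [map_mul, map_mul, map_inv, hx, h2]
    · intro u hu
      have h2 := hA1 x⁻¹ (by rw [map_inv, hx]; exact N.inv_mem hk) u
      rw [inv_inv] at h2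
      exact h2.symm
  · intro v hv
    refine Finset.sum_eq_zero fun u hu => ?_
    have h2 := (Finset.mem_filter.1 hu).2
    exact hA2 u (by rw [h2]; exact hv)

/-- Index criterion: a subgroup containing all `p`-elements over a Sylow subgroup of the image has
`p'` index. -/
theorem cov_not_dvd_index {K N : Type*} [Group K] [Finite K] [Group N] [Finite N] {p : ℕ}
    [Fact p.Prime] (π : K →* N) (hπ : Function.Surjective π) (Q : Sylow p N) (C : Subgroup K)
    (h : ∀ u : K, (∃ b : ℕ, u ^ p ^ b = 1) → π u ∈ (Q : Subgroup N) → u ∈ C) : ¬ p ∣ C.index := by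
  let R : Subgroup K := (Q : Subgroup N).comap π
  obtain ⟨P⟩ : Nonempty (Sylow p R) := inferInstance
  let P' : Subgroup K := (P : Subgroup R).map R.subtype
  have hle : P' ≤ C := by
    rintro _ ⟨u, hu, rfl⟩
    refine h _ ?_ u.2
    obtain ⟨b, hb⟩ := P.isPGroup' ⟨u, hu⟩
    refine ⟨b, ?_⟩
    have := congrArg (fun x : P => ((x : R) : K)) hb
    simpa using this
  have h1 : P'.index = (P : Subgroup R).index * R.index := Subgroup.index_map_subtype _
  have h2 : R.index = (Q : Subgroup N).index := Subgroup.index_comap_of_surjective _ hπ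
  intro hd
  have h3 : p ∣ P'.index := hd.trans (Subgroup.index_dvd_of_le hle)
  rw [h1, h2] at h3
  rcases (Fact.out : p.Prime).dvd_mul.1 h3 with h4 | h4
  · exact P.not_dvd_index h4
  · exact Q.not_dvd_index h4

section Gam

variable {G : Type*} [Group G] [Finite G] {N : Subgroup G} [hN : N.Normal]
  {W : Type*} [AddCommGroup W] [Module ℂ W] [FiniteDimensional ℂ W] {ρ : Representation ℂ N W}

/-- A `p`-element of `Γ` commuting modulo the scalars with `c` commutes with `c`. -/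
theorem cov_comm_of_prj {p : ℕ} (hp : p.Prime) (hρ : ρ.IsIrreducible) (hdp : ¬ p ∣ finrank ℂ W)
    (c u : Gam N ρ) (hcomm : c.1.2 * u.1.2 = u.1.2 * c.1.2) {b : ℕ} (hu : u ^ p ^ b = 1) :
    c * u = u * c := by
  haveI := nontrivial_of_irr hρ
  let x : Gam N ρ := c * u * c⁻¹ * u⁻¹
  have hx2 : x.1.2 = 1 := by
    show c.1.2 * u.1.2 * c.1.2⁻¹ * u.1.2⁻¹ = 1
    rw [hcomm]
    group
  have hxm : (x.1.1, (1 : G)) ∈ Gam N ρ := by
    have h0 : x.1 = (x.1.1, (1 : G)) := Prod.ext rfl hx2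
    rw [← h0]
    exact x.2
  obtain ⟨ζ, hζ, hζ'⟩ := exists_scalar_same hρ hxm ((Gam N ρ).one_mem)
  have hζ2 : x.1.1 = scU ζ := by
    rw [hζ]
    simp
  have hxu : x * u = u * x := by
    apply Subtype.ext
    apply Prod.ext
    · show x.1.1 * u.1.1 = u.1.1 * x.1.1
      rw [hζ2]
      apply Units.ext
      simp [smul_mul_assoc, mul_smul_comm]
    · show x.1.2 * u.1.2 = u.1.2 * x.1.2
      rw [hx2]
      simp
  have h1 : c * u * c⁻¹ = x * u := by
    simp [x]
  have h2 : (x * u) ^ p ^ b = x ^ p ^ b * u ^ p ^ b := (Commute.mul_pow hxu _)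
  have h3 : (c * u * c⁻¹) ^ p ^ b = c * u ^ p ^ b * c⁻¹ := conj_pow
  have hxp : x ^ p ^ b = 1 := by
    rw [← h1, h3, hu] at h2
    simp only [mul_one, mul_inv_cancel] at h2
    exact h2.symm
  have hxd : x ^ finrank ℂ W = 1 := by
    apply Subtype.ext
    apply Prod.ext
    · show (x.1.1) ^ finrank ℂ W = 1
      rw [hζ2]
      apply Units.ext
      rw [Units.val_pow_eq_pow_val, coe_scU, smul_pow, one_pow, hζ']
      simp
    · show (x.1.2) ^ finrank ℂ W = 1
      rw [hx2, one_pow]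
  have hcop : Nat.Coprime (p ^ b) (finrank ℂ W) :=
    Nat.Coprime.pow_left b ((Nat.Prime.coprime_iff_not_dvd hp).2 hdp)
  have hx1 : x = 1 := by
    have h4 : orderOf x = 1 := Nat.eq_one_of_dvd_coprimes hcop
      (orderOf_dvd_of_pow_eq_one hxp) (orderOf_dvd_of_pow_eq_one hxd)
    exact orderOf_eq_one_iff.1 h4
  have h5 : c * u * c⁻¹ * u⁻¹ = 1 := hx1
  have h6 : c * u * c⁻¹ = u := by
    rw [mul_inv_eq_one] at h5
    exact h5
  rw [mul_inv_eq_iff_eq_mul] at h6
  exact h6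

/-- `phi` has order prime to `p` when the determinant does. -/
theorem cov_phi_root (hρ : ρ.IsIrreducible) {e : ℕ} (hdet : ∀ n : N, LinearMap.det (ρ n) ^ e = 1)
    (x : GamH N ρ N) : (phi hρ x : ℂ) ^ (finrank ℂ W * e) = 1 := by
  have h1 := phi_pow_det hρ x
  have h2 := congrArg (· ^ e) h1
  simp only [mul_pow, one_pow, hdet, mul_one] at h2
  rw [pow_mul]
  exact h2

end Gam

section Main

variable {G : Type*} [Group G] [Finite G] {N : Subgroup G} [hN : N.Normal]
  {W : Type*} [AddCommGroup W] [Module ℂ W] [FiniteDimensional ℂ W] {ρ : Representation ℂ N W}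

/-- The Clifford-theoretic core: the tautological character extends from `N̂` to `L̂`. -/
theorem cov_phi_extends {p : ℕ} [Fact p.Prime] {M : Ideal AlgInt} (hM : IsPModular p M)
    (hρ : ρ.IsIrreducible) (hinv : ∀ (g : G) (n : N), ρ.character (cj N g n) = ρ.character n)
    (hdp : ¬ p ∣ finrank ℂ W) {e₀ : ℕ} (he₀ : ¬ p ∣ e₀)
    (hdet : ∀ n : N, LinearMap.det (ρ n) ^ e₀ = 1)
    (θ : IrrCharacter N) (hc : ρ.character = θ.1) (hθ : θ ∈ principalBlock M N)
    (Q : Sylow p N) (L : Subgroup G)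
    (hL : L = N ⊔ Subgroup.centralizer (((Q : Subgroup N).map N.subtype : Subgroup G) : Set G)) :
    ∃ Λ : GamH N ρ L →* ℂˣ, ∀ m : GamH N ρ N, ∀ h, Λ ⟨m.1, h⟩ = phi hρ m := by
  classical
  haveI := Fact.mk (Fact.out : p.Prime)
  haveI := Gam_finite hρ hinv
  haveI := nontrivial_of_irr hρ
  letI : Fintype G := Fintype.ofFinite G
  letI : Fintype (Gam N ρ) := Fintype.ofFinite _
  have hNL : N ≤ L := by rw [hL]; exact le_sup_left
  have hCL : Subgroup.centralizer (((Q : Subgroup N).map N.subtype : Subgroup G) : Set G) ≤ L := by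
    rw [hL]; exact le_sup_right
  let E : Subgroup (Gam N ρ) := GamH N ρ L
  letI : Fintype E := Fintype.ofFinite _
  let K : Subgroup E := (GamH N ρ N).subgroupOf E
  let T : Representation ℂ E W := (tau N ρ).comp E.subtype
  have hmemK : ∀ x : E, x ∈ K ↔ x.1.1.2 ∈ N := fun x => Iff.rfl
  let κ : E → ℂ := fun x => if h : x.1.1.2 ∈ N then (phi hρ ⟨x.1, h⟩ : ℂ) else 1
  have hκ : ∀ (x : E) (h : x.1.1.2 ∈ N), κ x = (phi hρ ⟨x.1, h⟩ : ℂ) := fun x h => dif_pos h
  let B₁ : G → ℂ := fun g => if h : g ∈ N then θ.1 ⟨g, h⟩ / θ.1 1 else 0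
  have hB₁ : ∀ n : N, B₁ n = θ.1 n / θ.1 1 := fun n => by
    simp only [B₁, dif_pos n.2]
  let πE : E →* G := (prj N ρ).comp E.subtype
  have hd : (finrank ℂ W : ℂ) ≠ 0 := by
    have := finrank_pos_of_irr hρ
    exact_mod_cast this.ne'
  have hθ1 : θ.1 1 = (finrank ℂ W : ℂ) := by
    rw [← hc, Representation.character, map_one, LinearMap.trace_one]
  have hlift : ∀ g : G, ∃ x : Gam N ρ, x.1.2 = g := fun g => by
    obtain ⟨P, hP⟩ := exists_mem_Gam hρ hinv g
    exact ⟨⟨(P, g), hP⟩, rfl⟩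
  have H : CovHyp p M K T κ (fun x => B₁ (πE x)) := by
    refine ⟨hM, inferInstance, ?_, hd, ?_, ?_, ?_, ?_, ?_, ?_⟩
    · -- irreducibility on `K`
      refine irr_of_restrict hρ fun n => ?_
      obtain ⟨x, hx⟩ := hlift n
      have hxN : x.1.2 ∈ N := by rw [hx]; exact n.2
      let y : K := ⟨⟨x, hNL hxN⟩, hxN⟩
      have h1 := phi_spec hρ ⟨x, hxN⟩
      have h2 : ρ ⟨x.1.2, hxN⟩ = ρ n := by congr 1; exact Subtype.ext hx
      rw [h2] at h1
      refine ⟨((phi hρ ⟨x, hxN⟩)⁻¹ : ℂˣ), y, ?_⟩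
      show ρ n = _ • (x.1.1 : Module.End ℂ W)
      rw [h1, smul_smul]
      simp
    · intro u hu v hv
      rw [hκ u hu, hκ v hv, hκ (u * v) (K.mul_mem hu hv)]
      rw [← Units.val_mul, ← map_mul]
      rfl
    · intro g u hu
      have hm : (g * u * g⁻¹ : E) ∈ K := (inferInstance : K.Normal).conj_mem u hu g
      rw [hκ u hu, hκ _ ((hmemK _).1 hm)]
      have := phi_conj hρ g.1 ⟨u.1, hu⟩
      exact congrArg (fun z : ℂˣ => (z : ℂ)) this
    · refine ⟨finrank ℂ W * e₀, fun h => ?_, fun u hu => ?_⟩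
      · rcases (Fact.out : p.Prime).dvd_mul.1 h with h | h
        · exact hdp h
        · exact he₀ h
      · rw [hκ u hu]
        exact cov_phi_root hρ hdet _
    · intro v hv
      have h1 := phi_spec hρ ⟨v.1, hv⟩
      have h2 : covχ T v = LinearMap.trace ℂ W (v.1.1.1 : Module.End ℂ W) := rfl
      rw [h2, h1, map_smul, smul_eq_mul, hκ v hv]
      have h3 : B₁ (πE v) = θ.1 ⟨v.1.1.2, hv⟩ / θ.1 1 := hB₁ ⟨v.1.1.2, hv⟩
      rw [h3, hθ1, ← hc]
      show _ * Representation.character ρ _ = _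
      field_simp
    · intro A hA1 hA2
      refine cov_hB_push hM.2.1.isPrime πE N ?_ θ hθ B₁ hB₁ A ?_ ?_
      · intro n hn
        obtain ⟨x, hx⟩ := hlift n
        have hxL : x.1.2 ∈ L := by rw [hx]; exact hNL hn
        exact ⟨⟨x, hxL⟩, hx⟩
      · intro k hk v
        exact hA1 k hk v
      · intro v hv
        exact hA2 v hv
    · intro x
      have hx : x.1.1.2 ∈ N ⊔ Subgroup.centralizer
          (((Q : Subgroup N).map N.subtype : Subgroup G) : Set G) := by
        rw [← hL]; exact x.2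
      rw [← SetLike.mem_coe, Subgroup.normal_mul, Set.mem_mul] at hx
      obtain ⟨a, ha, c₀, hc₀, hac⟩ := hx
      obtain ⟨ĉ, hĉ⟩ := hlift c₀
      have hĉL : ĉ.1.2 ∈ L := by rw [hĉ]; exact hCL hc₀
      let c : E := ⟨ĉ, hĉL⟩
      refine ⟨c, ?_, ?_⟩
      · rw [hmemK]
        show x.1.1.2 * ĉ.1.2⁻¹ ∈ N
        rw [hĉ, ← hac]
        simpa using ha
      · rw [covS_eq_relIndex, Subgroup.relIndex]
        let πK : K →* N := MonoidHom.codRestrict (πE.comp K.subtype) N (fun k => k.2)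
        have hπK : Function.Surjective πK := by
          intro n
          obtain ⟨y, hy⟩ := hlift n
          have hyN : y.1.2 ∈ N := by rw [hy]; exact n.2
          exact ⟨⟨⟨y, hNL hyN⟩, hyN⟩, Subtype.ext hy⟩
        refine cov_not_dvd_index πK hπK Q _ ?_
        rintro u ⟨b, hb⟩ hu
        rw [Subgroup.mem_subgroupOf, Subgroup.mem_centralizer_singleton_iff]
        apply Subtype.ext
        have hu2 : (((u : E) : Gam N ρ)) ^ p ^ b = 1 := by
          have := congrArg (fun z : K => ((z : E) : Gam N ρ)) hb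
          simpa using this
        have hcomm : ĉ.1.2 * ((u : E) : Gam N ρ).1.2 = ((u : E) : Gam N ρ).1.2 * ĉ.1.2 := by
          rw [hĉ]
          have h1 : ((u : E) : Gam N ρ).1.2 ∈ ((Q : Subgroup N).map N.subtype : Subgroup G) :=
            ⟨πK u, hu, rfl⟩
          exact (Subgroup.mem_centralizer_iff.1 hc₀ _ h1).symm
        have := cov_comm_of_prj hM.1 hρ hdp ĉ ((u : E) : Gam N ρ) hcomm hu2
        exact this.symm
  obtain ⟨Λ, e, he, hΛ, hΛK, -⟩ := H.core
  refine ⟨Λ, fun m h => ?_⟩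
  apply Units.ext
  have h1 := hΛK ⟨m.1, h⟩ m.2
  exact h1.trans (hκ ⟨m.1, h⟩ m.2)

/-- Extension of `ρ` to `G`. -/
theorem cov_extends {p : ℕ} [Fact p.Prime] {M : Ideal AlgInt} (hM : IsPModular p M)
    (hρ : ρ.IsIrreducible) (hinv : ∀ (g : G) (n : N), ρ.character (cj N g n) = ρ.character n)
    (hdp : ¬ p ∣ finrank ℂ W) {e₀ : ℕ} (he₀ : ¬ p ∣ e₀)
    (hdet : ∀ n : N, LinearMap.det (ρ n) ^ e₀ = 1)
    (θ : IrrCharacter N) (hc : ρ.character = θ.1) (hθ : θ ∈ principalBlock M N)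
    (Q : Sylow p N) (L : Subgroup G)
    (hL : L = N ⊔ Subgroup.centralizer (((Q : Subgroup N).map N.subtype : Subgroup G) : Set G))
    {a : ℕ} (hidx : L.index = p ^ a) :
    ∃ τ : Representation ℂ G W, τ.IsIrreducible ∧ ∀ n : N, τ n = ρ n := by
  haveI := Gam_finite hρ hinv
  obtain ⟨Λ, hΛ⟩ := cov_phi_extends hM hρ hinv hdp he₀ hdet θ hc hθ Q L hL
  have hNL : N ≤ L := by rw [hL]; exact le_sup_left
  refine extends_of_comm hρ hinv fun x hx => ?_
  have hle : GamH N ρ N ≤ GamH N ρ L := fun y hy => hNL hy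
  have h4 := pow_index_eq_one (GamH N ρ N) (phi hρ) (phi_inv hρ) (GamH N ρ L) hle
    Λ (fun m => hΛ m _) x hx
  rw [index_GamH hρ hinv, hidx] at h4
  have h5 : phi hρ x ^ (finrank ℂ W * e₀) = 1 := by
    apply Units.ext
    simpa using cov_phi_root hρ hdet x
  have hcop : Nat.Coprime (p ^ a) (finrank ℂ W * e₀) := by
    refine Nat.Coprime.pow_left a ((Nat.Prime.coprime_iff_not_dvd hM.1).2 fun h => ?_)
    rcases hM.1.dvd_mul.1 h with h | h
    · exact hdp h
    · exact he₀ h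
  have h6 : orderOf (phi hρ x) = 1 := Nat.eq_one_of_dvd_coprimes hcop
    (orderOf_dvd_of_pow_eq_one h4) (orderOf_dvd_of_pow_eq_one h5)
  exact orderOf_eq_one_iff.1 h6

end Main

end Cfsg.Agent.H23
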