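import Cfsg.Agent.Lib.H23.CovRat
import Cfsg.Agent.Lib.H21.MinMax

/-!
# Extending a `p`-rational principal character of `p'` degree (helper23)
-/

set_option autoImplicit false
set_option linter.unusedSectionVars false
set_option linter.style.haveILetI false
set_option linter.unusedVariables false

namespace Cfsg.Agent.H23

open Cfsg Cfsg.Agent.H22 Cfsg.Agent Cfsg.Agent.H04.Cliff Cfsg.Agent.H21 Module

section Orbits

variable {G : Type*} [Group G] [Fintype G]

theorem covS_subgroupOf {N L : Subgroup G} (hNL : N ≤ L) [Fintype L] (y : L) :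
    covS (N.subgroupOf L) y = covS N (y : G) := by
  rw [covS_eq_relIndex, covS_eq_relIndex]
  have hC : Subgroup.centralizer ({y} : Set L) =
      (Subgroup.centralizer ({(y : G)} : Set G)).subgroupOf L := by
    ext x
    rw [Subgroup.mem_subgroupOf, Subgroup.mem_centralizer_singleton_iff,
      Subgroup.mem_centralizer_singleton_iff]
    exact Subtype.ext_iff
  rw [hC, Subgroup.relIndex_subgroupOf hNL]

theorem covS_good {p : ℕ} [Fact p.Prime] {N : Subgroup G} (Q : Sylow p N) {c : G}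
    (hc : c ∈ Subgroup.centralizer (((Q : Subgroup N).map N.subtype : Subgroup G) : Set G)) :
    ¬ p ∣ covS N c := by
  rw [covS_eq_relIndex, Subgroup.relIndex]
  intro hdvd
  have hle : (Q : Subgroup ↥N) ≤ (Subgroup.centralizer ({c} : Set G)).subgroupOf N := by
    intro x hx
    rw [Subgroup.mem_subgroupOf, Subgroup.mem_centralizer_singleton_iff]
    have h1 : (x : G) ∈ (Q : Subgroup ↥N).map N.subtype := ⟨x, hx, rfl⟩
    exact (Subgroup.mem_centralizer_iff.1 hc) (x : G) h1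
  exact Q.not_dvd_index (hdvd.trans (Subgroup.index_dvd_of_le hle))

theorem covS_dvd_index (N : Subgroup G) [N.Normal] (y : G) :
    covS N y ∣ (Subgroup.centralizer ({y} : Set G)).index := by
  rw [covS_eq_relIndex]
  exact cov_relIndex_dvd N _

theorem covS_conj (N : Subgroup G) [hN : N.Normal] (g y : G) :
    covS N (g * y * g⁻¹) = covS N y := by
  classical
  refine Finset.card_bij (fun z _ => g⁻¹ * z * g) ?_ ?_ ?_
  · intro z hz
    obtain ⟨n, hn, rfl⟩ := (mem_covOrb N).1 hz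
    refine (mem_covOrb N).2 ⟨g⁻¹ * n * g, ?_, by group⟩
    have := hN.conj_mem n hn g⁻¹
    simpa using this
  · intro a _ b _ h
    simpa using h
  · intro z hz
    obtain ⟨n, hn, rfl⟩ := (mem_covOrb N).1 hz
    refine ⟨g * (n * y * n⁻¹) * g⁻¹, (mem_covOrb N).2 ⟨g * n * g⁻¹, hN.conj_mem n hn g, by group⟩, by
      group⟩

end Orbits

theorem cov_L_normal {G : Type*} [Group G] [Finite G] {p : ℕ} [Fact p.Prime] {N : Subgroup G}
    [hN : N.Normal] (Q : Sylow p N) (L : Subgroup G)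
    (hL : L = N ⊔ Subgroup.centralizer (((Q : Subgroup N).map N.subtype : Subgroup G) : Set G)) :
    L.Normal := by
  have hF := Sylow.normalizer_sup_eq_top Q
  set Qb : Subgroup G := (Q : Subgroup N).map N.subtype with hQb
  set C := Subgroup.centralizer ((Qb : Subgroup G) : Set G) with hC
  have hNL : N ≤ L := by rw [hL]; exact le_sup_left
  have hCL : C ≤ L := by rw [hL]; exact le_sup_right
  have hnorm : ∀ h ∈ Subgroup.normalizer ((Qb : Subgroup G) : Set G), ∀ l ∈ L, h * l * h⁻¹ ∈ L := by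
    intro h hh l hl
    rw [hL, ← SetLike.mem_coe, Subgroup.normal_mul, Set.mem_mul] at hl
    obtain ⟨a, ha, c, hc, rfl⟩ := hl
    have e : h * (a * c) * h⁻¹ = (h * a * h⁻¹) * (h * c * h⁻¹) := by group
    rw [e]
    refine L.mul_mem (hNL (hN.conj_mem a ha h)) (hCL ?_)
    rw [hC, Subgroup.mem_centralizer_iff]
    intro q hq
    have h1 : h⁻¹ * q * h ∈ (Qb : Set G) := by
      have h2 := (Subgroup.mem_normalizer_iff.1 hh (h⁻¹ * q * h)).2
      apply h2
      have : h * (h⁻¹ * q * h) * h⁻¹ = q := by group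
      rw [this]
      exact hq
    have h3 := (Subgroup.mem_centralizer_iff.1 hc) _ h1
    calc q * (h * c * h⁻¹) = h * ((h⁻¹ * q * h) * c) * h⁻¹ := by group
      _ = h * (c * (h⁻¹ * q * h)) * h⁻¹ := by rw [h3]
      _ = h * c * h⁻¹ * q := by group
  constructor
  intro l hl g
  have hg : g ∈ Subgroup.normalizer ((Qb : Subgroup G) : Set G) ⊔ N := by
    rw [hF]; trivial
  rw [← SetLike.mem_coe, Subgroup.mul_normal, Set.mem_mul] at hg
  obtain ⟨h, hh, n, hn, rfl⟩ := hg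
  have e : h * n * l * (h * n)⁻¹ = h * (n * l * n⁻¹) * h⁻¹ := by group
  rw [e]
  exact hnorm h hh _ (L.mul_mem (L.mul_mem (hNL hn) hl) (L.inv_mem (hNL hn)))

theorem cov_mem_of_regular {G : Type*} [Group G] [Finite G] {p : ℕ} (hp : p.Prime) {L : Subgroup G}
    [L.Normal] {a : ℕ} (hidx : L.index = p ^ a) {x : G} (hx : ¬ p ∣ orderOf x) : x ∈ L := by
  have h1 : x ^ (p ^ a) ∈ L := hidx ▸ Subgroup.pow_index_mem L x
  have hcop : Nat.Coprime (p ^ a) (orderOf x) :=
    Nat.Coprime.pow_left a ((Nat.Prime.coprime_iff_not_dvd hp).2 hx)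
  obtain ⟨m, hm⟩ := exists_pow_eq_self_of_coprime hcop
  rw [← hm]
  exact L.pow_mem h1 m

theorem cov_one_of_pow {p d b : ℕ} (hp : p.Prime) (hdp : ¬ p ∣ d) {A : Type*} [Group A] {u : A}
    (h1 : u ^ d = 1) (h2 : u ^ p ^ b = 1) : u = 1 := by
  have hcop : Nat.Coprime (p ^ b) d := Nat.Coprime.pow_left b ((Nat.Prime.coprime_iff_not_dvd hp).2 hdp)
  exact orderOf_eq_one_iff.1 (Nat.eq_one_of_dvd_coprimes hcop
    (orderOf_dvd_of_pow_eq_one h2) (orderOf_dvd_of_pow_eq_one h1))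

section Main

variable {G : Type*} [Group G] [Fintype G] {N : Subgroup G} [hN : N.Normal]
  {W : Type*} [AddCommGroup W] [Module ℂ W] [FiniteDimensional ℂ W] {ρ : Representation ℂ N W}

theorem cov_L_level {p : ℕ} [Fact p.Prime] {M : Ideal AlgInt} (hM : IsPModular p M)
    (hρ : ρ.IsIrreducible) (θ : IrrCharacter N) (hc : ρ.character = θ.1)
    (hθ : θ ∈ principalBlock M N) (Q : Sylow p N) (L : Subgroup G)
    (hL : L = N ⊔ Subgroup.centralizer (((Q : Subgroup N).map N.subtype : Subgroup G) : Set G))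
    (τ₀ : Representation ℂ G W) (hτ₀ : ∀ n : N, τ₀ n = ρ n) :
    ∃ (Λ : L →* ℂˣ) (e : ℕ), ¬ p ∣ e ∧ (∀ y, (Λ y : ℂ) ^ e = 1) ∧
      (∀ (n : G) (h : n ∈ N) (h' : n ∈ L), Λ ⟨n, h'⟩ = 1) ∧
      ∀ y : L, MemLocalIdeal M ((covS N (y : G) : ℂ) * τ₀.character y / (finrank ℂ W : ℂ) -
        (covS N (y : G) : ℂ) * (Λ y : ℂ)) := by
  classical
  letI : Fintype L := Fintype.ofFinite _
  haveI := nontrivial_of_irr hρ
  have hNL : N ≤ L := by rw [hL]; exact le_sup_left
  have hCL : Subgroup.centralizer (((Q : Subgroup N).map N.subtype : Subgroup G) : Set G) ≤ L := by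
    rw [hL]; exact le_sup_right
  let K : Subgroup L := N.subgroupOf L
  let T : Representation ℂ L W := τ₀.comp L.subtype
  let B₁ : G → ℂ := fun g => if h : g ∈ N then θ.1 ⟨g, h⟩ / θ.1 1 else 0
  have hB₁ : ∀ n : N, B₁ n = θ.1 n / θ.1 1 := fun n => by
    simp only [B₁, dif_pos n.2]
  have hd : (finrank ℂ W : ℂ) ≠ 0 := by
    have := finrank_pos_of_irr hρ
    exact_mod_cast this.ne'
  have hθ1 : θ.1 1 = (finrank ℂ W : ℂ) := by
    rw [← hc, Representation.character, map_one, LinearMap.trace_one]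
  have H : CovHyp p M K T (fun _ => 1) (fun y => B₁ (L.subtype y)) := by
    refine ⟨hM, inferInstance, ?_, hd, by simp, by simp, ⟨1, hM.1.one_lt.ne' ∘ Nat.dvd_one.1, by simp⟩,
      ?_, ?_, ?_⟩
    · refine irr_of_restrict hρ fun n => ⟨1, ⟨⟨n, hNL n.2⟩, n.2⟩, ?_⟩
      show ρ n = (1 : ℂ) • τ₀ n
      rw [hτ₀, one_smul]
    · intro v hv
      have h1 : covχ T v = ρ.character ⟨v, hv⟩ := by
        show LinearMap.trace ℂ W (τ₀ v) = LinearMap.trace ℂ W (ρ ⟨v, hv⟩)
        rw [← hτ₀ ⟨v, hv⟩]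
      have h2 : B₁ (L.subtype v) = θ.1 ⟨v, hv⟩ / θ.1 1 := hB₁ ⟨v, hv⟩
      rw [h1, h2, hθ1, hc]
      field_simp
    · intro A hA1 hA2
      refine cov_hB_push hM.2.1.isPrime L.subtype N ?_ θ hθ B₁ hB₁ A ?_ ?_
      · intro n hn
        exact ⟨⟨n, hNL hn⟩, rfl⟩
      · intro k hk v
        exact hA1 k hk v
      · intro v hv
        exact hA2 v hv
    · intro x
      have hx : (x : G) ∈ N ⊔ Subgroup.centralizer
          (((Q : Subgroup N).map N.subtype : Subgroup G) : Set G) := by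
        rw [← hL]; exact x.2
      rw [← SetLike.mem_coe, Subgroup.normal_mul, Set.mem_mul] at hx
      obtain ⟨a, ha, c₀, hc₀, hac⟩ := hx
      refine ⟨⟨c₀, hCL hc₀⟩, ?_, ?_⟩
      · show (x : G) * c₀⁻¹ ∈ N
        rw [← hac]
        simpa using ha
      · rw [covS_subgroupOf hNL]
        exact covS_good Q hc₀
  obtain ⟨Λ, e, he, hΛ, hΛK, hm⟩ := H.core
  refine ⟨Λ, e, he, hΛ, fun n h h' => ?_, fun y => ?_⟩
  · apply Units.ext
    exact hΛK ⟨n, h'⟩ h
  · have h1 := hm y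
    rw [covS_subgroupOf hNL] at h1
    have h2 : covμ K T y = (covS N (y : G) : ℂ) * τ₀.character y / (finrank ℂ W : ℂ) := by
      unfold covμ
      rw [covS_subgroupOf hNL]
      rfl
    rwa [h2] at h1

theorem cov_L_inv {p : ℕ} [Fact p.Prime] {M : Ideal AlgInt} (hM : IsPModular p M)
    (hd : (finrank ℂ W : ℂ) ≠ 0) (Q : Sylow p N) (L : Subgroup G) [hLn : L.Normal]
    (hL : L = N ⊔ Subgroup.centralizer (((Q : Subgroup N).map N.subtype : Subgroup G) : Set G))
    (τ₀ : Representation ℂ G W) (Λ : L →* ℂˣ) {e : ℕ} (he : ¬ p ∣ e)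
    (hΛ : ∀ y, (Λ y : ℂ) ^ e = 1)
    (hΛN : ∀ (n : G) (h : n ∈ N) (h' : n ∈ L), Λ ⟨n, h'⟩ = 1)
    (hm : ∀ y : L, MemLocalIdeal M ((covS N (y : G) : ℂ) * τ₀.character y / (finrank ℂ W : ℂ) -
        (covS N (y : G) : ℂ) * (Λ y : ℂ))) (g : G) (y : L) :
    Λ ⟨g * y * g⁻¹, hLn.conj_mem y y.2 g⟩ = Λ y := by
  haveI hP : M.IsPrime := hM.2.1.isPrime
  have hCL : Subgroup.centralizer (((Q : Subgroup N).map N.subtype : Subgroup G) : Set G) ≤ L := by
    rw [hL]; exact le_sup_right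
  have hinner : ∀ (c : G) (hc : c ∈ Subgroup.centralizer
      (((Q : Subgroup N).map N.subtype : Subgroup G) : Set G)),
      Λ ⟨g * c * g⁻¹, hLn.conj_mem c (hCL hc) g⟩ = Λ ⟨c, hCL hc⟩ := by
    intro c hc
    have ht := covS_good Q hc
    have h1 := hm ⟨c, hCL hc⟩
    have h2 := hm ⟨g * c * g⁻¹, hLn.conj_mem c (hCL hc) g⟩
    simp only at h1 h2
    rw [covS_conj] at h2
    have h3 : τ₀.character (g * c * g⁻¹) = τ₀.character c := covχ_conj τ₀ g c
    rw [h3] at h2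
    have h4 := mli_sub h2 h1
    have h5 : MemLocalIdeal M ((covS N c : ℂ) *
        ((Λ ⟨c, hCL hc⟩ : ℂˣ) - (Λ ⟨g * c * g⁻¹, hLn.conj_mem c (hCL hc) g⟩ : ℂˣ) : ℂ)) := by
      convert h4 using 1
      ring
    have he0 : e ≠ 0 := fun h0 => he (h0 ▸ dvd_zero p)
    have hr1 := cov_mlr_of_root hP he0 (hΛ ⟨c, hCL hc⟩)
    have hr2 := cov_mlr_of_root hP he0 (hΛ ⟨g * c * g⁻¹, hLn.conj_mem c (hCL hc) g⟩)
    rcases (mli_mul_iff (mlr_natCast _) (mlr_sub hr1 hr2)).1 h5 with h6 | h6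
    · exact absurd ((mli_natCast_iff hM _).1 h6) ht
    · have := cov_root_sep' hM he (hΛ _) (hΛ _) h6
      exact (Units.ext this).symm
  have hy : (y : G) ∈ N ⊔ Subgroup.centralizer
      (((Q : Subgroup N).map N.subtype : Subgroup G) : Set G) := by
    rw [← hL]; exact y.2
  rw [← SetLike.mem_coe, Subgroup.normal_mul, Set.mem_mul] at hy
  obtain ⟨a, ha, c, hc, hac⟩ := hy
  have hNL : N ≤ L := by rw [hL]; exact le_sup_left
  have e1 : (⟨g * y * g⁻¹, hLn.conj_mem y y.2 g⟩ : L) =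
      ⟨g * a * g⁻¹, hNL (hN.conj_mem a ha g)⟩ * ⟨g * c * g⁻¹, hLn.conj_mem c (hCL hc) g⟩ := by
    apply Subtype.ext
    show g * (y : G) * g⁻¹ = g * a * g⁻¹ * (g * c * g⁻¹)
    rw [← hac]
    group
  have e2 : y = (⟨a, hNL ha⟩ : L) * ⟨c, hCL hc⟩ := Subtype.ext hac.symm
  rw [e1, map_mul, hΛN _ (hN.conj_mem a ha g), one_mul, hinner c hc]
  conv_rhs => rw [e2, map_mul, hΛN _ ha, one_mul]

theorem cov_block_ext {p : ℕ} [Fact p.Prime] {M : Ideal AlgInt} (hM : IsPModular p M)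
    (hρ : ρ.IsIrreducible) (θ : IrrCharacter N) (hc : ρ.character = θ.1)
    (hθ : θ ∈ principalBlock M N) (Q : Sylow p N) (L : Subgroup G) [hLn : L.Normal]
    (hL : L = N ⊔ Subgroup.centralizer (((Q : Subgroup N).map N.subtype : Subgroup G) : Set G))
    {a : ℕ} (hidx : L.index = p ^ a)
    (τ₀ : Representation ℂ G W) (hτ₀ : ∀ n : N, τ₀ n = ρ n) :
    ∃ R : Representation ℂ G W, (∀ n : N, R n = ρ n) ∧
      ∀ y ∈ L, MemLocalIdeal M ((covS N y : ℂ) * R.character y / (finrank ℂ W : ℂ) -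
        (covS N y : ℂ)) := by
  classical
  haveI hP : M.IsPrime := hM.2.1.isPrime
  have hd : (finrank ℂ W : ℂ) ≠ 0 := by
    have := finrank_pos_of_irr hρ
    exact_mod_cast this.ne'
  have hNL : N ≤ L := by rw [hL]; exact le_sup_left
  obtain ⟨Λ, e, he, hΛ, hΛN, hm⟩ := cov_L_level hM hρ θ hc hθ Q L hL τ₀ hτ₀
  have hinv := cov_L_inv hM hd Q L hL τ₀ Λ he hΛ hΛN hm
  have hΛe : Λ ^ e = 1 := by
    ext y
    simp only [MonoidHom.pow_apply, Units.val_pow_eq_pow_val, MonoidHom.one_apply, Units.val_one]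
    exact hΛ y
  have hcop : Nat.Coprime L.index (orderOf Λ) := by
    rw [hidx]
    refine Nat.Coprime.pow_left a ((Nat.Prime.coprime_iff_not_dvd hM.1).2 fun h => ?_)
    exact he (h.trans (orderOf_dvd_of_pow_eq_one hΛe))
  obtain ⟨μ, hμ, -, -⟩ := canon_ext L Λ hinv hcop
  refine ⟨twistRep τ₀ μ⁻¹, fun n => ?_, fun y hy => ?_⟩
  · have h1 : μ (n : G) = 1 := by
      have := hμ ⟨n, hNL n.2⟩
      rw [hΛN _ n.2] at this
      exact this
    rw [twistRep_apply, MonoidHom.inv_apply, h1, hτ₀]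
    simp
  · have h1 := hm ⟨y, hy⟩
    have h2 : μ y = Λ ⟨y, hy⟩ := hμ ⟨y, hy⟩
    simp only at h1
    rw [← h2] at h1
    have he0 : e ≠ 0 := fun h0 => he (h0 ▸ dvd_zero p)
    have h3 : MemLocalRing M (((μ y)⁻¹ : ℂˣ) : ℂ) := by
      refine cov_mlr_of_root hP he0 (e := e) ?_
      have := hΛ ⟨y, hy⟩
      rw [← h2] at this
      rw [Units.val_inv_eq_inv_val, inv_pow, this, inv_one]
    have h4 := mli_mul_left h1 h3
    have h5 : (twistRep τ₀ μ⁻¹).character y = (((μ y)⁻¹ : ℂˣ) : ℂ) * τ₀.character y := by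
      show LinearMap.trace ℂ W ((twistRep τ₀ μ⁻¹) y) = _
      rw [twistRep_apply, map_smul, smul_eq_mul]
      rfl
    rw [h5]
    convert h4 using 1
    have hu : ((μ y : ℂˣ) : ℂ) ≠ 0 := (μ y).ne_zero
    rw [Units.val_inv_eq_inv_val]
    field_simp

theorem cov_det_adjust {p : ℕ} (hp : p.Prime) (R : Representation ℂ G W) (hdp : ¬ p ∣ finrank ℂ W)
    (hR : ∀ n : N, R n = ρ n)
    (hdetp : ∀ x : N, (∃ b : ℕ, x ^ p ^ b = 1) → LinearMap.det (ρ x) = 1) :
    ∃ (R₁ : Representation ℂ G W) (n b : ℕ), Nat.card G = p ^ b * n ∧ ¬ p ∣ n ∧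
      (∀ n₁ : N, R₁ n₁ = ρ n₁) ∧ (∀ g, LinearMap.det (R₁ g) ^ n = 1) ∧
      ∀ x, ¬ p ∣ orderOf x → R₁ x = R x := by
  classical
  obtain ⟨b, n, hn, hcard⟩ : ∃ b n : ℕ, ¬ p ∣ n ∧ Nat.card G = p ^ b * n :=
    let h := Nat.exists_eq_pow_mul_and_not_dvd (Nat.card_pos (α := G)).ne' p hp.ne_one
    ⟨h.choose, h.choose_spec.choose, h.choose_spec.choose_spec.1, h.choose_spec.choose_spec.2⟩
  set d := finrank ℂ W with hd
  let δ : G →* ℂˣ := detU R
  have hδ : ∀ g, (δ g : ℂ) = LinearMap.det (R g) := fun g => rfl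
  have hδcard : ∀ g, δ g ^ Nat.card G = 1 := by
    intro g
    rw [← map_pow, pow_card_eq_one', map_one]
  have hw : ¬ p ∣ n * d := fun h => (hp.dvd_mul.1 h).elim hn hdp
  have hcop : Nat.Coprime (n * d) (p ^ b) :=
    (Nat.Coprime.pow_left b ((Nat.Prime.coprime_iff_not_dvd hp).2 hw)).symm
  let x := Nat.chineseRemainder hcop 0 (p ^ b - 1)
  have hx1 : (x : ℕ) ≡ 0 [MOD n * d] := x.2.1
  have hx2 : (x : ℕ) ≡ p ^ b - 1 [MOD p ^ b] := x.2.2
  obtain ⟨t, ht⟩ := (Nat.modEq_zero_iff_dvd).1 hx1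
  have hpb : 0 < p ^ b := pow_pos hp.pos b
  obtain ⟨q, hq⟩ : p ^ b ∣ (x : ℕ) + 1 := by
    have h1 : (x : ℕ) + 1 ≡ p ^ b - 1 + 1 [MOD p ^ b] := hx2.add_right 1
    rw [Nat.sub_add_cancel hpb] at h1
    exact (Nat.modEq_zero_iff_dvd).1 (h1.trans (by simp [Nat.ModEq]))
  let lam : G →* ℂˣ := δ ^ (n * t)
  have hlam : ∀ g, lam g = δ g ^ (n * t) := fun g => rfl
  have hlamp : ∀ g, lam g ^ p ^ b = 1 := by
    intro g
    rw [hlam, ← pow_mul, show n * t * p ^ b = Nat.card G * t by rw [hcard]; ring, pow_mul, hδcard,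
      one_pow]
  have hlamN : ∀ n₁ : N, lam (n₁ : G) = 1 := by
    intro n₁
    have h1 : ((n₁ ^ n : N)) ^ p ^ b = 1 := by
      rw [← pow_mul, mul_comm, ← hcard]
      apply Subtype.ext
      simp [pow_card_eq_one']
    have h2 := hdetp (n₁ ^ n) ⟨b, h1⟩
    have h3 : δ (n₁ : G) ^ n = 1 := by
      apply Units.ext
      rw [Units.val_pow_eq_pow_val, hδ, hR, Units.val_one, ← map_pow, ← map_pow]
      exact h2
    rw [hlam, pow_mul, h3, one_pow]
  refine ⟨twistRep R lam, n, b, hcard, hn, fun n₁ => ?_, fun g => ?_, fun y hy => ?_⟩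
  · rw [twistRep_apply, hlamN, hR]
    simp
  · rw [twistRep_apply, LinearMap.det_smul, ← hd, ← hδ]
    have h1 : ((lam g : ℂˣ) : ℂ) ^ d * (δ g : ℂ) = ((lam g ^ d * δ g : ℂˣ) : ℂ) := by
      simp
    rw [h1, ← Units.val_pow_eq_pow_val]
    have h2 : (lam g ^ d * δ g) ^ n = 1 := by
      rw [hlam, ← pow_mul, ← pow_succ]
      rw [← pow_mul]
      have h3 : (n * t * d + 1) * n = Nat.card G * q := by
        have h4 : n * t * d + 1 = p ^ b * q := by
          rw [← hq, ht]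
          ring
        rw [h4, hcard]
        ring
      rw [h3, pow_mul, hδcard, one_pow]
    rw [h2, Units.val_one]
  · have h1 : lam y = 1 := by
      have h2 : lam y ^ orderOf y = 1 := by
        rw [← map_pow, pow_orderOf_eq_one, map_one]
      exact cov_one_of_pow hp hy h2 (hlamp y)
    rw [twistRep_apply, h1]
    simp

theorem cov_rational {p : ℕ} (hp : p.Prime) (hρ : ρ.IsIrreducible) (hdp : ¬ p ∣ finrank ℂ W)
    {m : ℕ} (hm : ¬ p ∣ m)
    (hrat : ∀ t, ρ.character t ∈ IntermediateField.adjoin ℚ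
      ({Complex.exp (2 * Real.pi * Complex.I / m)} : Set ℂ))
    (C L : Subgroup G) [hLn : L.Normal] (hL : L = N ⊔ C) {a : ℕ} (hidx : L.index = p ^ a)
    (R₁ : Representation ℂ G W) {n b : ℕ} (hcard : Nat.card G = p ^ b * n) (hn : ¬ p ∣ n)
    (hR₁ : ∀ n₁ : N, R₁ n₁ = ρ n₁) (hdet : ∀ g, LinearMap.det (R₁ g) ^ n = 1)
    (hnz : ∀ c ∈ C, ¬ p ∣ orderOf c → R₁.character c ≠ 0)
    (k : ℕ) (hk : k ≡ 1 [MOD n * m]) (hkp : k.Coprime p) (g : G) :
    R₁.character (g ^ k) = R₁.character g := by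
  classical
  have hm0 : m ≠ 0 := fun h0 => hm (h0 ▸ dvd_zero p)
  have hn0 : n ≠ 0 := fun h0 => hn (h0 ▸ dvd_zero p)
  have hkn : k ≡ 1 [MOD n] := hk.of_dvd (Dvd.intro m rfl)
  have hkm : k ≡ 1 [MOD m] := hk.of_dvd (Dvd.intro_left n rfl)
  have hcn : k.Coprime n := by
    have := hkn.gcd_eq
    rw [Nat.gcd_comm, Nat.gcd_one_left] at this
    rwa [Nat.Coprime, Nat.gcd_comm]
  have hcm : k.Coprime m := by
    have := hkm.gcd_eq
    rw [Nat.gcd_comm, Nat.gcd_one_left] at this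
    rwa [Nat.Coprime, Nat.gcd_comm]
  have hkc : k.Coprime (Nat.card G) := by
    rw [hcard]
    exact Nat.Coprime.mul_right (Nat.Coprime.pow_right _ hkp) hcn
  have hirr := char_of_ext hρ hR₁
  have hχ' : IsCharacter G (fun y => R₁.character (y ^ k)) :=
    isCharacter_of_irr (Cfsg.Agent.H06.isIrrCharacter_comp_pow hkc hirr.1)
  have hNfix : ∀ n₁ : N, ρ.character (n₁ ^ k) = ρ.character n₁ := by
    refine cov_rat_fix (isCharacter_of_rep ρ) hm0 hrat hkm ?_
    have h1 : Nat.card N ∣ Nat.card G := Subgroup.card_subgroup_dvd_card N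
    exact Nat.Coprime.mul_right (Nat.Coprime.coprime_dvd_right h1 hkc) hcm
  obtain ⟨σ, hσc, hσ⟩ := exists_rep_on_W ρ N.subtype hχ' (by
    intro n₁
    show R₁.character ((n₁ : G) ^ k) = _
    rw [← hNfix n₁]
    have h1 : ((n₁ : G) ^ k) = ((n₁ ^ k : N) : G) := by simp
    rw [h1]
    have h2 := hirr.2 (n₁ ^ k)
    exact h2)
  obtain ⟨β, hβN, hβ⟩ := ext_rep_ratio hρ R₁ σ hR₁ hσ
  have hd := finrank_pos_of_irr hρ
  -- `β ^ d = 1`
  have hβd : ∀ y, β y ^ finrank ℂ W = 1 := by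
    intro y
    have h1 := cov_det_pow R₁ σ k (fun y => congrFun hσc y) y
    rw [hβ y, LinearMap.det_smul] at h1
    have h2 : LinearMap.det (R₁ y) ^ k = LinearMap.det (R₁ y) := by
      rw [cov_pow_congr (hdet y) hkn, pow_one]
    rw [h2] at h1
    have hne : LinearMap.det (R₁ y) ≠ 0 := by
      intro h0
      have := hdet y
      rw [h0, zero_pow hn0] at this
      exact zero_ne_one this
    have h3 : ((β y : ℂˣ) : ℂ) ^ finrank ℂ W = 1 := mul_right_cancel₀ hne (by rw [one_mul]; exact h1)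
    apply Units.ext
    simpa using h3
  have hCL : C ≤ L := by rw [hL]; exact le_sup_right
  have hNL : N ≤ L := by rw [hL]; exact le_sup_left
  -- regular elements of `C`
  have hβreg : ∀ c ∈ C, ¬ p ∣ orderOf c → β c = 1 := by
    intro c hc hcp
    have h1 : orderOf c ∣ n := by
      have h2 : orderOf c ∣ p ^ b * n := hcard ▸ orderOf_dvd_natCard c
      exact (Nat.Coprime.dvd_of_dvd_mul_left
        (Nat.Coprime.pow_right b ((Nat.Prime.coprime_iff_not_dvd hp).2 hcp).symm) h2)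
    have h3 : c ^ k = c := by
      have h4 : k ≡ 1 [MOD orderOf c] := hkn.of_dvd h1
      have h5 := (pow_eq_pow_iff_modEq (x := c)).2 h4
      simpa using h5
    have h6 : σ.character c = R₁.character c := by
      rw [hσc]
      show R₁.character (c ^ k) = _
      rw [h3]
    have h7 : σ.character c = (β c : ℂ) * R₁.character c := by
      show LinearMap.trace ℂ W (σ c) = _
      rw [hβ c, map_smul, smul_eq_mul]
      rfl
    rw [h7] at h6
    apply Units.ext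
    exact mul_right_cancel₀ (hnz c hc hcp) (by rw [h6, Units.val_one, one_mul])
  have hβC : ∀ c ∈ C, β c = 1 := by
    intro c hc
    have h1 : c ^ p ^ b ∈ C := C.pow_mem hc _
    have h2 : ¬ p ∣ orderOf (c ^ p ^ b) := by
      intro h
      have h3 : (c ^ p ^ b) ^ n = 1 := by
        rw [← pow_mul, ← hcard, pow_card_eq_one']
      exact hn (h.trans (orderOf_dvd_of_pow_eq_one h3))
    have h4 := hβreg _ h1 h2
    rw [map_pow] at h4
    exact cov_one_of_pow hp hdp (hβd c) h4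
  have hβL : ∀ y ∈ L, β y = 1 := by
    intro y hy
    rw [hL, ← SetLike.mem_coe, Subgroup.normal_mul, Set.mem_mul] at hy
    obtain ⟨a', ha', c, hc, rfl⟩ := hy
    rw [map_mul, hβC c hc, mul_one]
    exact hβN ⟨a', ha'⟩
  have hβG : ∀ y, β y = 1 := by
    intro y
    have h1 : y ^ p ^ a ∈ L := hidx ▸ Subgroup.pow_index_mem L y
    have h2 := hβL _ h1
    rw [map_pow] at h2
    exact cov_one_of_pow hp hdp (hβd y) h2
  have h8 : σ = R₁ := by
    refine MonoidHom.ext fun y => ?_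
    rw [hβ y, hβG y]
    simp
  have h9 := congrFun hσc g
  rw [h8] at h9
  exact h9.symm

end Main

end Cfsg.Agent.H23
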