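import Cfsg.Agent.Lib.H23.CovGam
import Cfsg.Agent.Lib.H23.TwoMax
import Cfsg.Agent.Lib.H06.CharGalois
import Cfsg.Agent.Lib.H06.CharExtend

/-!
# `p`-rationality tools (helper23)
-/

set_option autoImplicit false
set_option linter.unusedSectionVars false
set_option linter.style.haveILetI false
set_option linter.unusedVariables false

namespace Cfsg.Agent.H23

open Cfsg Cfsg.Agent.H22 Cfsg.Agent Cfsg.Agent.H04.Cliff Cfsg.Agent.H21 Module

theorem cov_pow_congr {u : ℂ} {P k a : ℕ} (hu : u ^ P = 1) (h : k ≡ a [MOD P]) : u ^ k = u ^ a := by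
  rw [← Nat.mod_add_div k P, ← Nat.mod_add_div a P, show k % P = a % P from h]
  simp [pow_add, pow_mul, hu]

theorem cov_fix_adjoin (τ : ℂ →+* ℂ) {ζ : ℂ} (h : τ ζ = ζ) {z : ℂ}
    (hz : z ∈ IntermediateField.adjoin ℚ ({ζ} : Set ℂ)) : τ z = z := by
  refine IntermediateField.adjoin_induction ℚ (p := fun z _ => τ z = z)
    ?_ ?_ ?_ ?_ ?_ hz
  · intro x hx
    rw [Set.mem_singleton_iff.1 hx, h]
  · intro x
    simp
  · intro x y _ _ hx hy
    rw [map_add, hx, hy]
  · intro x _ hx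
    rw [map_inv₀, hx]
  · intro x y _ _ hx hy
    rw [map_mul, hx, hy]

/-- A `p`-rational-like character is fixed by power maps congruent to `1`. -/
theorem cov_rat_fix {T : Type*} [Group T] [Finite T] {m k : ℕ} {χ : T → ℂ} (hχ : IsCharacter T χ)
    (hm : m ≠ 0)
    (hrat : ∀ t, χ t ∈ IntermediateField.adjoin ℚ
      ({Complex.exp (2 * Real.pi * Complex.I / m)} : Set ℂ))
    (hk1 : k ≡ 1 [MOD m]) (hk2 : k.Coprime (Nat.card T * m)) (t : T) : χ (t ^ k) = χ t := by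
  have hn : Nat.card T * m ≠ 0 := Nat.mul_ne_zero Nat.card_pos.ne' hm
  obtain ⟨τ, hτ⟩ := Cfsg.Agent.H06.exists_galois_ringHom hn hk2
  have h1 : ∀ μ : ℂ, μ ^ Nat.card T = 1 → τ μ = μ ^ k := fun μ hμ => hτ μ (by
    rw [pow_mul, hμ, one_pow])
  have h2 := twoMax_tau_char h1 hχ t
  have hζ : (Complex.exp (2 * Real.pi * Complex.I / m)) ^ m = 1 :=
    (Complex.isPrimitiveRoot_exp m hm).pow_eq_one
  have h3 : τ (Complex.exp (2 * Real.pi * Complex.I / m)) =
      Complex.exp (2 * Real.pi * Complex.I / m) := by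
    rw [hτ _ (by rw [mul_comm (Nat.card T) m, pow_mul, hζ, one_pow]), cov_pow_congr hζ hk1, pow_one]
  rw [← h2]
  exact cov_fix_adjoin τ h3 (hrat t)

/-- Determinants of representations related by a power map. -/
theorem cov_det_pow {T : Type*} [Group T] [Finite T] {V₁ V₂ : Type*} [AddCommGroup V₁] [Module ℂ V₁]
    [FiniteDimensional ℂ V₁] [AddCommGroup V₂] [Module ℂ V₂] [FiniteDimensional ℂ V₂]
    (σ₁ : Representation ℂ T V₁) (σ₂ : Representation ℂ T V₂) (k : ℕ)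
    (h : ∀ y, σ₂.character y = σ₁.character (y ^ k)) (g : T) :
    LinearMap.det (σ₂ g) = LinearMap.det (σ₁ g) ^ k := by
  classical
  let C : Subgroup T := Subgroup.zpowers g
  have hcomm : ∀ y z : C, Commute (y : T) (z : T) := by
    rintro ⟨y, a, rfl⟩ ⟨z, b, rfl⟩
    exact (Commute.refl g).zpow_zpow _ _
  let r₂ : Representation ℂ C V₂ := σ₂.comp C.subtype
  let r₁ : Representation ℂ C V₁ :=
    { toFun := fun y => σ₁ ((y : T) ^ k)
      map_one' := by simp
      map_mul' := fun y z => by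
        rw [← map_mul]
        congr 1
        rw [Subgroup.coe_mul, (hcomm y z).mul_pow] }
  have hch : Representation.character r₂ = Representation.character r₁ := by
    funext y
    exact h y
  have := Cfsg.Agent.H06.det_eq_of_character_eq r₂ r₁ hch ⟨g, Subgroup.mem_zpowers g⟩
  show LinearMap.det (r₂ ⟨g, Subgroup.mem_zpowers g⟩) = _
  rw [this]
  show LinearMap.det (σ₁ (g ^ k)) = _
  rw [map_pow, map_pow]

/-- The determinant of a `p`-rational character is trivial on `p`-elements (`p` odd). -/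
theorem cov_det_pelement {T : Type*} [Group T] [Finite T] {p : ℕ} (hp : p.Prime) (hodd : p ≠ 2)
    {V : Type*} [AddCommGroup V] [Module ℂ V] [FiniteDimensional ℂ V] (ρ : Representation ℂ T V)
    {m : ℕ} (hm : ¬ p ∣ m)
    (hrat : ∀ t, ρ.character t ∈ IntermediateField.adjoin ℚ
      ({Complex.exp (2 * Real.pi * Complex.I / m)} : Set ℂ))
    (x : T) (hx : ∃ b : ℕ, x ^ p ^ b = 1) : LinearMap.det (ρ x) = 1 := by
  classical
  obtain ⟨b, hb⟩ := hx
  have hm0 : m ≠ 0 := fun h0 => hm (h0 ▸ dvd_zero p)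
  obtain ⟨c, n, hn, hcard⟩ : ∃ c n : ℕ, ¬ p ∣ n ∧ Nat.card T = p ^ c * n :=
    let h := Nat.exists_eq_pow_mul_and_not_dvd (Nat.card_pos (α := T)).ne' p hp.ne_one
    ⟨h.choose, h.choose_spec.choose, h.choose_spec.choose_spec.1, h.choose_spec.choose_spec.2⟩
  have hw : ¬ p ∣ n * m := fun h => (hp.dvd_mul.1 h).elim hn hm
  have hcop : Nat.Coprime (n * m) p := ((Nat.Prime.coprime_iff_not_dvd hp).2 hw).symm
  let k := Nat.chineseRemainder hcop 1 2
  have hk1 : (k : ℕ) ≡ 1 [MOD n * m] := k.2.1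
  have hk2 : (k : ℕ) ≡ 2 [MOD p] := k.2.2
  have hp2 : ¬ p ∣ 2 := fun h => hodd ((Nat.prime_dvd_prime_iff_eq hp Nat.prime_two).1 h)
  have hkp : ¬ p ∣ (k : ℕ) := fun h => hp2 ((Nat.ModEq.dvd_iff hk2 dvd_rfl).1 h)
  have hkw : Nat.Coprime (k : ℕ) (n * m) := by
    have := hk1.gcd_eq
    rw [Nat.gcd_comm, Nat.gcd_one_left] at this
    rwa [Nat.Coprime, Nat.gcd_comm]
  have hkpc : Nat.Coprime (k : ℕ) p := ((Nat.Prime.coprime_iff_not_dvd hp).2 hkp).symm
  have hcop2 : Nat.Coprime (k : ℕ) (Nat.card T * m) := by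
    rw [hcard, mul_assoc]
    exact Nat.Coprime.mul_right (Nat.Coprime.pow_right _ hkpc) hkw
  have hkm : (k : ℕ) ≡ 1 [MOD m] := hk1.of_dvd (Dvd.intro_left n rfl)
  have hfix : ∀ t : T, ρ.character (t ^ (k : ℕ)) = ρ.character t :=
    cov_rat_fix (isCharacter_of_rep ρ) hm0 hrat hkm hcop2
  have hdet := cov_det_pow ρ ρ k (fun y => (hfix y).symm) x
  set ε := LinearMap.det (ρ x) with hε
  have h1 : ε ^ p ^ b = 1 := by
    rw [hε, ← map_pow, ← map_pow, hb, map_one, map_one]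
  have hne : ε ≠ 0 := fun h0 => by
    rw [h0, zero_pow (pow_ne_zero _ hp.ne_zero)] at h1
    exact zero_ne_one h1
  have hkpos : 0 < (k : ℕ) := Nat.pos_of_ne_zero fun h0 => hkp (by rw [h0]; exact dvd_zero p)
  have h2 : ε ^ ((k : ℕ) - 1) = 1 := by
    have h3 : ε ^ (k : ℕ) = ε ^ ((k : ℕ) - 1) * ε := by
      rw [← pow_succ, Nat.sub_add_cancel hkpos]
    rw [h3] at hdet
    exact mul_right_cancel₀ hne (by rw [one_mul]; exact hdet.symm)
  have hk3 : ¬ p ∣ (k : ℕ) - 1 := by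
    intro h
    have h4 : (k : ℕ) ≡ 1 [MOD p] := by
      have := (Nat.modEq_iff_dvd' hkpos).2 h
      exact this.symm
    have h5 : 1 ≡ 2 [MOD p] := h4.symm.trans hk2
    have h6 := (Nat.modEq_iff_dvd' (by norm_num : 1 ≤ 2)).1 h5
    norm_num at h6
    exact hp.one_lt.ne' h6
  have hcop3 : Nat.Coprime (p ^ b) ((k : ℕ) - 1) :=
    Nat.Coprime.pow_left b ((Nat.Prime.coprime_iff_not_dvd hp).2 hk3)
  have h7 := pow_gcd_eq_one.2 ⟨h1, h2⟩
  rw [hcop3] at h7
  simpa using h7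

/-- Sum of powers over a full period is rational. -/
theorem cov_geom_rat {u : ℂ} {T : ℕ} (hu : u ^ T = 1) :
    ∃ q : ℚ, ∑ a ∈ Finset.range T, u ^ a = (q : ℂ) := by
  by_cases h : u = 1
  · refine ⟨T, ?_⟩
    simp [h]
  · refine ⟨0, ?_⟩
    have h1 := geom_sum_mul u T
    rw [hu, sub_self] at h1
    simpa using (mul_eq_zero.1 h1).resolve_right (sub_ne_zero.2 h)

/-- The Ramanujan-type sum over residues prime to `p` is rational. -/
theorem cov_ram {u : ℂ} {p b : ℕ} (hp : p.Prime) (hu : u ^ p ^ (b + 1) = 1) :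
    ∃ q : ℚ, ∑ a ∈ (Finset.range (p ^ (b + 1))).filter (fun a => ¬ p ∣ a), u ^ a = (q : ℂ) := by
  classical
  obtain ⟨q₁, hq₁⟩ := cov_geom_rat hu
  have hu2 : (u ^ p) ^ p ^ b = 1 := by
    rw [← pow_mul, ← pow_succ']
    exact hu
  obtain ⟨q₂, hq₂⟩ := cov_geom_rat hu2
  have h1 := Finset.sum_filter_add_sum_filter_not (Finset.range (p ^ (b + 1))) (fun a => p ∣ a)
    (fun a => u ^ a)
  have h2 : (Finset.range (p ^ (b + 1))).filter (fun a => p ∣ a) =
      (Finset.range (p ^ b)).image (fun j => p * j) := by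
    ext a
    simp only [Finset.mem_filter, Finset.mem_range, Finset.mem_image]
    constructor
    · rintro ⟨h3, j, rfl⟩
      refine ⟨j, ?_, rfl⟩
      rw [pow_succ'] at h3
      exact Nat.lt_of_mul_lt_mul_left h3
    · rintro ⟨j, h3, rfl⟩
      refine ⟨?_, dvd_mul_right _ _⟩
      rw [pow_succ']
      exact Nat.mul_lt_mul_of_pos_left h3 hp.pos
  have h3 : ∑ a ∈ (Finset.range (p ^ (b + 1))).filter (fun a => p ∣ a), u ^ a = (q₂ : ℂ) := by
    rw [h2, Finset.sum_image (fun x _ y _ hxy => Nat.eq_of_mul_eq_mul_left hp.pos hxy), ← hq₂]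
    refine Finset.sum_congr rfl fun j _ => ?_
    rw [pow_mul]
  rw [hq₁, h3] at h1
  refine ⟨q₁ - q₂, ?_⟩
  push_cast
  rw [← h1]
  ring

/-- Rationality of values from invariance under Galois-type power maps. -/
theorem cov_values {T : Type*} [Group T] [Finite T] {V : Type*} [AddCommGroup V] [Module ℂ V]
    [FiniteDimensional ℂ V] (σ : Representation ℂ T V) {p n₀ b : ℕ} (hp : p.Prime) (hn₀ : ¬ p ∣ n₀)
    (hcard : Nat.card T ∣ p ^ b * n₀)
    (hfix : ∀ k : ℕ, k ≡ 1 [MOD n₀] → k.Coprime p → ∀ g : T, σ.character (g ^ k) = σ.character g)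
    (g : T) : σ.character g ∈ IntermediateField.adjoin ℚ
      ({Complex.exp (2 * Real.pi * Complex.I / n₀)} : Set ℂ) := by
  classical
  have hn0 : n₀ ≠ 0 := fun h0 => hn₀ (h0 ▸ dvd_zero p)
  obtain ⟨ι, _, B, μ, h1, h2, h3, -⟩ := H21.exists_eigenbasis σ g
  set P := p ^ (b + 1) with hP
  have hcop : Nat.Coprime P n₀ := Nat.Coprime.pow_left _ ((Nat.Prime.coprime_iff_not_dvd hp).2 hn₀)
  have hμ : ∀ i, μ i ^ (P * n₀) = 1 := by
    intro i
    have h4 : orderOf g ∣ P * n₀ := by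
      refine (orderOf_dvd_natCard g).trans (hcard.trans (mul_dvd_mul_right ?_ _))
      exact pow_dvd_pow p (Nat.le_succ b)
    obtain ⟨c, hc⟩ := h4
    rw [hc, pow_mul, h2, one_pow]
  let A := Nat.chineseRemainder hcop 1 0
  let A' := Nat.chineseRemainder hcop 0 1
  have hA1 : (A : ℕ) ≡ 1 [MOD P] := A.2.1
  have hA2 : (A : ℕ) ≡ 0 [MOD n₀] := A.2.2
  have hB1 : (A' : ℕ) ≡ 0 [MOD P] := A'.2.1
  have hB2 : (A' : ℕ) ≡ 1 [MOD n₀] := A'.2.2
  let u : ι → ℂ := fun i => μ i ^ (A : ℕ)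
  let v : ι → ℂ := fun i => μ i ^ (A' : ℕ)
  have hu : ∀ i, u i ^ P = 1 := by
    intro i
    obtain ⟨c, hc⟩ := (Nat.modEq_zero_iff_dvd).1 hA2
    show (μ i ^ (A : ℕ)) ^ P = 1
    rw [hc, ← pow_mul, show n₀ * c * P = (P * n₀) * c by ring, pow_mul, hμ, one_pow]
  have hv : ∀ i, v i ^ n₀ = 1 := by
    intro i
    obtain ⟨c, hc⟩ := (Nat.modEq_zero_iff_dvd).1 hB1
    show (μ i ^ (A' : ℕ)) ^ n₀ = 1
    rw [hc, ← pow_mul, show P * c * n₀ = (P * n₀) * c by ring, pow_mul, hμ, one_pow]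
  have huv : ∀ i, μ i = u i * v i := by
    intro i
    show μ i = μ i ^ (A : ℕ) * μ i ^ (A' : ℕ)
    rw [← pow_add]
    have h5 : (A : ℕ) + A' ≡ 1 [MOD P * n₀] := by
      rw [← Nat.modEq_and_modEq_iff_modEq_mul hcop]
      refine ⟨?_, ?_⟩
      · simpa using hA1.add hB1
      · simpa using hA2.add hB2
    have := cov_pow_congr (hμ i) h5
    rw [this, pow_one]
  set S := (Finset.range P).filter (fun a => ¬ p ∣ a) with hS
  have hkey : ∀ a ∈ S, σ.character g = ∑ i, u i ^ a * v i := by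
    intro a ha
    have ha' := Finset.mem_filter.1 ha
    let k := Nat.chineseRemainder hcop a 1
    have hk1 : (k : ℕ) ≡ a [MOD P] := k.2.1
    have hk2 : (k : ℕ) ≡ 1 [MOD n₀] := k.2.2
    have hkp : (k : ℕ).Coprime p := by
      refine ((Nat.Prime.coprime_iff_not_dvd hp).2 fun h => ha'.2 ?_).symm
      have h6 : (k : ℕ) ≡ a [MOD p] := hk1.of_dvd (dvd_pow_self p (Nat.succ_ne_zero b))
      exact (Nat.ModEq.dvd_iff h6 dvd_rfl).1 h
    have h7 := hfix k hk2 hkp g
    have h8 : σ.character (g ^ (k : ℕ)) = ∑ i, μ i ^ (k : ℕ) := by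
      refine trace_of_eigenbasis _ B _ fun i => ?_
      rw [map_pow]
      have h9 : ∀ j : ℕ, (σ g ^ j) (B i) = μ i ^ j • B i := by
        intro j
        induction j with
        | zero => simp
        | succ j ih =>
          rw [pow_succ, Module.End.mul_apply, h1, map_smul, ih, smul_smul, pow_succ, mul_comm]
      exact h9 _
    rw [← h7, h8]
    refine Finset.sum_congr rfl fun i _ => ?_
    rw [huv i, mul_pow, cov_pow_congr (hu i) hk1, cov_pow_congr (hv i) hk2, pow_one]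
  have hSpos : (S.card : ℂ) ≠ 0 := by
    have h10 : 1 ∈ S := by
      refine Finset.mem_filter.2 ⟨Finset.mem_range.2 ?_, fun h => hp.one_lt.ne' (Nat.dvd_one.1 h)⟩
      calc 1 < p := hp.one_lt
        _ ≤ P := Nat.le_self_pow (Nat.succ_ne_zero b) p
    exact_mod_cast (Finset.card_pos.2 ⟨1, h10⟩).ne'
  have hsum : (S.card : ℂ) * σ.character g = ∑ i, v i * ∑ a ∈ S, u i ^ a := by
    have h11 : (S.card : ℂ) * σ.character g = ∑ a ∈ S, σ.character g := by simp
    rw [h11, Finset.sum_congr rfl hkey, Finset.sum_comm]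
    refine Finset.sum_congr rfl fun i _ => ?_
    rw [Finset.mul_sum]
    refine Finset.sum_congr rfl fun a _ => ?_
    ring
  set F := IntermediateField.adjoin ℚ ({Complex.exp (2 * Real.pi * Complex.I / n₀)} : Set ℂ) with hF
  have hζF : Complex.exp (2 * Real.pi * Complex.I / n₀) ∈ F :=
    IntermediateField.mem_adjoin_simple_self ℚ _
  have hvF : ∀ i, v i ∈ F := by
    intro i
    haveI : NeZero n₀ := ⟨hn0⟩
    obtain ⟨j, -, hj⟩ := (Complex.isPrimitiveRoot_exp n₀ hn0).eq_pow_of_pow_eq_one (hv i)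
    rw [← hj]
    exact F.pow_mem hζF j
  have hrF : ∀ i, (∑ a ∈ S, u i ^ a) ∈ F := by
    intro i
    obtain ⟨q, hq⟩ := cov_ram hp (hu i)
    rw [hq]
    exact F.algebraMap_mem q
  have hmem : (S.card : ℂ) * σ.character g ∈ F := by
    rw [hsum]
    exact F.sum_mem fun i _ => F.mul_mem (hvF i) (hrF i)
  have h12 : σ.character g = ((S.card : ℚ) : ℂ)⁻¹ * ((S.card : ℂ) * σ.character g) := by
    push_cast
    field_simp
  rw [h12]
  refine F.mul_mem (F.inv_mem ?_) hmem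
  exact F.algebraMap_mem (S.card : ℚ)

end Cfsg.Agent.H23
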