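import Cfsg.Agent.Lib.H23.GalAct
import Cfsg.Agent.Lib.H21.MinMax
import Cfsg.Agent.Lib.H22.Blocks

set_option autoImplicit false
set_option linter.style.haveILetI false
set_option linter.unusedSectionVars false

namespace Cfsg.Agent.H23

open Cfsg Cfsg.Agent Cfsg.Agent.H21 Cfsg.Agent.H06
open scoped ComplexConjugate

section Arith

/-- Order arithmetic for the map cubing `2`-elements and fixing odd elements. -/
theorem gb_pow_eq {G : Type*} [Group G] [Finite G] {k : ℕ}
    (hk₁ : ∀ g : G, (∃ j : ℕ, orderOf g = 2 ^ j) → g ^ k = g ^ 3)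
    (hk₂ : ∀ g : G, Odd (orderOf g) → g ^ k = g) (g : G) :
    g ^ (k ^ (2 ^ Nat.card G)) = g := by
  have hm0 : orderOf g ≠ 0 := (orderOf_pos g).ne'
  obtain ⟨a, b, hb, hm⟩ := Nat.exists_eq_two_pow_mul_odd hm0
  have hb0 : b ≠ 0 := by
    rintro rfl
    exact absurd hb (by decide)
  have hu : orderOf (g ^ b) = 2 ^ a := by
    rw [orderOf_pow_of_dvd hb0 (by rw [hm]; exact Dvd.intro_left _ rfl), hm,
      Nat.mul_div_cancel _ (Nat.pos_of_ne_zero hb0)]
  have h2a : (2:ℕ) ^ a ≠ 0 := by positivity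
  have hv : orderOf (g ^ (2 ^ a)) = b := by
    rw [orderOf_pow_of_dvd h2a (by rw [hm]; exact Dvd.intro _ rfl), hm,
      Nat.mul_div_cancel_left _ (Nat.pos_of_ne_zero h2a)]
  have h3 : k ≡ 3 [MOD 2 ^ a] := by
    have := hk₁ (g ^ b) ⟨a, hu⟩
    rw [pow_eq_pow_iff_modEq, hu] at this
    exact this
  have h1 : k ≡ 1 [MOD b] := by
    have := hk₂ (g ^ (2 ^ a)) (by rw [hv]; exact hb)
    have h' : (g ^ 2 ^ a) ^ k = (g ^ 2 ^ a) ^ 1 := by rw [pow_one]; exact this
    rw [pow_eq_pow_iff_modEq, hv] at h'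
    exact h'
  have hale : a ≤ Nat.card G := by
    have h4 : 2 ^ a ∣ Nat.card G := by
      refine Dvd.dvd.trans ?_ (orderOf_dvd_natCard g)
      rw [hm]; exact Dvd.intro _ rfl
    have h5 : 2 ^ a ≤ Nat.card G := Nat.le_of_dvd Nat.card_pos h4
    exact le_trans (Nat.lt_two_pow_self).le h5
  have h6 : k ^ (2 ^ Nat.card G) ≡ 1 [MOD 2 ^ a] := by
    refine (h3.pow _).trans ?_
    rcases Nat.eq_zero_or_pos a with rfl | ha
    · simp [Nat.ModEq, Nat.mod_one]
    · have htot : Nat.totient (2 ^ a) = 2 ^ (a - 1) := by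
        rw [Nat.totient_prime_pow Nat.prime_two ha]; simp
      have hc : Nat.Coprime 3 (2 ^ a) := Nat.Coprime.pow_right _ (by decide)
      have h7 := Nat.ModEq.pow_totient hc
      rw [htot] at h7
      have h8 : 2 ^ Nat.card G = 2 ^ (a - 1) * 2 ^ (Nat.card G - (a - 1)) := by
        rw [← pow_add]; congr 1; omega
      rw [h8, pow_mul]
      simpa using h7.pow (2 ^ (Nat.card G - (a - 1)))
  have h9 : k ^ (2 ^ Nat.card G) ≡ 1 [MOD b] := by
    simpa using h1.pow (2 ^ Nat.card G)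
  have hcop : Nat.Coprime (2 ^ a) b := Nat.Coprime.pow_left _ (Nat.coprime_two_left.mpr hb)
  have h10 : k ^ (2 ^ Nat.card G) ≡ 1 [MOD orderOf g] := by
    rw [hm]
    exact (Nat.modEq_and_modEq_iff_modEq_mul hcop).mp ⟨h6, h9⟩
  have h11 : g ^ (k ^ (2 ^ Nat.card G)) = g ^ 1 := by
    rw [pow_eq_pow_iff_modEq]
    exact h10
  rwa [pow_one] at h11

theorem gb_coprime {G : Type*} [Group G] [Finite G] {k : ℕ}
    (h : ∀ g : G, g ^ (k ^ (2 ^ Nat.card G)) = g) : k.Coprime (Nat.card G) := by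
  apply Nat.coprime_of_dvd
  intro p hp hpk hpG
  haveI : Fact p.Prime := ⟨hp⟩
  obtain ⟨x, hx⟩ := exists_prime_orderOf_dvd_card' p hpG
  have h1 := h x
  have h2 : p ∣ k ^ (2 ^ Nat.card G) := Dvd.dvd.trans hpk (dvd_pow_self _ (by positivity))
  obtain ⟨c, hc⟩ := h2
  rw [hc, pow_mul, ← hx, pow_orderOf_eq_one, one_pow] at h1
  rw [← h1, orderOf_one] at hx
  exact hp.one_lt.ne hx

end Arith

section Main
universe u
variable {G : Type u} [Group G] [Fintype G] [Fintype (IrrCharacter G)]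
variable {M : Ideal AlgInt}

/-- The sum of the squares of the degrees in a block is divisible by anything
prime-ish: even when `2` divides the group order. -/
theorem gb_sum_sq_even (hM : IsPModular 2 M) (hev : Even (Nat.card G)) (B : Set (IrrCharacter G))
    (hB : IsPBlock M B) [DecidablePred (· ∈ B)] :
    Even (∑ χ ∈ Finset.univ.filter (· ∈ B), (charDegree χ.1) ^ 2) := by
  classical
  haveI : M.IsPrime := hM.2.1.isPrime
  set n := ∑ χ ∈ Finset.univ.filter (· ∈ B), (charDegree χ.1) ^ 2 with hn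
  have h1 := H22.blockCoeff_mlr (M := M) hB (1 : G)
  rw [H22.blockCoeff_eq_ofOm] at h1
  have hofOm : H22.ofOm (H22.eB B) (1 : G) = (Nat.card G : ℂ)⁻¹ * (n : ℂ) := by
    unfold H22.ofOm
    congr 1
    rw [hn]
    push_cast
    rw [Finset.sum_filter]
    refine Finset.sum_congr rfl fun χ _ => ?_
    have hd : χ.1 1 = (charDegree χ.1 : ℂ) := one_eq_charDegree (isCharacter_of_irr χ.2)
    by_cases hχ : χ ∈ B
    · rw [H22.eB_apply_mem hχ, if_pos hχ, hd, Complex.conj_natCast, one_mul, sq]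
    · rw [H22.eB_apply_not_mem hχ, if_neg hχ, zero_mul]
  rw [hofOm] at h1
  have hGne : (Nat.card G : ℂ) ≠ 0 := by exact_mod_cast (Nat.card_pos (α := G)).ne'
  have h2 : (n : ℂ) = (Nat.card G : ℂ) * ((Nat.card G : ℂ)⁻¹ * (n : ℂ)) := by
    field_simp
  have h3 : MemLocalIdeal M ((Nat.card G : AlgInt) : ℂ) := by
    apply H22.mli_of_mem
    have : ((2:ℕ) : AlgInt) ∣ (Nat.card G : AlgInt) := Nat.cast_dvd_cast hev.two_dvd
    have h4 : ((2:ℕ) : AlgInt) ∈ M := hM.2.2
    exact Ideal.mem_of_dvd _ this h4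
  have h5 : MemLocalIdeal M (((n : ℕ) : AlgInt) : ℂ) := by
    have h6 : (((n : ℕ) : AlgInt) : ℂ) = (n : ℂ) := by push_cast; rfl
    have h7 : (((Nat.card G : ℕ) : AlgInt) : ℂ) = (Nat.card G : ℂ) := by push_cast; rfl
    rw [h6, h2, ← h7]
    exact H22.mli_mul_right h3 h1
  have h8 := H22.mli_algInt_iff.mp h5
  by_contra hodd
  rw [Nat.not_even_iff_odd] at hodd
  obtain ⟨c, hc⟩ := hodd
  apply hM.2.1.ne_top
  rw [Ideal.eq_top_iff_one]
  have h9 : (1 : AlgInt) = (n : AlgInt) - (2 : ℕ) * (c : AlgInt) := by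
    rw [hc]; push_cast; ring
  rw [h9]
  exact M.sub_mem h8 (M.mul_mem_right _ hM.2.2)

/-- The parity statement for the action cubing the `2`-elements. -/
theorem gb_main (hM : IsPModular 2 M) (hev : Even (Nat.card G)) (k : ℕ)
    (hk₁ : ∀ g : G, (∃ j : ℕ, orderOf g = 2 ^ j) → g ^ k = g ^ 3)
    (hk₂ : ∀ g : G, Odd (orderOf g) → g ^ k = g) :
    Even (Nat.card {χ : IrrCharacter G // χ ∈ principalBlock M G ∧ Odd (charDegree (χ : G → ℂ)) ∧
      ∀ g : G, (χ : G → ℂ) (g ^ k) = (χ : G → ℂ) g}) := by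
  classical
  haveI : Fact (Nat.Prime 2) := ⟨Nat.prime_two⟩
  haveI : M.IsPrime := hM.2.1.isPrime
  have hK := gb_pow_eq hk₁ hk₂
  have hcop : k.Coprime (Nat.card G) := gb_coprime hK
  set B := principalBlock M G with hB
  have hBb : IsPBlock M B := H22.principalBlock_isBlock
  have hdeg : ∀ χ : IrrCharacter G, charDegree (galIrr k hcop χ).1 = charDegree χ.1 := by
    intro χ
    have h1 := one_eq_charDegree (isCharacter_of_irr (galIrr k hcop χ).2)
    have h2 := one_eq_charDegree (isCharacter_of_irr χ.2)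
    rw [galIrr_apply, one_pow, h2] at h1
    exact_mod_cast h1.symm
  have hblock : ∀ χ : IrrCharacter G, χ ∈ B → galIrr k hcop χ ∈ B := by
    intro χ hχ
    have h1 : SameBlock M χ.1 (galIrr k hcop χ).1 := by
      apply sameBlock_of_regular hM
      intro x hx
      have hxo : Odd (orderOf x) := Nat.odd_iff.mpr (by omega)
      have hxk : x ^ k = x := hk₂ x hxo
      have : H22.cc x χ = H22.cc x (galIrr k hcop χ) := by
        unfold H22.cc centralChar
        rw [galIrr_apply, galIrr_apply, hxk, one_pow]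
      rw [this, sub_self]
      exact H22.mli_zero
    exact H22.sameBlock_trans hχ h1
  let S := {χ : IrrCharacter G // χ ∈ B ∧ Odd (charDegree χ.1)}
  let f : Function.End S := fun χ => ⟨galIrr k hcop χ.1, hblock _ χ.2.1, by
    rw [hdeg]; exact χ.2.2⟩
  have hfit : ∀ (m : ℕ) (μ : S), ((f ^ m) μ).1 = (galIrr k hcop)^[m] μ.1 := by
    intro m μ
    induction m with
    | zero => rfl
    | succ m ih =>
      rw [pow_succ', Function.iterate_succ_apply']
      show galIrr k hcop ((f ^ m) μ).1 = _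
      rw [ih]
  have hf : f ^ 2 ^ (Nat.card G) = 1 := by
    funext μ
    apply Subtype.ext
    rw [hfit]
    apply Subtype.ext
    funext n
    rw [galIrr_iterate]
    show μ.1.1 (n ^ k ^ 2 ^ Nat.card G) = μ.1.1 n
    rw [hK n]
  have hmod := Equiv.Perm.card_fixedPoints_modEq hf
  have hS : Even (Fintype.card S) := by
    have h1 := gb_sum_sq_even hM hev B hBb
    have h2 : ((∑ χ ∈ Finset.univ.filter (· ∈ B), (charDegree χ.1) ^ 2 : ℕ) : ZMod 2) =
        ((Fintype.card S : ℕ) : ZMod 2) := by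
      rw [Fintype.card_subtype, Finset.card_filter]
      push_cast
      rw [Finset.sum_filter]
      refine Finset.sum_congr rfl fun χ _ => ?_
      by_cases hχ : χ ∈ B
      · simp only [hχ, true_and, if_true]
        by_cases hd : Odd (charDegree χ.1)
        · rw [if_pos hd]
          have h3 : ((charDegree χ.1 : ℕ) : ZMod 2) = 1 := ZMod.natCast_eq_one_iff_odd.mpr hd
          rw [h3]; simp
        · rw [if_neg hd]
          have h3 : ((charDegree χ.1 : ℕ) : ZMod 2) = 0 :=
            (ZMod.natCast_eq_zero_iff_even).mpr (Nat.not_odd_iff_even.mp hd)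
          rw [h3]; simp
      · simp [hχ]
    have h3 := h1.natCast_zmod_two
    rw [h2] at h3
    exact ZMod.natCast_eq_zero_iff_even.mp h3
  have hfix : Even (Fintype.card (Function.fixedPoints f)) := by
    rw [Nat.even_iff] at hS ⊢
    have : Fintype.card S % 2 = Fintype.card (Function.fixedPoints f) % 2 := hmod
    omega
  have e : {χ : IrrCharacter G // χ ∈ principalBlock M G ∧ Odd (charDegree (χ : G → ℂ)) ∧
      ∀ g : G, (χ : G → ℂ) (g ^ k) = (χ : G → ℂ) g} ≃ Function.fixedPoints f :=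
    { toFun := fun χ => ⟨⟨χ.1, χ.2.1, χ.2.2.1⟩, by
        show f _ = _
        apply Subtype.ext
        apply Subtype.ext
        funext g
        exact χ.2.2.2 g⟩
      invFun := fun χ => ⟨χ.1.1, χ.1.2.1, χ.1.2.2, fun g => by
        have h3 : f χ.1 = χ.1 := χ.2
        have h4 := congrArg (fun x : S => x.1.1 g) h3
        exact h4⟩
      left_inv := fun χ => rfl
      right_inv := fun χ => rfl }
  rw [Nat.card_congr e, Nat.card_eq_fintype_card]
  exact hfix

end Main

end Cfsg.Agent.H23
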