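import Cfsg.Agent.Lib.H23.GalDeg

/-!
# `p`-groups whose nonlinear irreducible characters of equal degree are Galois conjugate: the main theorem.
-/

set_option autoImplicit false
set_option linter.unusedSectionVars false
set_option linter.style.haveILetI false
set_option linter.unusedSimpArgs false

namespace Cfsg.Agent.H23

open Cfsg Cfsg.Agent.H21 Cfsg.Agent.H06 Cfsg.Agent.H22
open scoped ComplexConjugate commutatorElement

universe u

section

variable {P : Type u} [Group P] [Finite P] {p : ℕ} [hp : Fact p.Prime]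

theorem mem_of_pow_mem_coprime {X : Type*} [Group X] (A : Subgroup X) {x : X} {a b : ℕ} (ha : x ^ a ∈ A) (hb : x ^ b ∈ A)
    (h : Nat.Coprime a b) : x ∈ A := by
  have h1 := Nat.gcd_eq_gcd_ab a b
  rw [h] at h1
  have h2 : x = (x ^ a) ^ (Nat.gcdA a b) * (x ^ b) ^ (Nat.gcdB a b) := by
    rw [← zpow_natCast x a, ← zpow_natCast x b, ← zpow_mul, ← zpow_mul, ← zpow_add, ← h1]
    simp
  rw [h2]
  exact A.mul_mem (A.zpow_mem ha _) (A.zpow_mem hb _)

/-- The size of a conjugacy class inside a coset of a subgroup. -/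
theorem index_centralizer_le (N : Subgroup P) (c : P) (h : ∀ g : P, c⁻¹ * g * c * g⁻¹ ∈ N) :
    (Subgroup.centralizer ({c} : Set P)).index ≤ Nat.card N := by
  classical
  haveI := Fintype.ofFinite P
  haveI := Fintype.ofFinite (IrrCharacter P)
  rw [← card_isConj_eq_index]
  let f : {x : P // IsConj x c} → N := fun x => ⟨c⁻¹ * x.1, by
    obtain ⟨g, hg⟩ := isConj_iff.1 x.2
    have h1 : x.1 = g⁻¹ * c * g := by
      calc x.1 = g⁻¹ * (g * x.1 * g⁻¹) * g := by group
        _ = g⁻¹ * c * g := by rw [hg]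
    rw [h1]
    have := h g⁻¹
    simpa [mul_assoc] using this⟩
  apply Nat.card_le_card_of_injective f
  intro a b hab
  have h1 : c⁻¹ * a.1 = c⁻¹ * b.1 := congrArg Subtype.val hab
  exact Subtype.ext (mul_left_cancel h1)

theorem comm_helper {X : Type*} [Group X] (u v c d : X) (h1 : Commute c u) (h2 : Commute c v)
    (h3 : Commute d u) (h4 : Commute d v) (h5 : Commute c d) :
    (c * u) * (d * v) * (c * u)⁻¹ * (d * v)⁻¹ = u * v * u⁻¹ * v⁻¹ := by
  have e1 : (c * u) * (d * v) = (c * d) * (u * v) := by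
    calc (c * u) * (d * v) = c * (u * d) * v := by group
      _ = c * (d * u) * v := by rw [h3.symm.eq]
      _ = (c * d) * (u * v) := by group
  have e2 : (d * v) * (c * u) = (c * d) * (v * u) := by
    calc (d * v) * (c * u) = d * (v * c) * u := by group
      _ = d * (c * v) * u := by rw [h2.symm.eq]
      _ = (d * c) * (v * u) := by group
      _ = (c * d) * (v * u) := by rw [h5.symm.eq]
  have e3 : (c * u) * (d * v) * (c * u)⁻¹ * (d * v)⁻¹ = ((c * u) * (d * v)) * ((d * v) * (c * u))⁻¹ := by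
    group
  rw [e3, e1, e2]
  have hw : Commute (c * d) (u * v * u⁻¹ * v⁻¹) := by
    have hA : Commute (c * d) u := (h1.mul_left h3)
    have hB : Commute (c * d) v := (h2.mul_left h4)
    exact ((hA.mul_right hB).mul_right hA.inv_right).mul_right hB.inv_right
  calc (c * d) * (u * v) * ((c * d) * (v * u))⁻¹ = (c * d) * (u * v * u⁻¹ * v⁻¹) * (c * d)⁻¹ := by group
    _ = u * v * u⁻¹ * v⁻¹ := by rw [hw.eq]; group

/-- `P'` non-central of order `p²` is impossible. -/
theorem no_noncentral (hP : IsPGroup p P) (hG : GalDeg P) (hcard : Nat.card (commutator P) = p ^ 2)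
    (hnc : ¬ commutator P ≤ Subgroup.center P) : False := by
  have hne : commutator P ≠ ⊥ := by
    intro h
    rw [h, Subgroup.card_bot] at hcard
    exact (Nat.one_lt_pow two_ne_zero hp.out.one_lt).ne hcard
  have hMne := H09.normal_inf_center_ne_bot hP (commutator P) hne
  obtain ⟨M, hMdef⟩ : ∃ M, M = commutator P ⊓ Subgroup.center P := ⟨_, rfl⟩
  rw [← hMdef] at hMne
  haveI hMn : M.Normal := by
    rw [hMdef]
    infer_instance
  have hMle : M ≤ commutator P := hMdef ▸ inf_le_left
  have hMc : M ≤ Subgroup.center P := hMdef ▸ inf_le_right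
  have hMcard : Nat.card M = p := by
    have h1 : Nat.card M ∣ p ^ 2 := by
      rw [← hcard]
      exact Subgroup.card_dvd_of_le hMle
    obtain ⟨j, hj, hjo⟩ := (Nat.dvd_prime_pow hp.out).1 h1
    have : j = 0 ∨ j = 1 ∨ j = 2 := by omega
    rcases this with rfl | rfl | rfl
    · exact absurd (Subgroup.card_eq_one.1 (by simpa using hjo)) hMne
    · simpa using hjo
    · exfalso
      have h3 : M = commutator P := Subgroup.eq_of_le_of_card_ge hMle (by rw [hjo, hcard])
      exact hnc (h3 ▸ hMc)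
  have hQc : Nat.card (commutator (P ⧸ M)) = p := by
    have h1 := card_commutator_quot M hMle
    rw [hcard, hMcard, sq] at h1
    exact Nat.eq_of_mul_eq_mul_right hp.out.pos h1
  have hMp : ∀ m ∈ M, m ^ p = 1 := by
    intro m hm
    have h1 := orderOf_dvd_natCard (⟨m, hm⟩ : M)
    rw [Subgroup.orderOf_mk, hMcard] at h1
    exact orderOf_dvd_iff_pow_eq_one.1 h1
  have hQ : IsPGroup p (P ⧸ M) := hP.to_quotient M
  have hQG := hG.quot M
  have hcyc := center_cyclic_of_galDeg hQ hQG hQc
  have hQle := commutator_le_center_of_card hQ hQc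
  -- `a₀` and `x₀`
  obtain ⟨a₀, ha₀P, ha₀Z⟩ := Set.not_subset.1 hnc
  have ha₀M : a₀ ∉ M := fun h => ha₀Z (hMc h)
  have hex : ∃ x₀ : P, x₀ * a₀ ≠ a₀ * x₀ := by
    by_contra hcon
    push Not at hcon
    exact ha₀Z (Subgroup.mem_center_iff.2 hcon)
  obtain ⟨x₀, hx₀⟩ := hex
  -- every element of `P'` is a power of `a₀` times an element of `M`
  have hF1 : ∀ c ∈ commutator P, ∃ i : ℕ, ∃ m ∈ M, c = a₀ ^ i * m := by
    intro c hc
    have hmkc : QuotientGroup.mk' M c ∈ commutator (P ⧸ M) := by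
      rw [commutator_def, ← Subgroup.map_top_of_surjective _ (QuotientGroup.mk'_surjective M),
        ← Subgroup.map_commutator]
      exact Subgroup.mem_map_of_mem _ hc
    have hmka : QuotientGroup.mk' M a₀ ∈ commutator (P ⧸ M) := by
      rw [commutator_def, ← Subgroup.map_top_of_surjective _ (QuotientGroup.mk'_surjective M),
        ← Subgroup.map_commutator]
      exact Subgroup.mem_map_of_mem _ ha₀P
    have hne1 : QuotientGroup.mk' M a₀ ≠ 1 := fun h => ha₀M ((QuotientGroup.eq_one_iff _).1 h)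
    have ho : orderOf (QuotientGroup.mk' M a₀) = p := by
      have h1 := orderOf_dvd_natCard (⟨_, hmka⟩ : commutator (P ⧸ M))
      rw [Subgroup.orderOf_mk, hQc] at h1
      rcases (Nat.dvd_prime hp.out).1 h1 with h2 | h2
      · exact absurd (orderOf_eq_one_iff.1 h2) hne1
      · exact h2
    have hz : Subgroup.zpowers (QuotientGroup.mk' M a₀) = commutator (P ⧸ M) :=
      Subgroup.eq_of_le_of_card_ge (Subgroup.zpowers_le.2 hmka) (by rw [Nat.card_zpowers, ho, hQc])
    rw [← hz, ← mem_powers_iff_mem_zpowers] at hmkc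
    obtain ⟨i, hi⟩ := hmkc
    refine ⟨i, (a₀ ^ i)⁻¹ * c, ?_, by group⟩
    rw [← QuotientGroup.eq_one_iff]
    have hi' : QuotientGroup.mk' M (a₀ ^ i) = QuotientGroup.mk' M c := by
      rw [map_pow]
      exact hi
    have h3 : ((a₀ ^ i : P) : P ⧸ M) = (c : P ⧸ M) := hi'
    rw [QuotientGroup.mk_mul, QuotientGroup.mk_inv, h3, inv_mul_cancel]
  -- `T`
  obtain ⟨T, hTdef⟩ : ∃ T, T = Subgroup.centralizer ({a₀} : Set P) := ⟨_, rfl⟩
  have hmemT : ∀ t, t ∈ T ↔ t * a₀ = a₀ * t := by
    intro t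
    rw [hTdef, Subgroup.mem_centralizer_singleton_iff]
  have hx₀T : x₀ ∉ T := fun h => hx₀ ((hmemT x₀).1 h)
  -- `T` centralizes `P'`
  have hTP : ∀ t ∈ T, ∀ c ∈ commutator P, t * c = c * t := by
    intro t ht c hc
    obtain ⟨i, m, hm, rfl⟩ := hF1 c hc
    have h1 : Commute t a₀ := (hmemT t).1 ht
    have h2 : Commute t (a₀ ^ i) := h1.pow_right i
    have h3 : Commute t m := (Subgroup.mem_center_iff.1 (hMc hm) t)
    exact h2.mul_right h3
  -- `P' ≤ zM`
  have hF3 : ∀ c ∈ commutator P, c ∈ zM M := by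
    intro c hc
    show QuotientGroup.mk' M c ∈ Subgroup.center (P ⧸ M)
    apply hQle
    rw [commutator_def, ← Subgroup.map_top_of_surjective _ (QuotientGroup.mk'_surjective M),
      ← Subgroup.map_commutator]
    exact Subgroup.mem_map_of_mem _ hc
  -- `T` has index `p`
  have hTidx : T.index = p := by
    have h1 : T.index ≤ p := by
      rw [hTdef, ← hMcard]
      apply index_centralizer_le
      intro g
      have h2 := mem_zM.1 (hF3 a₀⁻¹ ((commutator P).inv_mem ha₀P)) g
      simpa using h2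
    obtain ⟨n, hn⟩ := IsPGroup.iff_card.1 hP
    have h3 : T.index ∣ p ^ n := hn ▸ Subgroup.index_dvd_card T
    obtain ⟨j, _, hj⟩ := (Nat.dvd_prime_pow hp.out).1 h3
    rcases j with _ | j
    · exfalso
      apply hx₀T
      have h4 : T = ⊤ := Subgroup.index_eq_one.1 (by simpa using hj)
      rw [h4]
      exact Subgroup.mem_top _
    · rcases j with _ | j
      · simpa using hj
      · exfalso
        rw [hj] at h1
        have h4 : p ^ 1 < p ^ (j + 1 + 1) := Nat.pow_lt_pow_right hp.out.one_lt (by omega)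
        rw [pow_one] at h4
        omega
  -- `T' ≤ M`
  have hPcomm : ∀ a b : commutator P, a * b = b * a :=
    (IsPGroup.isMulCommutative_of_card_eq_prime_sq hcard).is_comm.comm
  have hF5 : ∀ u ∈ T, ∀ v ∈ T, u * v * u⁻¹ * v⁻¹ ∈ M := by
    intro u hu v hv
    rw [hMdef]
    refine Subgroup.mem_inf.2 ⟨?_, ?_⟩
    · have := Subgroup.commutator_mem_commutator (Subgroup.mem_top u) (Subgroup.mem_top v)
      rwa [commutatorElement_def] at this
    · rw [Subgroup.mem_center_iff]
      intro x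
      have hcu : x * u * x⁻¹ * u⁻¹ ∈ commutator P := by
        have := Subgroup.commutator_mem_commutator (Subgroup.mem_top (x * u * x⁻¹ * u⁻¹ * u * x * u⁻¹ * x⁻¹)) (Subgroup.mem_top u)
        have h2 := Subgroup.commutator_mem_commutator (Subgroup.mem_top x) (Subgroup.mem_top u)
        rw [commutatorElement_def] at h2
        exact h2
      have hcv : x * v * x⁻¹ * v⁻¹ ∈ commutator P := by
        have h2 := Subgroup.commutator_mem_commutator (Subgroup.mem_top x) (Subgroup.mem_top v)
        rw [commutatorElement_def] at h2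
        exact h2
      obtain ⟨cu, hcud⟩ : ∃ c, c = x * u * x⁻¹ * u⁻¹ := ⟨_, rfl⟩
      obtain ⟨cv, hcvd⟩ : ∃ c, c = x * v * x⁻¹ * v⁻¹ := ⟨_, rfl⟩
      rw [← hcud] at hcu
      rw [← hcvd] at hcv
      have e1 : x * u * x⁻¹ = cu * u := by rw [hcud]; group
      have e2 : x * v * x⁻¹ = cv * v := by rw [hcvd]; group
      have h5 : Commute cu cv := by
        have := hPcomm ⟨cu, hcu⟩ ⟨cv, hcv⟩
        exact congrArg Subtype.val this
      have key := comm_helper u v cu cv (hTP u hu cu hcu).symm (hTP v hv cu hcu).symm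
        (hTP u hu cv hcv).symm (hTP v hv cv hcv).symm h5
      have e3 : x * (u * v * u⁻¹ * v⁻¹) * x⁻¹ = (x * u * x⁻¹) * (x * v * x⁻¹) * (x * u * x⁻¹)⁻¹ * (x * v * x⁻¹)⁻¹ := by
        group
      rw [e1, e2, key] at e3
      calc x * (u * v * u⁻¹ * v⁻¹) = (x * (u * v * u⁻¹ * v⁻¹) * x⁻¹) * x := by group
        _ = (u * v * u⁻¹ * v⁻¹) * x := by rw [e3]
  -- a generator of the centre of the quotient
  obtain ⟨c, hc⟩ := IsCyclic.exists_generator (α := Subgroup.center (P ⧸ M))
  obtain ⟨y₀, hy₀⟩ := QuotientGroup.mk'_surjective M (c : P ⧸ M)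
  have hy₀z : y₀ ∈ zM M := by
    show QuotientGroup.mk' M y₀ ∈ Subgroup.center (P ⧸ M)
    rw [hy₀]
    exact c.2
  have hy₀p := pow_mem_center_of_zM hMc hMp hy₀z
  have hgen : ∀ y ∈ zM M, ∃ j : ℕ, ∃ m ∈ M, y = y₀ ^ j * m := by
    intro y hy
    have hy1 : QuotientGroup.mk' M y ∈ Subgroup.center (P ⧸ M) := hy
    have h2 := hc ⟨_, hy1⟩
    rw [← mem_powers_iff_mem_zpowers] at h2
    obtain ⟨n, hn⟩ := h2
    have h3 : (c : P ⧸ M) ^ n = QuotientGroup.mk' M y := by
      have := congrArg Subtype.val hn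
      simpa using this
    rw [← hy₀, ← map_pow] at h3
    refine ⟨n, (y₀ ^ n)⁻¹ * y, ?_, by group⟩
    rw [← QuotientGroup.eq_one_iff]
    have h4 : ((y₀ ^ n : P) : P ⧸ M) = (y : P ⧸ M) := h3
    rw [QuotientGroup.mk_mul, QuotientGroup.mk_inv, h4, inv_mul_cancel]
  obtain ⟨i, m₀, hm₀, ha₀⟩ := hgen a₀ (hF3 a₀ ha₀P)
  have hm₀c := Subgroup.mem_center_iff.1 (hMc hm₀)
  have hip : Nat.Coprime i p := by
    rw [Nat.coprime_comm, Nat.Prime.coprime_iff_not_dvd hp.out]
    rintro ⟨q, rfl⟩
    apply ha₀Z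
    rw [ha₀, pow_mul]
    exact Subgroup.mul_mem _ (Subgroup.pow_mem _ hy₀p _) (hMc hm₀)
  -- `T` centralizes `zM`
  have hTy₀ : ∀ t ∈ T, t * y₀ = y₀ * t := by
    intro t ht
    let A := Subgroup.centralizer ({t} : Set P)
    have hmemA : ∀ w, w ∈ A ↔ w * t = t * w := fun w => Subgroup.mem_centralizer_singleton_iff
    have h1 : y₀ ^ i ∈ A := by
      rw [hmemA]
      have h2 : t * a₀ = a₀ * t := (hmemT t).1 ht
      have h3 : y₀ ^ i = a₀ * m₀⁻¹ := by rw [ha₀]; group
      rw [h3]
      have h4 : Commute t a₀ := h2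
      have h5 : Commute t m₀⁻¹ := Commute.inv_right (hm₀c t)
      exact ((h4.mul_right h5).eq).symm
    have h2 : y₀ ^ p ∈ A := by
      rw [hmemA]
      exact (Subgroup.mem_center_iff.1 hy₀p t).symm
    have h3 := mem_of_pow_mem_coprime A h1 h2 hip
    exact ((hmemA y₀).1 h3).symm
  have hTZ : ∀ t ∈ T, ∀ y ∈ zM M, t * y = y * t := by
    intro t ht y hy
    obtain ⟨j, m, hm, rfl⟩ := hgen y hy
    have h1 : Commute t y₀ := hTy₀ t ht
    exact (h1.pow_right j).mul_right (Subgroup.mem_center_iff.1 (hMc hm) t)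
  have hzT : zM M ≤ T := by
    intro y hy
    rw [hmemT]
    obtain ⟨j, m, hm, rfl⟩ := hgen y hy
    rw [ha₀]
    have h1 : Commute (y₀ ^ j) (y₀ ^ i * m₀) :=
      ((Commute.refl y₀).pow_pow j i).mul_right (hm₀c _)
    have h2 : Commute m (y₀ ^ i * m₀) := (Subgroup.mem_center_iff.1 (hMc hm) _).symm
    exact (h1.mul_left h2)
  -- the relative index
  have hrel : (zM M).relIndex T ≤ p := by
    let D₀ : Subgroup P := (Subgroup.centralizer ({QuotientGroup.mk' M x₀} : Set (P ⧸ M))).comap (QuotientGroup.mk' M)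
    have hD₀ : D₀.index ≤ p := by
      have h1 : D₀.index = (Subgroup.centralizer ({QuotientGroup.mk' M x₀} : Set (P ⧸ M))).index :=
        Subgroup.index_comap_of_surjective _ (QuotientGroup.mk'_surjective M)
      rw [h1, ← hQc]
      apply index_centralizer_le
      intro g
      have h2 : ⁅(QuotientGroup.mk' M x₀)⁻¹, g⁆ ∈ commutator (P ⧸ M) :=
        Subgroup.commutator_mem_commutator (Subgroup.mem_top _) (Subgroup.mem_top _)
      rw [commutatorElement_def, inv_inv] at h2
      exact h2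
    have hsub : D₀ ⊓ T ≤ zM M := by
      rintro t ⟨ht1, ht2⟩
      let A : Subgroup P := (Subgroup.centralizer ({QuotientGroup.mk' M t} : Set (P ⧸ M))).comap (QuotientGroup.mk' M)
      have hmemA : ∀ g, g ∈ A ↔ t * g * t⁻¹ * g⁻¹ ∈ M := by
        intro g
        show QuotientGroup.mk' M g ∈ Subgroup.centralizer ({QuotientGroup.mk' M t} : Set (P ⧸ M)) ↔ _
        rw [Subgroup.mem_centralizer_singleton_iff, ← QuotientGroup.eq_one_iff]
        simp only [QuotientGroup.mk'_apply, QuotientGroup.mk_mul, QuotientGroup.mk_inv]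
        constructor
        · intro h
          rw [← h]
          group
        · intro h
          calc (g : P ⧸ M) * (t : P ⧸ M)
              = ((t : P ⧸ M) * g * (t : P ⧸ M)⁻¹ * (g : P ⧸ M)⁻¹)⁻¹ * (t * g) := by group
            _ = t * g := by rw [h, inv_one, one_mul]
      have hTA : T ≤ A := fun g hg => (hmemA g).2 (hF5 t ht2 g hg)
      have hx₀A : x₀ ∈ A := by
        have h1 : QuotientGroup.mk' M t ∈ Subgroup.centralizer ({QuotientGroup.mk' M x₀} : Set (P ⧸ M)) := ht1
        rw [Subgroup.mem_centralizer_singleton_iff] at h1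
        show QuotientGroup.mk' M x₀ ∈ Subgroup.centralizer ({QuotientGroup.mk' M t} : Set (P ⧸ M))
        rw [Subgroup.mem_centralizer_singleton_iff]
        exact h1.symm
      have h1 := Subgroup.relIndex_mul_index hTA
      rw [hTidx] at h1
      have h2 : A.index ∣ p := Dvd.intro_left _ h1
      rcases (Nat.dvd_prime hp.out).1 h2 with h3 | h3
      · have h4 : A = ⊤ := Subgroup.index_eq_one.1 h3
        rw [mem_zM]
        intro g
        apply (hmemA g).1
        rw [h4]
        exact Subgroup.mem_top _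
      · exfalso
        rw [h3] at h1
        have h5 : T.relIndex A = 1 := Nat.eq_of_mul_eq_mul_right hp.out.pos (by rw [h1, one_mul])
        exact hx₀T (Subgroup.relIndex_eq_one.1 h5 hx₀A)
    have h1 : (zM M).relIndex T ≤ (D₀ ⊓ T).relIndex T :=
      Subgroup.relIndex_le_of_le_left hsub (by
        rw [Subgroup.inf_relIndex_right]
        show (D₀.subgroupOf T).index ≠ 0
        exact Subgroup.index_ne_zero_of_finite)
    rw [Subgroup.inf_relIndex_right] at h1
    have h2 : D₀.relIndex T ≤ D₀.relIndex ⊤ :=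
      Subgroup.relIndex_le_of_le_right le_top (by
        show (D₀.subgroupOf ⊤).index ≠ 0
        exact Subgroup.index_ne_zero_of_finite)
    rw [Subgroup.relIndex_top_right] at h2
    omega
  -- degrees
  have hdeg : ∀ χ : IrrCharacter P, charDegree χ.1 ≠ 1 → charDegree χ.1 = p := by
    intro χ hχ
    have h1 := H06.irr_deg_sq_le χ.1 χ.2 ⊥ T (zM M) hzT (fun b hb => by rw [Subgroup.mem_bot.1 hb])
      (fun x hx y hy => by
        rw [Subgroup.mem_bot]
        have : y * x = x * y := hTZ y hy x hx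
        calc x * y * x⁻¹ * y⁻¹ = (y * x) * x⁻¹ * y⁻¹ := by rw [this]
          _ = 1 := by group)
    rw [hTidx] at h1
    have h2 : charDegree χ.1 ^ 2 ≤ p ^ 3 := by
      calc charDegree χ.1 ^ 2 ≤ p ^ 2 * (zM M).relIndex T := h1
        _ ≤ p ^ 2 * p := Nat.mul_le_mul_left _ hrel
        _ = p ^ 3 := by ring
    obtain ⟨n, hn⟩ := IsPGroup.iff_card.1 hP
    have h3 : charDegree χ.1 ∣ p ^ n := hn ▸ charDegree_dvd_card χ
    obtain ⟨j, _, hj⟩ := (Nat.dvd_prime_pow hp.out).1 h3
    rw [hj, ← pow_mul] at h2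
    have h4 : j * 2 ≤ 3 := (Nat.pow_le_pow_iff_right hp.out.one_lt).1 h2
    have h5 : j = 0 ∨ j = 1 := by omega
    rcases h5 with rfl | rfl
    · exact absurd (by simpa using hj) hχ
    · simpa using hj
  -- the two characters
  have hnot : ¬ commutator P ≤ M := by
    intro h
    have h1 := Subgroup.card_le_of_le h
    rw [hcard, hMcard] at h1
    have : p < p ^ 2 := by
      rw [sq]
      exact Nat.lt_mul_self_iff.2 hp.out.one_lt
    omega
  obtain ⟨β, hβ, hβM⟩ := exists_nonlinear_of_not_le M hnot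
  obtain ⟨⟨z, hzM⟩, hz1⟩ := Subgroup.ne_bot_iff_exists_ne_one.1 hMne
  have hz1' : z ≠ 1 := fun h => hz1 (Subtype.ext h)
  obtain ⟨χ₂, h2⟩ := exists_irr_ne_of_ne_one hz1'
  have h2a : charDegree χ₂.1 ≠ 1 := fun h => h2 (linear_on_commutator χ₂ h (hMle hzM))
  have hd : charDegree β.1 = charDegree χ₂.1 := by rw [hdeg β hβ, hdeg χ₂ h2a]
  exact h2 ((hG.ker_iff β χ₂ hβ hd z).1 (hβM z hzM))

/-- The structure theorem. -/
theorem card_commutator_of_galDeg (n : ℕ) : ∀ (P : Type u) [Group P] [Finite P], Nat.card P = n →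
    IsPGroup p P → GalDeg P → commutator P ≠ ⊥ → Nat.card (commutator P) = p := by
  induction n using Nat.strong_induction_on with
  | _ n ih =>
    intro P _ _ hn hP hG hne
    by_contra hcon
    have h1 := H09.normal_inf_center_ne_bot hP (commutator P) hne
    obtain ⟨⟨w, hw1, hw2⟩, hw3⟩ := Subgroup.ne_bot_iff_exists_ne_one.1 h1
    have hw3' : w ≠ 1 := fun h => hw3 (Subtype.ext h)
    obtain ⟨m, hm⟩ := exists_pow_orderOf_eq hP hw3'
    have hz1 := (commutator P).pow_mem hw1 m
    have hz2 := (Subgroup.center P).pow_mem hw2 m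
    obtain ⟨z, hzd⟩ : ∃ z, z = w ^ m := ⟨_, rfl⟩
    rw [← hzd] at hz1 hz2 hm
    haveI hzn := zp_normal hz2
    have hc := card_commutator_quot (Subgroup.zpowers z) (Subgroup.zpowers_le.2 hz1)
    rw [Nat.card_zpowers, hm] at hc
    have hQne : commutator (P ⧸ Subgroup.zpowers z) ≠ ⊥ := by
      intro h
      rw [h, Subgroup.card_bot, one_mul] at hc
      exact hcon hc.symm
    have hcardQ : Nat.card (P ⧸ Subgroup.zpowers z) < n := by
      have h2 := Subgroup.card_eq_card_quotient_mul_card_subgroup (Subgroup.zpowers z)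
      rw [Nat.card_zpowers, hm, hn] at h2
      have h3 : 0 < Nat.card (P ⧸ Subgroup.zpowers z) := Nat.card_pos
      rw [h2]
      calc Nat.card (P ⧸ Subgroup.zpowers z) < Nat.card (P ⧸ Subgroup.zpowers z) * p :=
            lt_mul_of_one_lt_right h3 hp.out.one_lt
        _ = _ := rfl
    have hQ := ih _ hcardQ (P ⧸ Subgroup.zpowers z) rfl (hP.to_quotient _) (hG.quot _) hQne
    have hcard : Nat.card (commutator P) = p ^ 2 := by
      rw [← hc, hQ, sq]
    by_cases hcen : commutator P ≤ Subgroup.center P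
    · by_cases hcyc : IsCyclic (commutator P)
      · exact no_central_cyclic hP hG hcard hcen hcyc
      · exact no_central_noncyclic hP hG hcard hcen hcyc
    · exact no_noncentral hP hG hcard hcen

theorem char_central_pow (χ : IrrCharacter P) {c : P} (hc : c ∈ Subgroup.center P) (j : ℕ) :
    χ.1 (c ^ j) = (charDegree χ.1 : ℂ) * (χ.1 c / (charDegree χ.1 : ℂ)) ^ j := by
  have hd : (charDegree χ.1 : ℂ) ≠ 0 := Nat.cast_ne_zero.2 (irr_charDegree_pos χ.2).ne'
  induction j with
  | zero => simp [one_eq_charDegree (isCharacter_of_irr χ.2)]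
  | succ j ih =>
    have h1 := irr_central_mul χ.2 hc (c ^ j)
    rw [← pow_succ', ih] at h1
    have h2 : χ.1 (c ^ (j + 1)) = χ.1 c * ((charDegree χ.1 : ℂ) * (χ.1 c / (charDegree χ.1 : ℂ)) ^ j) / (charDegree χ.1 : ℂ) := by
      rw [← h1]
      field_simp
    rw [h2, pow_succ]
    field_simp

/-- The converse direction. -/
theorem galDeg_of_structure (hP : IsPGroup p P) (hcyc : IsCyclic (Subgroup.center P))
    (hc : Nat.card (commutator P) = p) : GalDeg P := by
  intro χ ψ hχ hdeg
  have hψ : charDegree ψ.1 ≠ 1 := hdeg ▸ hχ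
  have hle := commutator_le_center_of_card hP hc
  have hdvd : p ∣ Nat.card (commutator P) := by rw [hc]
  obtain ⟨w, hw⟩ := exists_prime_orderOf_dvd_card' p hdvd
  have hmem : ∀ z ∈ Subgroup.center P, orderOf z = p → z ∈ commutator P := by
    intro z hz ho
    have hx1 : orderOf (⟨(w : P), hle w.2⟩ : Subgroup.center P) = p := by
      rw [Subgroup.orderOf_mk, Subgroup.orderOf_coe, hw]
    have hy1 : (⟨z, hz⟩ : Subgroup.center P) ^ p = 1 :=
      Subtype.ext (by
        show z ^ p = 1
        rw [← ho, pow_orderOf_eq_one])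
    have h1 := cyclic_unique (p := p) (C := Subgroup.center P) ⟨w, hle w.2⟩ ⟨z, hz⟩ hx1 hy1
    obtain ⟨k, hk⟩ := Subgroup.mem_zpowers_iff.1 h1
    have h2 : (w : P) ^ k = z := by
      have := congrArg Subtype.val hk
      simpa using this
    rw [← h2]
    exact (commutator P).zpow_mem w.2 k
  obtain ⟨c, hgc⟩ := IsCyclic.exists_generator (α := Subgroup.center P)
  have hcz := c.2
  obtain ⟨d, hdd⟩ : ∃ d : ℂ, d = (charDegree χ.1 : ℂ) := ⟨_, rfl⟩
  have hd0 : (charDegree χ.1 : ℂ) ≠ 0 := Nat.cast_ne_zero.2 (irr_charDegree_pos χ.2).ne'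
  have hn : orderOf (c : P) = Nat.card (Subgroup.center P) := by
    rw [Subgroup.orderOf_coe]
    exact orderOf_eq_card_of_forall_mem_zpowers hgc
  have hprim : ∀ θ : IrrCharacter P, charDegree θ.1 ≠ 1 → IsPrimitiveRoot (θ.1 c / (charDegree θ.1 : ℂ)) (Nat.card (Subgroup.center P)) := by
    intro θ hθ
    have hd : (charDegree θ.1 : ℂ) ≠ 0 := Nat.cast_ne_zero.2 (irr_charDegree_pos θ.2).ne'
    have hkey : ∀ l : ℕ, (θ.1 c / (charDegree θ.1 : ℂ)) ^ l = 1 ↔ θ.1 ((c : P) ^ l) = θ.1 1 := by
      intro l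
      rw [char_central_pow θ hcz, one_eq_charDegree (isCharacter_of_irr θ.2)]
      constructor
      · intro h
        rw [h, mul_one]
      · intro h
        exact mul_left_cancel₀ hd (h.trans (mul_one _).symm)
    refine ⟨?_, ?_⟩
    · rw [hkey, ← hn, pow_orderOf_eq_one]
    · intro l hl
      rw [hkey] at hl
      have h1 := nonlinear_faithful_center hP hc hmem θ hθ ((c : P) ^ l)
        ((Subgroup.center P).pow_mem hcz l) hl
      rw [← hn]
      exact orderOf_dvd_of_pow_eq_one h1
  have hζ := hprim χ hχ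
  have hξ := hprim ψ hψ
  have hnpos : 0 < Nat.card (Subgroup.center P) := Nat.card_pos
  obtain ⟨k, _, hk⟩ := hζ.eq_pow_of_pow_eq_one hξ.pow_eq_one
  have hkc : Nat.Coprime k (Nat.card (Subgroup.center P)) := by
    apply (hζ.pow_iff_coprime hnpos k).1
    rw [hk]
    exact hξ
  refine ⟨k, ?_, ?_⟩
  · obtain ⟨m, hm⟩ := IsPGroup.iff_card.1 hP
    rw [hm]
    apply Nat.Coprime.pow_right
    rw [Nat.coprime_comm, Nat.Prime.coprime_iff_not_dvd hp.out]
    intro hpk
    have hpn : p ∣ Nat.card (Subgroup.center P) := by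
      have h1 := orderOf_dvd_natCard (⟨w, hle w.2⟩ : Subgroup.center P)
      rw [Subgroup.orderOf_mk, Subgroup.orderOf_coe, hw] at h1
      exact h1
    have := Nat.dvd_gcd hpk hpn
    rw [hkc] at this
    exact hp.out.one_lt.ne' (Nat.dvd_one.1 this)
  · intro g
    by_cases hg : g ∈ Subgroup.center P
    · have h1 := hgc ⟨g, hg⟩
      rw [← mem_powers_iff_mem_zpowers] at h1
      obtain ⟨j, hj⟩ := h1
      have h2 : (c : P) ^ j = g := by
        have := congrArg Subtype.val hj
        simpa using this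
      rw [← h2, ← pow_mul, char_central_pow ψ hcz, char_central_pow χ hcz, ← hk, ← pow_mul, ← hdeg,
        mul_comm j k]
    · rw [nonlinear_vanish hP hc hmem ψ hψ g hg, nonlinear_vanish hP hc hmem χ hχ]
      intro hgk
      apply hg
      have hcop : Nat.Coprime k (orderOf g) := by
        obtain ⟨m, hm⟩ := IsPGroup.iff_card.1 hP
        have h1 : orderOf g ∣ p ^ m := hm ▸ orderOf_dvd_natCard g
        have h2 : Nat.Coprime k (p ^ m) := by
          apply Nat.Coprime.pow_right
          rw [Nat.coprime_comm, Nat.Prime.coprime_iff_not_dvd hp.out]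
          intro hpk
          have hpn : p ∣ Nat.card (Subgroup.center P) := by
            have h1 := orderOf_dvd_natCard (⟨w, hle w.2⟩ : Subgroup.center P)
            rw [Subgroup.orderOf_mk, Subgroup.orderOf_coe, hw] at h1
            exact h1
          have := Nat.dvd_gcd hpk hpn
          rw [hkc] at this
          exact hp.out.one_lt.ne' (Nat.dvd_one.1 this)
        exact Nat.Coprime.coprime_dvd_right h1 h2
      obtain ⟨m, hm⟩ := exists_pow_eq_self_of_coprime hcop
      rw [← hm]
      exact (Subgroup.center P).pow_mem hgk m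

/-- The characterization. -/
theorem galDeg_iff (hP : IsPGroup p P) (hna : ¬ IsMulCommutative P) :
    GalDeg P ↔ (IsCyclic (Subgroup.center P) ∧ Nat.card (commutator P) = p) := by
  have hne : commutator P ≠ ⊥ := by
    intro h
    apply hna
    refine ⟨⟨fun a b => ?_⟩⟩
    have h1 := Subgroup.commutator_mem_commutator (Subgroup.mem_top a) (Subgroup.mem_top b)
    have h2 : ⁅a, b⁆ ∈ commutator P := h1
    rw [h, Subgroup.mem_bot] at h2
    exact commutatorElement_eq_one_iff_mul_comm.1 h2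
  constructor
  · intro h
    have h1 := card_commutator_of_galDeg (p := p) (Nat.card P) P rfl hP h hne
    exact ⟨center_cyclic_of_galDeg hP h h1, h1⟩
  · rintro ⟨h1, h2⟩
    exact galDeg_of_structure hP h1 h2

end

end Cfsg.Agent.H23
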