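import Cfsg.Agent.Lib.H21.Second5
import Cfsg.Agent.Lib.H22.Degree

/-!
# Height zero characters have linear constituents on defect groups
-/

set_option autoImplicit false
set_option linter.unusedSectionVars false
set_option linter.style.haveILetI false
set_option linter.unusedSimpArgs false

namespace Cfsg.Agent.H23

open scoped ComplexConjugate
open Cfsg Cfsg.Agent.H21 Cfsg.Agent.H22

universe u

section

variable {G : Type u} [Group G] [Finite G]

/-- The scalar by which a central element acts is an algebraic integer. -/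
theorem irr_central_quot_isIntegral {H : Type*} [Group H] [Fintype H] {τ : H → ℂ}
    (hτ : IsIrrCharacter H τ) {z : H} (hz : z ∈ Subgroup.center H) :
    IsIntegral ℤ (τ z / (charDegree τ : ℂ)) := by
  have hd : (charDegree τ : ℂ) ≠ 0 := by exact_mod_cast (irr_charDegree_pos hτ).ne'
  set ε := τ z / (charDegree τ : ℂ) with hε
  have h1 : ∀ g, τ (z * g) = ε * τ g := by
    intro g
    have := irr_central_mul hτ hz g
    rw [hε]
    field_simp
    linear_combination this
  have h2 : ∀ k : ℕ, τ (z ^ k) = ε ^ k * (charDegree τ : ℂ) := by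
    intro k
    induction k with
    | zero =>
      simp only [pow_zero, one_mul]
      exact one_eq_charDegree (isCharacter_of_irr hτ)
    | succ k ih =>
      rw [pow_succ', h1, ih, pow_succ']
      ring
  have h3 : ε ^ Fintype.card H = 1 := by
    have := h2 (Fintype.card H)
    rw [pow_card_eq_one, one_eq_charDegree (isCharacter_of_irr hτ)] at this
    exact (mul_right_cancel₀ hd ((one_mul _).trans this)).symm
  refine IsIntegral.of_pow (n := Fintype.card H) (Fintype.card_pos_iff.2 ⟨z⟩) ?_
  rw [h3]
  exact isIntegral_one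

variable {p : ℕ} [hp : Fact p.Prime]

/-- If a character is nonzero modulo `M` at an element centralizing a `p`-subgroup `D`, its
restriction to `D` has a linear constituent. -/
theorem exists_linear_of_not_mli {M : Ideal AlgInt} [hMp : M.IsPrime] (hM : IsPModular p M)
    (D : Subgroup G) [Fintype D] (hD : IsPGroup p D) (y : G) (hy : ∀ d ∈ D, Commute d y) {χ : G → ℂ}
    (hχ : IsCharacter G χ) (h : ¬ MemLocalIdeal M (χ y)) :
    ∃ μ : IrrCharacter D, charDegree μ.1 = 1 ∧ classInner (fun d : D => χ d) μ.1 ≠ 0 := by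
  classical
  haveI : Fintype G := Fintype.ofFinite _
  haveI : Fintype (IrrCharacter D) := Fintype.ofFinite _
  let C := Subgroup.zpowers y
  haveI : Fintype C := Fintype.ofFinite _
  have hcomm : ∀ (d : D) (c : C), Commute (D.subtype d) (C.subtype c) := by
    rintro ⟨d, hd⟩ ⟨c, k, rfl⟩
    exact ((hy d hd).zpow_right k)
  let f : D × C →* G := MonoidHom.noncommCoprod D.subtype C.subtype hcomm
  have hf : ∀ d c, f (d, c) = (d : G) * (c : G) := fun d c => rfl
  haveI : Fintype (IrrCharacter (D × C)) := Fintype.ofFinite _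
  have hχf : IsCharacter (D × C) (χ ∘ f) := isCharacter_comp f hχ
  obtain ⟨m, hm, hm2⟩ := isCharacter_decomp hχf
  have hexp : ∀ x, χ (f x) = ∑ τ : IrrCharacter (D × C), (m τ : ℂ) * τ.1 x := by
    intro x
    have := congrFun hm x
    simp only [Finset.sum_apply, Pi.smul_apply] at this
    simpa only [nsmul_eq_mul, Function.comp_apply] using this
  let y' : C := ⟨y, Subgroup.mem_zpowers y⟩
  let z : D × C := (1, y')
  have hzc : z ∈ Subgroup.center (D × C) := by
    rw [Subgroup.mem_center_iff]
    rintro ⟨d, c⟩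
    refine Prod.ext (by simp [z]) ?_
    apply Subtype.ext
    obtain ⟨k, hk⟩ := c.2
    simp only [Prod.snd_mul, Subgroup.coe_mul, z, y']
    rw [← hk]
    exact (Commute.zpow_left (Commute.refl y) k).eq
  by_contra hne
  push Not at hne
  apply h
  have hyz : f z = y := by simp [hf, z, y']
  rw [← hyz, hexp]
  refine mli_sum _ _ fun τ _ => ?_
  by_cases hm0 : m τ = 0
  · simp [hm0, mli_zero]
  refine mli_mul_left ?_ (mlr_natCast _)
  -- the degree of `τ` is divisible by `p`
  have hdvd : p ∣ charDegree τ.1 := by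
    by_contra hnd
    let ν : D → ℂ := fun d => τ.1 (d, 1)
    have hν : IsCharacter D ν := isCharacter_comp (MonoidHom.inl D C) (isCharacter_of_irr τ.2)
    obtain ⟨n, hn, hn2⟩ := isCharacter_decomp hν
    have hdeg : charDegree τ.1 = ∑ μ : IrrCharacter D, n μ * charDegree μ.1 := by
      have h1 := congrFun hn 1
      simp only [Finset.sum_apply, Pi.smul_apply] at h1
      have h2 : ν 1 = (charDegree τ.1 : ℂ) := one_eq_charDegree (χ := τ.1) (isCharacter_of_irr τ.2)
      rw [h2] at h1
      have h3 : ∀ μ : IrrCharacter D, n μ • μ.1 1 = ((n μ * charDegree μ.1 : ℕ) : ℂ) := by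
        intro μ
        rw [one_eq_charDegree (isCharacter_of_irr μ.2)]
        simp
      simp only [h3] at h1
      exact_mod_cast h1
    obtain ⟨μ, -, hμ⟩ : ∃ μ ∈ (Finset.univ : Finset (IrrCharacter D)), ¬ p ∣ n μ * charDegree μ.1 := by
      by_contra hc
      push Not at hc
      exact hnd (hdeg ▸ Finset.dvd_sum hc)
    have hn0 : n μ ≠ 0 := by
      intro h0
      rw [h0] at hμ
      simp at hμ
    have hμd : ¬ p ∣ charDegree μ.1 := fun h1 => hμ (Dvd.dvd.mul_left h1 _)
    have hμ1 : charDegree μ.1 = 1 := by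
      obtain ⟨a, ha⟩ := IsPGroup.iff_card.1 hD
      have h1 := charDegree_dvd_card μ
      rw [ha] at h1
      obtain ⟨i, -, hi⟩ := (Nat.dvd_prime_pow hp.out).1 h1
      rw [hi] at hμd ⊢
      rcases i with _ | i
      · simp
      · exact absurd (dvd_pow_self p (Nat.succ_ne_zero i)) hμd
    have hzero := hne μ hμ1
    revert hzero
    -- the inner product
    have hinner : ∀ τ' : IrrCharacter (D × C), ∃ k : ℕ,
        classInner (fun d : D => τ'.1 (d, 1)) μ.1 = k ∧
          (τ' = τ → k = n μ) := by
      intro τ'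
      have hν' : IsCharacter D (fun d : D => τ'.1 (d, 1)) :=
        isCharacter_comp (MonoidHom.inl D C) (isCharacter_of_irr τ'.2)
      obtain ⟨n', -, hn'⟩ := isCharacter_decomp hν'
      refine ⟨n' μ, hn' μ, ?_⟩
      rintro rfl
      have h1 := hn' μ
      have h2 := hn2 μ
      have h3 : ((n' μ : ℕ) : ℂ) = (n μ : ℕ) := by rw [← h1, ← h2]
      exact_mod_cast h3
    choose k hk1 hk2 using hinner
    have h1 : (fun d : D => χ d) = fun d : D => ∑ τ' : IrrCharacter (D × C), (m τ' : ℂ) * τ'.1 (d, 1) := by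
      funext d
      have := hexp (d, 1)
      rw [hf] at this
      simpa using this
    rw [h1]
    have h2 : classInner (fun d : D => ∑ τ' : IrrCharacter (D × C), (m τ' : ℂ) * τ'.1 (d, 1)) μ.1 =
        ((∑ τ' : IrrCharacter (D × C), m τ' * k τ' : ℕ) : ℂ) := by
      push_cast
      simp only [← hk1]
      simp only [classInner, Finset.sum_mul, Finset.mul_sum, mul_assoc]
      rw [Finset.sum_comm]
      refine Finset.sum_congr rfl fun τ' _ => Finset.sum_congr rfl fun d _ => ?_
      ring
    rw [h2]
    intro h4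
    have h3 : 0 < ∑ τ' : IrrCharacter (D × C), m τ' * k τ' := by
      refine Finset.sum_pos' (fun _ _ => Nat.zero_le _) ⟨τ, Finset.mem_univ _, ?_⟩
      rw [hk2 τ rfl]
      exact Nat.mul_pos (Nat.pos_of_ne_zero hm0) (Nat.pos_of_ne_zero hn0)
    exact (by exact_mod_cast h3.ne' : ((∑ τ' : IrrCharacter (D × C), m τ' * k τ' : ℕ) : ℂ) ≠ 0) h4
  -- conclusion
  obtain ⟨c, hc⟩ := hdvd
  have hint := irr_central_quot_isIntegral τ.2 hzc
  have hdne : (charDegree τ.1 : ℂ) ≠ 0 := by exact_mod_cast (irr_charDegree_pos τ.2).ne'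
  have hval : τ.1 z = (p : ℂ) * ((c : ℂ) * (τ.1 z / (charDegree τ.1 : ℂ))) := by
    have : (charDegree τ.1 : ℂ) = (p : ℂ) * (c : ℂ) := by rw [hc]; push_cast; ring
    rw [← mul_assoc, ← this]
    field_simp
  rw [hval]
  refine mli_mul_right ?_ (mlr_mul (mlr_natCast _) (mlr_of_isIntegral hint))
  rw [mli_natCast_iff hM]

end

end Cfsg.Agent.H23
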