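import Cfsg.Agent.Lib.H21.FSEven
import Cfsg.Agent.Lib.H22.DefectZero
import Cfsg.Agent.Lib.H04.Cliff.Degree

/-!
# Strongly real characters over a 2-defect-zero character (helper23)
-/

set_option autoImplicit false
set_option linter.unusedSectionVars false
set_option linter.style.haveILetI false
set_option linter.unusedSimpArgs false
set_option linter.unusedVariables false

namespace Cfsg.Agent.H23

open Cfsg Cfsg.Agent.H21 Cfsg.Agent.H06 Cfsg.Agent.H22
open scoped ComplexConjugate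
open Matrix

section Form

variable {G : Type*} [Group G] [Fintype G]

/-- A character of indicator `-1` carries an invariant skew form. -/
theorem fs_neg_form {n : ℕ} (ρ : Representation ℂ G (Fin n → ℂ)) (hρ : ρ.IsIrreducible)
    (hχr : ∀ g, conj (ρ.character g) = ρ.character g)
    (hneg : fsInd ρ.character = -1) :
    ∃ X : Matrix (Fin n) (Fin n) ℂ, (∀ g : G, repMat ρ g * X * (repMat ρ g).transpose = X) ∧
      X.transpose = (-1 : ℂ) • X ∧ X.det ≠ 0 := by
  classical
  haveI : Fintype (IrrCharacter G) := Fintype.ofFinite _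
  have hGne : (Nat.card G : ℂ) ≠ 0 := by exact_mod_cast Nat.card_pos.ne'
  have hχnorm : classInner ρ.character ρ.character = 1 :=
    classInner_self_irr ⟨ρ.character, n, ρ, hρ, rfl⟩
  set A := repMat ρ with hA
  have hAmul : ∀ h k : G, A (h * k) = A h * A k := repMat_mul ρ
  let P : Module.End ℂ (Matrix (Fin n) (Fin n) ℂ) := mAvg A
  let τ : Module.End ℂ (Matrix (Fin n) (Fin n) ℂ) := transposeL
  have hτ : τ * τ = 1 := transpose_transpose_L
  have hτP : τ * P = P * τ := mAvg_comm A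
  have hPP : P * P = P := mAvg_idem hAmul
  let Q : Module.End ℂ (Matrix (Fin n) (Fin n) ℂ) := (1/2 : ℂ) • (P + (-1 : ℂ) • (τ * P))
  have hQ : IsIdempotentElem Q := idem_half_aux P τ hτ hτP hPP (-1) (by norm_num)
  have htP : LinearMap.trace ℂ _ P = 1 := by
    rw [trace_mAvg, ← hχnorm, classInner]
    congr 1
    refine Finset.sum_congr rfl fun g _ => ?_
    rw [hχr g, repMat_trace, sq]
  have htτP : LinearMap.trace ℂ _ (τ * P) = -1 := by
    change LinearMap.trace ℂ _ ((transposeL : Module.End ℂ _) * mAvg A) = -1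
    rw [trace_transpose_mAvg hAmul, ← hneg, fsInd]
    congr 1
    exact Finset.sum_congr rfl fun g _ => repMat_trace ρ _
  have htQ : LinearMap.trace ℂ _ Q = 1 := by
    simp only [Q]
    rw [map_smul, map_add, map_smul, htP, htτP, smul_eq_mul, smul_eq_mul]
    norm_num
  have hQne : Q ≠ 0 := by
    intro h0
    rw [h0, map_zero] at htQ
    exact zero_ne_one htQ
  obtain ⟨X₀, hX₀⟩ : ∃ X₀, Q X₀ ≠ 0 := by
    by_contra hc
    push Not at hc
    exact hQne (LinearMap.ext hc)
  set X := Q X₀ with hX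
  have hSP : ∀ g : G, (sandwichL (A g) : Module.End ℂ _) * P = P := sandwich_mAvg hAmul
  have hSQ : ∀ g : G, (sandwichL (A g) : Module.End ℂ _) * Q = Q := by
    intro g
    simp only [Q]
    rw [mul_smul_comm, mul_add, mul_smul_comm, hSP]
    congr 3
    have h1 : (sandwichL (A g) : Module.End ℂ _) * τ = τ * sandwichL (A g) :=
      (transpose_sandwich_comm (A g)).symm
    rw [← mul_assoc, h1, mul_assoc, hSP]
  have hXinv : ∀ g : G, A g * X * (A g).transpose = X := by
    intro g
    have h1 := congrArg (fun f : Module.End ℂ _ => f X₀) (hSQ g)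
    exact h1
  have hτQ : τ * Q = (-1 : ℂ) • Q := by
    simp only [Q]
    rw [mul_smul_comm, mul_add, mul_smul_comm, ← mul_assoc τ τ P, hτ, one_mul, smul_comm]
    congr 1
    rw [smul_add, smul_smul]
    norm_num
    rw [add_comm]
    exact congrArg (· + τ * P) (alg_neg_one_smul (R := Module.End ℂ (Matrix (Fin n) (Fin n) ℂ)) _)
  have hXT : X.transpose = (-1 : ℂ) • X := by
    have h1 := congrArg (fun f : Module.End ℂ _ => f X₀) hτQ
    exact h1
  have hAX : ∀ g : G, A g * X = X * (A g⁻¹).transpose := by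
    intro g
    have h1 : (A g).transpose * (A g⁻¹).transpose = 1 := by
      rw [← Matrix.transpose_mul, ← hAmul, inv_mul_cancel, hA, repMat_one, Matrix.transpose_one]
    calc A g * X = (A g * X * (A g).transpose) * (A g⁻¹).transpose := by
          rw [mul_assoc (A g * X), h1, mul_one]
      _ = X * (A g⁻¹).transpose := by rw [hXinv g]
  have hinv : ∀ k : G, A k * A k⁻¹ = 1 := fun k => by
    rw [← hAmul, mul_inv_cancel, hA, repMat_one]
  have hinv' : ∀ k : G, A k⁻¹ * A k = 1 := fun k => by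
    rw [← hAmul, inv_mul_cancel, hA, repMat_one]
  obtain ⟨i, j, hij⟩ : ∃ i j, X i j ≠ 0 := by
    by_contra hc
    push Not at hc
    exact hX₀ (Matrix.ext hc)
  let Y : Matrix (Fin n) (Fin n) ℂ := Matrix.single j i 1
  have htrXY : (X * Y).trace = X i j := by
    simp only [Y, Matrix.trace, Matrix.mul_apply, Matrix.diag_apply, Matrix.single_apply]
    rw [Finset.sum_eq_single i, Finset.sum_eq_single j]
    · simp
    · intro b _ hb
      simp [hb.symm]
    · intro h; exact absurd (Finset.mem_univ _) h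
    · intro b _ hb
      refine Finset.sum_eq_zero fun c _ => ?_
      simp [hb.symm]
    · intro h; exact absurd (Finset.mem_univ _) h
  let T : Matrix (Fin n) (Fin n) ℂ := ∑ g : G, A g * (X * Y) * A g⁻¹
  have hT : ∀ k, T * repMat ρ k = repMat ρ k * T := by
    intro k
    simp only [T]
    rw [Finset.sum_mul, Finset.mul_sum]
    refine Fintype.sum_equiv (Equiv.mulLeft k⁻¹) _ _ fun g => ?_
    simp only [Equiv.coe_mulLeft, ← hA]
    rw [show (k⁻¹ * g)⁻¹ = g⁻¹ * k by group, hAmul k⁻¹ g, hAmul g⁻¹ k]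
    simp only [mul_assoc]
    rw [← mul_assoc (A k), hinv, one_mul]
  obtain ⟨κ, hκ⟩ := schur_matrix ρ hρ T hT
  have htrT : T.trace = (Nat.card G : ℂ) * X i j := by
    simp only [T]
    rw [Matrix.trace_sum]
    have h1 : ∀ g : G, (A g * (X * Y) * A g⁻¹).trace = X i j := by
      intro g
      rw [Matrix.trace_mul_comm, ← mul_assoc, hinv', one_mul, htrXY]
    simp only [h1, Finset.sum_const, Finset.card_univ, nsmul_eq_mul]
    rw [Nat.card_eq_fintype_card]
  have hκ0 : κ ≠ 0 := by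
    rintro rfl
    rw [hκ, zero_smul, Matrix.trace_zero] at htrT
    exact mul_ne_zero hGne hij htrT.symm
  let Z : Matrix (Fin n) (Fin n) ℂ := ∑ g : G, (A g⁻¹).transpose * Y * A g⁻¹
  have hXZ : X * Z = κ • 1 := by
    rw [← hκ]
    simp only [T, Z]
    rw [Finset.mul_sum]
    refine Finset.sum_congr rfl fun g _ => ?_
    rw [← mul_assoc (A g) X Y, hAX]
    simp only [mul_assoc]
  have hdet : X.det ≠ 0 := by
    intro h0
    have h1 := congrArg Matrix.det hXZ
    rw [Matrix.det_mul, h0, zero_mul, Matrix.det_smul, Matrix.det_one, mul_one] at h1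
    exact pow_ne_zero _ hκ0 h1.symm
  exact ⟨X, hXinv, hXT, hdet⟩

/-- The fixed space of a subgroup for a skew invariant form has even dimension. -/
theorem skew_fixed_even {n : ℕ} (A : G → Matrix (Fin n) (Fin n) ℂ) (hA1 : A 1 = 1)
    (hAm : ∀ g h, A (g * h) = A g * A h) (X : Matrix (Fin n) (Fin n) ℂ)
    (hXinv : ∀ g : G, A g * X * (A g).transpose = X) (hXT : X.transpose = (-1 : ℂ) • X)
    (hdet : X.det ≠ 0) (P : Subgroup G) [Fintype P] :
    ∃ b : ℕ, Even b ∧ (Nat.card P : ℂ)⁻¹ * ∑ y : P, (A y).trace = b := by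
  classical
  have hPne : (Nat.card P : ℂ) ≠ 0 := by exact_mod_cast Nat.card_pos.ne'
  let E : Matrix (Fin n) (Fin n) ℂ := (Nat.card P : ℂ)⁻¹ • ∑ y : P, (A y).transpose
  have hfix : ∀ y : P, (A y).transpose * E = E := by
    intro y
    simp only [E]
    rw [mul_smul_comm, Finset.mul_sum]
    congr 1
    refine Fintype.sum_equiv (Equiv.mulRight y) _ _ fun z => ?_
    simp only [Equiv.coe_mulRight, Subgroup.coe_mul, hAm, Matrix.transpose_mul]
  have hidem : E * E = E := by
    conv_lhs => lhs; simp only [E]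
    rw [smul_mul_assoc, Finset.sum_mul]
    simp only [hfix, Finset.sum_const, Finset.card_univ]
    rw [← Nat.card_eq_fintype_card, ← Nat.cast_smul_eq_nsmul ℂ, smul_smul, inv_mul_cancel₀ hPne,
      one_smul]
  let T : Module.End ℂ (Fin n → ℂ) := Matrix.toLin' E
  have hT : IsIdempotentElem T := by
    show T * T = T
    simp only [T]
    rw [Module.End.mul_eq_comp, ← Matrix.toLin'_mul, hidem]
  set U : Submodule ℂ (Fin n → ℂ) := LinearMap.range T with hU
  have hproj : LinearMap.IsProj U T := LinearMap.IsIdempotentElem.isProj_range T hT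
  have htr : LinearMap.trace ℂ _ T = (Module.finrank ℂ U : ℂ) := hproj.trace
  have htr2 : E.trace = (Nat.card P : ℂ)⁻¹ * ∑ y : P, (A y).trace := by
    simp only [E]
    rw [Matrix.trace_smul, Matrix.trace_sum, smul_eq_mul]
    simp only [Matrix.trace_transpose]
  have htr3 : LinearMap.trace ℂ _ T = E.trace := by
    simp only [T]
    exact Matrix.trace_toLin'_eq E
  refine ⟨Module.finrank ℂ U, ?_, by rw [← htr2, ← htr3, htr]⟩
  set b := Module.finrank ℂ U with hb
  let B := Module.finBasis ℂ U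
  have hB : ∀ i, ((B i : U) : Fin n → ℂ) ∈ U := fun i => (B i).2
  let Y : Matrix (Fin b) (Fin b) ℂ :=
    Matrix.of fun i j => ((B i : U) : Fin n → ℂ) ⬝ᵥ (X *ᵥ ((B j : U) : Fin n → ℂ))
  have hskew : ∀ u v : Fin n → ℂ, v ⬝ᵥ (X *ᵥ u) = -(u ⬝ᵥ (X *ᵥ v)) := by
    intro u v
    rw [Matrix.dotProduct_mulVec, ← Matrix.mulVec_transpose, hXT, Matrix.smul_mulVec, dotProduct_comm]
    simp
  have hYT : Y.transpose = (-1 : ℂ) • Y := by
    ext i j
    simp only [Y, Matrix.transpose_apply, Matrix.of_apply, Matrix.smul_apply, smul_eq_mul]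
    rw [hskew]
    ring
  -- fixed vectors
  have hfixvec : ∀ u ∈ U, ∀ y : P, (A y).transpose *ᵥ u = u := by
    rintro u ⟨t, rfl⟩ y
    show (A y).transpose *ᵥ (E *ᵥ t) = E *ᵥ t
    rw [Matrix.mulVec_mulVec, hfix]
  have hEU : ∀ w : Fin n → ℂ, E *ᵥ w ∈ U := fun w => ⟨w, rfl⟩
  have hEpair : ∀ (w u : Fin n → ℂ), u ∈ U → (E *ᵥ w) ⬝ᵥ (X *ᵥ u) = w ⬝ᵥ (X *ᵥ u) := by
    intro w u hu
    have h1 : ∀ y : P, ((A y).transpose *ᵥ w) ⬝ᵥ (X *ᵥ u) = w ⬝ᵥ (X *ᵥ u) := by
      intro y
      conv_lhs => rw [← hfixvec u hu y]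
      rw [Matrix.mulVec_transpose, ← Matrix.dotProduct_mulVec, Matrix.mulVec_mulVec,
        Matrix.mulVec_mulVec, hXinv]
    simp only [E]
    rw [Matrix.smul_mulVec, Matrix.sum_mulVec, smul_dotProduct, sum_dotProduct, Finset.sum_congr rfl
      (fun y _ => h1 y)]
    simp only [Finset.sum_const, Finset.card_univ]
    rw [← Nat.card_eq_fintype_card, ← Nat.cast_smul_eq_nsmul ℂ, smul_smul, inv_mul_cancel₀ hPne,
      one_smul]
  have hYdet : Y.det ≠ 0 := by
    intro h0
    obtain ⟨c, hc, hYc⟩ := Matrix.exists_mulVec_eq_zero_iff.2 h0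
    set u : U := ∑ j, c j • B j with hu
    have hu' : ((u : U) : Fin n → ℂ) = ∑ j, c j • ((B j : U) : Fin n → ℂ) := by
      simp [hu]
    have h1 : ∀ i, ((B i : U) : Fin n → ℂ) ⬝ᵥ (X *ᵥ (u : Fin n → ℂ)) = 0 := by
      intro i
      have h2 := congrFun hYc i
      simp only [Y, Matrix.mulVec, Matrix.of_apply, dotProduct, Pi.zero_apply] at h2
      rw [hu', Matrix.mulVec_sum, dotProduct_sum]
      simp only [Matrix.mulVec_smul, dotProduct_smul, smul_eq_mul]
      rw [← h2]
      refine Finset.sum_congr rfl fun j _ => ?_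
      simp only [dotProduct, Matrix.mulVec]
      ring
    have h3 : ∀ v : U, (v : Fin n → ℂ) ⬝ᵥ (X *ᵥ (u : Fin n → ℂ)) = 0 := by
      intro v
      rw [← B.sum_repr v]
      push_cast
      rw [sum_dotProduct]
      refine Finset.sum_eq_zero fun i _ => ?_
      rw [smul_dotProduct, h1 i, smul_zero]
    have h4 : ∀ w : Fin n → ℂ, w ⬝ᵥ (X *ᵥ (u : Fin n → ℂ)) = 0 := by
      intro w
      rw [← hEpair w _ u.2]
      exact h3 ⟨_, hEU w⟩
    have h5 : X *ᵥ (u : Fin n → ℂ) = 0 := by
      funext i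
      have := h4 (Pi.single i 1)
      simpa using this
    have h6 : (u : Fin n → ℂ) = 0 := Matrix.eq_zero_of_mulVec_eq_zero hdet h5
    have h7 : u = 0 := Subtype.ext h6
    have h8 := Fintype.linearIndependent_iff.1 B.linearIndependent c h7
    exact hc (funext h8)
  have h2 : Y.det = (-1) ^ Fintype.card (Fin b) * Y.det := by
    conv_lhs => rw [← Matrix.det_transpose, hYT, Matrix.det_smul]
  have h3 : ((-1 : ℂ)) ^ b = 1 := by
    rw [Fintype.card_fin] at h2
    exact (mul_right_cancel₀ hYdet (by rw [one_mul]; exact h2)).symm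
  by_contra hodd
  rw [Nat.not_even_iff_odd] at hodd
  rw [hodd.neg_one_pow] at h3
  norm_num at h3

/-- A character of indicator `-1` has even multiplicity of the trivial character on any
subgroup. -/
theorem fs_neg_even_fixed (χ : IrrCharacter G) (hχr : ∀ g, conj (χ.1 g) = χ.1 g)
    (hneg : fsInd χ.1 = -1) (P : Subgroup G) [Fintype P] :
    ∃ b : ℕ, Even b ∧ (Nat.card P : ℂ)⁻¹ * ∑ y : P, χ.1 y = b := by
  obtain ⟨χ', n, ρ, hρ, rfl⟩ := χ
  simp only at hχr hneg ⊢
  obtain ⟨X, h1, h2, h3⟩ := fs_neg_form ρ hρ hχr hneg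
  obtain ⟨b, hb, hb'⟩ := skew_fixed_even (repMat ρ) (repMat_one ρ) (repMat_mul ρ) X h1 h2 h3 P
  refine ⟨b, hb, ?_⟩
  rw [← hb']
  congr 1
  exact Finset.sum_congr rfl fun y _ => (repMat_trace ρ _).symm

end Form

section Count

variable {G : Type*} [Group G] [Fintype G] [Fintype (IrrCharacter G)]

/-- The basic count: pairing the multiplicities over `φ` with those of the trivial character of a
`2`-subgroup. -/
theorem rdz_pair_sum (N : Subgroup G) [Fintype N] (φ : IrrCharacter N) (P : Subgroup G) [Fintype P]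
    (hP : IsPGroup 2 P) (hvan : ∀ n : N, 2 ∣ orderOf n → φ.1 n = 0) :
    ∑ χ : IrrCharacter G, (((Nat.card N : ℂ)⁻¹ * ∑ n : N, χ.1 n * conj (φ.1 n)) *
      ((Nat.card P : ℂ)⁻¹ * ∑ y : P, χ.1 y)) =
      (Nat.card N : ℂ)⁻¹ * (Nat.card P : ℂ)⁻¹ * (conj (φ.1 1) * (Nat.card G : ℂ)) := by
  classical
  have hcol : ∀ (n : N) (y : P), conj (φ.1 n) * ∑ χ : IrrCharacter G, χ.1 n * χ.1 y =
      if n = 1 ∧ y = 1 then conj (φ.1 1) * (Nat.card G : ℂ) else 0 := by
    intro n y
    have hconj : ∀ χ : IrrCharacter G, χ.1 n * χ.1 y = χ.1 n * conj (χ.1 ((y : G)⁻¹)) := by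
      intro χ
      rw [← irr_inv', inv_inv]
    simp only [hconj]
    split_ifs with h
    · obtain ⟨rfl, rfl⟩ := h
      simp only [OneMemClass.coe_one, inv_one]
      rw [column_orthogonality_of_isConj (IsConj.refl (1 : G))]
      congr 1
      rw [Subgroup.centralizer_eq_top_iff_subset.2 (by simp [Subgroup.mem_center_iff])]
      simp
    · by_cases hc : IsConj (n : G) ((y : G)⁻¹)
      · have hy1 : y ≠ 1 := by
          rintro rfl
          apply h
          refine ⟨?_, rfl⟩
          simp only [OneMemClass.coe_one, inv_one] at hc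
          apply Subtype.ext
          simpa using isConj_one_right.1 hc.symm
        have ho : orderOf (n : G) = orderOf (y : G) := by
          obtain ⟨c, hc'⟩ := hc
          rw [SemiconjBy.orderOf_eq _ hc', orderOf_inv]
        obtain ⟨k, hk⟩ := (IsPGroup.iff_orderOf.1 hP) y
        have hk' : orderOf (y : G) = 2 ^ k := by
          rw [← Subgroup.orderOf_coe] at hk
          exact hk
        have hk0 : k ≠ 0 := by
          rintro rfl
          apply hy1
          have : orderOf (y : G) = 1 := by simpa using hk'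
          exact Subtype.ext (orderOf_eq_one_iff.1 this)
        have h2 : 2 ∣ orderOf n := by
          rw [← Subgroup.orderOf_coe, ho, hk']
          exact dvd_pow_self 2 hk0
        rw [hvan n h2]
        simp
      · rw [column_orthogonality_of_not_isConj hc, mul_zero]
  have h1 : ∑ χ : IrrCharacter G, (((Nat.card N : ℂ)⁻¹ * ∑ n : N, χ.1 n * conj (φ.1 n)) *
      ((Nat.card P : ℂ)⁻¹ * ∑ y : P, χ.1 y)) =
      (Nat.card N : ℂ)⁻¹ * (Nat.card P : ℂ)⁻¹ *
        ∑ n : N, ∑ y : P, conj (φ.1 n) * ∑ χ : IrrCharacter G, χ.1 n * χ.1 y := by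
    simp only [Finset.mul_sum, Finset.sum_mul]
    rw [Finset.sum_comm]
    have hsw : ∀ y : P, ∑ χ : IrrCharacter G, ∑ n : N, (Nat.card N : ℂ)⁻¹ * (χ.1 n * conj (φ.1 n)) *
        ((Nat.card P : ℂ)⁻¹ * χ.1 y) = ∑ n : N, ∑ χ : IrrCharacter G,
          (Nat.card N : ℂ)⁻¹ * (χ.1 n * conj (φ.1 n)) * ((Nat.card P : ℂ)⁻¹ * χ.1 y) :=
      fun y => Finset.sum_comm
    simp only [hsw]
    rw [Finset.sum_comm]
    refine Finset.sum_congr rfl fun n _ => Finset.sum_congr rfl fun y _ =>
      Finset.sum_congr rfl fun χ _ => ?_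
    ring
  rw [h1]
  congr 1
  simp only [hcol]
  rw [Finset.sum_eq_single (1 : N), Finset.sum_eq_single (1 : P)]
  · simp
  · intro y _ hy
    simp [hy]
  · intro h; exact absurd (Finset.mem_univ _) h
  · intro n _ hn
    simp [hn]
  · intro h; exact absurd (Finset.mem_univ _) h

end Count

/-- Main statement. -/
theorem rdz_main {G : Type*} [Group G] [Fintype G] (N : Subgroup G) [hN : N.Normal] [Fintype N]
    (h2 : IsPGroup 2 (G ⧸ N)) (φ : IrrCharacter N)
    (hdef : 2 ^ (Nat.card N).factorization 2 ∣ charDegree φ.1)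
    (hconj : ∃ g : G, ∀ n n' : N, (n' : G) = g * (n : G) * g⁻¹ → φ.1 n' = conj (φ.1 n)) :
    ∃ χ : IrrCharacter G, fsInd χ.1 = 1 ∧
      (Nat.card N : ℂ)⁻¹ * ∑ n : N, χ.1 n * conj (φ.1 n) = 1 := by
  classical
  haveI : Fact (Nat.Prime 2) := ⟨Nat.prime_two⟩
  letI : Fintype (IrrCharacter G) := Fintype.ofFinite _
  letI : Fintype (IrrCharacter N) := Fintype.ofFinite _
  -- arithmetic
  obtain ⟨t, ht⟩ := IsPGroup.iff_card.1 h2
  have hidx : N.index = 2 ^ t := ht
  obtain ⟨s, v, hv, hNc⟩ : ∃ s v : ℕ, ¬ 2 ∣ v ∧ Nat.card N = 2 ^ s * v :=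
    let h := Nat.exists_eq_pow_mul_and_not_dvd (Nat.card_pos (α := N)).ne' 2 (by norm_num)
    ⟨h.choose, h.choose_spec.choose, h.choose_spec.choose_spec.1, h.choose_spec.choose_spec.2⟩
  have hfac : (Nat.card N).factorization 2 = s := by
    rw [hNc, Nat.factorization_mul (pow_ne_zero _ two_ne_zero) (fun h0 : v = 0 => hv (h0 ▸ dvd_zero 2)),
      Nat.Prime.factorization_pow Nat.prime_two]
    simp [Nat.factorization_eq_zero_of_not_dvd hv]
  rw [hfac] at hdef
  obtain ⟨w, hw⟩ := hdef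
  have hdvd := charDegree_dvd_card φ
  have hw2 : ¬ 2 ∣ w := by
    intro h
    have h3 : 2 ^ (s + 1) ∣ 2 ^ s * v := by
      rw [← hNc]
      refine Dvd.dvd.trans ?_ hdvd
      rw [hw, pow_succ]
      exact mul_dvd_mul_left _ h
    rw [pow_succ] at h3
    exact hv (Nat.dvd_of_mul_dvd_mul_left (by positivity) h3)
  have hGc : Nat.card G = 2 ^ t * (2 ^ s * v) := by
    rw [← hNc, ← hidx]
    exact (Subgroup.index_mul_card N).symm
  obtain ⟨P⟩ : Nonempty (Sylow 2 G) := inferInstance
  letI : Fintype P := Fintype.ofFinite _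
  have hPc : Nat.card P = 2 ^ (t + s) := by
    rw [Sylow.card_eq_multiplicity, hGc, ← mul_assoc, ← pow_add,
      Nat.factorization_mul (pow_ne_zero _ two_ne_zero) (fun h0 : v = 0 => hv (h0 ▸ dvd_zero 2)),
      Nat.Prime.factorization_pow Nat.prime_two]
    simp [Nat.factorization_eq_zero_of_not_dvd hv]
  -- vanishing
  obtain ⟨Mm, hMm⟩ := exists_pModular (p := 2) Nat.prime_two
  haveI : Mm.IsPrime := hMm.2.1.isPrime
  have hvan : ∀ n : N, 2 ∣ orderOf n → φ.1 n = 0 := by
    intro n hn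
    refine irr_eq_zero_of_defect_zero hMm φ ?_ hn
    have h3 : Nat.card N / charDegree φ.1 = v / w := by
      rw [hNc, hw]
      exact Nat.mul_div_mul_left _ _ (by positivity)
    rw [h3]
    intro h4
    apply hv
    have hwv : w ∣ v := by
      have h5 : 2 ^ s * w ∣ 2 ^ s * v := by rw [← hw, ← hNc]; exact hdvd
      exact Nat.dvd_of_mul_dvd_mul_left (by positivity) h5
    rw [← Nat.div_mul_cancel hwv]
    exact h4.mul_right w
  have hsum := rdz_pair_sum N φ P.1 P.isPGroup' hvan
  -- natural numbers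
  have hA : ∀ χ : IrrCharacter G, ∃ a : ℕ, (Nat.card N : ℂ)⁻¹ * ∑ n : N, χ.1 n * conj (φ.1 n) = a := by
    intro χ
    obtain ⟨a, ha⟩ := classInner_isCharacter_nat (isCharacter_restrict N (isCharacter_of_irr χ.2))
      (isCharacter_of_irr φ.2)
    exact ⟨a, ha⟩
  have hB : ∀ χ : IrrCharacter G, ∃ b : ℕ, (Nat.card P : ℂ)⁻¹ * ∑ y : P, χ.1 y = b := by
    intro χ
    obtain ⟨b, hb⟩ := classInner_isCharacter_nat (isCharacter_restrict P.1 (isCharacter_of_irr χ.2))
      (isCharacter_one (G := P))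
    refine ⟨b, ?_⟩
    rw [← hb, classInner]
    simp
  choose A hA using hA
  choose Bb hB using hB
  have hsum2 : ∑ χ : IrrCharacter G, A χ * Bb χ = w := by
    have h3 : ∑ χ : IrrCharacter G, ((A χ : ℂ) * (Bb χ : ℂ)) = (w : ℂ) := by
      simp only [← hA, ← hB]
      rw [hsum]
      have h4 : conj (φ.1 1) = (charDegree φ.1 : ℂ) := by
        rw [one_eq_charDegree (isCharacter_of_irr φ.2)]
        simp
      rw [h4, hw, hGc, hPc, hNc]
      push_cast
      have h5 : (2 : ℂ) ≠ 0 := by norm_num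
      have h6 : (v : ℂ) ≠ 0 := by
        intro h0
        have : v = 0 := by exact_mod_cast h0
        exact hv (this ▸ dvd_zero 2)
      field_simp
      ring
    exact_mod_cast h3
  -- parity
  obtain ⟨g₀, hg₀⟩ := hconj
  let cj : IrrCharacter G → IrrCharacter G := fun χ =>
    ⟨fun g => conj (χ.1 g), isIrrCharacter_conjFun χ.2⟩
  have hcj2 : ∀ χ, cj (cj χ) = χ := by
    intro χ
    apply Subtype.ext
    funext g
    simp [cj]
  have hAcj : ∀ χ, A (cj χ) = A χ := by
    intro χ
    have h3 : (Nat.card N : ℂ)⁻¹ * ∑ n : N, (cj χ).1 n * conj (φ.1 n) =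
        conj ((Nat.card N : ℂ)⁻¹ * ∑ n : N, χ.1 n * conj (φ.1 n)) := by
      simp only [map_mul, map_inv₀, Complex.conj_natCast, map_sum, Complex.conj_conj, cj]
      congr 1
      refine (Fintype.sum_equiv (Equiv.ofBijective
        (fun n : N => (⟨g₀ * n * g₀⁻¹, hN.conj_mem n n.2 g₀⟩ : N)) ?_) _ _ fun n => ?_)
      · refine (Finite.injective_iff_bijective).1 fun a b hab => ?_
        have := congrArg Subtype.val hab
        apply Subtype.ext
        simpa using this
      · simp only [Equiv.ofBijective_apply]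
        have h5 := hg₀ n ⟨g₀ * n * g₀⁻¹, hN.conj_mem n n.2 g₀⟩ rfl
        have h4 := isClassFunction_of_isCharacter (isCharacter_of_irr χ.2) (n : G) g₀
        rw [h5, h4]
    rw [hA, hA, Complex.conj_natCast] at h3
    exact_mod_cast h3
  have hBcj : ∀ χ, Bb (cj χ) = Bb χ := by
    intro χ
    have h3 : (Nat.card P : ℂ)⁻¹ * ∑ y : P, (cj χ).1 y =
        conj ((Nat.card P : ℂ)⁻¹ * ∑ y : P, χ.1 y) := by
      simp only [map_mul, map_inv₀, Complex.conj_natCast, map_sum, cj]
    rw [hB, hB, Complex.conj_natCast] at h3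
    exact_mod_cast h3
  have hBneg : ∀ χ : IrrCharacter G, fsInd χ.1 = -1 → Even (Bb χ) := by
    intro χ hχ
    have hr := real_of_fsInd_ne_zero χ (by rw [hχ]; norm_num)
    obtain ⟨b, hb, hb'⟩ := fs_neg_even_fixed χ hr hχ P.1
    have h3 := hB χ
    rw [hb'] at h3
    have h4 : b = Bb χ := by exact_mod_cast h3
    rwa [← h4]
  obtain ⟨χ, hχ1, hχ2⟩ : ∃ χ : IrrCharacter G, fsInd χ.1 = 1 ∧ Odd (A χ) := by
    by_contra hcon
    push Not at hcon
    have hev : ∀ χ : IrrCharacter G, fsInd χ.1 = 1 → Even (A χ) := fun χ hχ => by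
      simpa using hcon χ hχ
    let f : IrrCharacter G → ZMod 2 := fun χ => ((A χ * Bb χ : ℕ) : ZMod 2)
    have hf0 : ∀ χ, f χ ≠ 0 → ¬ ∀ g, conj (χ.1 g) = χ.1 g := by
      intro χ hf hr
      apply hf
      rcases fsInd_of_real χ hr with h3 | h3
      · have := (hev χ h3).mul_right (Bb χ)
        exact (ZMod.natCast_eq_zero_iff _ 2).2 (even_iff_two_dvd.1 this)
      · have := (hBneg χ h3).mul_left (A χ)
        exact (ZMod.natCast_eq_zero_iff _ 2).2 (even_iff_two_dvd.1 this)
    have h3 : ∑ χ : IrrCharacter G, f χ = 0 := by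
      rw [← Finset.sum_filter_of_ne (p := fun χ : IrrCharacter G => ¬ ∀ g, conj (χ.1 g) = χ.1 g)
        (fun χ _ hχ => hf0 χ hχ)]
      refine Finset.sum_involution (fun χ _ => cj χ) ?_ ?_ ?_ ?_
      · intro χ _
        simp only [f, hAcj, hBcj]
        exact CharTwo.add_self_eq_zero _
      · intro χ hχ _ hc
        have hχ' := (Finset.mem_filter.1 hχ).2
        apply hχ'
        intro g
        have := congrArg (fun x : IrrCharacter G => x.1 g) hc
        exact this
      · intro χ hχ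
        have hχ' := (Finset.mem_filter.1 hχ).2
        refine Finset.mem_filter.2 ⟨Finset.mem_univ _, fun hr => hχ' fun g => ?_⟩
        have := hr g
        simp only [cj, Complex.conj_conj] at this
        rw [← this]
      · intro χ _
        exact hcj2 χ
    have h4 : ∑ χ : IrrCharacter G, f χ = (w : ZMod 2) := by
      simp only [f]
      rw [← hsum2]
      push_cast
      rfl
    rw [h4] at h3
    exact hw2 ((ZMod.natCast_eq_zero_iff _ 2).1 h3)
  refine ⟨χ, hχ1, ?_⟩
  rw [hA χ]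
  -- the multiplicity is a divisor of a power of two
  have hne : A χ ≠ 0 := fun h0 => by
    rw [h0] at hχ2
    simp at hχ2
  let T : Subgroup G := H04.Cliff.inertG N φ.1
  have hNT : N ≤ T := by
    intro a ha h
    have h3 := isClassFunction_of_isCharacter (isCharacter_of_irr φ.2) h ⟨a, ha⟩
    convert h3 using 2
    exact Subtype.ext (by simp)
  have hc : classInner (fun h : N => χ.1 h) φ.1 ≠ 0 := by
    show (Nat.card N : ℂ)⁻¹ * ∑ n : N, χ.1 n * conj (φ.1 n) ≠ 0
    rw [hA χ]
    exact_mod_cast hne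
  letI : Fintype T := Fintype.ofFinite _
  obtain ⟨ψ, e, hψ, he, -, hres, hin⟩ := H04.Cliff.clifford_ext N T hNT φ.2 (fun g => Iff.rfl) χ.2 hc
  have heA : e = A χ := by
    have h3 : (Nat.card N : ℂ)⁻¹ * ∑ n : N, χ.1 n * conj (φ.1 n) = e := hin
    rw [hA χ] at h3
    exact_mod_cast h3.symm
  have hdvd2 : e ∣ (N.subgroupOf T).index := by
    refine H04.Cliff.multiplicity_dvd_index (N.subgroupOf T) (H06.subTheta_irr N T hNT φ.2) ?_ hψ ?_
    · intro t
      funext x
      exact t.2 ⟨(x : T), Subgroup.mem_subgroupOf.1 x.2⟩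
    · intro x
      exact hres ⟨(x : T), Subgroup.mem_subgroupOf.1 x.2⟩
  have hdvd3 : e ∣ 2 ^ t := by
    rw [← hidx]
    exact hdvd2.trans (Subgroup.relIndex_dvd_index_of_le hNT)
  obtain ⟨k, -, hk⟩ := (Nat.dvd_prime_pow Nat.prime_two).1 hdvd3
  have hk0 : k = 0 := by
    by_contra h0
    rw [heA, ] at hk
    rw [hk] at hχ2
    have : Even (2 ^ k) := (Nat.even_pow' h0).2 even_two
    exact (Nat.not_even_iff_odd.2 hχ2) this
  rw [hk0, pow_zero] at hk
  rw [← heA, hk]
  simp

end Cfsg.Agent.H23
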