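import Cfsg.Agent.Lib.H23.RealDeg4
import Cfsg.Agent.Lib.H01.Transfer

/-!
# Real classes meet the normalizer of a Sylow subgroup.
-/

set_option autoImplicit false
set_option linter.unusedSectionVars false
set_option linter.style.haveILetI false
set_option linter.unusedSimpArgs false

namespace Cfsg.Agent.H23

open Cfsg Cfsg.Agent.H21 Cfsg.Agent.H06
open scoped ComplexConjugate

universe u

theorem burnside_conj {G : Type*} [Group G] [Finite G] {p : ℕ} [Fact p.Prime] (P : Sylow p G)
    {a b c : G} (ha : ∀ s ∈ P, s * a * s⁻¹ = a) (hb : ∀ s ∈ P, s * b * s⁻¹ = b)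
    (hc : c * a * c⁻¹ = b) :
    ∃ n ∈ Subgroup.normalizer ((P : Subgroup G) : Set G), n * a * n⁻¹ = b := by
  obtain ⟨n, hn, e⟩ := Cfsg.Agent.H01.burnside_fusion P {a} {b}
    (fun x hx => by simp [Cfsg.Agent.H01.conjImage, ha x hx])
    (fun x hx => by simp [Cfsg.Agent.H01.conjImage, hb x hx])
    c (by simp [Cfsg.Agent.H01.conjImage, hc])
  refine ⟨n, hn, ?_⟩
  simpa [Cfsg.Agent.H01.conjImage] using e

section General

variable {G : Type*} [Group G] [Fintype G] (N : Subgroup G) [hN : N.Normal] [Fintype N]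
variable [Fintype (IrrCharacter G)] [Fintype (IrrCharacter N)]

theorem charDegree_twist (θ : N → ℂ) (g : G) : charDegree (twist N θ g) = charDegree θ := by
  have h : twist N θ g 1 = θ 1 := congrArg θ (Subtype.ext (by simp))
  simp only [charDegree, h]

/-- A character of degree prime to `p` lies over a constituent fixed by a `p`-subgroup. -/
theorem exists_fixed_constituent' {p : ℕ} [hp : Fact p.Prime]
    (χ : IrrCharacter G) (hχ : ¬ p ∣ charDegree χ.1) (R : Subgroup G) (hR : IsPGroup p R) :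
    ∃ ν : IrrCharacter N, classInner (fun n : N => χ.1 n) ν.1 ≠ 0 ∧ ∀ r ∈ R, twist N ν.1 r = ν.1 := by
  classical
  have hχc := isCharacter_of_irr χ.2
  have hres := isCharacter_restrict N hχc
  obtain ⟨m, hm, hm'⟩ := isCharacter_decomp hres
  letI := irrTwistAction N
  have hinv : ∀ (a : R) (ν : IrrCharacter N),
      (m (a • ν) * charDegree (a • ν).1 : ℂ) = m ν * charDegree ν.1 := by
    intro a ν
    rw [← hm', ← hm']
    have h1 : classInner (fun n : N => χ.1 n) (a • ν).1 = classInner (fun n : N => χ.1 n) ν.1 :=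
      inner_conj_twist N χ ν.1 _
    have h2 : charDegree (a • ν).1 = charDegree ν.1 := charDegree_twist N ν.1 _
    rw [h1, h2]
  have hdeg : (charDegree χ.1 : ℂ) = ∑ ν : IrrCharacter N, (m ν * charDegree ν.1 : ℂ) := by
    have h1 := congrFun hm 1
    simp only [Finset.sum_apply, Pi.smul_apply] at h1
    rw [← one_eq_charDegree hχc]
    have h2 : χ.1 ((1 : N) : G) = χ.1 1 := rfl
    rw [← h2, h1]
    refine Finset.sum_congr rfl fun ν _ => ?_
    rw [← one_eq_charDegree (isCharacter_of_irr ν.2)]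
    simp
  obtain ⟨F, hF, w, hw, e⟩ : ∃ F : Finset (IrrCharacter N), (∀ x, x ∈ F ↔ ∀ a : R, a • x = x) ∧
      ∃ w : ℂ, IsIntegral ℤ w ∧ ∑ x, (m x * charDegree x.1 : ℂ) =
        (∑ x ∈ F, (m x * charDegree x.1 : ℂ)) + p * w :=
    ⟨_, fun θ => by simp [Finset.mem_filter], sum_eq_fixed_add (A := R) (X := IrrCharacter N) hR
      (fun ν => (m ν * charDegree ν.1 : ℂ))
      (fun ν => IsIntegral.mul (isIntegral_natCast _) (isIntegral_natCast _)) hinv⟩
  by_contra hall
  push Not at hall
  have hz : ∀ ν ∈ F, (m ν * charDegree ν.1 : ℂ) = 0 := by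
    intro ν hν
    have hν' := (hF ν).1 hν
    by_cases h0 : (m ν : ℂ) = 0
    · rw [h0, zero_mul]
    · exfalso
      obtain ⟨r, hr, hne⟩ := hall ν (by rw [hm' ν]; exact h0)
      apply hne
      have := congrArg Subtype.val (hν' ⟨r⁻¹, R.inv_mem hr⟩)
      change twist N ν.1 (r⁻¹)⁻¹ = ν.1 at this
      rwa [inv_inv] at this
  rw [Finset.sum_eq_zero hz, zero_add, ← hdeg] at e
  exact hχ (by
    have := p_dvd_of_eq_mul hp.out (charDegree χ.1) w hw (by exact_mod_cast e)
    exact_mod_cast this)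

end General

section Core

variable {G : Type u} [Group G] [Fintype G] (K P T : Subgroup G) [hK : K.Normal]

/-- The inclusion of `K ∩ T` in `K`. -/
def iotaC : K.subgroupOf T →* K where
  toFun c := ⟨c.1.1, c.2⟩
  map_one' := rfl
  map_mul' _ _ := rfl

@[simp] theorem iotaC_coe (c : K.subgroupOf T) : ((iotaC K T c : K) : G) = ((c : T) : G) := rfl

theorem copSetup_KT {p : ℕ} [hp : Fact p.Prime] (hP : IsPGroup p P) (hcop : ¬ p ∣ Nat.card K)
    (hT : T = Subgroup.normalizer (P : Set G)) :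
    CopSetup (conjHom K P (fun s _ g hg => hK.conj_mem g hg s)) (iotaC K T) p := by
  have hKP : ∀ x, x ∈ K → x ∈ P → x = 1 := by
    intro x hxK hxP
    obtain ⟨k, hk⟩ := hP ⟨x, hxP⟩
    have h1 : x ^ p ^ k = 1 := by
      have := congrArg Subtype.val hk
      simpa using this
    have h2 : x ^ Nat.card K = 1 := by
      have h0 : (⟨x, hxK⟩ : K) ^ Nat.card K = 1 := pow_card_eq_one'
      exact congrArg Subtype.val h0
    have h3 : (p ^ k).Coprime (Nat.card K) :=
      Nat.Coprime.pow_left _ ((Nat.Prime.coprime_iff_not_dvd hp.out).2 hcop)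
    exact eq_one_of_pow_coprime h3 h1 h2
  refine ⟨?_, ?_, hP, hcop⟩
  · intro a b e
    apply Subtype.ext
    apply Subtype.ext
    exact congrArg (fun z : K => (z : G)) e
  · intro g
    constructor
    · intro h
      have hc : ∀ a ∈ P, a * g.1 * a⁻¹ = g.1 := fun a ha =>
        congrArg Subtype.val (h ⟨a, ha⟩)
      have hcomm : ∀ a ∈ P, a * g.1 = g.1 * a := by
        intro a ha
        calc a * g.1 = (a * g.1 * a⁻¹) * a := by group
          _ = g.1 * a := by rw [hc a ha]
      have hgT : g.1 ∈ T := by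
        rw [hT, Subgroup.mem_normalizer_iff]
        intro a
        constructor
        · intro ha
          have e : g.1 * a * g.1⁻¹ = a := by
            rw [← hcomm a ha]
            group
          rwa [e]
        · intro ha
          have h2 := hcomm _ ha
          have h3 : g.1 * a = g.1 * (g.1 * a * g.1⁻¹) := by
            calc g.1 * a = (g.1 * a * g.1⁻¹) * g.1 := by group
              _ = g.1 * (g.1 * a * g.1⁻¹) := h2
          have h4 := mul_left_cancel h3
          rw [h4]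
          exact ha
      exact ⟨⟨⟨g.1, hgT⟩, g.2⟩, Subtype.ext rfl⟩
    · rintro ⟨c, rfl⟩ a
      apply Subtype.ext
      show a.1 * c.1.1 * a.1⁻¹ = c.1.1
      have hcT : c.1.1 ∈ Subgroup.normalizer (P : Set G) := by
        rw [← hT]
        exact c.1.2
      have hcK : c.1.1 ∈ K := c.2
      have h1 : c.1.1 * a.1⁻¹ * c.1.1⁻¹ ∈ P := by
        rw [Subgroup.mem_normalizer_iff] at hcT
        exact (hcT _).1 (P.inv_mem a.2)
      have h2 : a.1 * (c.1.1 * a.1⁻¹ * c.1.1⁻¹) ∈ P := P.mul_mem a.2 h1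
      have h3 : a.1 * (c.1.1 * a.1⁻¹ * c.1.1⁻¹) ∈ K := by
        have h4 : a.1 * (c.1.1 * a.1⁻¹ * c.1.1⁻¹) = (a.1 * c.1.1 * a.1⁻¹) * c.1.1⁻¹ := by group
        rw [h4]
        exact K.mul_mem (hK.conj_mem _ hcK _) (K.inv_mem hcK)
      have h5 := hKP _ h3 h2
      have h6 : a.1 * c.1.1 * a.1⁻¹ * c.1.1⁻¹ = 1 := by
        rw [← h5]
        group
      have h7 := congrArg (· * c.1.1) h6
      simpa using h7

variable [Fintype K] [Fintype T] [Fintype (K.subgroupOf T)]

theorem rel_twist (ν : K → ℂ) (β : K.subgroupOf T → ℂ) (t : T) :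
    classInner (fun c : K.subgroupOf T => twist K ν (t : G) (iotaC K T c))
      (twist (K.subgroupOf T) β t) = classInner (fun c => ν (iotaC K T c)) β := by
  unfold classInner
  congr 1
  exact Fintype.sum_equiv (MulAut.conjNormal t : MulAut (K.subgroupOf T)).toEquiv _ _ (fun c => rfl)

variable [Fintype (IrrCharacter G)] [Fintype (IrrCharacter K)] [Fintype (IrrCharacter (K.subgroupOf T))]

/-- The orbit count for characters. -/
theorem orbits_irr_le {p : ℕ} [hp : Fact p.Prime] (hP : IsPGroup p P) (hcop : ¬ p ∣ Nat.card K)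
    (hT : T = Subgroup.normalizer (P : Set G)) (hodd : Odd K.index)
    (hreal : ∀ χ : IrrCharacter G, (∀ g, (χ.1 g).im = 0) → ¬ p ∣ charDegree χ.1) :
    letI := realIrrAction (G := G) K
    letI := realIrrAction (G := T) (K.subgroupOf T)
    Nat.card (MulAction.orbitRel.Quotient G (RealIrr K)) ≤
      Nat.card (MulAction.orbitRel.Quotient T (RealIrr (K.subgroupOf T))) := by
  classical
  letI A1 := realIrrAction (G := G) K
  letI A2 := realIrrAction (G := T) (K.subgroupOf T)
  have hset := copSetup_KT K P T hP hcop hT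
  let φ := conjHom K P (fun s _ g hg => hK.conj_mem g hg s)
  have key : ∀ ω : MulAction.orbitRel.Quotient G (RealIrr K), ∃ ν : RealIrr K,
      ∃ β : RealIrr (K.subgroupOf T), Quotient.mk'' ν = ω ∧ (∀ (a : P) g, ν.1.1 (φ a g) = ν.1.1 g) ∧
        ∃ m : ℕ, classInner (fun c => ν.1.1 (iotaC K T c)) β.1.1 = m ∧ ¬ p ∣ m := by
    intro ω
    obtain ⟨θ, rfl⟩ := Quotient.exists_rep ω
    -- the real character above `θ`
    have hθr : ∀ n, conj (θ.1.1 n) = θ.1.1 n := fun n => Complex.conj_eq_iff_im.2 (θ.2 n)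
    have hsum := sum_real_over K hodd θ.1.2 hθr
    obtain ⟨χ, hχo, hχr⟩ : ∃ χ ∈ overSet K θ.1.1, ∀ g, conj (χ.1 g) = χ.1 g := by
      by_contra hall
      push Not at hall
      rw [Finset.sum_eq_zero] at hsum
      · exact zero_ne_one hsum
      · intro χ hχ
        rw [if_neg]
        obtain ⟨g, hg⟩ := hall χ hχ
        exact fun h => hg (h g)
    have hd := hreal χ (fun g => Complex.conj_eq_iff_im.1 (hχr g))
    obtain ⟨ν, hν, hνP⟩ := exists_fixed_constituent' K χ hd P hP
    obtain ⟨g, hg⟩ := over_conj K χ ν θ.1 hν ((mem_overSet K).1 hχo)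
    -- `ν` is a conjugate of `θ`
    have hνθ : twist K θ.1.1 g⁻¹ = ν.1 := by
      rw [hg, ← twist_mul, mul_inv_cancel, twist_one]
    have hνr : ∀ k, (ν.1 k).im = 0 := by
      intro k
      rw [← hνθ]
      exact θ.2 _
    have hinv : ∀ (a : P) k, ν.1 (φ a k) = ν.1 k := by
      intro a k
      have := congrFun (hνP a.1 a.2) k
      exact this
    obtain ⟨β, m, hm, hpm⟩ := glaub_exists hset ν hinv
    have hβr : ∀ c, (β.1 c).im = 0 := by
      apply im_eq_zero_of_star
      have h1 : classInner (fun c => ν.1 (iotaC K T c)) (irrStar β).1 = m := by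
        have h2 := classInner_conj_conj (fun c => ν.1 (iotaC K T c)) β.1
        rw [hm, conj_natCast'] at h2
        rw [← h2]
        congr 1
        funext c
        exact (Complex.conj_eq_iff_im.2 (hνr _)).symm
      exact glaub_unique hset ν hinv h1 hm hpm hpm
    refine ⟨⟨ν, hνr⟩, ⟨β, hβr⟩, ?_, hinv, m, hm, hpm⟩
    apply Quotient.sound'
    rw [MulAction.orbitRel_apply, MulAction.mem_orbit_iff]
    refine ⟨g, ?_⟩
    apply Subtype.ext
    apply Subtype.ext
    exact hνθ
  choose ν β hνω hνinv m hm hpm using key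
  apply Nat.card_le_card_of_injective (fun ω =>
    (Quotient.mk'' (β ω) : MulAction.orbitRel.Quotient T (RealIrr (K.subgroupOf T))))
  intro ω ω' e
  have e2 := Quotient.eq''.1 e
  rw [MulAction.orbitRel_apply, MulAction.mem_orbit_iff] at e2
  obtain ⟨t, ht⟩ := e2
  have hmem : ∀ s ∈ T, ∀ a ∈ P, s * a * s⁻¹ ∈ P := by
    intro s hs a ha
    rw [hT, Subgroup.mem_normalizer_iff] at hs
    exact (hs a).1 ha
  have hstep : ((t : G) • ν ω') = ν ω := by
    apply Subtype.ext
    refine glaub_inj hset ((t : G) • ν ω').1 (ν ω).1 ?_ (hνinv ω) ?_ (hpm ω') (hm ω) (hpm ω)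
    · intro a k
      show (ν ω').1.1 _ = (ν ω').1.1 _
      have h1 := hνinv ω' ⟨(t : G)⁻¹ * a.1 * (t : G)⁻¹⁻¹, hmem _ (T.inv_mem t.2) _ a.2⟩
        ⟨(t : G)⁻¹ * k.1 * (t : G)⁻¹⁻¹, hK.conj_mem _ k.2 _⟩
      refine Eq.trans (congrArg (ν ω').1.1 (Subtype.ext ?_)) h1
      simp only [conjHom_apply, φ, Subgroup.coe_mul, mul_inv_rev, inv_inv]
      group
    · have h1 := rel_twist K T (ν ω').1.1 (β ω').1.1 t⁻¹
      rw [hm ω'] at h1
      rw [← h1, ← ht]
      rfl
  have e3 : (Quotient.mk'' ((t : G) • ν ω') : MulAction.orbitRel.Quotient G (RealIrr K)) =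
      Quotient.mk'' (ν ω') := by
    apply Quotient.sound'
    rw [MulAction.orbitRel_apply, MulAction.mem_orbit_iff]
    exact ⟨(t : G), rfl⟩
  rw [← hνω ω, ← hνω ω', ← hstep, e3]

/-- Every real class of `K` is `G`-conjugate to a class of `K ∩ N_G(P)`. -/
theorem real_class_rep {p : ℕ} [hp : Fact p.Prime] (P : Sylow p G) (T : Subgroup G) [Fintype T]
    [Fintype (K.subgroupOf T)] [Fintype (IrrCharacter (K.subgroupOf T))]
    (hcop : ¬ p ∣ Nat.card K)
    (hT : T = Subgroup.normalizer ((P : Subgroup G) : Set G)) (hodd : Odd K.index)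
    (hreal : ∀ χ : IrrCharacter G, (∀ g, (χ.1 g).im = 0) → ¬ p ∣ charDegree χ.1)
    (x : K) (hx : IsConj x x⁻¹) : ∃ c : K.subgroupOf T, IsConj (x : G) ((c : T) : G) := by
  classical
  have hcount := orbits_irr_le K (P : Subgroup G) T P.2 hcop hT hodd hreal
  have hodd' : Odd (K.subgroupOf T).index := by
    have h1 : K.relIndex T ∣ K.index := Subgroup.relIndex_dvd_index_of_normal K T
    exact Odd.of_dvd_nat hodd h1
  have h1 := card_orbits_real_eq K hodd
  have h2 := card_orbits_real_eq (K.subgroupOf T) hodd'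
  letI A1 := realIrrAction (G := G) K
  letI A2 := realIrrAction (G := T) (K.subgroupOf T)
  letI A3 := realClAction (G := G) K
  letI A4 := realClAction (G := T) (K.subgroupOf T)
  have hset := copSetup_KT K (P : Subgroup G) T P.2 hcop hT
  have hrealmap : ∀ D : RealCl (K.subgroupOf T), ∀ r, ConjClasses.mk r =
      ConjClasses.map (iotaC K T) D.1 → IsConj r r⁻¹ := by
    rintro ⟨D, hD⟩ r hr
    obtain ⟨c, rfl⟩ := ConjClasses.mk_surjective D
    have h3 : IsConj r (iotaC K T c) := ConjClasses.mk_eq_mk_iff_isConj.1 hr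
    have h4 : IsConj (iotaC K T c) (iotaC K T c)⁻¹ := by
      rw [← map_inv]
      exact MonoidHom.map_isConj _ (hD c rfl)
    exact h3.trans (h4.trans (isConj_inv_inv h3).symm)
  let j : RealCl (K.subgroupOf T) → MulAction.orbitRel.Quotient G (RealCl K) := fun D =>
    Quotient.mk'' ⟨ConjClasses.map (iotaC K T) D.1, hrealmap D⟩
  have hjinv : ∀ a b : RealCl (K.subgroupOf T), (MulAction.orbitRel T _).r a b → j a = j b := by
    intro a b hab
    rw [MulAction.orbitRel_apply, MulAction.mem_orbit_iff] at hab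
    obtain ⟨t, rfl⟩ := hab
    obtain ⟨D, hD⟩ := b
    obtain ⟨c, rfl⟩ := ConjClasses.mk_surjective D
    apply Quotient.sound'
    rw [MulAction.orbitRel_apply, MulAction.mem_orbit_iff]
    refine ⟨(t : G), ?_⟩
    apply Subtype.ext
    rfl
  let J : MulAction.orbitRel.Quotient T (RealCl (K.subgroupOf T)) →
      MulAction.orbitRel.Quotient G (RealCl K) := Quotient.lift j hjinv
  have hJinj : Function.Injective J := by
    intro a b hab
    obtain ⟨⟨D, hD⟩, rfl⟩ := Quotient.exists_rep a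
    obtain ⟨⟨D', hD'⟩, rfl⟩ := Quotient.exists_rep b
    obtain ⟨c, rfl⟩ := ConjClasses.mk_surjective D
    obtain ⟨c', rfl⟩ := ConjClasses.mk_surjective D'
    have e := Quotient.eq''.1 hab
    rw [MulAction.orbitRel_apply, MulAction.mem_orbit_iff] at e
    obtain ⟨g, hg⟩ := e
    have h3 : ConjClasses.mk (MulAut.conjNormal g (iotaC K T c') : K) = ConjClasses.mk (iotaC K T c) :=
      congrArg Subtype.val hg
    obtain ⟨k, hk⟩ := isConj_iff.1 (ConjClasses.mk_eq_mk_iff_isConj.1 h3)
    have h4 : (k : G) * g * ((c' : T) : G) * ((k : G) * g)⁻¹ = ((c : T) : G) := by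
      have := congrArg (fun z : K => (z : G)) hk
      simp only [Subgroup.coe_mul, MulAut.conjNormal_apply, Subgroup.coe_inv, iotaC_coe] at this
      rw [← this]
      group
    have hfx : ∀ z : K.subgroupOf T, ∀ s ∈ (P : Subgroup G), s * ((z : T) : G) * s⁻¹ = ((z : T) : G) := by
      intro z s hs
      have := hset.fix_ι ⟨s, hs⟩ z
      exact congrArg (fun y : K => (y : G)) this
    obtain ⟨n, hn, hne⟩ := burnside_conj P (hfx c') (hfx c) h4
    have hnT : n ∈ T := by rw [hT]; exact hn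
    apply Quotient.sound'
    rw [MulAction.orbitRel_apply, MulAction.mem_orbit_iff]
    refine ⟨⟨n, hnT⟩, ?_⟩
    apply Subtype.ext
    show ConjClasses.mk (MulAut.conjNormal (⟨n, hnT⟩ : T) c') = ConjClasses.mk c
    congr 1
    apply Subtype.ext
    apply Subtype.ext
    exact hne
  have hcard : Nat.card (MulAction.orbitRel.Quotient G (RealCl K)) ≤
      Nat.card (MulAction.orbitRel.Quotient T (RealCl (K.subgroupOf T))) := by
    rw [← h1, ← h2]
    exact hcount
  have hb := hJinj.bijective_of_nat_card_le hcard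
  have hxreal : ∀ r, ConjClasses.mk r = ConjClasses.mk x → IsConj r r⁻¹ := by
    intro r hr
    have h3 : IsConj r x := ConjClasses.mk_eq_mk_iff_isConj.1 hr
    exact h3.trans (hx.trans (isConj_inv_inv h3).symm)
  obtain ⟨a, ha⟩ := hb.2 (Quotient.mk'' ⟨ConjClasses.mk x, hxreal⟩)
  obtain ⟨⟨D, hD⟩, rfl⟩ := Quotient.exists_rep a
  obtain ⟨c, rfl⟩ := ConjClasses.mk_surjective D
  refine ⟨c, ?_⟩
  have e := Quotient.eq''.1 ha
  rw [MulAction.orbitRel_apply, MulAction.mem_orbit_iff] at e
  obtain ⟨g, hg⟩ := e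
  have h3 : ConjClasses.mk (MulAut.conjNormal g x : K) = ConjClasses.mk (iotaC K T c) :=
    congrArg Subtype.val hg
  obtain ⟨k, hk⟩ := isConj_iff.1 (ConjClasses.mk_eq_mk_iff_isConj.1 h3)
  refine isConj_iff.2 ⟨(k : G) * g, ?_⟩
  have := congrArg (fun z : K => (z : G)) hk
  simp only [Subgroup.coe_mul, MulAut.conjNormal_apply, Subgroup.coe_inv, iotaC_coe] at this
  rw [← this]
  group

end Core

theorem primeGen_two_index_odd {G : Type*} [Group G] [Finite G] : Odd (primeGen G 2).index := by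
  classical
  haveI : (primeGen G 2).Normal := primeGen_normal G 2
  by_contra h
  rw [Nat.not_odd_iff_even, even_iff_two_dvd, Subgroup.index_eq_card] at h
  haveI : Fact (Nat.Prime 2) := ⟨Nat.prime_two⟩
  obtain ⟨x, hx⟩ := exists_prime_orderOf_dvd_card' (G := G ⧸ primeGen G 2) 2 h
  obtain ⟨g, hg, j, hj⟩ := exists_pElement_lift (QuotientGroup.mk' (primeGen G 2))
    (QuotientGroup.mk'_surjective _) Nat.prime_two (x := x) (k := 1) (by rw [hx, pow_one])
  have h1 : g ∈ primeGen G 2 := Subgroup.subset_closure ⟨j, hj⟩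
  have h2 : x = 1 := by
    rw [← hg]
    exact (QuotientGroup.eq_one_iff _).2 h1
  rw [h2, orderOf_one] at hx
  norm_num at hx

/-- Real elements lie in the subgroup generated by the 2-elements and are real there. -/
theorem real_mem_primeGen {G : Type*} [Group G] [Fintype G] {x : G} (hx : IsConj x x⁻¹) :
    ∃ t ∈ primeGen G 2, x ∈ primeGen G 2 ∧ t * x * t⁻¹ = x⁻¹ := by
  classical
  haveI hKn : (primeGen G 2).Normal := primeGen_normal G 2
  haveI : Fintype (primeGen G 2) := Fintype.ofFinite _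
  obtain ⟨g, hg⟩ := isConj_iff.1 hx
  obtain ⟨k, b, hb, hab⟩ := Nat.exists_eq_pow_mul_and_not_dvd (orderOf_pos g).ne' 2 (by norm_num)
  have hbodd : Odd b := Nat.odd_iff.2 (by omega)
  obtain ⟨c, hc⟩ := hbodd
  have ht : (g ^ b) ^ (2 ^ k) = 1 := by
    rw [← pow_mul, mul_comm, ← hab, pow_orderOf_eq_one]
  have htK : g ^ b ∈ primeGen G 2 := by
    apply Subgroup.subset_closure
    obtain ⟨j, _, hj⟩ := (Nat.dvd_prime_pow Nat.prime_two).1 (orderOf_dvd_of_pow_eq_one ht)
    exact ⟨j, hj⟩
  have hconj : g ^ b * x * (g ^ b)⁻¹ = x⁻¹ := by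
    rw [hc]
    exact conj_odd_pow g x hg c
  refine ⟨g ^ b, htK, ?_, hconj⟩
  have h1 : x⁻¹ * x⁻¹ ∈ primeGen G 2 := by
    have h2 : x⁻¹ * x⁻¹ = g ^ b * (x * (g ^ b)⁻¹ * x⁻¹) := by
      rw [← hconj]
      group
    rw [h2]
    exact Subgroup.mul_mem _ htK (hKn.conj_mem _ (Subgroup.inv_mem _ htK) x)
  have h3 := odd_index_mem (primeGen G 2) primeGen_two_index_odd h1
  simpa using h3

/-- Theorem: if `O^{2'}(G)` has order prime to `p` and the real characters have degree prime to `p`,
then real classes meet the normalizer of a Sylow `p`-subgroup. -/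
theorem real_class_normalizer_of_cop {G : Type u} [Group G] [Fintype G] {p : ℕ} [hp : Fact p.Prime]
    (P : Sylow p G) (hcop : ¬ p ∣ Nat.card (primeGen G 2))
    (hreal : ∀ χ : IrrCharacter G, (∀ g, (χ.1 g).im = 0) → ¬ p ∣ charDegree χ.1)
    (x : G) (hx : IsConj x x⁻¹) :
    ∃ y ∈ Subgroup.normalizer ((P : Subgroup G) : Set G), IsConj x y := by
  classical
  haveI hKn : (primeGen G 2).Normal := primeGen_normal G 2
  obtain ⟨t, htK, hxK, hte⟩ := real_mem_primeGen hx
  haveI : Fintype (primeGen G 2) := Fintype.ofFinite _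
  haveI : Fintype (Subgroup.normalizer ((P : Subgroup G) : Set G)) := Fintype.ofFinite _
  haveI : Fintype ((primeGen G 2).subgroupOf (Subgroup.normalizer ((P : Subgroup G) : Set G))) :=
    Fintype.ofFinite _
  haveI : Fintype (IrrCharacter G) := Fintype.ofFinite _
  haveI : Fintype (IrrCharacter (primeGen G 2)) := Fintype.ofFinite _
  haveI : Fintype (IrrCharacter ((primeGen G 2).subgroupOf (Subgroup.normalizer ((P : Subgroup G) : Set G)))) :=
    Fintype.ofFinite _
  obtain ⟨c, hc⟩ := real_class_rep (primeGen G 2) P (Subgroup.normalizer ((P : Subgroup G) : Set G))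
    hcop rfl primeGen_two_index_odd hreal ⟨x, hxK⟩ (isConj_iff.2 ⟨⟨t, htK⟩, Subtype.ext hte⟩)
  refine ⟨_, c.1.2, ?_⟩
  exact hc

end Cfsg.Agent.H23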