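import Cfsg.Agent.Lib.H23.RealDeg5

/-!
# Real classes meet the normalizer of a Sylow subgroup: the general case.
-/

set_option autoImplicit false
set_option linter.unusedSectionVars false
set_option linter.style.haveILetI false
set_option linter.unusedSimpArgs false

namespace Cfsg.Agent.H23

open Cfsg Cfsg.Agent.H21 Cfsg.Agent.H06
open scoped ComplexConjugate

universe u

theorem normal_pgroup_le_sylow {G : Type*} [Group G] [Finite G] {p : ℕ} [hp : Fact p.Prime]
    (Q : Subgroup G) [hQ : Q.Normal] (hQp : IsPGroup p Q) (P : Sylow p G) : Q ≤ P := by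
  obtain ⟨R, hR⟩ := hQp.exists_le_sylow
  obtain ⟨g, hg⟩ := MulAction.exists_smul_eq G R P
  intro x hx
  rw [← hg]
  have h1 : g⁻¹ * x * g ∈ Q := by
    have := hQ.conj_mem x hx g⁻¹
    simpa using this
  have h2 := hR h1
  rw [Sylow.coe_subgroup_smul]
  rw [Subgroup.mem_pointwise_smul_iff_inv_smul_mem]
  simpa [MulAut.smul_def, MulAut.conj_apply] using h2

/-- Real classes of `G` meet `N_G(P)`. -/
theorem real_class_normalizer {G : Type u} [Group G] [Finite G] (p : ℕ) [hp : Fact p.Prime]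
    (hsolv : Group.IsSolvable (primeGen G p))
    (hreal : ∀ χ : IrrCharacter G, (∀ g, (χ.1 g).im = 0) → ¬ p ∣ charDegree χ.1)
    (P : Sylow p G) (x : G) (hx : IsConj x x⁻¹) :
    ∃ y ∈ Subgroup.normalizer ((P : Subgroup G) : Set G), IsConj x y := by
  classical
  have hpp := hp.out
  haveI hKn : (primeGen G 2).Normal := primeGen_normal G 2
  have hQp := real_structure _ G p hsolv hreal (primeGen G 2) le_rfl
    (fun u hu => ⟨0, by simpa using hu⟩) le_rfl
  obtain ⟨Q, hQdef⟩ : ∃ Q, Q = upGen (primeGen G 2) p := ⟨_, rfl⟩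
  rw [← hQdef] at hQp
  haveI hQn : Q.Normal := by rw [hQdef]; exact upGen_normal _ p
  have hQP : Q ≤ P := normal_pgroup_le_sylow Q hQp P
  let π : G →* G ⧸ Q := QuotientGroup.mk' Q
  have hπ : Function.Surjective π := QuotientGroup.mk'_surjective Q
  haveI : Fintype (G ⧸ Q) := Fintype.ofFinite _
  have hrq : ∀ χ : IrrCharacter (G ⧸ Q), (∀ g, (χ.1 g).im = 0) → ¬ p ∣ charDegree χ.1 := by
    intro χ hχ
    have h1 := hreal ⟨fun g => χ.1 (π g), isIrrCharacter_comp_of_surjective π hπ χ.2⟩ (fun g => hχ _)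
    have h2 : charDegree (fun g => χ.1 (π g)) = charDegree χ.1 := by
      simp only [charDegree, map_one]
    simpa only [h2] using h1
  have hprime : primeGen (G ⧸ Q) 2 = (primeGen G 2).map π :=
    le_antisymm (le_primeGen_map π hπ Nat.prime_two) (primeGen_map_le π Nat.prime_two)
  have hcop : ¬ p ∣ Nat.card (primeGen (G ⧸ Q) 2) := by
    intro hd
    rw [hprime] at hd
    obtain ⟨z, hz⟩ := exists_prime_orderOf_dvd_card' (G := (primeGen G 2).map π) p hd
    obtain ⟨g, hg, j, hj⟩ := exists_pElement_lift (π.subgroupMap (primeGen G 2))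
      (π.subgroupMap_surjective _) hpp (x := z) (k := 1) (by rw [hz, pow_one])
    have h1 : g.1 ∈ Q := by
      rw [hQdef]
      apply Subgroup.subset_closure
      refine ⟨g.2, j, ?_⟩
      rw [← hj]
      exact Subgroup.orderOf_coe g
    have h2 : π g.1 = 1 := (QuotientGroup.eq_one_iff _).2 h1
    have h3 : z = 1 := by
      apply Subtype.ext
      rw [← hg]
      exact h2
    rw [h3, orderOf_one] at hz
    exact hpp.one_lt.ne hz
  have hxq : IsConj (π x) (π x)⁻¹ := by
    rw [← map_inv]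
    exact MonoidHom.map_isConj π hx
  obtain ⟨y', hy', hxy'⟩ := real_class_normalizer_of_cop (P.mapSurjective hπ) hcop hrq (π x) hxq
  obtain ⟨c', hc'⟩ := isConj_iff.1 hxy'
  obtain ⟨c, rfl⟩ := hπ c'
  refine ⟨c * x * c⁻¹, ?_, isConj_iff.2 ⟨c, rfl⟩⟩
  have hmemP : ∀ h, h ∈ (P : Subgroup G) ↔ π h ∈ ((P.mapSurjective hπ : Sylow p (G ⧸ Q)) : Subgroup (G ⧸ Q)) := by
    intro h
    rw [Sylow.coe_mapSurjective]
    constructor
    · intro hh
      exact ⟨h, hh, rfl⟩
    · rintro ⟨h', hh', e⟩
      have h1 : h'⁻¹ * h ∈ Q := by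
        rw [← QuotientGroup.eq_one_iff]
        have : (QuotientGroup.mk' Q) (h'⁻¹ * h) = 1 := by
          rw [map_mul, map_inv]
          have e' : π h' = π h := e
          have e2 : (QuotientGroup.mk' Q) h' = (QuotientGroup.mk' Q) h := e'
          rw [e2]
          simp
        exact this
      have h2 : h = h' * (h'⁻¹ * h) := by group
      rw [h2]
      exact Subgroup.mul_mem _ hh' (hQP h1)
  rw [Subgroup.mem_normalizer_iff]
  intro h
  rw [Subgroup.mem_normalizer_iff] at hy'
  rw [hmemP h, hmemP (c * x * c⁻¹ * h * (c * x * c⁻¹)⁻¹), hy' (π h), ← hc']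
  simp only [map_mul, map_inv]

end Cfsg.Agent.H23
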