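import Cfsg.Agent.Lib.H23.FullRam
import Cfsg.Agent.Lib.H19.SchurExp
import Cfsg.Agent.Lib.H23.RealOver

set_option autoImplicit false
set_option linter.style.haveILetI false
set_option linter.unusedSectionVars false

namespace Cfsg.Agent.H23

open Cfsg Cfsg.Agent Cfsg.Agent.H21 Cfsg.Agent.H06
open scoped ComplexConjugate

universe u

section
variable {G : Type u} [Group G] [Fintype G] (N : Subgroup G) [hNn : N.Normal] [Fintype N]
variable [Fintype (IrrCharacter G)] [Fintype (IrrCharacter N)]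
variable (ψ : IrrCharacter N)

/-- Class functions transforming by `ψ` under the central subgroup. -/
def InV (f : G → ℂ) : Prop :=
  IsClassFunction G f ∧ ∀ (z : N) (g : G), f (z * g) = ψ.1 z * f g

variable {N ψ}

theorem inV_sum {ι : Type*} (s : Finset ι) (c : ι → ℂ) (f : ι → G → ℂ) (h : ∀ i, InV N ψ (f i)) :
    InV N ψ (fun g => ∑ i ∈ s, c i * f i g) := by
  constructor
  · intro g k
    refine Finset.sum_congr rfl fun i _ => ?_
    rw [(h i).1 g k]
  · intro z g
    simp only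
    rw [Finset.mul_sum]
    refine Finset.sum_congr rfl fun i _ => ?_
    rw [(h i).2 z g]
    ring

open Classical in
/-- The function attached to a class. -/
noncomputable def scF (ψ : IrrCharacter N) (r g : G) : ℂ :=
  ∑ y : G, ∑ z : N, if g = (z : G) * (y * r * y⁻¹) then ψ.1 z else 0

variable (hN : N ≤ Subgroup.center G)
include hN

theorem sc_comm (a b : N) : a * b = b * a := by
  apply Subtype.ext
  exact (Subgroup.mem_center_iff.mp (hN a.2) (b : G)).symm

theorem sc_comm' (a : N) (g : G) : (a : G) * g = g * a :=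
  (Subgroup.mem_center_iff.mp (hN a.2) g).symm

theorem sc_deg : charDegree ψ.1 = 1 :=
  irr_degree_one_of_comm (sc_comm hN) ψ.2

theorem sc_one : ψ.1 1 = 1 := linear_one (isCharacter_of_irr ψ.2) (sc_deg hN)

theorem sc_mul (a b : N) : ψ.1 (a * b) = ψ.1 a * ψ.1 b :=
  linear_mul (isCharacter_of_irr ψ.2) (sc_deg hN) a b

/-- The scalar by which the central subgroup acts. -/
theorem sc_central (χ : IrrCharacter G) :
    ∃ μ : N →* ℂˣ, (∀ k : N, χ.1 k = (charDegree χ.1 : ℂ) * μ k) ∧
      ∀ (k : N) (g : G), χ.1 (k * g) = (μ k : ℂ) * χ.1 g := by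
  obtain ⟨μ, hμ, -⟩ := H19.central_hom χ N hN
  refine ⟨μ, hμ, fun k g => ?_⟩
  have hd : (charDegree χ.1 : ℂ) ≠ 0 := Nat.cast_ne_zero.2 (irr_charDegree_pos χ.2).ne'
  have h1 := irr_central_mul χ.2 (hN k.2) g
  rw [hμ k] at h1
  have h2 : χ.1 (k * g) * (charDegree χ.1 : ℂ) = (μ k : ℂ) * χ.1 g * (charDegree χ.1 : ℂ) := by
    rw [h1]; ring
  exact mul_right_cancel₀ hd h2

theorem sc_over (χ : IrrCharacter G) (hχ : classInner (fun n : N => χ.1 n) ψ.1 ≠ 0) :
    InV N ψ χ.1 := by
  classical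
  refine ⟨isClassFunction_of_isCharacter (isCharacter_of_irr χ.2), fun z g => ?_⟩
  obtain ⟨μ, hμ, hμg⟩ := sc_central (N := N) hN χ
  let ψ₂ : IrrCharacter N := ⟨fun n => (μ n : ℂ), isIrrCharacter_hom μ⟩
  have h1 : classInner (fun n : N => χ.1 n) ψ.1 =
      (charDegree χ.1 : ℂ) * classInner ψ₂.1 ψ.1 := by
    simp only [classInner, hμ]
    rw [mul_left_comm (charDegree χ.1 : ℂ)]
    congr 1
    rw [Finset.mul_sum]
    refine Finset.sum_congr rfl fun n _ => ?_
    simp only [ψ₂]
    ring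
  have h2 : ψ₂ = ψ := by
    by_contra hne
    rw [classInner_irr, if_neg hne, mul_zero] at h1
    exact hχ h1
  rw [hμg, ← h2]

theorem sc_inner_zero {f : G → ℂ} (hf : InV N ψ f) (χ : IrrCharacter G)
    (hχ : classInner (fun n : N => χ.1 n) ψ.1 = 0) : classInner f χ.1 = 0 := by
  classical
  obtain ⟨μ, hμ, hμg⟩ := sc_central (N := N) hN χ
  have hd : (charDegree χ.1 : ℂ) ≠ 0 := Nat.cast_ne_zero.2 (irr_charDegree_pos χ.2).ne'
  have hex : ∃ z : N, (μ z : ℂ) ≠ ψ.1 z := by
    by_contra hcon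
    push Not at hcon
    have h1 : classInner (fun n : N => χ.1 n) ψ.1 = (charDegree χ.1 : ℂ) * classInner ψ.1 ψ.1 := by
      simp only [classInner, hμ, hcon]
      rw [mul_left_comm (charDegree χ.1 : ℂ)]
      congr 1
      rw [Finset.mul_sum]
      refine Finset.sum_congr rfl fun n _ => ?_
      ring
    have h2 : classInner ψ.1 ψ.1 = 1 := by simpa using classInner_irr ψ ψ
    rw [h2, mul_one] at h1
    rw [hχ] at h1
    exact hd h1.symm
  obtain ⟨z, hz⟩ := hex
  have hnorm : (μ z : ℂ) * conj (μ z : ℂ) = 1 := by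
    have h1 : ((μ z : ℂ)) ^ Nat.card N = 1 := by
      have h2 : μ z ^ Nat.card N = 1 := by rw [← map_pow, pow_card_eq_one', map_one]
      have := congrArg Units.val h2
      simpa using this
    have h3 := Complex.norm_eq_one_of_pow_eq_one h1 Nat.card_pos.ne'
    rw [Complex.mul_conj']
    rw [h3]
    simp
  have hS : ∑ g : G, f g * conj (χ.1 g) =
      ψ.1 z * conj (μ z : ℂ) * ∑ g : G, f g * conj (χ.1 g) := by
    rw [Finset.mul_sum]
    refine (Fintype.sum_equiv (Equiv.mulLeft (z : G)) _ _ fun g => ?_).symm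
    simp only [Equiv.coe_mulLeft]
    rw [hf.2, hμg, map_mul]
    ring
  have hne : ψ.1 z * conj (μ z : ℂ) ≠ 1 := by
    intro h
    apply hz
    calc (μ z : ℂ) = (ψ.1 z * conj (μ z : ℂ)) * (μ z : ℂ) := by rw [h, one_mul]
      _ = ψ.1 z * ((μ z : ℂ) * conj (μ z : ℂ)) := by ring
      _ = ψ.1 z := by rw [hnorm, mul_one]
  have h0 : ∑ g : G, f g * conj (χ.1 g) = 0 := by
    have h3 : (1 - ψ.1 z * conj (μ z : ℂ)) * ∑ g : G, f g * conj (χ.1 g) = 0 := by
      rw [sub_mul, ← hS, one_mul, sub_self]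
    exact (mul_eq_zero.mp h3).resolve_left (sub_ne_zero.mpr (Ne.symm hne))
  rw [classInner, h0, mul_zero]

theorem sc_zero_of_inner {f : G → ℂ} (hf : InV N ψ f)
    (h : ∀ χ : IrrCharacter G, classInner (fun n : N => χ.1 n) ψ.1 ≠ 0 → classInner f χ.1 = 0) :
    f = 0 := by
  classical
  rw [classFunction_expansion f hf.1]
  apply Finset.sum_eq_zero
  intro χ _
  by_cases hχ : classInner (fun n : N => χ.1 n) ψ.1 = 0
  · rw [sc_inner_zero hN hf χ hχ, zero_smul]
  · rw [h χ hχ, zero_smul]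

variable (hfaith : ∀ n : N, ψ.1 n = ψ.1 1 → n = 1)
include hfaith

theorem sc_not_special {f : G → ℂ} (hf : InV N ψ f) {g x : G} (hx : x⁻¹ * g⁻¹ * x * g ∈ N)
    (hne : x * g ≠ g * x) : f g = 0 := by
  have hz1 : (⟨_, hx⟩ : N) ≠ 1 := by
    intro h
    have h2 : x⁻¹ * g⁻¹ * x * g = 1 := congrArg Subtype.val h
    apply hne
    have h9 : (g * x)⁻¹ * (x * g) = 1 := by
      rw [← h2]; group
    exact (inv_mul_eq_one.mp h9).symm
  set z : N := ⟨_, hx⟩ with hz
  have h3 : x⁻¹ * g * x = (z⁻¹ : N) * g := by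
    have h4 : ((z⁻¹ : N) : G) = g⁻¹ * x⁻¹ * g * x := by
      show (x⁻¹ * g⁻¹ * x * g)⁻¹ = _
      group
    have h5 : (z : G) = x⁻¹ * g⁻¹ * x * g := rfl
    rw [sc_comm' hN, h4]
    group
  have h6 : f g = f (x⁻¹ * g * x) := by
    have := hf.1 g x⁻¹
    rw [inv_inv] at this
    exact this.symm
  rw [h3, hf.2] at h6
  have h7 : ψ.1 z⁻¹ ≠ 1 := by
    intro h
    rw [← sc_one hN] at h
    have := hfaith _ h
    exact hz1 (by simpa using this)
  have h8 : (1 - ψ.1 z⁻¹) * f g = 0 := by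
    rw [sub_mul, one_mul, sub_eq_zero]
    exact h6
  exact (mul_eq_zero.mp h8).resolve_left (sub_ne_zero.mpr (Ne.symm h7))

omit hfaith in
/-- An element of the sum over a conjugacy class. -/
theorem sc_F_inV (r : G) : InV N ψ (scF ψ r) := by
  classical
  constructor
  · intro g h
    unfold scF
    refine (Fintype.sum_equiv (Equiv.mulLeft h⁻¹) _ _ fun y => ?_)
    refine Finset.sum_congr rfl fun z _ => ?_
    have h1 : (h * g * h⁻¹ = (z : G) * (y * r * y⁻¹)) ↔
        g = (z : G) * ((h⁻¹ * y) * r * (h⁻¹ * y)⁻¹) := by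
      have e : (z : G) * ((h⁻¹ * y) * r * (h⁻¹ * y)⁻¹) = h⁻¹ * ((z : G) * (y * r * y⁻¹)) * h := by
        rw [← mul_assoc, ← mul_assoc, ← mul_assoc, sc_comm' hN z h⁻¹]
        group
      rw [e]
      constructor
      · intro h2
        rw [← h2]; group
      · intro h2
        rw [h2]; group
    exact if_congr h1 rfl rfl
  · intro z₀ g
    unfold scF
    rw [Finset.mul_sum]
    refine Finset.sum_congr rfl fun y _ => ?_
    rw [Finset.mul_sum]
    refine (Fintype.sum_equiv (Equiv.mulLeft z₀⁻¹) _ _ fun z => ?_)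
    have h1 : ((z₀ : G) * g = (z : G) * (y * r * y⁻¹)) ↔
        g = (((z₀⁻¹ * z : N)) : G) * (y * r * y⁻¹) := by
      have e : (((z₀⁻¹ * z : N)) : G) * (y * r * y⁻¹) = (z₀ : G)⁻¹ * ((z : G) * (y * r * y⁻¹)) := by
        push_cast; group
      rw [e]
      constructor
      · intro h2
        rw [← h2]; group
      · intro h2
        rw [h2]; group
    show (if (z₀ : G) * g = (z : G) * (y * r * y⁻¹) then ψ.1 z else 0) =
      ψ.1 z₀ * (if g = (((z₀⁻¹ * z : N)) : G) * (y * r * y⁻¹) then ψ.1 (z₀⁻¹ * z) else 0)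
    by_cases h2 : g = (((z₀⁻¹ * z : N)) : G) * (y * r * y⁻¹)
    · rw [if_pos h2, if_pos (h1.mpr h2), ← sc_mul hN]
      congr 1
      group
    · rw [if_neg h2, if_neg (fun h3 => h2 (h1.mp h3)), mul_zero]

omit hfaith in
theorem sc_F_ne (r r' : G) (h : scF ψ r r' ≠ 0) :
    ConjClasses.mk (r' : G ⧸ N) = ConjClasses.mk (r : G ⧸ N) := by
  classical
  unfold scF at h
  obtain ⟨y, -, hy⟩ := Finset.exists_ne_zero_of_sum_ne_zero h
  obtain ⟨z, -, hz⟩ := Finset.exists_ne_zero_of_sum_ne_zero hy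
  have h1 : r' = (z : G) * (y * r * y⁻¹) := by
    by_contra hc
    exact hz (if_neg hc)
  rw [ConjClasses.mk_eq_mk_iff_isConj, isConj_comm, isConj_iff]
  refine ⟨(y : G ⧸ N), ?_⟩
  rw [h1, QuotientGroup.mk_mul, (QuotientGroup.eq_one_iff (z : G)).mpr z.2, one_mul]
  rfl

omit hfaith in
theorem sc_F_self (r : G) (hr : ∀ x : G, x⁻¹ * r⁻¹ * x * r ∈ N → x * r = r * x) :
    scF ψ r r ≠ 0 := by
  classical
  unfold scF
  have h1 : ∀ y : G, (∑ z : N, if r = (z : G) * (y * r * y⁻¹) then ψ.1 z else 0) =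
      if y * r = r * y then (1 : ℂ) else 0 := by
    intro y
    by_cases hy : y * r = r * y
    · rw [if_pos hy]
      have h2 : y * r * y⁻¹ = r := by rw [hy]; group
      rw [h2, Finset.sum_eq_single (1 : N)]
      · rw [if_pos (by simp), sc_one hN]
      · intro z _ hz
        rw [if_neg]
        intro h3
        apply hz
        apply Subtype.ext
        have h4 : (z : G) * r = 1 * r := by rw [← h3, one_mul]
        exact mul_right_cancel h4
      · intro h
        exact absurd (Finset.mem_univ _) h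
    · rw [if_neg hy]
      apply Finset.sum_eq_zero
      intro z _
      rw [if_neg]
      intro h3
      apply hy
      -- `y⁻¹` has its commutator with `r` in `N`
      have h5 : y * r * y⁻¹ = (z : G)⁻¹ * r := by
        rw [eq_inv_mul_iff_mul_eq]
        exact h3.symm
      have h7 : y * r⁻¹ * y⁻¹ = r⁻¹ * (z : G) := by
        calc y * r⁻¹ * y⁻¹ = (y * r * y⁻¹)⁻¹ := by group
          _ = ((z : G)⁻¹ * r)⁻¹ := by rw [h5]
          _ = r⁻¹ * z := by group
      have h4 : y * r⁻¹ * y⁻¹ * r = (z : G) := by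
        rw [h7, mul_assoc, sc_comm' hN z r]
        group
      have h6 : y⁻¹ * r = r * y⁻¹ := hr y⁻¹ (by rw [inv_inv, h4]; exact z.2)
      calc y * r = y * (r * y⁻¹) * y := by group
        _ = y * (y⁻¹ * r) * y := by rw [← h6]
        _ = r * y := by group
  simp only [h1]
  rw [Finset.sum_boole]
  have h2 : (Finset.univ.filter fun y : G => y * r = r * y).card ≠ 0 := by
    rw [Finset.card_ne_zero]
    exact ⟨1, by simp⟩
  exact_mod_cast h2

/-- Functions in the space vanish if they vanish at representatives of the special classes. -/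
theorem sc_zero_of_reps {f : G → ℂ} (hf : InV N ψ f)
    (h : ∀ g : G, (∀ x : G, x⁻¹ * g⁻¹ * x * g ∈ N → x * g = g * x) →
      ∃ r : G, ConjClasses.mk (r : G ⧸ N) = ConjClasses.mk (g : G ⧸ N) ∧ f r = 0) : f = 0 := by
  funext g
  by_cases hsp : ∀ x : G, x⁻¹ * g⁻¹ * x * g ∈ N → x * g = g * x
  · obtain ⟨r, hr, hfr⟩ := h g hsp
    rw [ConjClasses.mk_eq_mk_iff_isConj, isConj_iff] at hr
    obtain ⟨c, hc⟩ := hr
    obtain ⟨y, rfl⟩ := QuotientGroup.mk_surjective c
    have h1 : ((y * r * y⁻¹ : G) : G ⧸ N) = (g : G ⧸ N) := hc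
    have h2 : (y * r * y⁻¹)⁻¹ * g ∈ N := QuotientGroup.eq.mp h1
    have h3 : g = ((⟨_, h2⟩ : N) : G) * (y * r * y⁻¹) := by
      rw [sc_comm' hN ⟨_, h2⟩]
      group
    rw [h3, hf.2]
    have h4 : f (y * r * y⁻¹) = f r := hf.1 r y
    rw [h4, hfr, mul_zero]
    rfl
  · push Not at hsp
    obtain ⟨x, hx, hne⟩ := hsp
    show f g = 0
    exact sc_not_special hN hfaith hf hx hne

end

section Count
variable {G : Type u} [Group G] [Fintype G] (N : Subgroup G) [hNn : N.Normal] [Fintype N]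

/-- The count of characters over a faithful character of a central subgroup. -/
theorem sc_count (hN : N ≤ Subgroup.center G) (ψ : IrrCharacter N)
    (hfaith : ∀ n : N, ψ.1 n = ψ.1 1 → n = 1) :
    Nat.card {χ : IrrCharacter G // classInner (fun n : N => χ.1 n) ψ.1 ≠ 0} =
      Nat.card {C : ConjClasses (G ⧸ N) // ∃ g : G, ConjClasses.mk (g : G ⧸ N) = C ∧
        ∀ x : G, x⁻¹ * g⁻¹ * x * g ∈ N → x * g = g * x} := by
  classical
  haveI : Fintype (IrrCharacter G) := Fintype.ofFinite _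
  haveI : Fintype (IrrCharacter N) := Fintype.ofFinite _
  haveI : Fintype (ConjClasses (G ⧸ N)) := Fintype.ofFinite _
  set Ω₁ := {χ : IrrCharacter G // classInner (fun n : N => χ.1 n) ψ.1 ≠ 0} with hΩ₁
  set Ω₂ := {C : ConjClasses (G ⧸ N) // ∃ g : G, ConjClasses.mk (g : G ⧸ N) = C ∧
        ∀ x : G, x⁻¹ * g⁻¹ * x * g ∈ N → x * g = g * x} with hΩ₂
  let rep : Ω₂ → G := fun C => C.2.choose
  have hrep1 : ∀ C : Ω₂, ConjClasses.mk (rep C : G ⧸ N) = C.1 := fun C => C.2.choose_spec.1
  have hrep2 : ∀ C : Ω₂, ∀ x : G, x⁻¹ * (rep C)⁻¹ * x * rep C ∈ N → x * rep C = rep C * x :=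
    fun C => C.2.choose_spec.2
  -- linear maps
  let A : (Ω₁ → ℂ) →ₗ[ℂ] (G → ℂ) :=
    { toFun := fun c g => ∑ χ, c χ * χ.1.1 g
      map_add' := fun a b => by
        funext g
        simp only [Pi.add_apply, add_mul, Finset.sum_add_distrib]
      map_smul' := fun a b => by
        funext g
        simp only [Pi.smul_apply, smul_eq_mul, RingHom.id_apply, Finset.mul_sum, mul_assoc] }
  let B : (Ω₂ → ℂ) →ₗ[ℂ] (G → ℂ) :=
    { toFun := fun c g => ∑ C, c C * scF ψ (rep C) g
      map_add' := fun a b => by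
        funext g
        simp only [Pi.add_apply, add_mul, Finset.sum_add_distrib]
      map_smul' := fun a b => by
        funext g
        simp only [Pi.smul_apply, smul_eq_mul, RingHom.id_apply, Finset.mul_sum, mul_assoc] }
  let E : (G → ℂ) →ₗ[ℂ] (Ω₂ → ℂ) := LinearMap.funLeft ℂ ℂ rep
  let P : (G → ℂ) →ₗ[ℂ] (Ω₁ → ℂ) :=
    { toFun := fun f χ => classInner f χ.1.1
      map_add' := fun a b => by
        funext χ
        simp only [Pi.add_apply, classInner, add_mul, Finset.sum_add_distrib, mul_add]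
      map_smul' := fun a b => by
        funext χ
        simp only [Pi.smul_apply, smul_eq_mul, RingHom.id_apply, classInner, Finset.mul_sum]
        refine Finset.sum_congr rfl fun g _ => ?_
        ring }
  have hAV : ∀ c, InV N ψ (A c) := fun c =>
    inV_sum _ c (fun χ : Ω₁ => χ.1.1) (fun χ => sc_over hN χ.1 χ.2)
  have hBV : ∀ c, InV N ψ (B c) := fun c =>
    inV_sum _ c (fun C : Ω₂ => scF ψ (rep C)) (fun C => sc_F_inV hN _)
  have hPA : ∀ c χ, P (A c) χ = c χ := by
    intro c χ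
    show classInner (fun g => ∑ χ' : Ω₁, c χ' * χ'.1.1 g) χ.1.1 = c χ
    have h1 : classInner (fun g => ∑ χ' : Ω₁, c χ' * χ'.1.1 g) χ.1.1 =
        ∑ χ' : Ω₁, c χ' * classInner χ'.1.1 χ.1.1 := by
      simp only [classInner, Finset.sum_mul, Finset.mul_sum]
      rw [Finset.sum_comm]
      refine Finset.sum_congr rfl fun χ' _ => ?_
      refine Finset.sum_congr rfl fun g _ => ?_
      ring
    rw [h1, Finset.sum_eq_single χ]
    · rw [classInner_irr, if_pos rfl, mul_one]
    · intro χ' _ hne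
      rw [classInner_irr, if_neg (fun h => hne (Subtype.ext h)), mul_zero]
    · intro h
      exact absurd (Finset.mem_univ _) h
  have hEB : ∀ a C, E (B a) C = a C * scF ψ (rep C) (rep C) := by
    intro a C
    show ∑ C', a C' * scF ψ (rep C') (rep C) = _
    rw [Finset.sum_eq_single C]
    · intro C' _ hne
      have h1 : scF ψ (rep C') (rep C) = 0 := by
        by_contra hc
        have h2 := sc_F_ne hN _ _ hc
        rw [hrep1, hrep1] at h2
        exact hne (Subtype.ext h2.symm)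
      rw [h1, mul_zero]
    · intro h
      exact absurd (Finset.mem_univ _) h
  have hself : ∀ C, scF ψ (rep C) (rep C) ≠ 0 := fun C => sc_F_self hN _ (hrep2 C)
  -- injectivity of `E ∘ A`
  have h1 : Function.Injective (E ∘ₗ A) := by
    rw [← LinearMap.ker_eq_bot, LinearMap.ker_eq_bot']
    intro c hc
    have h2 : A c = 0 := by
      apply sc_zero_of_reps hN hfaith (hAV c)
      intro g hg
      let C : Ω₂ := ⟨ConjClasses.mk (g : G ⧸ N), g, rfl, hg⟩
      refine ⟨rep C, hrep1 C, ?_⟩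
      exact congrFun hc C
    funext χ
    rw [← hPA c χ, h2, map_zero]
  have h2 : Function.Injective (P ∘ₗ B) := by
    rw [← LinearMap.ker_eq_bot, LinearMap.ker_eq_bot']
    intro a ha
    have h3 : B a = 0 := by
      apply sc_zero_of_inner hN (hBV a)
      intro χ hχ
      exact congrFun ha ⟨χ, hχ⟩
    funext C
    have h4 := hEB a C
    rw [h3, map_zero] at h4
    have h5 : a C * scF ψ (rep C) (rep C) = 0 := h4.symm
    exact (mul_eq_zero.mp h5).resolve_right (hself C)
  have h3 := LinearMap.finrank_le_finrank_of_injective h1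
  have h4 := LinearMap.finrank_le_finrank_of_injective h2
  rw [Module.finrank_fintype_fun_eq_card, Module.finrank_fintype_fun_eq_card] at h3 h4
  rw [Nat.card_eq_fintype_card, Nat.card_eq_fintype_card]
  exact le_antisymm h3 h4

end Count

end Cfsg.Agent.H23
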