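import Cfsg.Agent.Lib.H23.LinInd
import Cfsg.Agent.Lib.H01.CharEquiv
import Cfsg.Agent.Lib.H23.OddSum

/-!
# Cyclic extensions: extending an invariant character to a semidirect product with a cyclic group,
and coset expansions.
-/

set_option autoImplicit false
set_option linter.unusedSectionVars false
set_option linter.style.haveILetI false
set_option linter.unusedSimpArgs false

namespace Cfsg.Agent.H23

open scoped ComplexConjugate
open Cfsg Cfsg.Agent.H21 Module

universe u

section Ext

variable {K A : Type u} [Group K] [Group A]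

instance finite_semidirect [Finite K] [Finite A] (φ : A →* MulAut K) : Finite (K ⋊[φ] A) :=
  Finite.of_equiv _ (SemidirectProduct.equivProd (φ := φ)).symm

/-- An invariant irreducible character extends to a semidirect product by a cyclic group. -/
theorem exists_ext_of_cyclic [Finite K] [Finite A] (φ : A →* MulAut K) (a : A)
    (ha : ∀ b : A, b ∈ Subgroup.zpowers a) {χ : K → ℂ} (hχ : IsIrrCharacter K χ)
    (hinv : ∀ k, χ (φ a k) = χ k) :
    ∃ ψ : (K ⋊[φ] A) → ℂ, IsIrrCharacter (K ⋊[φ] A) ψ ∧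
      ∀ k, ψ (SemidirectProduct.inl k) = χ k := by
  classical
  obtain ⟨n, ρ, hρ, rfl⟩ := hχ
  let σ : Representation ℂ K (Fin n → ℂ) := ρ.comp (φ a).toMonoidHom
  have hσ : ∀ k, σ k = ρ (φ a k) := fun _ => rfl
  have hch : ρ.character = σ.character := by
    funext k
    exact (hinv k).symm
  obtain ⟨E⟩ := H01.equiv_of_character_eq ρ σ hch
  -- an intertwiner
  let T : End ℂ (Fin n → ℂ) := E.toLinearEquiv.toLinearMap
  have hT : ∀ k x, T (ρ k x) = ρ (φ a k) (T x) := by
    intro k x
    exact LinearMap.congr_fun (E.isIntertwining' k) x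
  have hT' : ∀ k, T * ρ k = ρ (φ a k) * T := by
    intro k
    exact LinearMap.ext fun x => hT k x
  have hTpow : ∀ (m : ℕ) k, T ^ m * ρ k = ρ (φ (a ^ m) k) * T ^ m := by
    intro m
    induction m with
    | zero => intro k; simp
    | succ m ih =>
      intro k
      have h1 : ρ (φ (a ^ (m + 1)) k) = ρ (φ (a ^ m) (φ a k)) := by
        rw [pow_succ, map_mul]
        rfl
      rw [h1, pow_succ, mul_assoc, hT', ← mul_assoc, ih, mul_assoc]
  have hirr : ρ.IsIrreducible := hρ
  set N := orderOf a with hN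
  have hNpos : 0 < N := orderOf_pos a
  obtain ⟨c, hc⟩ := schur_scalar ρ hirr (T ^ N) (fun k => by
    have := hTpow N k
    rw [hN, pow_orderOf_eq_one, map_one] at this
    exact this)
  -- T is invertible
  have hTinv : IsUnit T := by
    refine ⟨⟨E.toLinearEquiv.toLinearMap, E.toLinearEquiv.symm.toLinearMap, ?_, ?_⟩, rfl⟩
    · exact LinearMap.ext fun x => E.toLinearEquiv.apply_symm_apply x
    · exact LinearMap.ext fun x => E.toLinearEquiv.symm_apply_apply x
  have hnt : Nontrivial (Fin n → ℂ) := by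
    by_contra hcon
    rw [not_nontrivial_iff_subsingleton] at hcon
    have h1 : (⊥ : Subrepresentation ρ) = ⊤ := by
      apply Subrepresentation.toSubmodule_injective
      exact Subsingleton.elim _ _
    exact bot_ne_top h1
  have hc0 : c ≠ 0 := by
    intro h0
    rw [h0, zero_smul] at hc
    have h1 : IsUnit (T ^ N) := hTinv.pow N
    rw [hc] at h1
    exact not_isUnit_zero h1
  obtain ⟨d, hd⟩ := IsAlgClosed.exists_pow_nat_eq (c⁻¹) hNpos
  have hd0 : d ≠ 0 := by
    rintro rfl
    rw [zero_pow hNpos.ne'] at hd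
    exact inv_ne_zero hc0 hd.symm
  let T₁ : End ℂ (Fin n → ℂ) := d • T
  have hT₁N : T₁ ^ N = 1 := by
    simp only [T₁]
    rw [smul_pow, hd, hc, smul_smul, inv_mul_cancel₀ hc0, one_smul]
  have hT₁ : ∀ k, T₁ * ρ k = ρ (φ a k) * T₁ := by
    intro k
    simp only [T₁]
    rw [smul_mul_assoc, mul_smul_comm, hT']
  -- the unit
  let u₁ : (End ℂ (Fin n → ℂ))ˣ := ⟨T₁, T₁ ^ (N - 1), by
    rw [← pow_succ', Nat.sub_add_cancel hNpos, hT₁N], by
    rw [← pow_succ, Nat.sub_add_cancel hNpos, hT₁N]⟩
  have hu₁ : (u₁ : End ℂ (Fin n → ℂ)) = T₁ := rfl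
  have hu₁N : u₁ ^ N = 1 := by
    apply Units.ext
    rw [Units.val_pow_eq_pow_val, hu₁, hT₁N]
    rfl
  have hord : orderOf u₁ ∣ orderOf a := orderOf_dvd_of_pow_eq_one hu₁N
  let f₂ : A →* (End ℂ (Fin n → ℂ))ˣ := monoidHomOfForallMemZpowers ha hord
  have hf₂ : f₂ a = u₁ := monoidHomOfForallMemZpowers_apply_gen ha hord
  let f₁ : K →* (End ℂ (Fin n → ℂ))ˣ := MonoidHom.toHomUnits ρ
  have hf₁ : ∀ k, ((f₁ k : (End ℂ (Fin n → ℂ))ˣ) : End ℂ (Fin n → ℂ)) = ρ k := fun k => by
    simp [f₁, MonoidHom.coe_toHomUnits]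
  have hcompat0 : ∀ (m : ℕ) k, f₁ (φ (a ^ m) k) * f₂ (a ^ m) = f₂ (a ^ m) * f₁ k := by
    intro m
    induction m with
    | zero => intro k; simp
    | succ m ih =>
      intro k
      have h1 : f₁ (φ a k) * u₁ = u₁ * f₁ k := by
        apply Units.ext
        simp only [Units.val_mul, hf₁, hu₁]
        exact (hT₁ k).symm
      rw [pow_succ, map_mul, map_mul, hf₂]
      have h2 : φ (a ^ m) (φ a k) = (φ (a ^ m) * φ a) k := rfl
      calc f₁ ((φ (a ^ m) * φ a) k) * (f₂ (a ^ m) * u₁)
          = f₁ (φ (a ^ m) (φ a k)) * f₂ (a ^ m) * u₁ := by rw [mul_assoc]; rfl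
        _ = f₂ (a ^ m) * f₁ (φ a k) * u₁ := by rw [ih]
        _ = f₂ (a ^ m) * (f₁ (φ a k) * u₁) := by rw [mul_assoc]
        _ = f₂ (a ^ m) * (u₁ * f₁ k) := by rw [h1]
        _ = f₂ (a ^ m) * u₁ * f₁ k := by rw [mul_assoc]
  have hcompat : ∀ b : A, f₁.comp (φ b).toMonoidHom = (MulAut.conj (f₂ b)).toMonoidHom.comp f₁ := by
    intro b
    obtain ⟨m, rfl⟩ : ∃ m : ℕ, a ^ m = b := by
      have := ha b
      rw [← mem_powers_iff_mem_zpowers] at this
      exact this
    ext1 k
    simp only [MonoidHom.comp_apply, MulEquiv.toMonoidHom_eq_coe, MonoidHom.coe_coe,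
      MulAut.conj_apply]
    have := hcompat0 m k
    rw [eq_mul_inv_iff_mul_eq]
    exact this
  let F : (K ⋊[φ] A) →* (End ℂ (Fin n → ℂ))ˣ := SemidirectProduct.lift f₁ f₂ hcompat
  let ρ' : Representation ℂ (K ⋊[φ] A) (Fin n → ℂ) :=
    (Units.coeHom (End ℂ (Fin n → ℂ))).comp F
  have hρ' : ∀ k, ρ' (SemidirectProduct.inl k) = ρ k := by
    intro k
    simp only [ρ', F, MonoidHom.comp_apply, SemidirectProduct.lift_inl, Units.coeHom_apply, hf₁]
  refine ⟨ρ'.character, ⟨n, ρ', ?_, rfl⟩, fun k => ?_⟩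
  · -- irreducibility
    have hnt2 : Nontrivial (Subrepresentation ρ') := by
      refine ⟨⟨⊥, ⊤, ?_⟩⟩
      intro h
      have := congrArg Subrepresentation.toSubmodule h
      exact (bot_ne_top : (⊥ : Submodule ℂ (Fin n → ℂ)) ≠ ⊤) this
    refine { eq_bot_or_eq_top := fun S => ?_ }
    let S' : Subrepresentation ρ :=
      { toSubmodule := S.toSubmodule
        apply_mem_toSubmodule := by
          intro k x hx
          have := S.apply_mem_toSubmodule (SemidirectProduct.inl k) hx
          rwa [hρ'] at this }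
    rcases hirr.eq_bot_or_eq_top S' with h | h
    · left
      apply Subrepresentation.toSubmodule_injective
      have h2 := congrArg Subrepresentation.toSubmodule h
      exact h2
    · right
      apply Subrepresentation.toSubmodule_injective
      have h2 := congrArg Subrepresentation.toSubmodule h
      exact h2
  · show LinearMap.trace ℂ _ (ρ' (SemidirectProduct.inl k)) = LinearMap.trace ℂ _ (ρ k)
    rw [hρ']

end Ext

section Coset

variable {K A : Type u} [Group K] [Group A] [Finite K] [Finite A] (φ : A →* MulAut K)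

open SemidirectProduct

/-- The image of `K` in the semidirect product. -/
abbrev Nl : Subgroup (K ⋊[φ] A) := (inl : K →* K ⋊[φ] A).range

instance Nl_normal : (Nl φ).Normal := by
  unfold Nl
  rw [range_inl_eq_ker_rightHom]
  infer_instance

theorem mem_Nl_iff (g : K ⋊[φ] A) : g ∈ Nl φ ↔ g.right = 1 := by
  unfold Nl
  rw [range_inl_eq_ker_rightHom, MonoidHom.mem_ker]
  rfl

theorem card_Nl : Nat.card (Nl φ) = Nat.card K :=
  Nat.card_congr (MonoidHom.ofInjective (f := (inl : K →* K ⋊[φ] A)) inl_injective).toEquiv.symm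

theorem sum_Nl [Fintype K] [Fintype (Nl φ)] (F : (K ⋊[φ] A) → ℂ) :
    ∑ n : Nl φ, F n = ∑ c : K, F (inl c) :=
  (Fintype.sum_equiv (MonoidHom.ofInjective (f := (inl : K →* K ⋊[φ] A)) inl_injective).toEquiv _ _
    (fun _ => rfl)).symm

/-- A function of the semidirect product along a coset of `K`. -/
def cosetFn (ψ : (K ⋊[φ] A) → ℂ) (b : A) (c : K) : ℂ := ψ (inl c * inr b)

theorem twist_conj (b : A) (y c : K) :
    (inl (y * c * (φ b y)⁻¹) * inr b : K ⋊[φ] A) = inl y * (inl c * inr b) * (inl y)⁻¹ := by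
  rw [map_mul, map_mul, map_inv, inl_aut, map_inv]
  group

theorem cosetFn_twist {ψ : (K ⋊[φ] A) → ℂ} (hψ : IsClassFunction _ ψ) (b : A) (y c : K) :
    cosetFn φ ψ b (y * c * (φ b y)⁻¹) = cosetFn φ ψ b c := by
  unfold cosetFn
  rw [twist_conj]
  exact hψ _ _

theorem cosetFn_aut {ψ : (K ⋊[φ] A) → ℂ} (hψ : IsClassFunction _ ψ) (b : A) (c : K) :
    ψ (inl (φ b c)) = ψ (inl c) := by
  rw [inl_aut]
  have := hψ (inl c) (inr b)
  rwa [← map_inv] at this

theorem nAvg_Nl [Fintype K] [Fintype (Nl φ)] (F : (K ⋊[φ] A) → ℂ) (g : K ⋊[φ] A) :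
    nAvg (Nl φ) F g = (Nat.card K : ℂ)⁻¹ * ∑ c : K, F (inl c * g) := by
  unfold nAvg
  rw [card_Nl]
  congr 1
  exact sum_Nl φ (fun x => F (x * g))

theorem coset_inner_eq [Fintype K] [Fintype (Nl φ)] (ψ ψ' : (K ⋊[φ] A) → ℂ) (b : A) :
    classInner (cosetFn φ ψ b) (cosetFn φ ψ' b) =
      nAvg (Nl φ) (fun x => ψ x * conj (ψ' x)) (inr b) := by
  rw [nAvg_Nl]
  rfl

theorem restrict_inner_eq [Fintype K] [Fintype (Nl φ)] (ψ ψ' : (K ⋊[φ] A) → ℂ) :
    classInner (fun c : K => ψ (inl c)) (fun c : K => ψ' (inl c)) =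
      nAvg (Nl φ) (fun x => ψ x * conj (ψ' x)) 1 := by
  rw [nAvg_Nl]
  simp only [mul_one]
  rfl

theorem classInner_Nl [Fintype K] [Fintype (Nl φ)] (ψ ψ' : (K ⋊[φ] A) → ℂ) :
    classInner (fun n : Nl φ => ψ n) (fun n : Nl φ => ψ' n) =
      classInner (fun c : K => ψ (inl c)) (fun c : K => ψ' (inl c)) := by
  unfold classInner
  rw [card_Nl]
  congr 1
  exact sum_Nl φ (fun x => ψ x * conj (ψ' x))

/-- Orthogonality on the cosets. -/
theorem coset_orth [Fintype K] {ψ ψ' : (K ⋊[φ] A) → ℂ} (hψ : IsCharacter _ ψ) (hψ' : IsCharacter _ ψ')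
    (h : classInner (fun c : K => ψ (inl c)) (fun c : K => ψ' (inl c)) = 0) (b : A) :
    classInner (cosetFn φ ψ b) (cosetFn φ ψ' b) = 0 := by
  classical
  haveI : Fintype (K ⋊[φ] A) := Fintype.ofFinite _
  haveI : Fintype (IrrCharacter (K ⋊[φ] A)) := Fintype.ofFinite _
  haveI : Fintype (Nl φ) := Fintype.ofFinite _
  have hW : IsCharacter _ (fun x => ψ x * conj (ψ' x)) :=
    isCharacter_mul hψ (isCharacter_conjFun hψ')
  have hWb := isCharacter_nAvg (Nl φ) hW
  rw [restrict_inner_eq] at h
  have h1 := one_eq_charDegree hWb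
  rw [h] at h1
  have h2 : charDegree (nAvg (Nl φ) (fun x => ψ x * conj (ψ' x))) = 0 := by
    exact_mod_cast h1.symm
  have h3 := isCharacter_norm_le hWb (inr b)
  rw [h2] at h3
  rw [coset_inner_eq]
  simpa using h3

/-- The norm on the cosets. -/
theorem coset_norm [Fintype K] {ψ : (K ⋊[φ] A) → ℂ} (hψ : IsIrrCharacter _ ψ)
    (h : classInner (fun c : K => ψ (inl c)) (fun c : K => ψ (inl c)) = 1) (b : A) :
    classInner (cosetFn φ ψ b) (cosetFn φ ψ b) = 1 := by
  classical
  haveI : Fintype (K ⋊[φ] A) := Fintype.ofFinite _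
  haveI : Fintype (Nl φ) := Fintype.ofFinite _
  have h1 := sum_coset_norm_eq (Nl φ) hψ (by rw [classInner_Nl]; exact h) (inr b)
  rw [coset_inner_eq, nAvg_Nl]
  have h2 := sum_Nl φ (fun x => (fun y => ψ y * conj (ψ y)) (x * inr b))
  simp only at h2
  rw [h2] at h1
  rw [h1, card_Nl]
  have : (Nat.card K : ℂ) ≠ 0 := by exact_mod_cast Nat.card_pos.ne'
  field_simp

end Coset

section AvgInner

variable {T : Type u} [Group T] [Fintype T] (N : Subgroup T) [hN : N.Normal] [Fintype N]

/-- The inner product of an average with a function that is constant on cosets. -/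
theorem classInner_nAvg_const (ψ β : T → ℂ) (hβ : ∀ (n : N) (g : T), β (n * g) = β g) :
    classInner (nAvg N ψ) β = classInner ψ β := by
  unfold classInner nAvg
  congr 1
  simp only [Finset.mul_sum, Finset.sum_mul]
  rw [Finset.sum_comm]
  have hc : (Nat.card N : ℂ) ≠ 0 := by exact_mod_cast Nat.card_pos.ne'
  have h1 : ∀ n : N, ∑ g : T, (Nat.card N : ℂ)⁻¹ * ψ (n * g) * conj (β g) =
      (Nat.card N : ℂ)⁻¹ * ∑ g : T, ψ g * conj (β g) := by
    intro n
    rw [Finset.mul_sum]
    refine Fintype.sum_equiv (Equiv.mulLeft (n : T)) _ _ fun g => ?_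
    simp only [Equiv.coe_mulLeft]
    rw [hβ n g, mul_assoc]
  simp only [h1, Finset.sum_const, Finset.card_univ, nsmul_eq_mul]
  rw [← Nat.card_eq_fintype_card, mul_inv_cancel_left₀ hc]

/-- The inner product of an average with an irreducible character not trivial on the subgroup. -/
theorem classInner_nAvg_irr [Fintype (IrrCharacter T)] (ψ : T → ℂ) {τ : T → ℂ}
    (hτ : IsIrrCharacter T τ) (hker : ¬ ∀ n ∈ N, τ n = τ 1) :
    classInner (nAvg N ψ) τ = 0 := by
  have hcst : ∀ (m : N) (g : T), nAvg N ψ (m * g) = nAvg N ψ g := nAvg_mul_left N ψ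
  have h0 := sum_mul_normal_of_irr N hτ hker
  have hc : (Nat.card N : ℂ) ≠ 0 := by exact_mod_cast Nat.card_pos.ne'
  have h1 : ∑ g : T, nAvg N ψ g * conj (τ g) =
      (Nat.card N : ℂ)⁻¹ * ∑ n : N, ∑ g : T, nAvg N ψ g * conj (τ (n * g)) := by
    have h2 : ∀ n : N, ∑ g : T, nAvg N ψ g * conj (τ (n * g)) = ∑ g : T, nAvg N ψ g * conj (τ g) := by
      intro n
      refine Fintype.sum_equiv (Equiv.mulLeft (n : T)) _ _ fun g => ?_
      simp only [Equiv.coe_mulLeft]
      rw [hcst n g]
    simp only [h2, Finset.sum_const, Finset.card_univ, nsmul_eq_mul]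
    rw [← Nat.card_eq_fintype_card, inv_mul_cancel_left₀ hc]
  unfold classInner
  rw [h1, Finset.sum_comm]
  have h3 : ∀ g : T, ∑ n : N, nAvg N ψ g * conj (τ (n * g)) = 0 := by
    intro g
    rw [← Finset.mul_sum, ← map_sum, h0 g, map_zero, mul_zero]
  simp [h3]

end AvgInner

section Restrict

variable {K A : Type u} [Group K] [Group A] [Finite K] [Finite A] (φ : A →* MulAut K)

open SemidirectProduct

/-- An element of the semidirect product is a product. -/
theorem eq_inl_mul_inr (g : K ⋊[φ] A) : g = inl g.left * inr g.right :=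
  (inl_left_mul_inr_right g).symm

theorem comm_of_gen {b : A} (hb : ∀ d : A, d ∈ Subgroup.zpowers b) (x y : A) : x * y = y * x := by
  obtain ⟨i, rfl⟩ := Subgroup.mem_zpowers_iff.1 (hb x)
  obtain ⟨j, rfl⟩ := Subgroup.mem_zpowers_iff.1 (hb y)
  rw [← zpow_add, ← zpow_add, add_comm]

/-- An irreducible character trivial on `K` is linear if `A` is commutative. -/
theorem degree_one_of_ker (hA : ∀ x y : A, x * y = y * x) {τ : (K ⋊[φ] A) → ℂ}
    (hτ : IsIrrCharacter _ τ) (hker : ∀ n ∈ Nl φ, τ n = τ 1) : charDegree τ = 1 := by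
  obtain ⟨τ', hτ', he⟩ := exists_descend (Nl φ) hτ hker
  have hcomm : ∀ a b : (K ⋊[φ] A) ⧸ Nl φ, a * b = b * a := by
    intro a b
    obtain ⟨x, rfl⟩ := QuotientGroup.mk_surjective a
    obtain ⟨y, rfl⟩ := QuotientGroup.mk_surjective b
    rw [← QuotientGroup.mk_mul, ← QuotientGroup.mk_mul, QuotientGroup.eq, mem_Nl_iff]
    simp only [mul_right, inv_right, mul_inv_rev]
    rw [hA y.right x.right]
    group
  have h1 := irr_degree_one_of_comm hcomm hτ'
  rw [← he]
  rw [← h1]
  exact charDegree_congr (by simp)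

/-- A character non-vanishing on the coset of a generator has irreducible restriction. -/
theorem restrict_norm_of_ne [Fintype K] (b : A) (hb : ∀ d : A, d ∈ Subgroup.zpowers b)
    {η : (K ⋊[φ] A) → ℂ} (hη : IsIrrCharacter _ η) (c : K) (hc : η (inl c * inr b) ≠ 0) :
    classInner (fun c : K => η (inl c)) (fun c : K => η (inl c)) = 1 := by
  classical
  haveI : Fintype (K ⋊[φ] A) := Fintype.ofFinite _
  haveI : Fintype (IrrCharacter (K ⋊[φ] A)) := Fintype.ofFinite _
  haveI : Fintype (Nl φ) := Fintype.ofFinite _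
  have hηc := isCharacter_of_irr hη
  let W : (K ⋊[φ] A) → ℂ := fun x => η x * conj (η x)
  have hW : IsCharacter _ W := isCharacter_mul hηc (isCharacter_conjFun hηc)
  have hWb := isCharacter_nAvg (Nl φ) hW
  obtain ⟨m, hm, hm2⟩ := isCharacter_decomp hWb
  let one : IrrCharacter (K ⋊[φ] A) := ⟨fun _ => 1, isIrrCharacter_one⟩
  have hA := comm_of_gen hb
  have key : ∀ τ : IrrCharacter (K ⋊[φ] A), classInner (nAvg (Nl φ) W) τ.1 = if τ = one then 1 else 0 := by
    intro τ
    by_cases hker : ∀ n ∈ Nl φ, τ.1 n = τ.1 1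
    · have hτc := isCharacter_of_irr τ.2
      have hdeg := degree_one_of_ker φ hA τ.2 hker
      have hconst : ∀ (n : Nl φ) (g : K ⋊[φ] A), τ.1 (n * g) = τ.1 g := fun n g =>
        character_mul_of_mem_ker hτc (hker n n.2) g
      rw [classInner_nAvg_const (Nl φ) W τ.1 hconst]
      have hirr := H06.isIrr_linear_mul hη hτc hdeg
      have h1 : classInner W τ.1 = classInner η (fun t => τ.1 t * η t) := by
        unfold classInner
        congr 1
        refine Finset.sum_congr rfl fun g _ => ?_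
        simp only [W, map_mul]
        ring
      rw [h1, H06.classInner_irr_fun hη hirr]
      by_cases hτ : τ = one
      · subst hτ
        rw [if_pos rfl, if_pos]
        funext t
        simp [one]
      · rw [if_neg hτ, if_neg]
        intro he
        apply hτ
        have h2 := congrFun he (inl c * inr b)
        have h3 : τ.1 (inl c * inr b) = 1 := by
          have h4 : η (inl c * inr b) * 1 = η (inl c * inr b) * τ.1 (inl c * inr b) := by
            rw [mul_one, mul_comm]
            exact h2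
          exact (mul_left_cancel₀ hc h4).symm
        have h5 : τ.1 (inr b) = 1 := by
          have := hconst ⟨inl c, ⟨c, rfl⟩⟩ (inr b)
          rw [← h3]
          exact this.symm
        have h6 : ∀ d : A, τ.1 (inr d) = 1 := by
          intro d
          obtain ⟨i, rfl⟩ := Subgroup.mem_zpowers_iff.1 (hb d)
          have h7 : ∀ n : ℕ, τ.1 (inr (b ^ n)) = 1 := by
            intro n
            induction n with
            | zero => simp [linear_one hτc hdeg]
            | succ n ih =>
              rw [pow_succ, map_mul, linear_mul hτc hdeg, ih, h5, one_mul]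
          obtain ⟨n, hn⟩ : ∃ n : ℕ, b ^ n = b ^ i := by
            have : b ^ i ∈ Subgroup.zpowers b := ⟨i, rfl⟩
            rw [← mem_powers_iff_mem_zpowers] at this
            exact this
          rw [← hn]
          exact h7 n
        apply Subtype.ext
        funext g
        rw [eq_inl_mul_inr φ g]
        have := hconst ⟨inl g.left, ⟨g.left, rfl⟩⟩ (inr g.right)
        simp only at this
        rw [this, h6]
    · have hne : τ ≠ one := by
        rintro rfl
        exact hker fun _ _ => rfl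
      rw [classInner_nAvg_irr (Nl φ) W τ.2 hker, if_neg hne]
  have h1 : nAvg (Nl φ) W 1 = 1 := by
    have h2 := congrFun hm 1
    simp only [Finset.sum_apply, Pi.smul_apply] at h2
    rw [h2, Finset.sum_eq_single one]
    · have h3 := hm2 one
      rw [key one, if_pos rfl] at h3
      have h4 : m one = 1 := by exact_mod_cast h3.symm
      rw [h4]
      simp [one]
    · intro τ _ hτ
      have h3 := hm2 τ
      rw [key τ, if_neg hτ] at h3
      have h4 : m τ = 0 := by exact_mod_cast h3.symm
      rw [h4, zero_smul]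
    · simp
  rw [restrict_inner_eq]
  exact h1

/-- Two irreducible characters with the same irreducible restriction are proportional on cosets. -/
theorem exists_scalar_of_restrict [Fintype K] {ψ η : (K ⋊[φ] A) → ℂ} (hψ : IsIrrCharacter _ ψ)
    (hη : IsIrrCharacter _ η) (hr : ∀ c, ψ (inl c) = η (inl c))
    (hn : classInner (fun c : K => ψ (inl c)) (fun c : K => ψ (inl c)) = 1) (b : A) :
    ∃ κ : ℂ, ∀ c, ψ (inl c * inr b) = κ * η (inl c * inr b) := by
  classical
  haveI : Fintype (K ⋊[φ] A) := Fintype.ofFinite _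
  haveI : Fintype (IrrCharacter (K ⋊[φ] A)) := Fintype.ofFinite _
  haveI : Fintype (Nl φ) := Fintype.ofFinite _
  have hψc := isCharacter_of_irr hψ
  have hηc := isCharacter_of_irr hη
  let W : (K ⋊[φ] A) → ℂ := fun x => ψ x * conj (η x)
  have hW : IsCharacter _ W := isCharacter_mul hψc (isCharacter_conjFun hηc)
  have hWb := isCharacter_nAvg (Nl φ) hW
  have h1 : nAvg (Nl φ) W 1 = 1 := by
    rw [← restrict_inner_eq φ ψ η, ← hn]
    unfold classInner
    congr 1
    refine Finset.sum_congr rfl fun c _ => ?_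
    show ψ (inl c) * conj (η (inl c)) = ψ (inl c) * conj (ψ (inl c))
    rw [hr c]
  have hdeg : charDegree (nAvg (Nl φ) W) = 1 := by
    have h2 := one_eq_charDegree hWb
    rw [h1] at h2
    exact_mod_cast h2.symm
  set l := nAvg (Nl φ) W with hl
  have hirr := H06.isIrr_linear_mul hη hWb hdeg
  have hconst : ∀ (n : Nl φ) (g : K ⋊[φ] A), l (n * g) = l g := nAvg_mul_left (Nl φ) W
  have h2 : classInner ψ (fun t => l t * η t) = classInner W l := by
    unfold classInner
    congr 1
    refine Finset.sum_congr rfl fun g _ => ?_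
    simp only [W, map_mul]
    ring
  have h3 : classInner l l = 1 := by
    unfold classInner
    have h4 : ∀ g, l g * conj (l g) = 1 := by
      intro g
      rw [Complex.mul_conj, Complex.normSq_eq_norm_sq, linear_norm hWb hdeg g]
      simp
    simp only [h4, Finset.sum_const, Finset.card_univ, nsmul_eq_mul, mul_one]
    rw [← Nat.card_eq_fintype_card]
    have : (Nat.card (K ⋊[φ] A) : ℂ) ≠ 0 := by exact_mod_cast Nat.card_pos.ne'
    field_simp
  have h5 : classInner ψ (fun t => l t * η t) = 1 := by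
    rw [h2, ← classInner_nAvg_const (Nl φ) W l hconst]
    exact h3
  have h6 : ψ = fun t => l t * η t := by
    by_contra hne
    rw [H06.classInner_irr_ne hψ hirr hne] at h5
    exact zero_ne_one h5
  refine ⟨l (inr b), fun c => ?_⟩
  conv_lhs => rw [h6]
  have := hconst ⟨inl c, ⟨c, rfl⟩⟩ (inr b)
  simp only at this
  simp only [this]

end Restrict

section Expansion

variable {K A : Type u} [Group K] [Group A] [Finite K] [Finite A] (φ : A →* MulAut K)

open SemidirectProduct

/-- The invariant irreducible characters. -/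
abbrev InvIrr := {χ : IrrCharacter K // ∀ d k, χ.1 (φ d k) = χ.1 k}

/-- A twisted class function is a combination of the extensions on a coset of a generator. -/
theorem coset_span [Fintype K] [Fintype (InvIrr φ)] (b : A) (hb : ∀ d : A, d ∈ Subgroup.zpowers b)
    (f : K → ℂ) (hf : ∀ y c, f (y * c * (φ b y)⁻¹) = f c)
    (hat : InvIrr φ → (K ⋊[φ] A) → ℂ) (hhat : ∀ ξ, IsIrrCharacter _ (hat ξ))
    (hhat1 : ∀ ξ c, hat ξ (inl c) = ξ.1.1 c) :
    ∃ a : InvIrr φ → ℂ, ∀ c, f c = ∑ ξ, a ξ * cosetFn φ (hat ξ) b c := by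
  classical
  haveI : Fintype (K ⋊[φ] A) := Fintype.ofFinite _
  haveI : Fintype (IrrCharacter (K ⋊[φ] A)) := Fintype.ofFinite _
  haveI : Fintype (IrrCharacter K) := Fintype.ofFinite _
  have hA := comm_of_gen hb
  have hfφb : ∀ c, f (φ b c) = f c := by
    intro c
    have := hf c⁻¹ c
    simpa using this
  have hfφ : ∀ d c, f (φ d c) = f c := by
    intro d c
    obtain ⟨n, rfl⟩ : ∃ n : ℕ, b ^ n = d := by
      have := hb d
      rw [← mem_powers_iff_mem_zpowers] at this
      exact this
    induction n generalizing c with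
    | zero => simp
    | succ n ih =>
      rw [pow_succ, map_mul]
      show f (φ (b ^ n) (φ b c)) = f c
      rw [ih, hfφb]
  let F : (K ⋊[φ] A) → ℂ := fun g => if g.right = b then f g.left else 0
  have hFv : ∀ c, F (inl c * inr b) = f c := by
    intro c
    simp [F]
  have hFcl : IsClassFunction _ F := by
    intro g h
    simp only [F]
    have hr : (h * g * h⁻¹).right = g.right := by
      simp only [mul_right, inv_right]
      rw [hA h.right g.right]
      group
    rw [hr]
    split_ifs with hg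
    · have h1 : (h * g * h⁻¹).left = h.left * φ h.right g.left * (φ b h.left)⁻¹ := by
        simp only [mul_left, mul_right, inv_left, inv_right, hg]
        congr 1
        have e : ∀ x : K, φ h.right (φ h.right⁻¹ x) = x := by
          intro x
          rw [← MulAut.mul_apply, ← map_mul]
          simp
        rw [hA h.right b, map_mul]
        show φ b (φ h.right (φ h.right⁻¹ h.left⁻¹)) = _
        rw [e, map_inv]
      rw [h1, hf, hfφ]
    · rfl
  have hexp : ∀ c, f c = ∑ η : IrrCharacter (K ⋊[φ] A), classInner F η.1 * η.1 (inl c * inr b) := by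
    intro c
    have h := congrFun (classFunction_expansion F hFcl) (inl c * inr b)
    rw [hFv] at h
    simpa only [Finset.sum_apply, Pi.smul_apply, smul_eq_mul] using h
  have each : ∀ η : IrrCharacter (K ⋊[φ] A), ∃ a' : InvIrr φ → ℂ, ∀ c,
      classInner F η.1 * η.1 (inl c * inr b) = ∑ ξ, a' ξ * cosetFn φ (hat ξ) b c := by
    intro η
    by_cases hz : classInner F η.1 = 0
    · exact ⟨0, fun c => by simp [hz]⟩
    have hne : ∃ c0, η.1 (inl c0 * inr b) ≠ 0 := by
      by_contra hcon
      push Not at hcon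
      apply hz
      unfold classInner
      rw [Finset.sum_eq_zero, mul_zero]
      intro g _
      simp only [F]
      split_ifs with hg
      · have h1 : g = inl g.left * inr b := by
          conv_lhs => rw [eq_inl_mul_inr φ g, hg]
        rw [h1]
        simp [hcon]
      · simp
    obtain ⟨c0, hc0⟩ := hne
    have hn := restrict_norm_of_ne φ b hb η.2 c0 hc0
    have hηc := isCharacter_of_irr η.2
    have hrestr : IsIrrCharacter K (fun c => η.1 (inl c)) :=
      isIrrCharacter_of_inner_self_eq_one (isCharacter_comp inl hηc) hn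
    let ξ : InvIrr φ := ⟨⟨_, hrestr⟩, fun d k =>
      cosetFn_aut φ (isClassFunction_of_isCharacter hηc) d k⟩
    obtain ⟨κ, hκ⟩ := exists_scalar_of_restrict φ η.2 (hhat ξ) (fun c => (hhat1 ξ c).symm) hn b
    refine ⟨fun ξ' => if ξ' = ξ then classInner F η.1 * κ else 0, fun c => ?_⟩
    rw [Finset.sum_eq_single ξ]
    · beta_reduce
      rw [if_pos rfl, hκ c, mul_assoc]
      rfl
    · intro ξ' _ hne'
      beta_reduce
      rw [if_neg hne', zero_mul]
    · simp
  choose a' ha' using each
  refine ⟨fun ξ => ∑ η, a' η ξ, fun c => ?_⟩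
  rw [hexp c]
  simp only [ha']
  rw [Finset.sum_comm]
  refine Finset.sum_congr rfl fun ξ _ => ?_
  rw [Finset.sum_mul]

theorem coset_orthonormal [Fintype K] (hat : InvIrr φ → (K ⋊[φ] A) → ℂ)
    (hhat : ∀ ξ, IsIrrCharacter _ (hat ξ)) (hhat1 : ∀ ξ c, hat ξ (inl c) = ξ.1.1 c) (b : A)
    (ξ ξ' : InvIrr φ) :
    classInner (cosetFn φ (hat ξ) b) (cosetFn φ (hat ξ') b) = if ξ = ξ' then 1 else 0 := by
  classical
  haveI : Fintype (IrrCharacter K) := Fintype.ofFinite _
  have h1 : ∀ ξ'' : InvIrr φ, (fun c : K => hat ξ'' (inl c)) = ξ''.1.1 := fun ξ'' => by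
    funext c
    exact hhat1 ξ'' c
  by_cases h : ξ = ξ'
  · subst h
    rw [if_pos rfl]
    apply coset_norm φ (hhat ξ)
    rw [h1, classInner_irr, if_pos rfl]
  · rw [if_neg h]
    apply coset_orth φ (isCharacter_of_irr (hhat ξ)) (isCharacter_of_irr (hhat ξ'))
    rw [h1, h1, classInner_irr, if_neg]
    intro he
    exact h (Subtype.ext he)

theorem coset_expansion [Fintype K] [Fintype (InvIrr φ)] (b : A) (hb : ∀ d : A, d ∈ Subgroup.zpowers b)
    (f : K → ℂ) (hf : ∀ y c, f (y * c * (φ b y)⁻¹) = f c)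
    (hat : InvIrr φ → (K ⋊[φ] A) → ℂ) (hhat : ∀ ξ, IsIrrCharacter _ (hat ξ))
    (hhat1 : ∀ ξ c, hat ξ (inl c) = ξ.1.1 c) (c : K) :
    f c = ∑ ξ, classInner f (cosetFn φ (hat ξ) b) * cosetFn φ (hat ξ) b c := by
  classical
  obtain ⟨a, ha⟩ := coset_span φ b hb f hf hat hhat hhat1
  have hfe : f = ∑ ξ, a ξ • cosetFn φ (hat ξ) b := by
    funext c
    rw [ha c]
    simp only [Finset.sum_apply, Pi.smul_apply, smul_eq_mul]
  have hco : ∀ ξ, classInner f (cosetFn φ (hat ξ) b) = a ξ := by
    intro ξ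
    rw [hfe, classInner_sum_left]
    simp only [classInner_smul_left, coset_orthonormal φ hat hhat hhat1 b]
    rw [Finset.sum_eq_single ξ]
    · simp
    · intro ξ' _ hne
      rw [if_neg hne, mul_zero]
    · simp
  simp only [hco]
  exact ha c

theorem coset_parseval [Fintype K] [Fintype (InvIrr φ)] (b : A) (hb : ∀ d : A, d ∈ Subgroup.zpowers b)
    (f f' : K → ℂ) (hf : ∀ y c, f (y * c * (φ b y)⁻¹) = f c)
    (hat : InvIrr φ → (K ⋊[φ] A) → ℂ) (hhat : ∀ ξ, IsIrrCharacter _ (hat ξ))
    (hhat1 : ∀ ξ c, hat ξ (inl c) = ξ.1.1 c) :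
    classInner f f' = ∑ ξ, classInner f (cosetFn φ (hat ξ) b) *
      conj (classInner f' (cosetFn φ (hat ξ) b)) := by
  classical
  have hfe : f = ∑ ξ, classInner f (cosetFn φ (hat ξ) b) • cosetFn φ (hat ξ) b := by
    funext c
    rw [coset_expansion φ b hb f hf hat hhat hhat1 c]
    simp only [Finset.sum_apply, Pi.smul_apply, smul_eq_mul]
  conv_lhs => rw [hfe]
  rw [classInner_sum_left]
  simp only [classInner_smul_left]
  refine Finset.sum_congr rfl fun ξ _ => ?_
  rw [classInner_comm_conj]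

end Expansion

end Cfsg.Agent.H23
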