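import Cfsg.Agent.Lib.H23.SylAct1
import Cfsg.Agent.Lib.H06.CoprimeCoset

/-!
# Twisted conjugation by a `p`-element on a group with normal Sylow `p`-subgroup
-/

set_option autoImplicit false
set_option linter.unusedSectionVars false
set_option linter.style.haveILetI false
set_option linter.unusedSimpArgs false

namespace Cfsg.Agent.H23

open scoped ComplexConjugate
open Cfsg Cfsg.Agent.H21 Module

universe u

section Twist

variable {Y A : Type u} [Group Y] [Group A] [Finite Y] [Finite A] (ψ : A →* MulAut Y)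

open SemidirectProduct

theorem coprime_twist_rep (b : A) (hcop : (orderOf b).Coprime (Nat.card Y)) (k : Y) :
    ∃ y c : Y, ψ b c = c ∧ y * k * (ψ b y)⁻¹ = c := by
  have hord : orderOf (inr b : Y ⋊[ψ] A) = orderOf b := orderOf_injective inr inr_injective b
  have hg : ∀ x ∈ Nl ψ, (inr b : Y ⋊[ψ] A) * x * (inr b)⁻¹ ∈ Nl ψ :=
    fun x hx => (Nl_normal ψ).conj_mem x hx _
  have hc : (orderOf (inr b : Y ⋊[ψ] A)).Coprime (Nat.card (Nl ψ)) := by
    rw [hord, card_Nl]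
    exact hcop
  obtain ⟨x, ⟨y, rfl⟩, c, ⟨c0, rfl⟩, hcomm, he⟩ :=
    H06.exists_conj_mul_eq hg hc (h := inl k) ⟨k, rfl⟩
  refine ⟨y, c0, ?_, ?_⟩
  · have h1 : (inl (ψ b c0) : Y ⋊[ψ] A) = inl c0 := by
      rw [inl_aut, ← hcomm, map_inv]
      group
    exact inl_injective h1
  · have h1 := twist_conj ψ b y k
    rw [he] at h1
    exact inl_injective (mul_right_cancel h1)

theorem coprime_twist_mem (b : A) (hcop : (orderOf b).Coprime (Nat.card Y)) (y c c' : Y)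
    (hc : ψ b c = c) (hc' : ψ b c' = c') (h : y * c * (ψ b y)⁻¹ = c') : ψ b y = y := by
  have hord : orderOf (inr b : Y ⋊[ψ] A) = orderOf b := orderOf_injective inr inr_injective b
  have hcop' : (Nat.card (Nl ψ)).Coprime (orderOf (inr b : Y ⋊[ψ] A)) := by
    rw [hord, card_Nl]
    exact hcop.symm
  have hcomm : ∀ c₀ : Y, ψ b c₀ = c₀ → Commute (inl c₀ : Y ⋊[ψ] A) (inr b) := by
    intro c₀ hc₀
    show inl c₀ * inr b = inr b * inl c₀
    have h1 : (inl (ψ b c₀) : Y ⋊[ψ] A) = inr b * inl c₀ * (inr b)⁻¹ := by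
      rw [inl_aut, map_inv]
    rw [hc₀] at h1
    calc inl c₀ * inr b = (inr b * inl c₀ * (inr b)⁻¹) * inr b := by rw [← h1]
      _ = inr b * inl c₀ := by group
  have he : (inl (y * c * y⁻¹) : Y ⋊[ψ] A) * (inl y * inr b * (inl y)⁻¹) = inl c' * inr b := by
    have h1 := twist_conj ψ b y c
    rw [h] at h1
    rw [h1, map_mul, map_mul, map_inv]
    group
  have hcom1 : Commute (inl (y * c * y⁻¹) : Y ⋊[ψ] A) (inl y * inr b * (inl y)⁻¹) := by
    have h1 := (hcomm c hc).eq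
    show _ * _ = _ * _
    rw [map_mul, map_mul, map_inv]
    calc inl y * inl c * (inl y)⁻¹ * (inl y * inr b * (inl y)⁻¹)
        = inl y * (inl c * inr b) * (inl y)⁻¹ := by group
      _ = inl y * (inr b * inl c) * (inl y)⁻¹ := by rw [h1]
      _ = _ := by group
  obtain ⟨-, h2⟩ := H06.coprime_decomp_unique (H := Nl ψ) hcop' ⟨y * c * y⁻¹, rfl⟩ ⟨c', rfl⟩
    (by rw [conj_pow, pow_orderOf_eq_one]; group) (pow_orderOf_eq_one _) hcom1 (hcomm c' hc') he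
  have h3 : (inl (ψ b y) : Y ⋊[ψ] A) = inl y := by
    rw [inl_aut, map_inv]
    have h4 : (inr b : Y ⋊[ψ] A) = inl y * inr b * (inl y)⁻¹ := h2.symm
    calc inr b * inl y * (inr b)⁻¹ = (inl y * inr b * (inl y)⁻¹) * inl y * (inr b)⁻¹ := by rw [← h4]
      _ = inl y := by group
  exact inl_injective h3

end Twist

section Res

variable {K A : Type u} [Group K] [Group A]

/-- The restricted action on an invariant subgroup. -/
def resAct (φ : A →* MulAut K) (S : Subgroup K) (hS : ∀ d, ∀ k ∈ S, φ d k ∈ S) : A →* MulAut S where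
  toFun d :=
    { toFun := fun c => ⟨φ d c, hS d c c.2⟩
      invFun := fun c => ⟨φ d⁻¹ c, hS d⁻¹ c c.2⟩
      left_inv := fun c => by
        apply Subtype.ext
        show φ d⁻¹ (φ d c) = c
        rw [← MulAut.mul_apply, ← map_mul]
        simp
      right_inv := fun c => by
        apply Subtype.ext
        show φ d (φ d⁻¹ c) = c
        rw [← MulAut.mul_apply, ← map_mul]
        simp
      map_mul' := fun x y => by
        apply Subtype.ext
        show φ d (x * y) = φ d x * φ d y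
        rw [map_mul] }
  map_one' := by
    ext c
    show φ 1 c = c
    simp
  map_mul' x y := by
    ext c
    show φ (x * y) c = φ x (φ y c)
    rw [map_mul]
    rfl

@[simp] theorem resAct_coe (φ : A →* MulAut K) (S : Subgroup K) (hS : ∀ d, ∀ k ∈ S, φ d k ∈ S)
    (d : A) (c : S) : ((resAct φ S hS d c : S) : K) = φ d c := rfl

end Res

section Quot

variable {K A : Type u} [Group K] [Group A] (φ : A →* MulAut K) (Q : Subgroup K) [hQ : Q.Normal]

/-- The subgroup of elements of `K` that are fixed modulo `Q`. -/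
def fixQ (hφ : ∀ d, ∀ q ∈ Q, φ d q ∈ Q) : Subgroup K where
  carrier := {k | ∀ d, φ d k * k⁻¹ ∈ Q}
  one_mem' := fun d => by simp
  mul_mem' := by
    intro a b ha hb d
    have h1 : φ d (a * b) * (a * b)⁻¹ = (φ d a * a⁻¹) * (a * (φ d b * b⁻¹) * a⁻¹) := by
      rw [map_mul]
      group
    rw [h1]
    exact Q.mul_mem (ha d) (hQ.conj_mem _ (hb d) a)
  inv_mem' := by
    intro a ha d
    have h1 : φ d a⁻¹ * a⁻¹⁻¹ = a⁻¹ * (φ d a * a⁻¹)⁻¹ * a⁻¹⁻¹ ⁻¹⁻¹ := by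
      rw [map_inv]
      group
    have h2 : φ d a⁻¹ * a⁻¹⁻¹ = (φ d a)⁻¹ * a := by
      rw [map_inv, inv_inv]
    have h3 : (φ d a)⁻¹ * a = a⁻¹ * (φ d a * a⁻¹)⁻¹ * a := by group
    rw [h2, h3]
    have := hQ.conj_mem _ (Q.inv_mem (ha d)) a⁻¹
    simpa using this

variable {φ Q}

theorem mem_fixQ {hφ : ∀ d, ∀ q ∈ Q, φ d q ∈ Q} {k : K} :
    k ∈ fixQ φ Q hφ ↔ ∀ d, φ d k * k⁻¹ ∈ Q := Iff.rfl

theorem le_fixQ (hφ : ∀ d, ∀ q ∈ Q, φ d q ∈ Q) : Q ≤ fixQ φ Q hφ := fun q hq d =>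
  Q.mul_mem (hφ d q hq) (Q.inv_mem hq)

theorem fixQ_inv (hφ : ∀ d, ∀ q ∈ Q, φ d q ∈ Q) (hA : ∀ x y : A, x * y = y * x) (d : A) :
    ∀ k ∈ fixQ φ Q hφ, φ d k ∈ fixQ φ Q hφ := by
  intro k hk e
  have h1 : φ e (φ d k) * (φ d k)⁻¹ = φ d (φ e k * k⁻¹) := by
    rw [map_mul, map_inv]
    congr 1
    rw [← MulAut.mul_apply, ← MulAut.mul_apply, ← map_mul, ← map_mul, hA]
  rw [h1]
  exact hφ d _ (hk e)

/-- If a generator fixes `k` modulo `Q` so does every element. -/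
theorem mem_fixQ_of_gen [Finite A] (hφ : ∀ d, ∀ q ∈ Q, φ d q ∈ Q) {b : A} (hb : ∀ d : A, d ∈ Subgroup.zpowers b)
    {k : K} (h : φ b k * k⁻¹ ∈ Q) : k ∈ fixQ φ Q hφ := by
  intro d
  obtain ⟨n, rfl⟩ : ∃ n : ℕ, b ^ n = d := by
    have := hb d
    rw [← mem_powers_iff_mem_zpowers] at this
    exact this
  induction n with
  | zero => simp
  | succ n ih =>
    have h1 : φ (b ^ (n + 1)) k * k⁻¹ = φ (b ^ n) (φ b k * k⁻¹) * (φ (b ^ n) k * k⁻¹) := by
      rw [pow_succ, map_mul, map_mul, map_inv]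
      show φ (b ^ n) (φ b k) * k⁻¹ = _
      group
    rw [h1]
    exact Q.mul_mem (hφ _ _ h) ih

/-- The action on the quotient by `Q`. -/
def quotAct (φ : A →* MulAut K) (Q : Subgroup K) [hQ : Q.Normal] (hφ : ∀ d, ∀ q ∈ Q, φ d q ∈ Q) :
    A →* MulAut (K ⧸ Q) where
  toFun d := QuotientGroup.congr Q Q (φ d) (by
    apply le_antisymm
    · rintro _ ⟨q, hq, rfl⟩
      exact hφ d q hq
    · intro q hq
      refine ⟨φ d⁻¹ q, hφ d⁻¹ q hq, ?_⟩
      show φ d (φ d⁻¹ q) = q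
      rw [← MulAut.mul_apply, ← map_mul]
      simp)
  map_one' := by
    ext x
    obtain ⟨k, rfl⟩ := QuotientGroup.mk_surjective x
    simp
  map_mul' x y := by
    ext z
    obtain ⟨k, rfl⟩ := QuotientGroup.mk_surjective z
    simp [map_mul]

theorem quotAct_mk (hφ : ∀ d, ∀ q ∈ Q, φ d q ∈ Q) (d : A) (k : K) :
    quotAct φ Q hφ d (k : K ⧸ Q) = ((φ d k : K) : K ⧸ Q) := rfl

theorem mk_eq_iff {x y : K} : ((x : K) : K ⧸ Q) = y ↔ x * y⁻¹ ∈ Q := by
  rw [QuotientGroup.eq]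
  constructor
  · intro h
    have := hQ.conj_mem _ (Q.inv_mem h) y
    have h2 : y * (x⁻¹ * y)⁻¹ * y⁻¹ = x * y⁻¹ * y * y⁻¹ := by group
    rw [h2] at this
    simpa using this
  · intro h
    have := hQ.conj_mem _ (Q.inv_mem h) x⁻¹
    have h2 : x⁻¹ * (x * y⁻¹)⁻¹ * x⁻¹⁻¹ = x⁻¹ * y := by group
    rwa [h2] at this

variable [Finite K] [Finite A]

/-- Twisted conjugation reaches `fixQ`. -/
theorem twist_rep (hφ : ∀ d, ∀ q ∈ Q, φ d q ∈ Q) {b : A} (hb : ∀ d : A, d ∈ Subgroup.zpowers b)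
    (hcop : (orderOf b).Coprime Q.index) (k : K) :
    ∃ y : K, y * k * (φ b y)⁻¹ ∈ fixQ φ Q hφ := by
  have hcop' : (orderOf b).Coprime (Nat.card (K ⧸ Q)) := by
    rw [← Subgroup.index_eq_card]
    exact hcop
  obtain ⟨y, c, hc, he⟩ := coprime_twist_rep (quotAct φ Q hφ) b hcop' (k : K ⧸ Q)
  obtain ⟨y, rfl⟩ := QuotientGroup.mk_surjective y
  refine ⟨y, mem_fixQ_of_gen hφ hb ?_⟩
  set z := y * k * (φ b y)⁻¹ with hz
  have h1 : ((z : K) : K ⧸ Q) = c := by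
    rw [← he, hz]
    simp only [QuotientGroup.mk_mul, QuotientGroup.mk_inv, quotAct_mk]
  apply mk_eq_iff.1
  rw [← quotAct_mk hφ, h1, hc]

/-- The twisted conjugator between elements of `fixQ` lies in `fixQ`. -/
theorem twist_mem (hφ : ∀ d, ∀ q ∈ Q, φ d q ∈ Q) {b : A} (hb : ∀ d : A, d ∈ Subgroup.zpowers b)
    (hcop : (orderOf b).Coprime Q.index) {y c c' : K} (hc : c ∈ fixQ φ Q hφ)
    (hc' : c' ∈ fixQ φ Q hφ) (h : y * c * (φ b y)⁻¹ = c') : y ∈ fixQ φ Q hφ := by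
  have hcop' : (orderOf b).Coprime (Nat.card (K ⧸ Q)) := by
    rw [← Subgroup.index_eq_card]
    exact hcop
  have hfix : ∀ x ∈ fixQ φ Q hφ, quotAct φ Q hφ b (x : K ⧸ Q) = (x : K ⧸ Q) := by
    intro x hx
    rw [quotAct_mk]
    exact mk_eq_iff.2 (hx b)
  have h1 := coprime_twist_mem (quotAct φ Q hφ) b hcop' (y : K ⧸ Q) (c : K ⧸ Q) (c' : K ⧸ Q)
    (hfix c hc) (hfix c' hc') (by
      rw [← h]
      simp only [QuotientGroup.mk_mul, QuotientGroup.mk_inv, quotAct_mk])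
  apply mem_fixQ_of_gen hφ hb
  apply mk_eq_iff.1
  rw [← quotAct_mk hφ]
  exact h1

/-- Composition of twisted conjugations. -/
theorem twist_mul (b : A) (y y' k : K) :
    y * (y' * k * (φ b y')⁻¹) * (φ b y)⁻¹ = (y * y') * k * (φ b (y * y'))⁻¹ := by
  rw [map_mul]
  group

/-- The mean of a twisted class function over `K` and over `fixQ`. -/
theorem mean_eq (hφ' : ∀ d, ∀ q ∈ Q, φ d q ∈ Q) [Fintype K] [Fintype (fixQ φ Q hφ')] {b : A}
    (hb : ∀ d : A, d ∈ Subgroup.zpowers b) (hcop : (orderOf b).Coprime Q.index)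
    (F : K → ℂ) (hF : ∀ y k, F (y * k * (φ b y)⁻¹) = F k) :
    (Nat.card K : ℂ)⁻¹ * ∑ k, F k = (Nat.card (fixQ φ Q hφ') : ℂ)⁻¹ * ∑ c : fixQ φ Q hφ', F c := by
  classical
  let Θ : K × (fixQ φ Q hφ') → K := fun p => p.1 * p.2 * (φ b p.1)⁻¹
  have hcard : ∀ k, (Finset.univ.filter (fun p : K × (fixQ φ Q hφ') => Θ p = k)).card = Nat.card (fixQ φ Q hφ') := by
    intro k
    obtain ⟨y0, hy0⟩ := twist_rep hφ' hb hcop k
    set c0 : (fixQ φ Q hφ') := ⟨y0 * k * (φ b y0)⁻¹, hy0⟩ with hc0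
    set y1 := y0⁻¹ with hy1
    have hk : y1 * c0 * (φ b y1)⁻¹ = k := by
      simp only [hc0, hy1, map_inv]
      group
    have hmem1 : ∀ p : K × (fixQ φ Q hφ'), Θ p = k → p.1⁻¹ * y1 ∈ (fixQ φ Q hφ') := by
      intro p hp'
      have h1 : (p.1⁻¹ * y1) * c0 * (φ b (p.1⁻¹ * y1))⁻¹ = p.2 := by
        have h2 : y1 * (c0 : K) * (φ b y1)⁻¹ = p.1 * p.2 * (φ b p.1)⁻¹ := by rw [hk]; exact hp'.symm
        calc (p.1⁻¹ * y1) * c0 * (φ b (p.1⁻¹ * y1))⁻¹
            = p.1⁻¹ * (y1 * c0 * (φ b y1)⁻¹) * φ b p.1 := by rw [map_mul, map_inv]; group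
          _ = p.2 := by rw [h2]; group
      exact twist_mem hφ' hb hcop c0.2 p.2.2 h1
    have hmem2 : ∀ t : (fixQ φ Q hφ'), (t : K) * c0 * (φ b t)⁻¹ ∈ (fixQ φ Q hφ') := by
      intro t
      exact (fixQ φ Q hφ').mul_mem ((fixQ φ Q hφ').mul_mem t.2 c0.2) ((fixQ φ Q hφ').inv_mem ((fixQ_inv hφ' (comm_of_gen hb) b) t t.2))
    rw [Nat.card_eq_fintype_card, ← Finset.card_univ]
    refine Finset.card_bij'
      (i := fun p hp => (⟨p.1⁻¹ * y1, hmem1 p (Finset.mem_filter.1 hp).2⟩ : (fixQ φ Q hφ')))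
      (j := fun t _ => ((y1 * (t : K)⁻¹, ⟨t * c0 * (φ b t)⁻¹, hmem2 t⟩) : K × (fixQ φ Q hφ')))
      ?_ ?_ ?_ ?_
    · intro p _
      exact Finset.mem_univ _
    · intro t _
      simp only [Finset.mem_filter, Finset.mem_univ, true_and]
      show (y1 * (t : K)⁻¹) * ((t : K) * c0 * (φ b t)⁻¹) * (φ b (y1 * (t : K)⁻¹))⁻¹ = k
      rw [← hk]
      simp only [map_mul, map_inv]
      group
    · intro p hp
      have hp' : p.1 * p.2 * (φ b p.1)⁻¹ = k := (Finset.mem_filter.1 hp).2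
      have h2 : y1 * (c0 : K) * (φ b y1)⁻¹ = p.1 * p.2 * (φ b p.1)⁻¹ := by rw [hk, hp']
      apply Prod.ext
      · show y1 * (p.1⁻¹ * y1)⁻¹ = p.1
        group
      · apply Subtype.ext
        show (p.1⁻¹ * y1) * c0 * (φ b (p.1⁻¹ * y1))⁻¹ = p.2
        calc (p.1⁻¹ * y1) * c0 * (φ b (p.1⁻¹ * y1))⁻¹
            = p.1⁻¹ * (y1 * c0 * (φ b y1)⁻¹) * φ b p.1 := by rw [map_mul, map_inv]; group
          _ = p.2 := by rw [h2]; group
    · intro t _
      apply Subtype.ext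
      show (y1 * (t : K)⁻¹)⁻¹ * y1 = t
      group
  have hS1 : ∑ p : K × (fixQ φ Q hφ'), F (Θ p) = (Nat.card K : ℂ) * ∑ c : (fixQ φ Q hφ'), F c := by
    rw [Fintype.sum_prod_type]
    simp only [Θ, hF]
    simp [Finset.card_univ, Nat.card_eq_fintype_card]
  have hS2 : ∑ p : K × (fixQ φ Q hφ'), F (Θ p) = (Nat.card (fixQ φ Q hφ') : ℂ) * ∑ k, F k := by
    rw [← Finset.sum_fiberwise Finset.univ Θ]
    rw [Finset.mul_sum]
    refine Finset.sum_congr rfl fun k _ => ?_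
    rw [Finset.sum_congr rfl (g := fun _ => F k) (fun p hp => by
      rw [(Finset.mem_filter.1 hp).2])]
    rw [Finset.sum_const, hcard, nsmul_eq_mul]
  have h1 : (Nat.card K : ℂ) ≠ 0 := by exact_mod_cast Nat.card_pos.ne'
  have h2 : (Nat.card (fixQ φ Q hφ') : ℂ) ≠ 0 := by exact_mod_cast Nat.card_pos.ne'
  rw [hS1] at hS2
  rw [inv_mul_eq_div, inv_mul_eq_div, div_eq_div_iff h1 h2]
  linear_combination -hS2

/-- A twisted class function of `fixQ` extends to one of `K`. -/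
theorem exists_twist_ext (hφ : ∀ d, ∀ q ∈ Q, φ d q ∈ Q) {b : A}
    (hb : ∀ d : A, d ∈ Subgroup.zpowers b) (hcop : (orderOf b).Coprime Q.index)
    (E : fixQ φ Q hφ → ℂ)
    (hE : ∀ t c : fixQ φ Q hφ, E (t * c * (resAct φ _ (fixQ_inv hφ (comm_of_gen hb)) b t)⁻¹) = E c) :
    ∃ f : K → ℂ, (∀ y k, f (y * k * (φ b y)⁻¹) = f k) ∧ ∀ c : fixQ φ Q hφ, f c = E c := by
  classical
  have hr := twist_rep hφ hb hcop
  choose y hy using hr
  let c : K → (fixQ φ Q hφ) := fun k => ⟨y k * k * (φ b (y k))⁻¹, hy k⟩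
  have hc : ∀ k, ((c k : (fixQ φ Q hφ)) : K) = y k * k * (φ b (y k))⁻¹ := fun _ => rfl
  have key : ∀ (t : K) (c₁ c₂ : (fixQ φ Q hφ)), (t * c₁ * (φ b t)⁻¹ = c₂) → E c₁ = E c₂ := by
    intro t c₁ c₂ ht
    have htm := twist_mem hφ hb hcop c₁.2 c₂.2 ht
    have := hE ⟨t, htm⟩ c₁
    rw [← this]
    congr 1
    apply Subtype.ext
    exact ht
  refine ⟨fun k => E (c k), ?_, ?_⟩
  · intro z k
    symm
    apply key (y (z * k * (φ b z)⁻¹) * z * (y k)⁻¹)
    rw [hc, hc]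
    simp only [map_mul, map_inv]
    group
  · intro c₀
    symm
    apply key (y c₀)
    rfl

end Quot

end Cfsg.Agent.H23
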