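import Cfsg.Agent.Lib.H23.SylAct2

/-!
# The step of the correspondence: a cyclic `p`-group acting on a group with normal Sylow subgroup
-/

set_option autoImplicit false
set_option linter.unusedSectionVars false
set_option linter.style.haveILetI false
set_option linter.unusedSimpArgs false

namespace Cfsg.Agent.H23

open scoped ComplexConjugate
open Cfsg Cfsg.Agent.H21 Module

universe u

section Galois

/-- A family of characters whose squared norms sum to one along all powers of `g`. -/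
theorem exists_unique_of_galois_sum {G : Type u} [Group G] [Finite G] {ι : Type*} [Fintype ι]
    (T : ι → G → ℂ) (hT : ∀ i, IsCharacter G (T i)) (g : G)
    (hsum : ∀ n : ℕ, n.Coprime (Nat.card G) → ∑ i, ‖T i (g ^ n)‖ ^ 2 = 1) :
    ∃ i₀, ‖T i₀ g‖ = 1 ∧ ∀ i, i ≠ i₀ → T i g = 0 := by
  classical
  have hN : NeZero (Nat.card G) := ⟨Nat.card_pos.ne'⟩
  set S := Finset.univ.filter (fun i => T i g ≠ 0) with hS
  have hrow : ∀ i ∈ S, (Fintype.card (ZMod (Nat.card G))ˣ : ℝ) ≤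
      ∑ u : (ZMod (Nat.card G))ˣ, ‖T i (g ^ (u : ZMod (Nat.card G)).val)‖ ^ 2 := by
    intro i hi
    obtain ⟨h1, h2⟩ := character_galois (hT i) g (Finset.mem_filter.1 hi).2
    have h3 := card_le_sum_of_prod Finset.univ
      (fun u : (ZMod (Nat.card G))ˣ => ‖T i (g ^ (u : ZMod (Nat.card G)).val)‖ ^ 2)
      (fun u _ => by
        have := norm_pos_iff.2 (h1 u)
        positivity)
      (by
        rw [Finset.prod_pow, ← norm_prod]
        exact one_le_pow₀ h2)
    simpa [Finset.card_univ] using h3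
  have hcol : ∀ u : (ZMod (Nat.card G))ˣ, ∑ i, ‖T i (g ^ (u : ZMod (Nat.card G)).val)‖ ^ 2 = 1 :=
    fun u => hsum _ (ZMod.val_coe_unit_coprime u)
  have hpos : (0 : ℝ) < Fintype.card (ZMod (Nat.card G))ˣ := by
    exact_mod_cast Fintype.card_pos
  have hcard : (S.card : ℝ) * Fintype.card (ZMod (Nat.card G))ˣ ≤
      Fintype.card (ZMod (Nat.card G))ˣ := by
    calc (S.card : ℝ) * Fintype.card (ZMod (Nat.card G))ˣ
        = ∑ i ∈ S, (Fintype.card (ZMod (Nat.card G))ˣ : ℝ) := by simp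
      _ ≤ ∑ i ∈ S, ∑ u : (ZMod (Nat.card G))ˣ, ‖T i (g ^ (u : ZMod (Nat.card G)).val)‖ ^ 2 :=
        Finset.sum_le_sum hrow
      _ ≤ ∑ i, ∑ u : (ZMod (Nat.card G))ˣ, ‖T i (g ^ (u : ZMod (Nat.card G)).val)‖ ^ 2 :=
        Finset.sum_le_sum_of_subset_of_nonneg (Finset.subset_univ _) (fun _ _ _ =>
          Finset.sum_nonneg fun _ _ => by positivity)
      _ = ∑ u : (ZMod (Nat.card G))ˣ, ∑ i, ‖T i (g ^ (u : ZMod (Nat.card G)).val)‖ ^ 2 :=
        Finset.sum_comm
      _ = Fintype.card (ZMod (Nat.card G))ˣ := by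
        simp [hcol, Finset.card_univ]
  have hS1 : S.card ≤ 1 := by
    have h1 : (S.card : ℝ) ≤ 1 := by
      by_contra hcon
      push Not at hcon
      nlinarith
    exact_mod_cast h1
  have h1 := hsum 1 (Nat.coprime_one_left _)
  simp only [pow_one] at h1
  have hsupp : ∑ i ∈ S, ‖T i g‖ ^ 2 = 1 := by
    rw [← h1]
    apply Finset.sum_subset (Finset.subset_univ _)
    intro i _ hi
    have : T i g = 0 := by
      by_contra hne
      exact hi (Finset.mem_filter.2 ⟨Finset.mem_univ _, hne⟩)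
    simp [this]
  have hne : S.Nonempty := by
    by_contra hcon
    rw [Finset.not_nonempty_iff_eq_empty] at hcon
    rw [hcon] at hsupp
    simp at hsupp
  obtain ⟨i₀, hi₀⟩ := hne
  have hSeq : S = {i₀} := by
    apply Finset.eq_singleton_iff_unique_mem.2
    refine ⟨hi₀, fun x hx => ?_⟩
    exact Finset.card_le_one.1 hS1 x hx i₀ hi₀
  refine ⟨i₀, ?_, ?_⟩
  · rw [hSeq] at hsupp
    simp only [Finset.sum_singleton] at hsupp
    have := norm_nonneg (T i₀ g)
    nlinarith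
  · intro i hi
    by_contra hne
    have : i ∈ S := Finset.mem_filter.2 ⟨Finset.mem_univ _, hne⟩
    rw [hSeq, Finset.mem_singleton] at this
    exact hi this

end Galois

section Step

variable {K A : Type u} [Group K] [Group A] [Finite K] [Finite A] (φ : A →* MulAut K)

open SemidirectProduct

/-- The inclusion of semidirect products. -/
def jHom (S : Subgroup K) (hS : ∀ d, ∀ k ∈ S, φ d k ∈ S) : (S ⋊[resAct φ S hS] A) →* K ⋊[φ] A :=
  SemidirectProduct.map S.subtype (MonoidHom.id A) (fun d => by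
    ext c
    rfl)

theorem jHom_inl_mul_inr (S : Subgroup K) (hS : ∀ d, ∀ k ∈ S, φ d k ∈ S) (c : S) (b : A) :
    jHom φ S hS (inl c * inr b) = inl (c : K) * inr b := by
  simp [jHom]

variable (S : Subgroup K) (hS : ∀ d, ∀ k ∈ S, φ d k ∈ S)

/-- The average over the normal subgroup of the product of a character of the big product with a
conjugate character of the small product. -/
noncomputable def Tbar [Fintype (Nl (resAct φ S hS))] (ψ : K ⋊[φ] A → ℂ)
    (η : S ⋊[resAct φ S hS] A → ℂ) : S ⋊[resAct φ S hS] A → ℂ :=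
  nAvg (Nl (resAct φ S hS)) (fun x => ψ (jHom φ S hS x) * conj (η x))

theorem isCharacter_Tbar [Fintype (S ⋊[resAct φ S hS] A)] [Fintype (Nl (resAct φ S hS))]
    [Fintype (IrrCharacter (S ⋊[resAct φ S hS] A))] {ψ : K ⋊[φ] A → ℂ}
    {η : S ⋊[resAct φ S hS] A → ℂ} (hψ : IsCharacter _ ψ) (hη : IsCharacter _ η) :
    IsCharacter _ (Tbar φ S hS ψ η) :=
  isCharacter_nAvg _ (isCharacter_mul (isCharacter_comp (jHom φ S hS) hψ) (isCharacter_conjFun hη))

theorem Tbar_inr [Fintype S] [Fintype (Nl (resAct φ S hS))] (ψ : K ⋊[φ] A → ℂ)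
    (η : S ⋊[resAct φ S hS] A → ℂ) (b : A) :
    Tbar φ S hS ψ η (inr b) =
      classInner (fun c : S => cosetFn φ ψ b c) (cosetFn (resAct φ S hS) η b) := by
  unfold Tbar
  rw [nAvg_Nl]
  unfold classInner
  simp only [jHom_inl_mul_inr]
  rfl

theorem Tbar_one [Fintype S] [Fintype (Nl (resAct φ S hS))] (ψ : K ⋊[φ] A → ℂ)
    (η : S ⋊[resAct φ S hS] A → ℂ) :
    Tbar φ S hS ψ η 1 =
      classInner (fun c : S => ψ (inl (c : K))) (fun c : S => η (inl c)) := by
  have h := Tbar_inr φ S hS ψ η 1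
  simp only [map_one] at h
  rw [h]
  unfold classInner cosetFn
  simp

theorem twist_restrict {ψ : K ⋊[φ] A → ℂ} (hψ : IsClassFunction _ ψ) (b : A) (y c : S) :
    cosetFn φ ψ b ((y * c * (resAct φ S hS b y)⁻¹ : S) : K) = cosetFn φ ψ b c := by
  have h1 : ((y * c * (resAct φ S hS b y)⁻¹ : S) : K) = (y : K) * c * (φ b y)⁻¹ := rfl
  rw [h1, cosetFn_twist φ hψ]

/-- Parseval along a generator. -/
theorem row_parseval [Fintype K] [Fintype S] [Fintype (InvIrr (resAct φ S hS))]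
    (hmean : ∀ b : A, (∀ d : A, d ∈ Subgroup.zpowers b) → ∀ F : K → ℂ,
      (∀ y k, F (y * k * (φ b y)⁻¹) = F k) →
        (Nat.card K : ℂ)⁻¹ * ∑ k, F k = (Nat.card S : ℂ)⁻¹ * ∑ c : S, F c)
    (b : A) (hb : ∀ d : A, d ∈ Subgroup.zpowers b)
    (hat : InvIrr φ → (K ⋊[φ] A) → ℂ) (hhat : ∀ ξ, IsIrrCharacter _ (hat ξ))
    (hhat1 : ∀ ξ c, hat ξ (inl c) = ξ.1.1 c)
    (hat' : InvIrr (resAct φ S hS) → (S ⋊[resAct φ S hS] A) → ℂ)
    (hhat' : ∀ ξ, IsIrrCharacter _ (hat' ξ)) (hhat1' : ∀ ξ c, hat' ξ (inl c) = ξ.1.1 c)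
    (χ χ' : InvIrr φ) :
    ∑ ξ, classInner (fun c : S => cosetFn φ (hat χ) b c) (cosetFn (resAct φ S hS) (hat' ξ) b) *
      conj (classInner (fun c : S => cosetFn φ (hat χ') b c) (cosetFn (resAct φ S hS) (hat' ξ) b)) =
      if χ = χ' then 1 else 0 := by
  classical
  haveI : Fintype (K ⋊[φ] A) := Fintype.ofFinite _
  haveI : Fintype (IrrCharacter (K ⋊[φ] A)) := Fintype.ofFinite _
  have hcl := fun χ => isClassFunction_of_isCharacter (isCharacter_of_irr (hhat χ))
  have h1 := coset_parseval (resAct φ S hS) b hb (fun c : S => cosetFn φ (hat χ) b c)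
    (fun c : S => cosetFn φ (hat χ') b c) (fun y c => twist_restrict φ S hS (hcl χ) b y c)
    hat' hhat' hhat1'
  rw [← h1]
  have h2 : classInner (fun c : S => cosetFn φ (hat χ) b c) (fun c : S => cosetFn φ (hat χ') b c) =
      classInner (cosetFn φ (hat χ) b) (cosetFn φ (hat χ') b) := by
    unfold classInner
    refine (hmean b hb (fun k => cosetFn φ (hat χ) b k * conj (cosetFn φ (hat χ') b k)) ?_).symm
    intro y k
    rw [cosetFn_twist φ (hcl χ), cosetFn_twist φ (hcl χ')]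
  rw [h2]
  exact coset_orthonormal φ hat hhat hhat1 b χ χ'

/-- Powers of a generator coprime to the order are generators. -/
theorem gen_pow_coprime {a : A} (ha : ∀ d : A, d ∈ Subgroup.zpowers a) {n : ℕ}
    (hn : n.Coprime (Nat.card A)) (d : A) : d ∈ Subgroup.zpowers (a ^ n) := by
  have h1 : n.Coprime (orderOf a) := hn.coprime_dvd_right (orderOf_dvd_natCard a)
  obtain ⟨m, hm⟩ := exists_pow_eq_self_of_coprime h1
  have h2 : a ∈ Subgroup.zpowers (a ^ n) := ⟨m, by simpa using hm⟩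
  exact (Subgroup.zpowers_le.2 h2) (ha d)

theorem zmod_sq_of_mem {p : ℕ} (hp : p.Prime) {M : Ideal AlgInt} (hM : IsPModular p M) {m : ℕ}
    (h : (m : AlgInt) ^ 2 - 1 ∈ M) : (m : ZMod p) = 1 ∨ (m : ZMod p) = -1 := by
  haveI : Fact p.Prime := ⟨hp⟩
  have h1 : (m : ZMod p) ^ 2 = 1 := by
    rcases Nat.eq_zero_or_pos m with rfl | hm
    · exfalso
      have h2 : ((0 : ℕ) : AlgInt) ^ 2 - 1 = -1 := by simp
      rw [h2] at h
      exact pmod_one_notMem hM (by simpa using M.neg_mem h)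
    · have h1m : 1 ≤ m ^ 2 := Nat.one_le_pow _ _ hm
      have h2 : ((m ^ 2 - 1 : ℕ) : AlgInt) = (m : AlgInt) ^ 2 - 1 := by
        rw [Nat.cast_sub h1m]
        simp
      rw [← h2, natCast_mem_iff hM] at h
      have h3 := (ZMod.natCast_eq_zero_iff _ _).2 h
      rw [Nat.cast_sub h1m] at h3
      push_cast at h3
      exact sub_eq_zero.1 h3
  have h2 : ((m : ZMod p) - 1) * ((m : ZMod p) + 1) = 0 := by
    linear_combination h1
  rcases mul_eq_zero.1 h2 with h3 | h3
  · exact Or.inl (sub_eq_zero.1 h3)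
  · exact Or.inr (eq_neg_of_add_eq_zero_left h3)

/-- The step: the bijection. -/
theorem step_abstract [Fintype K] [Fintype S] (p : ℕ) (hp : p.Prime) (hAp : IsPGroup p A)
    (a : A) (ha : ∀ d : A, d ∈ Subgroup.zpowers a)
    (hmean : ∀ b : A, (∀ d : A, d ∈ Subgroup.zpowers b) → ∀ F : K → ℂ,
      (∀ y k, F (y * k * (φ b y)⁻¹) = F k) →
        (Nat.card K : ℂ)⁻¹ * ∑ k, F k = (Nat.card S : ℂ)⁻¹ * ∑ c : S, F c)
    (hext : ∀ E : S → ℂ, (∀ t c : S, E (t * c * (resAct φ S hS a t)⁻¹) = E c) →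
      ∃ f : K → ℂ, (∀ y k, f (y * k * (φ a y)⁻¹) = f k) ∧ ∀ c : S, f c = E c) :
    ∃ Φ : InvIrr φ → InvIrr (resAct φ S hS), Function.Bijective Φ ∧
      ∀ χ ξ, ∃ m : ℕ, classInner (fun c : S => χ.1.1 c) ξ.1.1 = m ∧
        (ξ = Φ χ → (m : ZMod p) = 1 ∨ (m : ZMod p) = -1) ∧ (ξ ≠ Φ χ → p ∣ m) := by
  classical
  haveI : Fintype (K ⋊[φ] A) := Fintype.ofFinite _
  haveI : Fintype (IrrCharacter (K ⋊[φ] A)) := Fintype.ofFinite _
  haveI : Fintype (S ⋊[resAct φ S hS] A) := Fintype.ofFinite _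
  haveI : Fintype (Nl (resAct φ S hS)) := Fintype.ofFinite _
  haveI : Fintype (IrrCharacter (S ⋊[resAct φ S hS] A)) := Fintype.ofFinite _
  haveI : Fintype (IrrCharacter K) := Fintype.ofFinite _
  haveI : Fintype (IrrCharacter S) := Fintype.ofFinite _
  haveI : Fintype (InvIrr φ) := Fintype.ofFinite _
  haveI : Fintype (InvIrr (resAct φ S hS)) := Fintype.ofFinite _
  have hex : ∀ χ : InvIrr φ, ∃ ψ : (K ⋊[φ] A) → ℂ, IsIrrCharacter _ ψ ∧
      ∀ k, ψ (inl k) = χ.1.1 k := fun χ => exists_ext_of_cyclic φ a ha χ.1.2 (χ.2 a)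
  choose hat hhat hhat1 using hex
  have hex' : ∀ χ : InvIrr (resAct φ S hS), ∃ ψ : (S ⋊[resAct φ S hS] A) → ℂ, IsIrrCharacter _ ψ ∧
      ∀ k, ψ (inl k) = χ.1.1 k := fun χ =>
    exists_ext_of_cyclic (resAct φ S hS) a ha χ.1.2 (χ.2 a)
  choose hat' hhat' hhat1' using hex'
  have hcl := fun χ => isClassFunction_of_isCharacter (isCharacter_of_irr (hhat χ))
  have hcl' := fun χ => isClassFunction_of_isCharacter (isCharacter_of_irr (hhat' χ))
  let T : InvIrr φ → InvIrr (resAct φ S hS) → (S ⋊[resAct φ S hS] A) → ℂ :=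
    fun χ ξ => Tbar φ S hS (hat χ) (hat' ξ)
  have hTc : ∀ χ ξ, IsCharacter _ (T χ ξ) := fun χ ξ =>
    isCharacter_Tbar φ S hS (isCharacter_of_irr (hhat χ)) (isCharacter_of_irr (hhat' ξ))
  have hTb : ∀ χ ξ b, T χ ξ (inr b) =
      classInner (fun c : S => cosetFn φ (hat χ) b c) (cosetFn (resAct φ S hS) (hat' ξ) b) :=
    fun χ ξ b => Tbar_inr φ S hS _ _ b
  have hpars : ∀ b : A, (∀ d : A, d ∈ Subgroup.zpowers b) → ∀ χ χ',
      ∑ ξ, T χ ξ (inr b) * conj (T χ' ξ (inr b)) = if χ = χ' then 1 else 0 := by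
    intro b hb χ χ'
    simp only [hTb]
    exact row_parseval φ S hS hmean b hb hat hhat hhat1 hat' hhat' hhat1' χ χ'
  have hg : ∀ n : ℕ, (inr a : S ⋊[resAct φ S hS] A) ^ n = inr (a ^ n) := fun n => (map_pow _ _ _).symm
  have hcardL : Nat.card (S ⋊[resAct φ S hS] A) = Nat.card S * Nat.card A :=
    SemidirectProduct.card
  have hsum : ∀ χ, ∀ n : ℕ, n.Coprime (Nat.card (S ⋊[resAct φ S hS] A)) →
      ∑ ξ, ‖T χ ξ ((inr a : S ⋊[resAct φ S hS] A) ^ n)‖ ^ 2 = 1 := by
    intro χ n hn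
    rw [hcardL] at hn
    have h1 := hpars (a ^ n) (gen_pow_coprime ha hn.coprime_mul_left_right) χ χ
    rw [if_pos rfl] at h1
    simp only [hg]
    have h2 : (((∑ ξ, ‖T χ ξ (inr (a ^ n))‖ ^ 2 : ℝ)) : ℂ) = 1 := by
      rw [← h1]
      push_cast
      refine Finset.sum_congr rfl fun ξ _ => ?_
      rw [Complex.mul_conj, Complex.normSq_eq_norm_sq]
      push_cast
      rfl
    exact_mod_cast h2
  have hex0 := fun χ => exists_unique_of_galois_sum (T χ) (hTc χ) (inr a) (hsum χ)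
  choose Φ hΦ1 hΦ0 using hex0
  have hne : ∀ χ, T χ (Φ χ) (inr a) ≠ 0 := by
    intro χ h0
    have := hΦ1 χ
    rw [h0, norm_zero] at this
    exact zero_ne_one this
  -- injective
  have hinj : Function.Injective Φ := by
    intro χ χ' he
    by_contra hcon
    have h1 := hpars a ha χ χ'
    rw [if_neg hcon, Finset.sum_eq_single (Φ χ)] at h1
    · have h2 := hne χ
      have h3 := hne χ'
      rw [← he] at h3
      simp only [mul_eq_zero, map_eq_zero] at h1
      exact h1.elim h2 h3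
    · intro ξ _ hξ
      rw [hΦ0 χ ξ hξ, zero_mul]
    · simp
  -- surjective
  have hsurj : Function.Surjective Φ := by
    intro ξ
    by_contra hcon
    push Not at hcon
    obtain ⟨f, hf, hfE⟩ := hext (cosetFn (resAct φ S hS) (hat' ξ) a)
      (fun t c => cosetFn_twist (resAct φ S hS) (hcl' ξ) a t c)
    have h1 : ∀ χ (c : S), cosetFn φ (hat χ) a c =
        T χ (Φ χ) (inr a) * cosetFn (resAct φ S hS) (hat' (Φ χ)) a c := by
      intro χ c
      have h2 := coset_expansion (resAct φ S hS) a ha (fun c : S => cosetFn φ (hat χ) a c)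
        (fun y c => twist_restrict φ S hS (hcl χ) a y c) hat' hhat' hhat1' c
      simp only [← hTb] at h2
      rw [h2, Finset.sum_eq_single (Φ χ)]
      · intro ξ' _ hξ'
        rw [hΦ0 χ ξ' hξ', zero_mul]
      · simp
    have h2 : ∀ c : S, cosetFn (resAct φ S hS) (hat' ξ) a c =
        ∑ χ, (classInner f (cosetFn φ (hat χ) a) * T χ (Φ χ) (inr a)) •
          cosetFn (resAct φ S hS) (hat' (Φ χ)) a c := by
      intro c
      rw [← hfE c, coset_expansion φ a ha f hf hat hhat hhat1 (c : K)]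
      refine Finset.sum_congr rfl fun χ _ => ?_
      rw [h1 χ c, smul_eq_mul]
      ring
    have h3 : cosetFn (resAct φ S hS) (hat' ξ) a = ∑ χ, (classInner f (cosetFn φ (hat χ) a) *
        T χ (Φ χ) (inr a)) • cosetFn (resAct φ S hS) (hat' (Φ χ)) a := by
      funext c
      rw [h2 c]
      simp only [Finset.sum_apply, Pi.smul_apply]
    have h4 := coset_orthonormal (resAct φ S hS) hat' hhat' hhat1' a ξ ξ
    rw [if_pos rfl] at h4
    have h5 : classInner (∑ χ, (classInner f (cosetFn φ (hat χ) a) * T χ (Φ χ) (inr a)) •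
        cosetFn (resAct φ S hS) (hat' (Φ χ)) a) (cosetFn (resAct φ S hS) (hat' ξ) a) = 1 := by
      rw [← h3]
      exact h4
    rw [classInner_sum_left] at h5
    simp only [classInner_smul_left, coset_orthonormal (resAct φ S hS) hat' hhat' hhat1' a] at h5
    rw [Finset.sum_eq_zero] at h5
    · exact zero_ne_one h5
    · intro χ _
      rw [if_neg (hcon χ), mul_zero]
  have hΦ1' : ∀ χ ξ, ξ = Φ χ → ‖T χ ξ (inr a)‖ = 1 := by
    intro χ ξ h
    rw [h]
    exact hΦ1 χ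
  obtain ⟨M, hM⟩ := exists_pModular hp
  obtain ⟨k, hk⟩ := hAp a
  obtain ⟨j, -, hj⟩ := (Nat.dvd_prime_pow hp).1 (orderOf_dvd_of_pow_eq_one hk)
  have hordg : orderOf (inr a : S ⋊[resAct φ S hS] A) = p ^ j := by
    rw [orderOf_injective inr inr_injective a, hj]
  have hordg' : orderOf ((inr a : S ⋊[resAct φ S hS] A)⁻¹) = p ^ j := by
    rw [orderOf_inv, hordg]
  refine ⟨Φ, ⟨hinj, hsurj⟩, fun χ ξ => ?_⟩
  -- the multiplicities
  have hTc1 := hTc χ ξ
  have hone : T χ ξ 1 = classInner (fun c : S => χ.1.1 c) ξ.1.1 := by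
    have h1 := Tbar_one φ S hS (hat χ) (hat' ξ)
    have h2 : (fun c : S => hat χ (inl (c : K))) = fun c : S => χ.1.1 c := by
      funext c
      exact hhat1 χ c
    have h3 : (fun c : S => hat' ξ (inl c)) = ξ.1.1 := by
      funext c
      exact hhat1' ξ c
    rw [h2, h3] at h1
    exact h1
  refine ⟨charDegree (T χ ξ), ?_, ?_, ?_⟩
  · rw [← hone]
    exact one_eq_charDegree hTc1
  · intro hξ
    have hr := hΦ1' χ ξ hξ
    obtain ⟨x, hx, hxe⟩ := character_sub_degree_mem hM hTc1 hordg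
    obtain ⟨y, hy, hye⟩ := character_sub_degree_mem hM hTc1 hordg'
    rw [isCharacter_inv hTc1] at hye
    apply zmod_sq_of_mem hp hM
    have h1 : ((x + (charDegree (T χ ξ) : AlgInt)) * (y + (charDegree (T χ ξ) : AlgInt)) : AlgInt) = 1 := by
      apply Subtype.ext
      push_cast
      rw [hxe, hye]
      simp only [sub_add_cancel]
      rw [Complex.mul_conj, Complex.normSq_eq_norm_sq, hr]
      simp
    have h2 : (charDegree (T χ ξ) : AlgInt) ^ 2 - 1 =
        -(x * y + x * (charDegree (T χ ξ) : AlgInt) + y * (charDegree (T χ ξ) : AlgInt)) := by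
      linear_combination h1
    rw [h2]
    exact M.neg_mem (M.add_mem (M.add_mem (M.mul_mem_right _ hx) (M.mul_mem_right _ hx))
      (M.mul_mem_right _ hy))
  · intro hξ
    obtain ⟨x, hx, hxe⟩ := character_sub_degree_mem hM hTc1 hordg
    rw [hΦ0 χ ξ hξ, zero_sub] at hxe
    apply (natCast_mem_iff hM _).1
    have h1 : ((charDegree (T χ ξ) : ℕ) : AlgInt) = -x := by
      apply Subtype.ext
      push_cast
      rw [hxe]
      simp
    rw [h1]
    exact M.neg_mem hx

/-- The step for the subgroup of elements fixed modulo a normal subgroup. -/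
theorem step_fixQ [Fintype K] {Q : Subgroup K} [hQ : Q.Normal] (p : ℕ) (hp : p.Prime)
    (hAp : IsPGroup p A) (hi : ¬ p ∣ Q.index) (hφ : ∀ d, ∀ q ∈ Q, φ d q ∈ Q)
    (a : A) (ha : ∀ d : A, d ∈ Subgroup.zpowers a) [Fintype (fixQ φ Q hφ)] :
    ∃ Φ : InvIrr φ → InvIrr (resAct φ (fixQ φ Q hφ) (fixQ_inv hφ (comm_of_gen ha))),
      Function.Bijective Φ ∧
      ∀ χ ξ, ∃ m : ℕ, classInner (fun c : fixQ φ Q hφ => χ.1.1 c) ξ.1.1 = m ∧
        (ξ = Φ χ → (m : ZMod p) = 1 ∨ (m : ZMod p) = -1) ∧ (ξ ≠ Φ χ → p ∣ m) := by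
  have hcop : ∀ b : A, (orderOf b).Coprime Q.index := by
    intro b
    obtain ⟨k, hk⟩ := hAp b
    obtain ⟨j, -, hj⟩ := (Nat.dvd_prime_pow hp).1 (orderOf_dvd_of_pow_eq_one hk)
    rw [hj]
    exact Nat.Coprime.pow_left _ ((Nat.Prime.coprime_iff_not_dvd hp).2 hi)
  exact step_abstract φ (fixQ φ Q hφ) (fixQ_inv hφ (comm_of_gen ha)) p hp hAp a ha
    (fun b hb F hF => mean_eq hφ hb (hcop b) F hF)
    (fun E hE => exists_twist_ext hφ ha (hcop a) E hE)

end Step

end Cfsg.Agent.H23
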