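import Cfsg.Agent.Lib.H23.SylAct3
import Cfsg.Agent.Lib.H21.GlaubCore4

/-!
# A `p`-group acting on a group with a normal subgroup of index prime to `p`:
the correspondence of invariant characters.
-/

set_option autoImplicit false
set_option linter.unusedSectionVars false
set_option linter.style.haveILetI false
set_option linter.unusedSimpArgs false

namespace Cfsg.Agent.H23

open scoped ComplexConjugate
open Cfsg Cfsg.Agent.H21 Module

universe u

section Transfer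

theorem exists_grow {p : ℕ} (hp : p.Prime) {P : Type*} [Group P] [Finite P] (hP : IsPGroup p P)
    {Z : Type*} [MulAction P Z] (z : Z) (hz : ¬ (∀ d : P, d • z = z)) :
    ∃ t : P, (∀ e ∈ MulAction.stabilizer P z, e • t • z = t • z) ∧ t • z ≠ z := by
  classical
  haveI : Fact p.Prime := ⟨hp⟩
  haveI : Group.IsNilpotent P := hP.isNilpotent
  have hnc := Group.normalizerCondition_of_isNilpotent (G := P)
  have hlt : MulAction.stabilizer P z < ⊤ := by
    apply lt_top_iff_ne_top.2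
    intro htop
    apply hz
    intro d
    have : d ∈ MulAction.stabilizer P z := by rw [htop]; trivial
    exact this
  have hlt2 := hnc _ hlt
  obtain ⟨t, ht, htn⟩ := SetLike.exists_of_lt hlt2
  refine ⟨t, ?_, fun h => htn h⟩
  intro e he
  have h1 : t⁻¹ * e * t ∈ MulAction.stabilizer P z := by
    have h3 := (Subgroup.mem_normalizer_iff.1 (Subgroup.inv_mem _ ht) e).1 he
    simpa using h3
  have h4 : (t⁻¹ * e * t) • z = z := h1
  calc e • t • z = t • (t⁻¹ * e * t) • z := by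
        rw [← mul_smul, ← mul_smul]
        congr 1
        group
    _ = t • z := by rw [h4]

/-- Fixed points under a subgroup and under the whole `p`-group correspond. -/
theorem fixed_transfer {p : ℕ} (hp : p.Prime) {P : Type*} [Group P] [Finite P] (hP : IsPGroup p P)
    {X Y : Type*} [MulAction P X] [MulAction P Y] (A : Subgroup P) {XA : X → Prop} {YA : Y → Prop}
    (hXA : ∀ x, XA x ↔ ∀ a ∈ A, a • x = x) (hYA : ∀ y, YA y ↔ ∀ a ∈ A, a • y = y)
    (Φ : {x // XA x} → {y // YA y}) (hinj : Function.Injective Φ)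
    (M : X → Y → ℕ) (hM : ∀ (d : P) x y, M (d • x) (d • y) = M x y)
    (h0 : ∀ x y, y ≠ Φ x → p ∣ M x.1 y.1) (h1 : ∀ x, ¬ p ∣ M x.1 (Φ x).1) (x : {x // XA x}) :
    (∀ d : P, d • x.1 = x.1) ↔ (∀ d : P, d • (Φ x).1 = (Φ x).1) := by
  have hgrow1 := fun (z : X) (hz) => exists_grow hp hP z hz
  have hgrow2 := fun (z : Y) (hz) => exists_grow hp hP z hz
  constructor
  · intro hx
    by_contra hcon
    obtain ⟨t, ht, hne⟩ := hgrow2 (Φ x).1 hcon
    have hAle : ∀ a ∈ A, a ∈ MulAction.stabilizer P (Φ x).1 := fun a ha =>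
      (hYA _).1 (Φ x).2 a ha
    have hy' : YA (t • (Φ x).1) := (hYA _).2 fun a ha => ht a (hAle a ha)
    have h2 := h0 x ⟨_, hy'⟩ (fun h => hne (congrArg Subtype.val h))
    have h3 := hM t x.1 (Φ x).1
    rw [hx t] at h3
    simp only at h2
    rw [h3] at h2
    exact h1 x h2
  · intro hy
    by_contra hcon
    obtain ⟨t, ht, hne⟩ := hgrow1 x.1 hcon
    have hAle : ∀ a ∈ A, a ∈ MulAction.stabilizer P x.1 := fun a ha => (hXA _).1 x.2 a ha
    have hx' : XA (t • x.1) := (hXA _).2 fun a ha => ht a (hAle a ha)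
    have h3 := hM t x.1 (Φ x).1
    rw [hy t] at h3
    have h2 : Φ x = Φ ⟨_, hx'⟩ := by
      by_contra hn
      have h4 := h0 ⟨_, hx'⟩ (Φ x) hn
      simp only at h4
      rw [h3] at h4
      exact h1 x h4
    have h5 := hinj h2
    exact hne (congrArg Subtype.val h5).symm

end Transfer

section Aut

/-- The inner product is invariant under automorphisms. -/
theorem classInner_comp_aut {G : Type*} [Group G] [Fintype G] (α : MulAut G) (f g : G → ℂ) :
    classInner (fun x => f (α x)) (fun x => g (α x)) = classInner f g := by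
  unfold classInner
  congr 1
  exact Fintype.sum_equiv α.toEquiv _ _ fun _ => rfl

end Aut

section Corr

variable {P : Type u} [Group P] {C : Type u} [Group C] [Fintype C]

/-- The conclusion of the correspondence. -/
def CorrConcl (p : ℕ) {K : Type u} [Group K] (φ : P →* MulAut K) (φC : P →* MulAut C)
    (ι : C →* K) : Prop :=
  ∃ f : InvIrr φ → InvIrr φC, Function.Bijective f ∧ ∀ χ ξ, ∃ m : ℕ,
    classInner (fun c => χ.1.1 (ι c)) ξ.1.1 = m ∧
      (ξ = f χ → (m : ZMod p) = 1 ∨ (m : ZMod p) = -1) ∧ (ξ ≠ f χ → p ∣ m)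

theorem corr_base {p : ℕ} {K : Type u} [Group K] [Finite K] (φ : P →* MulAut K)
    (φC : P →* MulAut C) (ι : C →* K) (hι : Function.Bijective ι)
    (hequi : ∀ x c, ι (φC x c) = φ x (ι c)) : CorrConcl p φ φC ι := by
  classical
  haveI : Fintype K := Fintype.ofFinite _
  let e : C ≃* K := MulEquiv.ofBijective ι hι
  have he : ∀ c, e c = ι c := fun _ => rfl
  let f : InvIrr φ → InvIrr φC := fun χ =>
    ⟨⟨fun c => χ.1.1 (ι c), isIrrCharacter_comp_of_surjective ι hι.2 χ.1.2⟩, fun d c => by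
      show χ.1.1 (ι (φC d c)) = χ.1.1 (ι c)
      rw [hequi]
      exact χ.2 d _⟩
  refine ⟨f, ⟨?_, ?_⟩, fun χ ξ => ?_⟩
  · intro χ χ' h
    apply Subtype.ext
    apply Subtype.ext
    funext k
    obtain ⟨c, rfl⟩ := hι.2 k
    exact congrFun (congrArg (fun z : InvIrr φC => z.1.1) h) c
  · intro ξ
    refine ⟨⟨⟨fun k => ξ.1.1 (e.symm k), isIrrCharacter_comp_of_surjective e.symm.toMonoidHom
      e.symm.surjective ξ.1.2⟩, fun d k => ?_⟩, ?_⟩
    · obtain ⟨c, rfl⟩ := e.surjective k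
      show ξ.1.1 (e.symm (φ d (e c))) = ξ.1.1 (e.symm (e c))
      have h1 : φ d (e c) = e (φC d c) := by rw [he, he, hequi]
      rw [h1, MulEquiv.symm_apply_apply, MulEquiv.symm_apply_apply]
      exact ξ.2 d c
    · apply Subtype.ext
      apply Subtype.ext
      funext c
      show ξ.1.1 (e.symm (ι c)) = ξ.1.1 c
      rw [← he, MulEquiv.symm_apply_apply]
  · have h1 := classInner_comp_iso ι hι χ.1 ξ.1
    by_cases h : ξ = f χ
    · refine ⟨1, ?_, fun _ => Or.inl (by simp), fun h' => absurd h h'⟩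
      have h2 : (fun c => χ.1.1 (ι c)) = ξ.1.1 := by
        rw [h]
      rw [h1, if_pos h2]
      simp
    · refine ⟨0, ?_, fun h' => absurd h' h, fun _ => dvd_zero _⟩
      have h2 : (fun c => χ.1.1 (ι c)) ≠ ξ.1.1 := by
        intro h2
        apply h
        apply Subtype.ext
        apply Subtype.ext
        exact h2.symm
      rw [h1, if_neg h2]
      simp

variable {p : ℕ} (hp : p.Prime) [Finite P] (hP : IsPGroup p P) (φC : P →* MulAut C)

include hp hP in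
/-- The descent along an invariant subgroup, given the step for a subgroup of operators. -/
theorem corr_descent {K : Type u} [Group K] [Finite K] (φ : P →* MulAut K) (S : Subgroup K)
    (hS : ∀ d, ∀ k ∈ S, φ d k ∈ S) (A : Subgroup P) [Fintype S]
    (Φ : InvIrr (φ.comp A.subtype) → InvIrr (resAct (φ.comp A.subtype) S (fun d k hk => hS d.1 k hk)))
    (hΦ : Function.Bijective Φ)
    (hΦm : ∀ χ ξ, ∃ m : ℕ, classInner (fun c : S => χ.1.1 c) ξ.1.1 = m ∧
        (ξ = Φ χ → (m : ZMod p) = 1 ∨ (m : ZMod p) = -1) ∧ (ξ ≠ Φ χ → p ∣ m))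
    (ι' : C →* S) (hequi' : ∀ x c, ι' (φC x c) = resAct φ S hS x (ι' c))
    (hIH : CorrConcl p (resAct φ S hS) φC ι') :
    CorrConcl p φ φC (S.subtype.comp ι') := by
  classical
  haveI : Fact p.Prime := ⟨hp⟩
  haveI : Fintype K := Fintype.ofFinite _
  haveI : Fintype (IrrCharacter K) := Fintype.ofFinite _
  haveI : Fintype (IrrCharacter S) := Fintype.ofFinite _
  haveI : Fintype (IrrCharacter C) := Fintype.ofFinite _
  letI actK : MulAction P (IrrCharacter K) := irrAct φ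
  letI actS : MulAction P (IrrCharacter S) := irrAct (resAct φ S hS)
  have hsmulK : ∀ (d : P) (χ : IrrCharacter K) k, (d • χ).1 k = χ.1 (φ d⁻¹ k) := fun _ _ _ => rfl
  have hsmulS : ∀ (d : P) (θ : IrrCharacter S) k, (d • θ).1 k = θ.1 (resAct φ S hS d⁻¹ k) :=
    fun _ _ _ => rfl
  have hnat : ∀ (χ : IrrCharacter K) (θ : IrrCharacter S), ∃ m : ℕ,
      classInner (fun c : S => χ.1 c) θ.1 = m := fun χ θ =>
    classInner_isNat (isCharacter_restrict S (isCharacter_of_irr χ.2)) θ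
  choose M hM using hnat
  have hMinv : ∀ (d : P) χ θ, M (d • χ) (d • θ) = M χ θ := by
    intro d χ θ
    have h1 := hM (d • χ) (d • θ)
    have h2 : classInner (fun c : S => (d • χ).1 c) (d • θ).1 =
        classInner (fun c : S => χ.1 c) θ.1 :=
      classInner_comp_aut (resAct φ S hS d⁻¹) (fun c : S => χ.1 c) θ.1
    exact_mod_cast h1.symm.trans (h2.trans (hM χ θ))
  have hXA : ∀ χ : IrrCharacter K, (∀ (d : A) k, χ.1 ((φ.comp A.subtype) d k) = χ.1 k) ↔
      ∀ a ∈ A, a • χ = χ := by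
    intro χ
    constructor
    · intro h a ha
      apply Subtype.ext
      funext k
      exact h ⟨a⁻¹, A.inv_mem ha⟩ k
    · intro h d k
      have h1 := congrFun (congrArg Subtype.val (h (d⁻¹ : A).1 (d⁻¹ : A).2)) k
      have h2 : (((d⁻¹ : A) : P) • χ).1 k = χ.1 (φ (((d⁻¹ : A) : P))⁻¹ k) := rfl
      rw [h2] at h1
      simpa using h1
  have hYA : ∀ χ : IrrCharacter S, (∀ (d : A) k, χ.1
      ((resAct (φ.comp A.subtype) S (fun d k hk => hS d.1 k hk)) d k) = χ.1 k) ↔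
      ∀ a ∈ A, a • χ = χ := by
    intro χ
    constructor
    · intro h a ha
      apply Subtype.ext
      funext k
      exact h ⟨a⁻¹, A.inv_mem ha⟩ k
    · intro h d k
      have h1 := congrFun (congrArg Subtype.val (h (d⁻¹ : A).1 (d⁻¹ : A).2)) k
      have h2 : (((d⁻¹ : A) : P) • χ).1 k = χ.1 (resAct φ S hS (((d⁻¹ : A) : P))⁻¹ k) := rfl
      rw [h2] at h1
      have h3 : resAct φ S hS (((d⁻¹ : A) : P))⁻¹ k =
          (resAct (φ.comp A.subtype) S (fun d k hk => hS d.1 k hk)) d k := by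
        apply Subtype.ext
        show φ (((d⁻¹ : A) : P))⁻¹ k = φ d.1 k
        simp
      rw [h3] at h1
      exact h1
  have hm_eq : ∀ (χ : IrrCharacter K) (θ : IrrCharacter S) (m : ℕ),
      classInner (fun c : S => χ.1 c) θ.1 = m → m = M χ θ := by
    intro χ θ m h
    have := h.symm.trans (hM χ θ)
    exact_mod_cast this
  have h0 : ∀ χ ξ, ξ ≠ Φ χ → p ∣ M χ.1 ξ.1 := by
    intro χ ξ h
    obtain ⟨m, hm, -, hd⟩ := hΦm χ ξ
    rw [← hm_eq _ _ _ hm]
    exact hd h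
  have hsign : ∀ χ, (M χ.1 (Φ χ).1 : ZMod p) = 1 ∨ (M χ.1 (Φ χ).1 : ZMod p) = -1 := by
    intro χ
    obtain ⟨m, hm, hs, -⟩ := hΦm χ (Φ χ)
    rw [← hm_eq _ _ _ hm]
    exact hs rfl
  have h1 : ∀ χ, ¬ p ∣ M χ.1 (Φ χ).1 := by
    intro χ hd
    have h2 := (ZMod.natCast_eq_zero_iff _ _).2 hd
    rcases hsign χ with h3 | h3
    · rw [h2] at h3
      exact zero_ne_one h3
    · rw [h2] at h3
      have : (1 : ZMod p) = 0 := by
        rw [← neg_neg (1 : ZMod p), ← h3, neg_zero]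
      exact one_ne_zero this
  have htrans := fixed_transfer hp hP A hXA hYA Φ hΦ.1 M hMinv h0 h1
  have hP1 : ∀ χ : IrrCharacter K, (∀ d : P, d • χ = χ) ↔ ∀ d k, χ.1 (φ d k) = χ.1 k := by
    intro χ
    constructor
    · intro h d k
      have h1 := congrFun (congrArg Subtype.val (h d⁻¹)) k
      rw [hsmulK] at h1
      simpa using h1
    · intro h d
      apply Subtype.ext
      funext k
      exact h d⁻¹ k
  have hP2 : ∀ χ : IrrCharacter S, (∀ d : P, d • χ = χ) ↔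
      ∀ d k, χ.1 (resAct φ S hS d k) = χ.1 k := by
    intro χ
    constructor
    · intro h d k
      have h1 := congrFun (congrArg Subtype.val (h d⁻¹)) k
      rw [hsmulS] at h1
      simpa using h1
    · intro h d
      apply Subtype.ext
      funext k
      exact h d⁻¹ k
  let toA : InvIrr φ → InvIrr (φ.comp A.subtype) := fun χ => ⟨χ.1, fun d k => χ.2 d.1 k⟩
  let Ψ : InvIrr φ → InvIrr (resAct φ S hS) := fun χ =>
    ⟨(Φ (toA χ)).1, (hP2 _).1 ((htrans (toA χ)).1 ((hP1 _).2 χ.2))⟩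
  have hΨ : Function.Bijective Ψ := by
    constructor
    · intro χ χ' h
      have h1 : (Φ (toA χ)).1 = (Φ (toA χ')).1 :=
        congrArg (fun z : InvIrr (resAct φ S hS) => z.1) h
      have h2 : Φ (toA χ) = Φ (toA χ') := Subtype.ext h1
      have h3 := hΦ.1 h2
      have h4 : χ.1 = χ'.1 := congrArg (fun z : InvIrr (φ.comp A.subtype) => z.1) h3
      exact Subtype.ext h4
    · intro θ
      obtain ⟨χ, hχ⟩ := hΦ.2 ⟨θ.1, fun d k => θ.2 d.1 k⟩
      have h2 : ∀ d : P, d • (Φ χ).1 = (Φ χ).1 := by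
        rw [hχ]
        exact (hP2 _).2 θ.2
      have h3 := (htrans χ).2 h2
      refine ⟨⟨χ.1, (hP1 _).1 h3⟩, ?_⟩
      apply Subtype.ext
      show (Φ (toA ⟨χ.1, (hP1 _).1 h3⟩)).1 = θ.1
      have h4 : toA ⟨χ.1, (hP1 _).1 h3⟩ = χ := Subtype.ext rfl
      rw [h4, hχ]
  obtain ⟨f', hf', hf'm⟩ := hIH
  refine ⟨f' ∘ Ψ, hf'.comp hΨ, fun χ ξ => ?_⟩
  have hχc := isCharacter_of_irr χ.1.2
  obtain ⟨m', hm'1, hm'2⟩ := isCharacter_decomp (isCharacter_restrict S hχc)
  have hm'M : m' = M χ.1 := by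
    funext θ
    exact hm_eq _ _ _ (hm'2 θ)
  subst hm'M
  have hnatN : ∀ θ : IrrCharacter S, ∃ n : ℕ, classInner (fun c => θ.1 (ι' c)) ξ.1.1 = n :=
    fun θ => classInner_isNat (isCharacter_comp ι' (isCharacter_of_irr θ.2)) ξ.1
  choose N hN using hnatN
  have hfunc : (fun c => χ.1.1 ((S.subtype.comp ι') c)) =
      ∑ θ : IrrCharacter S, ((M χ.1 θ : ℕ) : ℂ) • (fun c => θ.1 (ι' c)) := by
    funext c
    have h2 := congrFun hm'1 (ι' c)
    simp only [Finset.sum_apply, Pi.smul_apply, nsmul_eq_mul, smul_eq_mul] at h2 ⊢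
    exact h2
  have htot : classInner (fun c => χ.1.1 ((S.subtype.comp ι') c)) ξ.1.1 =
      ∑ θ : IrrCharacter S, ((M χ.1 θ : ℕ) : ℂ) * (N θ : ℂ) := by
    rw [hfunc, classInner_sum_left]
    refine Finset.sum_congr rfl fun θ _ => ?_
    rw [classInner_smul_left, hN]
  have hχfix : ∀ d : P, d • χ.1 = χ.1 := (hP1 _).2 χ.2
  have hMfix : ∀ (d : P) θ, M χ.1 (d • θ) = M χ.1 θ := by
    intro d θ
    have h2 := hMinv d χ.1 θ
    rwa [hχfix d] at h2
  have hNfix : ∀ (d : P) θ, N (d • θ) = N θ := by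
    intro d θ
    have h2 := hN (d • θ)
    have h3 : classInner (fun c => (d • θ).1 (ι' c)) ξ.1.1 =
        classInner (fun c => θ.1 (ι' c)) ξ.1.1 := by
      have h4 := classInner_comp_aut (φC d⁻¹) (fun c => θ.1 (ι' c)) ξ.1.1
      have h5 : (fun x => ξ.1.1 (φC d⁻¹ x)) = ξ.1.1 := by
        funext x
        exact ξ.2 d⁻¹ x
      have h6 : (fun c => (d • θ).1 (ι' c)) = fun x => θ.1 (ι' (φC d⁻¹ x)) := by
        funext c
        rw [hsmulS, hequi']
      rw [h6, ← h4, h5]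
    exact_mod_cast h2.symm.trans (h3.trans (hN θ))
  have hTint : ∀ θ : IrrCharacter S, IsIntegral ℤ (((M χ.1 θ : ℕ) : ℂ) * (N θ : ℂ)) := fun θ =>
    IsIntegral.mul (isIntegral_natCast _) (isIntegral_natCast _)
  obtain ⟨F, hF, w, hw, he⟩ : ∃ F : Finset (IrrCharacter S), (∀ θ, θ ∈ F ↔ ∀ a : P, a • θ = θ) ∧
      ∃ w : ℂ, IsIntegral ℤ w ∧ ∑ θ : IrrCharacter S, ((M χ.1 θ : ℕ) : ℂ) * (N θ : ℂ) =
        (∑ θ ∈ F, ((M χ.1 θ : ℕ) : ℂ) * (N θ : ℂ)) + p * w :=
    ⟨_, fun θ => by simp [Finset.mem_filter],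
      sum_eq_fixed_add hP (fun θ : IrrCharacter S => ((M χ.1 θ : ℕ) : ℂ) * (N θ : ℂ)) hTint
        (fun a θ => by
          show ((M χ.1 (a • θ) : ℕ) : ℂ) * (N (a • θ) : ℂ) = _
          rw [hMfix, hNfix])⟩
  set θ₀ := (Ψ χ) with hθ₀
  have hθ₀F : θ₀.1 ∈ F := (hF _).2 ((hP2 _).2 θ₀.2)
  have hrest : ∃ s : ℕ, ∑ θ ∈ F.erase θ₀.1, M χ.1 θ * N θ = p * s := by
    apply Finset.dvd_sum
    intro θ hθ
    obtain ⟨hne, hθF⟩ := Finset.mem_erase.1 hθ
    have hθinv := (hF _).1 hθF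
    apply Dvd.dvd.mul_right
    have hA' : ∀ (d : A) k, θ.1
        ((resAct (φ.comp A.subtype) S (fun d k hk => hS d.1 k hk)) d k) = θ.1 k :=
      (hYA θ).2 fun a _ => hθinv a
    refine h0 (toA χ) ⟨θ, hA'⟩ ?_
    intro h2
    apply hne
    exact congrArg Subtype.val h2
  obtain ⟨s, hs⟩ := hrest
  have hsum : ∑ θ ∈ F, ((M χ.1 θ : ℕ) : ℂ) * (N θ : ℂ) =
      ((M χ.1 θ₀.1 : ℕ) : ℂ) * (N θ₀.1 : ℂ) + (p : ℂ) * s := by
    rw [← Finset.add_sum_erase F _ hθ₀F]
    congr 1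
    have : ((∑ θ ∈ F.erase θ₀.1, M χ.1 θ * N θ : ℕ) : ℂ) = ((p * s : ℕ) : ℂ) := by rw [hs]
    push_cast at this
    exact this
  obtain ⟨mt, hmt⟩ := classInner_isNat (isCharacter_comp (S.subtype.comp ι') hχc) ξ.1
  have hmt' : classInner (fun c => χ.1.1 ((S.subtype.comp ι') c)) ξ.1.1 = mt := hmt
  have hint : (((mt : ℤ) - (M χ.1 θ₀.1 : ℤ) * (N θ₀.1 : ℤ) : ℤ) : ℂ) = p * ((s : ℂ) + w) := by
    push_cast
    rw [← hmt', htot, he, hsum]
    ring
  have hdvd := p_dvd_of_eq_mul hp _ _ (IsIntegral.add (isIntegral_natCast _) hw) hint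
  have hz : (mt : ZMod p) = (M χ.1 θ₀.1 : ZMod p) * (N θ₀.1 : ZMod p) := by
    have h2 := (ZMod.intCast_zmod_eq_zero_iff_dvd _ p).2 hdvd
    push_cast at h2
    exact sub_eq_zero.1 h2
  have hs1 : (M χ.1 θ₀.1 : ZMod p) = 1 ∨ (M χ.1 θ₀.1 : ZMod p) = -1 := hsign (toA χ)
  obtain ⟨m2, hm2, hs2, hd2⟩ := hf'm θ₀ ξ
  have hm2N : m2 = N θ₀.1 := by
    have := hm2.symm.trans (hN θ₀.1)
    exact_mod_cast this
  rw [hm2N] at hs2 hd2
  refine ⟨mt, hmt', ?_, ?_⟩
  · intro h2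
    rw [hz]
    rcases hs1 with h3 | h3 <;> rcases hs2 h2 with h4 | h4 <;> rw [h3, h4] <;> simp
  · intro h2
    apply (ZMod.natCast_eq_zero_iff _ _).1
    rw [hz, (ZMod.natCast_eq_zero_iff _ _).2 (hd2 h2), mul_zero]

omit [Fintype C] in
include hp hP in
/-- An operator that acts nontrivially and centrally modulo the normal subgroup. -/
theorem exists_central_op {K : Type u} [Group K] [Finite K] (φ : P →* MulAut K) (Q : Subgroup K)
    [hQ : Q.Normal] (hφ : ∀ d, ∀ q ∈ Q, φ d q ∈ Q) (hne : ¬ ∀ k x, φ x k * k⁻¹ ∈ Q) :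
    ∃ x : P, (∃ k, φ x k * k⁻¹ ∉ Q) ∧ ∀ d k, φ x k * k⁻¹ ∈ Q → φ x (φ d k) * (φ d k)⁻¹ ∈ Q := by
  classical
  haveI : Fact p.Prime := ⟨hp⟩
  have hRp : IsPGroup p (quotAct φ Q hφ).range :=
    hP.of_surjective (quotAct φ Q hφ).rangeRestrict (quotAct φ Q hφ).rangeRestrict_surjective
  obtain ⟨k, x0, hk⟩ : ∃ k x, φ x k * k⁻¹ ∉ Q := by
    push Not at hne
    exact hne
  have hb0 : quotAct φ Q hφ x0 ≠ 1 := by
    intro h
    apply hk
    have h1 : quotAct φ Q hφ x0 (k : K ⧸ Q) = (k : K ⧸ Q) := by rw [h]; rfl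
    rw [quotAct_mk] at h1
    exact mk_eq_iff.1 h1
  haveI : Nontrivial (quotAct φ Q hφ).range :=
    ⟨⟨⟨quotAct φ Q hφ x0, x0, rfl⟩, 1, fun h => hb0 (congrArg Subtype.val h)⟩⟩
  haveI := hRp.center_nontrivial
  obtain ⟨z, hz⟩ := exists_ne (1 : Subgroup.center (quotAct φ Q hφ).range)
  obtain ⟨x, hx⟩ := z.1.2
  have hcomm : ∀ d : P, quotAct φ Q hφ d * quotAct φ Q hφ x = quotAct φ Q hφ x * quotAct φ Q hφ d := by
    intro d
    have h1 := Subgroup.mem_center_iff.1 z.2 ⟨quotAct φ Q hφ d, d, rfl⟩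
    have h2 := congrArg Subtype.val h1
    simp only [Subgroup.coe_mul] at h2
    rw [← hx] at h2
    exact h2
  refine ⟨x, ?_, ?_⟩
  · by_contra hcon
    push Not at hcon
    apply hz
    apply Subtype.ext
    apply Subtype.ext
    rw [← hx]
    ext y
    obtain ⟨k, rfl⟩ := QuotientGroup.mk_surjective y
    rw [quotAct_mk]
    exact mk_eq_iff.2 (hcon k)
  · intro d k hk
    have h1 : ((φ x k : K) : K ⧸ Q) = (k : K ⧸ Q) := mk_eq_iff.2 hk
    apply mk_eq_iff.1
    have h2 := congrArg (fun α : MulAut (K ⧸ Q) => α (k : K ⧸ Q)) (hcomm d)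
    simp only [MulAut.mul_apply, quotAct_mk] at h2
    have h3 : ((φ d (φ x k) : K) : K ⧸ Q) = ((φ d k : K) : K ⧸ Q) := by
      rw [← quotAct_mk hφ, h1, quotAct_mk]
    exact h2.symm.trans h3

include hp hP in
/-- The correspondence by induction. -/
theorem corr_main (n : ℕ) :
    ∀ (K : Type u) [Group K] [Finite K] (φ : P →* MulAut K) (Q : Subgroup K) [Q.Normal]
      (hi : ¬ p ∣ Q.index) (hφ : ∀ d, ∀ q ∈ Q, φ d q ∈ Q) (ι : C →* K) (hι : Function.Injective ι)
      (hequi : ∀ x c, ι (φC x c) = φ x (ι c)) (hr : ∀ k, k ∈ ι.range ↔ ∀ x, φ x k * k⁻¹ ∈ Q),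
      Nat.card K ≤ n → CorrConcl p φ φC ι := by
  induction n with
  | zero =>
    intro K _ _ φ Q _ hi hφ ι hι hequi hr hc
    have := Nat.card_pos (α := K)
    omega
  | succ n IH =>
    intro K _ _ φ Q hQ hi hφ ι hι hequi hr hc
    by_cases hall : ∀ k x, φ x k * k⁻¹ ∈ Q
    · refine corr_base φ φC ι ⟨hι, fun k => ?_⟩ hequi
      obtain ⟨c, hc⟩ := (hr k).2 (hall k)
      exact ⟨c, hc⟩
    obtain ⟨x, ⟨k0, hk0⟩, hcent⟩ := exists_central_op hp hP φ Q hφ hall
    classical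
    haveI : Fintype K := Fintype.ofFinite _
    have hφA : ∀ d : Subgroup.zpowers x, ∀ q ∈ Q, (φ.comp (Subgroup.zpowers x).subtype) d q ∈ Q :=
      fun d q hq => hφ d.1 q hq
    have ha : ∀ d : Subgroup.zpowers x, d ∈ Subgroup.zpowers
        (⟨x, Subgroup.mem_zpowers x⟩ : Subgroup.zpowers x) := by
      rintro ⟨y, n, rfl⟩
      exact ⟨n, Subtype.ext rfl⟩
    have hAp : IsPGroup p (Subgroup.zpowers x) := hP.to_subgroup _
    obtain ⟨S, hSdef⟩ : ∃ S, S = fixQ (φ.comp (Subgroup.zpowers x).subtype) Q hφA := ⟨_, rfl⟩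
    have hSmem : ∀ k, k ∈ S ↔ φ x k * k⁻¹ ∈ Q := by
      intro k
      rw [hSdef]
      constructor
      · intro h
        exact h ⟨x, Subgroup.mem_zpowers x⟩
      · intro h
        exact mem_fixQ_of_gen hφA ha h
    have hS : ∀ d, ∀ k ∈ S, φ d k ∈ S := fun d k hk =>
      (hSmem _).2 (hcent d k ((hSmem _).1 hk))
    haveI : Fintype S := Fintype.ofFinite _
    have hk0S : k0 ∉ S := fun h => hk0 ((hSmem _).1 h)
    have hcard : Nat.card S < Nat.card K := Finite.card_subtype_lt hk0S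
    have hιS : ∀ c, ι c ∈ S := fun c => (hSmem _).2 (((hr _).1 ⟨c, rfl⟩) x)
    have hstep : ∃ Φ : InvIrr (φ.comp (Subgroup.zpowers x).subtype) →
        InvIrr (resAct (φ.comp (Subgroup.zpowers x).subtype) S (fun d k hk => hS d.1 k hk)),
        Function.Bijective Φ ∧
        ∀ χ ξ, ∃ m : ℕ, classInner (fun c : S => χ.1.1 c) ξ.1.1 = m ∧
          (ξ = Φ χ → (m : ZMod p) = 1 ∨ (m : ZMod p) = -1) ∧ (ξ ≠ Φ χ → p ∣ m) := by
      subst hSdef
      exact step_fixQ _ p hp hAp hi hφA _ ha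
    obtain ⟨Φ, hΦ, hΦm⟩ := hstep
    have hιe : ι = S.subtype.comp (ι.codRestrict S hιS) := by
      ext c
      rfl
    have hequi' : ∀ x c, (ι.codRestrict S hιS) (φC x c) = resAct φ S hS x ((ι.codRestrict S hιS) c) := by
      intro x c
      apply Subtype.ext
      exact hequi x c
    have hIH : CorrConcl p (resAct φ S hS) φC (ι.codRestrict S hιS) := by
      refine IH S (resAct φ S hS) (Q.subgroupOf S) ?_ ?_ _ ?_ hequi' ?_ (by omega)
      · intro h
        exact hi (h.trans (Subgroup.relIndex_dvd_index_of_normal Q S))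
      · intro d q hq
        exact Subgroup.mem_subgroupOf.2 (hφ d _ (Subgroup.mem_subgroupOf.1 hq))
      · intro c c' h
        apply hι
        exact congrArg Subtype.val h
      · intro k
        constructor
        · rintro ⟨c, rfl⟩ d
          exact Subgroup.mem_subgroupOf.2 ((hr _).1 ⟨c, rfl⟩ d)
        · intro h
          obtain ⟨c, hc⟩ := (hr k).2 fun d => Subgroup.mem_subgroupOf.1 (h d)
          exact ⟨c, Subtype.ext hc⟩
    rw [hιe]
    exact corr_descent hp hP φC φ S hS _ Φ hΦ hΦm _ hequi' hIH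

include hp hP in
/-- The degrees are congruent up to sign, from the multiplicities. -/
theorem corr_degree {K : Type u} [Group K] [Finite K] (φ : P →* MulAut K) (ι : C →* K)
    (hequi : ∀ x c, ι (φC x c) = φ x (ι c)) (χ : InvIrr φ) (η : InvIrr φC)
    (hm : ∀ ξ : InvIrr φC, ∃ m : ℕ, classInner (fun c => χ.1.1 (ι c)) ξ.1.1 = m ∧
      (ξ = η → (m : ZMod p) = 1 ∨ (m : ZMod p) = -1) ∧ (ξ ≠ η → p ∣ m)) :
    (charDegree η.1.1 : ZMod p) = charDegree χ.1.1 ∨
      (charDegree η.1.1 : ZMod p) = -(charDegree χ.1.1 : ZMod p) := by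
  classical
  haveI : Fact p.Prime := ⟨hp⟩
  haveI : Fintype K := Fintype.ofFinite _
  haveI : Fintype (IrrCharacter C) := Fintype.ofFinite _
  letI actC : MulAction P (IrrCharacter C) := irrAct φC
  have hsmul : ∀ (d : P) (θ : IrrCharacter C) k, (d • θ).1 k = θ.1 (φC d⁻¹ k) := fun _ _ _ => rfl
  have hχc : IsCharacter C (fun c => χ.1.1 (ι c)) :=
    isCharacter_comp ι (isCharacter_of_irr χ.1.2)
  obtain ⟨m, hm1, hm2⟩ := isCharacter_decomp hχc
  have hdeg : ((charDegree χ.1.1 : ℕ) : ℂ) =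
      ∑ θ : IrrCharacter C, ((m θ : ℕ) : ℂ) * ((charDegree θ.1 : ℕ) : ℂ) := by
    have h1 := congrFun hm1 1
    simp only [Finset.sum_apply, Pi.smul_apply, map_one] at h1
    rw [← one_eq_charDegree (isCharacter_of_irr χ.1.2), h1]
    refine Finset.sum_congr rfl fun θ _ => ?_
    rw [nsmul_eq_mul, one_eq_charDegree (isCharacter_of_irr θ.2)]
  have hmfix : ∀ (d : P) θ, m (d • θ) = m θ := by
    intro d θ
    have h1 : classInner (fun c => χ.1.1 (ι c)) (d • θ).1 = classInner (fun c => χ.1.1 (ι c)) θ.1 := by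
      have h2 := classInner_comp_aut (φC d⁻¹) (fun c => χ.1.1 (ι c)) θ.1
      have h3 : (fun x => χ.1.1 (ι (φC d⁻¹ x))) = fun c => χ.1.1 (ι c) := by
        funext x
        rw [hequi]
        exact χ.2 d⁻¹ _
      rw [h3] at h2
      exact h2
    rw [hm2, hm2] at h1
    exact_mod_cast h1
  have hdfix : ∀ (d : P) (θ : IrrCharacter C), charDegree (d • θ).1 = charDegree θ.1 := by
    intro d θ
    apply charDegree_congr
    rw [hsmul, map_one]
  obtain ⟨F, hF, w, hw, he⟩ : ∃ F : Finset (IrrCharacter C), (∀ θ, θ ∈ F ↔ ∀ a : P, a • θ = θ) ∧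
      ∃ w : ℂ, IsIntegral ℤ w ∧ ∑ θ : IrrCharacter C, ((m θ : ℕ) : ℂ) * ((charDegree θ.1 : ℕ) : ℂ) =
        (∑ θ ∈ F, ((m θ : ℕ) : ℂ) * ((charDegree θ.1 : ℕ) : ℂ)) + p * w :=
    ⟨_, fun θ => by simp [Finset.mem_filter],
      sum_eq_fixed_add hP (fun θ : IrrCharacter C => ((m θ : ℕ) : ℂ) * ((charDegree θ.1 : ℕ) : ℂ))
        (fun θ => IsIntegral.mul (isIntegral_natCast _) (isIntegral_natCast _))
        (fun a θ => by
          show ((m (a • θ) : ℕ) : ℂ) * ((charDegree (a • θ).1 : ℕ) : ℂ) = _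
          rw [hmfix, hdfix])⟩
  have hP2 : ∀ θ : IrrCharacter C, (∀ d : P, d • θ = θ) ↔ ∀ d k, θ.1 (φC d k) = θ.1 k := by
    intro θ
    constructor
    · intro h d k
      have h1 := congrFun (congrArg Subtype.val (h d⁻¹)) k
      rw [hsmul] at h1
      simpa using h1
    · intro h d
      apply Subtype.ext
      funext k
      exact h d⁻¹ k
  have hηF : η.1 ∈ F := (hF _).2 ((hP2 _).2 η.2)
  have hrest : ∃ s : ℕ, ∑ θ ∈ F.erase η.1, m θ * charDegree θ.1 = p * s := by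
    apply Finset.dvd_sum
    intro θ hθ
    obtain ⟨hne, hθF⟩ := Finset.mem_erase.1 hθ
    apply Dvd.dvd.mul_right
    have hθinv := (hP2 _).1 ((hF _).1 hθF)
    obtain ⟨m', hm', -, hd⟩ := hm ⟨θ, hθinv⟩
    have h1 : m' = m θ := by
      have := hm'.symm.trans (hm2 θ)
      exact_mod_cast this
    rw [← h1]
    exact hd fun h => hne (congrArg Subtype.val h)
  obtain ⟨s, hs⟩ := hrest
  have hsum : ∑ θ ∈ F, ((m θ : ℕ) : ℂ) * ((charDegree θ.1 : ℕ) : ℂ) =
      ((m η.1 : ℕ) : ℂ) * ((charDegree η.1.1 : ℕ) : ℂ) + (p : ℂ) * s := by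
    rw [← Finset.add_sum_erase F _ hηF]
    congr 1
    have : ((∑ θ ∈ F.erase η.1, m θ * charDegree θ.1 : ℕ) : ℂ) = ((p * s : ℕ) : ℂ) := by rw [hs]
    push_cast at this
    exact this
  have hint : (((charDegree χ.1.1 : ℤ) - (m η.1 : ℤ) * (charDegree η.1.1 : ℤ) : ℤ) : ℂ) =
      p * ((s : ℂ) + w) := by
    push_cast
    rw [hdeg, he, hsum]
    ring
  have hdvd := p_dvd_of_eq_mul hp _ _ (IsIntegral.add (isIntegral_natCast _) hw) hint
  have hz : (charDegree χ.1.1 : ZMod p) = (m η.1 : ZMod p) * (charDegree η.1.1 : ZMod p) := by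
    have h2 := (ZMod.intCast_zmod_eq_zero_iff_dvd _ p).2 hdvd
    push_cast at h2
    exact sub_eq_zero.1 h2
  obtain ⟨m', hm', hsg, -⟩ := hm η
  have h1 : m' = m η.1 := by
    have := hm'.symm.trans (hm2 η.1)
    exact_mod_cast this
  rw [h1] at hsg
  rcases hsg rfl with h3 | h3
  · left
    rw [hz, h3, one_mul]
  · right
    rw [hz, h3]
    ring

end Corr

end Cfsg.Agent.H23
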