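import Mathlib
import Cfsg.Prelude.Def_Solvable
import Cfsg.Agent.Lib.H01.Fitting
import Cfsg.Agent.Lib.H08.PCoreL
import Cfsg.Agent.Lib.H06.Layer2

set_option autoImplicit false
set_option linter.unusedSectionVars false

namespace Cfsg.Agent.H23.TISyl

open Cfsg
open scoped Pointwise

variable {H : Type*} [Group H] [Finite H] {p : ℕ} [hp : Fact p.Prime]

theorem mem_conj_smul (h x : H) (K : Subgroup H) : x ∈ (MulAut.conj h • K) ↔ h⁻¹ * x * h ∈ K := by
  rw [Subgroup.mem_pointwise_smul_iff_inv_smul_mem]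
  simp [MulAut.smul_def]

omit [Finite H] [hp : Fact p.Prime] in
theorem map_char_normal {N : Subgroup H} (hN : N.Normal) (C : Subgroup N) (hchar : C.Characteristic) :
    (C.map N.subtype).Normal := by
  constructor
  rintro x ⟨y, hy, rfl⟩ g
  let φ : MulAut N := MulAut.conjNormal g
  have h1 : φ y ∈ C := by
    have h2 := Subgroup.mem_map_of_mem φ.toMonoidHom hy
    rw [Subgroup.characteristic_iff_map_eq.1 hchar φ] at h2
    exact h2
  exact ⟨φ y, h1, by simp [φ, MulAut.conjNormal_apply]⟩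

theorem pCore_char {A : Type*} [Group A] [Finite A] : (pCore p A).Characteristic := by
  rw [Subgroup.characteristic_iff_map_eq]
  intro e
  apply le_antisymm
  · refine H01.le_pCore ?_ ((H01.pCore_isPGroup p).map e.toMonoidHom)
    exact (H01.pCore_normal p).map e.toMonoidHom e.surjective
  · have h1 : (pCore p A).map e.symm.toMonoidHom ≤ pCore p A := by
      refine H01.le_pCore ?_ ((H01.pCore_isPGroup p).map e.symm.toMonoidHom)
      exact (H01.pCore_normal p).map e.symm.toMonoidHom e.symm.surjective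
    intro b hb
    refine ⟨e.symm b, h1 ⟨b, hb, rfl⟩, ?_⟩
    exact e.apply_symm_apply b

/-- A `p`-subgroup of `N ⊲ H` normalized by `N` lies in `O_p(H)`. -/
theorem nn_pgroup (hOp : pCore p H = ⊥) {N T : Subgroup H} (hN : N.Normal) (hTN : T ≤ N)
    (hTn : ∀ n ∈ N, ∀ t ∈ T, n * t * n⁻¹ ∈ T) (hT : IsPGroup p T) : T = ⊥ := by
  have hle : (pCore p N).map N.subtype ≤ pCore p H :=
    H01.le_pCore (map_char_normal hN _ pCore_char) ((H01.pCore_isPGroup p).map N.subtype)
  rw [hOp, le_bot_iff] at hle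
  have hU : (T.subgroupOf N).Normal := by
    constructor
    intro x hx g
    rw [Subgroup.mem_subgroupOf] at hx ⊢
    exact hTn g g.2 x hx
  have hUp : IsPGroup p (T.subgroupOf N) := hT.comap_subtype
  have h2 := H01.le_pCore hU hUp
  rw [eq_bot_iff]
  intro x hx
  have h3 : (⟨x, hTN hx⟩ : N) ∈ T.subgroupOf N := by
    rw [Subgroup.mem_subgroupOf]; exact hx
  have h4 : x ∈ (pCore p N).map N.subtype := ⟨⟨x, hTN hx⟩, h2 h3, rfl⟩
  rw [hle] at h4
  exact h4

/-- A `p'`-subgroup of `N ⊲ H` normalized by `N` lies in `O_{p'}(H)`. -/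
theorem nn_pprime (hOp' : pPrimeCore p H = ⊥) {N T : Subgroup H} (hN : N.Normal) (hTN : T ≤ N)
    (hTn : ∀ n ∈ N, ∀ t ∈ T, n * t * n⁻¹ ∈ T) (hT : (Nat.card T).Coprime p) : T = ⊥ := by
  have hle : (pPrimeCore p N).map N.subtype ≤ pPrimeCore p H := by
    refine H08.le_pPrimeCore (map_char_normal hN _ (H06.pPrimeCore_characteristic _ p)) ?_
    have : Nat.card ((pPrimeCore p N).map N.subtype) = Nat.card (pPrimeCore p N) :=
      Nat.card_congr (Subgroup.equivMapOfInjective _ _ N.subtype_injective).toEquiv.symm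
    rw [this]
    exact H06.coprime_card_pPrimeCore p
  rw [hOp', le_bot_iff] at hle
  have hU : (T.subgroupOf N).Normal := by
    constructor
    intro x hx g
    rw [Subgroup.mem_subgroupOf] at hx ⊢
    exact hTn g g.2 x hx
  have hUp : (Nat.card (T.subgroupOf N)).Coprime p := by
    have : Nat.card (T.subgroupOf N) = Nat.card T := by
      exact Nat.card_congr (Subgroup.subgroupOfEquivOfLe hTN).toEquiv
    rw [this]; exact hT
  have h2 := H08.le_pPrimeCore hU hUp
  rw [eq_bot_iff]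
  intro x hx
  have h3 : (⟨x, hTN hx⟩ : N) ∈ T.subgroupOf N := by
    rw [Subgroup.mem_subgroupOf]; exact hx
  have h4 : x ∈ (pPrimeCore p N).map N.subtype := ⟨⟨x, hTN hx⟩, h2 h3, rfl⟩
  rw [hle] at h4
  exact h4

/-- A normalizing `p`-element lies in the Sylow subgroup. -/
theorem mem_of_pelem (S : Sylow p H) {z : H} (hz : z ∈ Subgroup.normalizer ((S : Subgroup H) : Set H))
    {n : ℕ} (hzp : z ^ (p ^ n) = 1) : z ∈ (S : Subgroup H) := by
  have hZ : IsPGroup p (Subgroup.zpowers z) := by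
    rintro ⟨y, m, rfl⟩
    refine ⟨n, ?_⟩
    ext
    simp only [Subgroup.coe_pow, OneMemClass.coe_one]
    show (z ^ m) ^ p ^ n = 1
    rw [← zpow_natCast, ← zpow_mul, mul_comm, zpow_mul, zpow_natCast, hzp, one_zpow]
  have h1 := hZ.inf_normalizer_sylow S
  have h2 : z ∈ Subgroup.zpowers z ⊓ Subgroup.normalizer ((S : Subgroup H) : Set H) :=
    ⟨Subgroup.mem_zpowers z, hz⟩
  exact (h1.le h2).2

theorem pow_of_mem_sylow (S : Sylow p H) {z : H} (hz : z ∈ (S : Subgroup H)) :
    ∃ n : ℕ, z ^ (p ^ n) = 1 := by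
  obtain ⟨k, hk⟩ := S.2 ⟨z, hz⟩
  refine ⟨k, ?_⟩
  have := congrArg Subtype.val hk
  simpa using this

/-- Trivial-intersection property in element form, for every Sylow subgroup. -/
theorem ti_all (P : Sylow p H)
    (hTI : ∀ g : H, g ∉ Subgroup.normalizer ((P : Subgroup H) : Set H) →
      (P : Subgroup H) ⊓ (MulAut.conj g • (P : Subgroup H)) = ⊥)
    (S : Sylow p H) (g x : H) (hx : x ∈ (S : Subgroup H)) (hx1 : x ≠ 1)
    (hg : g * x * g⁻¹ ∈ (S : Subgroup H)) :
    g ∈ Subgroup.normalizer ((S : Subgroup H) : Set H) := by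
  obtain ⟨h, rfl⟩ := MulAction.exists_smul_eq H P S
  have hcoe : ∀ y, y ∈ ((h • P : Sylow p H) : Subgroup H) ↔ h⁻¹ * y * h ∈ (P : Subgroup H) := by
    intro y
    rw [Sylow.coe_subgroup_smul, mem_conj_smul]
  rw [hcoe] at hx hg
  have hmem : (h⁻¹ * g * h) ∈ Subgroup.normalizer ((P : Subgroup H) : Set H) := by
    by_contra hcon
    have h1 := hTI _ hcon
    have h2 : (h⁻¹ * g * h) * (h⁻¹ * x * h) * (h⁻¹ * g * h)⁻¹ ∈
        (P : Subgroup H) ⊓ (MulAut.conj (h⁻¹ * g * h) • (P : Subgroup H)) := by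
      refine ⟨?_, ?_⟩
      · have : (h⁻¹ * g * h) * (h⁻¹ * x * h) * (h⁻¹ * g * h)⁻¹ = h⁻¹ * (g * x * g⁻¹) * h := by group
        rw [this]; exact hg
      · show _ ∈ (MulAut.conj (h⁻¹ * g * h) • (P : Subgroup H))
        rw [mem_conj_smul]
        have : (h⁻¹ * g * h)⁻¹ * ((h⁻¹ * g * h) * (h⁻¹ * x * h) * (h⁻¹ * g * h)⁻¹) * (h⁻¹ * g * h)
            = h⁻¹ * x * h := by group
        rw [this]; exact hx
    rw [h1, Subgroup.mem_bot] at h2
    apply hx1
    have h3 : h⁻¹ * x * h = 1 := by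
      have h4 : (h⁻¹ * x * h) = (h⁻¹ * g * h)⁻¹ * ((h⁻¹ * g * h) * (h⁻¹ * x * h) * (h⁻¹ * g * h)⁻¹) * (h⁻¹ * g * h) := by group
      rw [h4, h2]; group
    have h5 : x = h * (h⁻¹ * x * h) * h⁻¹ := by group
    rw [h5, h3]; group
  rw [Subgroup.mem_normalizer_iff] at hmem ⊢
  intro y
  show y ∈ ((h • P : Sylow p H) : Subgroup H) ↔ g * y * g⁻¹ ∈ ((h • P : Sylow p H) : Subgroup H)
  rw [hcoe, hcoe, hmem (h⁻¹ * y * h)]
  have : h⁻¹ * g * h * (h⁻¹ * y * h) * (h⁻¹ * g * h)⁻¹ = h⁻¹ * (g * y * g⁻¹) * h := by group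
  rw [this]

/-- Nontrivial normal subgroups meet every Sylow subgroup. -/
theorem lemB (hOp' : pPrimeCore p H = ⊥) {K : Subgroup H} (hK : K.Normal) (hK1 : K ≠ ⊥)
    (S : Sylow p H) : ∃ x ∈ K, x ∈ (S : Subgroup H) ∧ x ≠ 1 := by
  have hdvd : p ∣ Nat.card K := by
    by_contra hnd
    have hc : (Nat.card K).Coprime p := ((Nat.Prime.coprime_iff_not_dvd hp.out).2 hnd).symm
    exact hK1 (le_bot_iff.1 (hOp' ▸ H08.le_pPrimeCore hK hc))
  obtain ⟨x, hx⟩ := exists_prime_orderOf_dvd_card' p hdvd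
  have hxH : orderOf (x : H) = p := by rw [Subgroup.orderOf_coe]; exact hx
  have hZ : IsPGroup p (Subgroup.zpowers (x : H)) := by
    apply IsPGroup.of_card (n := 1)
    rw [Nat.card_zpowers, hxH, pow_one]
  obtain ⟨S₀, hS₀⟩ := hZ.exists_le_sylow
  obtain ⟨h, rfl⟩ := MulAction.exists_smul_eq H S S₀
  have hx0 : (x : H) ∈ ((h • S : Sylow p H) : Subgroup H) := hS₀ (Subgroup.mem_zpowers _)
  rw [Sylow.coe_subgroup_smul, mem_conj_smul] at hx0
  refine ⟨h⁻¹ * x * h, ?_, hx0, ?_⟩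
  · have := hK.conj_mem x x.2 h⁻¹
    simpa using this
  · intro h1
    have h2 : (x : H) = 1 := by
      have h5 : (x : H) = h * (h⁻¹ * x * h) * h⁻¹ := by group
      rw [h5, h1]; group
    have : orderOf (x : H) = 1 := by rw [h2]; exact orderOf_one
    rw [hxH] at this
    exact hp.out.one_lt.ne' this

/-- A normal subgroup normalizing a Sylow subgroup is trivial. -/
theorem lemD (hOp : pCore p H = ⊥) (hOp' : pPrimeCore p H = ⊥) {K : Subgroup H} (hK : K.Normal)
    (S : Sylow p H) (hle : K ≤ Subgroup.normalizer ((S : Subgroup H) : Set H)) : K = ⊥ := by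
  by_contra hK1
  obtain ⟨x, hxK, hxS, hx1⟩ := lemB hOp' hK hK1 S
  have hL : ((S : Subgroup H) ⊓ K).Normal := by
    constructor
    rintro z ⟨hzS, hzK⟩ g
    have h1 := hK.conj_mem z hzK g
    refine ⟨?_, h1⟩
    obtain ⟨n, hn⟩ := pow_of_mem_sylow S hzS
    refine mem_of_pelem S (hle h1) (n := n) ?_
    rw [conj_pow, hn]; group
  have h2 : (S : Subgroup H) ⊓ K ≤ pCore p H := H01.le_pCore hL (S.2.to_inf_left)
  rw [hOp, le_bot_iff] at h2
  have : x ∈ (S : Subgroup H) ⊓ K := ⟨hxS, hxK⟩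
  rw [h2] at this
  exact hx1 this

theorem lemE (P : Sylow p H)
    (hTI : ∀ g : H, g ∉ Subgroup.normalizer ((P : Subgroup H) : Set H) →
      (P : Subgroup H) ⊓ (MulAut.conj g • (P : Subgroup H)) = ⊥)
    (hOp : pCore p H = ⊥) (hOp' : pPrimeCore p H = ⊥) {K₁ K₂ : Subgroup H} (hK₁ : K₁.Normal)
    (hK₂ : K₂.Normal) (h1 : K₁ ≠ ⊥) (hc : ∀ a ∈ K₁, ∀ b ∈ K₂, a * b = b * a) : K₂ = ⊥ := by
  obtain ⟨x, hx, hxS, hx1⟩ := lemB hOp' hK₁ h1 P
  refine lemD hOp hOp' hK₂ P fun b hb => ti_all P hTI P b x hxS hx1 ?_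
  have : b * x * b⁻¹ = x := by rw [← hc x hx b hb]; group
  rw [this]; exact hxS

theorem main (P : Sylow p H) (hOp : pCore p H = ⊥) (hOp' : pPrimeCore p H = ⊥)
    (hP1 : (P : Subgroup H) ≠ ⊥)
    (hTI : ∀ g : H, g ∉ Subgroup.normalizer ((P : Subgroup H) : Set H) →
      (P : Subgroup H) ⊓ (MulAut.conj g • (P : Subgroup H)) = ⊥) :
    ∃ N : Subgroup H, N.Normal ∧ N ≠ ⊥ ∧ (∀ K : Subgroup H, K.Normal → K ≠ ⊥ → N ≤ K) ∧
      IsSimpleGroup N ∧ ¬ IsMulCommutative N ∧ Subgroup.centralizer (N : Set H) = ⊥ ∧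
      ∀ Q : Sylow p N, (Q : Subgroup N) ≠ ⊥ ∧
        ∀ n : N, n ∉ Subgroup.normalizer ((Q : Subgroup N) : Set N) →
          (Q : Subgroup N) ⊓ (MulAut.conj n • (Q : Subgroup N)) = ⊥ := by
  have htop : (⊤ : Subgroup H) ≠ ⊥ := by
    intro h
    exact hP1 (le_bot_iff.1 (h ▸ le_top))
  obtain ⟨N, hNmin⟩ := (Set.toFinite {K : Subgroup H | K.Normal ∧ K ≠ ⊥}).exists_minimal
    ⟨⊤, inferInstance, htop⟩
  have hN : N.Normal := hNmin.1.1
  have hN1 : N ≠ ⊥ := hNmin.1.2
  have hmin : ∀ K : Subgroup H, K.Normal → K ≠ ⊥ → N ≤ K := by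
    intro K hK hK1
    have h1 : N ⊓ K ≠ ⊥ := by
      intro h
      have hdisj : Disjoint K N := by
        rw [disjoint_iff, inf_comm]; exact h
      refine hN1 (lemE P hTI hOp hOp' hK hN hK1 fun a ha b hb => ?_)
      exact Subgroup.commute_of_normal_of_disjoint K N hK hN hdisj a b ha hb
    have h2 : (N ⊓ K).Normal := Subgroup.normal_inf_normal N K
    have h3 := hNmin.2 ⟨h2, h1⟩ inf_le_left
    exact h3.trans inf_le_right
  have hcent : Subgroup.centralizer (N : Set H) = ⊥ := by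
    refine lemE P hTI hOp hOp' hN Subgroup.normal_centralizer hN1 fun a ha b hb => ?_
    exact (Subgroup.mem_centralizer_iff.1 hb a ha)
  -- every `N`-invariant nontrivial subgroup is `N`
  have hNN : ∀ T₀ : Subgroup H, T₀ ≤ N → (∀ n ∈ N, ∀ t ∈ T₀, n * t * n⁻¹ ∈ T₀) → T₀ ≠ ⊥ → N ≤ T₀ := by
    intro T₀ h₀N h₀n h₀1
    obtain ⟨T, hTT₀, hTmin⟩ := (Set.toFinite {T : Subgroup H | T ≤ N ∧
        (∀ n ∈ N, ∀ t ∈ T, n * t * n⁻¹ ∈ T) ∧ T ≠ ⊥}).exists_le_minimal
      (a := T₀) ⟨h₀N, h₀n, h₀1⟩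
    obtain ⟨hTN, hTn, hT1⟩ := hTmin.1
    have hTnorm : T.Normal := by
      constructor
      intro t ht g
      by_contra hcon
      -- the conjugate subgroup
      let T' : Subgroup H := MulAut.conj g⁻¹ • T
      have hT'mem : ∀ y, y ∈ T' ↔ g * y * g⁻¹ ∈ T := by
        intro y
        show y ∈ MulAut.conj g⁻¹ • T ↔ _
        rw [mem_conj_smul, inv_inv]
      have hT'N : T' ≤ N := by
        intro y hy
        have h1 := hTN ((hT'mem y).1 hy)
        have h2 := hN.conj_mem _ h1 g⁻¹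
        have h3 : g⁻¹ * (g * y * g⁻¹) * g⁻¹⁻¹ = y := by group
        rwa [h3] at h2
      have hT'n : ∀ n ∈ N, ∀ t ∈ T', n * t * n⁻¹ ∈ T' := by
        intro n hn y hy
        rw [hT'mem] at hy ⊢
        have h2 := hTn _ (hN.conj_mem n hn g) _ hy
        have h3 : g * n * g⁻¹ * (g * y * g⁻¹) * (g * n * g⁻¹)⁻¹ = g * (n * y * n⁻¹) * g⁻¹ := by group
        rwa [h3] at h2
      have hT'1 : T' ≠ ⊥ := by
        intro h
        apply hT1
        rw [eq_bot_iff]
        intro y hy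
        have h1 : g⁻¹ * y * g ∈ T' := by
          rw [hT'mem]
          have : g * (g⁻¹ * y * g) * g⁻¹ = y := by group
          rw [this]; exact hy
        rw [h] at h1
        have h2 : g⁻¹ * y * g = 1 := h1
        have h5 : y = g * (g⁻¹ * y * g) * g⁻¹ := by group
        rw [Subgroup.mem_bot, h5, h2]; group
      have hnotle : ¬ T ≤ T' := fun hle => hcon ((hT'mem t).1 (hle ht))
      have hinf : T ⊓ T' = ⊥ := by
        by_contra hne
        have := hTmin.2 (y := T ⊓ T') ⟨inf_le_left.trans hTN,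
          fun n hn y hy => ⟨hTn n hn y hy.1, hT'n n hn y hy.2⟩, hne⟩ inf_le_left
        exact hnotle (this.trans inf_le_right)
      have hcomm : ∀ a ∈ T, ∀ b ∈ T', a * b = b * a := by
        intro a ha b hb
        have h1 : a * b * a⁻¹ * b⁻¹ ∈ T ⊓ T' := by
          refine ⟨?_, ?_⟩
          · have := hTn b (hT'N hb) a⁻¹ (T.inv_mem ha)
            have h2 : a * b * a⁻¹ * b⁻¹ = a * (b * a⁻¹ * b⁻¹) := by group
            rw [h2]; exact T.mul_mem ha this
          · have := hT'n a (hTN ha) b hb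
            exact T'.mul_mem this (T'.inv_mem hb)
        rw [hinf, Subgroup.mem_bot] at h1
        have h2 : a * b = (a * b * a⁻¹ * b⁻¹) * (b * a) := by group
        rw [h2, h1, one_mul]
      -- `p` divides `|T'|`
      have hdvd : p ∣ Nat.card T' := by
        by_contra hnd
        have hc : (Nat.card T').Coprime p := ((Nat.Prime.coprime_iff_not_dvd hp.out).2 hnd).symm
        exact hT'1 (nn_pprime hOp' hN hT'N hT'n hc)
      obtain ⟨y, hy⟩ := exists_prime_orderOf_dvd_card' p hdvd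
      have hyH : orderOf (y : H) = p := by rw [Subgroup.orderOf_coe]; exact hy
      have hZ : IsPGroup p (Subgroup.zpowers (y : H)) := by
        apply IsPGroup.of_card (n := 1)
        rw [Nat.card_zpowers, hyH, pow_one]
      obtain ⟨S, hS⟩ := hZ.exists_le_sylow
      have hyS : (y : H) ∈ (S : Subgroup H) := hS (Subgroup.mem_zpowers _)
      have hy1 : (y : H) ≠ 1 := by
        intro h
        have : orderOf (y : H) = 1 := by rw [h]; exact orderOf_one
        rw [hyH] at this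
        exact hp.out.one_lt.ne' this
      have hTS : T ≤ Subgroup.normalizer ((S : Subgroup H) : Set H) := by
        intro a ha
        refine ti_all P hTI S a y hyS hy1 ?_
        have : a * y * a⁻¹ = y := by rw [hcomm a ha y y.2]; group
        rw [this]; exact hyS
      -- `S ∩ T` is `N`-invariant
      have hLn : ∀ n ∈ N, ∀ t ∈ (S : Subgroup H) ⊓ T, n * t * n⁻¹ ∈ (S : Subgroup H) ⊓ T := by
        rintro n hn z ⟨hzS, hzT⟩
        have h1 := hTn n hn z hzT
        refine ⟨?_, h1⟩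
        obtain ⟨k, hk⟩ := pow_of_mem_sylow S hzS
        refine mem_of_pelem S (hTS h1) (n := k) ?_
        rw [conj_pow, hk]; group
      by_cases hL : (S : Subgroup H) ⊓ T = ⊥
      · -- `T` is a `p'`-group
        have hc : (Nat.card T).Coprime p := by
          rw [Nat.coprime_comm, Nat.Prime.coprime_iff_not_dvd hp.out]
          intro hd
          obtain ⟨z, hz⟩ := exists_prime_orderOf_dvd_card' p hd
          have hzH : orderOf (z : H) = p := by rw [Subgroup.orderOf_coe]; exact hz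
          have h1 : (z : H) ∈ (S : Subgroup H) := by
            refine mem_of_pelem S (hTS z.2) (n := 1) ?_
            rw [pow_one, ← hzH]; exact pow_orderOf_eq_one _
          have h2 : (z : H) ∈ (S : Subgroup H) ⊓ T := ⟨h1, z.2⟩
          rw [hL, Subgroup.mem_bot] at h2
          have : orderOf (z : H) = 1 := by rw [h2]; exact orderOf_one
          rw [hzH] at this
          exact hp.out.one_lt.ne' this
        exact hT1 (nn_pprime hOp' hN hTN hTn hc)
      · -- `T` is a `p`-group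
        have h1 := hTmin.2 (y := (S : Subgroup H) ⊓ T) ⟨inf_le_right.trans hTN, hLn, hL⟩ inf_le_right
        have hpT : IsPGroup p T := S.2.to_le (h1.trans inf_le_left)
        exact hT1 (nn_pgroup hOp hN hTN hTn hpT)
    exact (hmin T hTnorm hT1).trans hTT₀
  have hpN : p ∣ Nat.card N := by
    by_contra hnd
    have hc : (Nat.card N).Coprime p := ((Nat.Prime.coprime_iff_not_dvd hp.out).2 hnd).symm
    exact hN1 (le_bot_iff.1 (hOp' ▸ H08.le_pPrimeCore hN hc))
  refine ⟨N, hN, hN1, hmin, ?_, ?_, hcent, ?_⟩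
  · -- simple
    have : Nontrivial N := by
      rw [Subgroup.nontrivial_iff_ne_bot]; exact hN1
    refine ⟨fun M hM => ?_⟩
    by_cases hM1 : M = ⊥
    · exact Or.inl hM1
    right
    have h1 : M.map N.subtype ≠ ⊥ := by
      intro h
      apply hM1
      rwa [Subgroup.map_eq_bot_iff_of_injective _ N.subtype_injective] at h
    have h2 := hNN (M.map N.subtype) (Subgroup.map_subtype_le M) ?_ h1
    · rw [eq_top_iff]
      intro x _
      obtain ⟨y, hy, hyx⟩ := h2 x.2
      have : y = x := Subtype.ext hyx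
      rwa [← this]
    · rintro n hn t ⟨y, hy, rfl⟩
      exact ⟨⟨n, hn⟩ * y * ⟨n, hn⟩⁻¹, hM.conj_mem y hy ⟨n, hn⟩, by simp⟩
  · -- non-abelian
    intro hcomm
    apply hN1
    rw [eq_bot_iff, ← hcent]
    intro x hx
    rw [Subgroup.mem_centralizer_iff]
    intro y hy
    have := hcomm.is_comm.comm ⟨y, hy⟩ ⟨x, hx⟩
    exact congrArg Subtype.val this
  · intro Q
    refine ⟨Q.ne_bot_of_dvd_card hpN, ?_⟩
    intro n hn
    by_contra hne
    apply hn
    -- a nontrivial element of the intersection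
    obtain ⟨z, hz, hz1⟩ := (Subgroup.bot_or_exists_ne_one _).resolve_left hne
    obtain ⟨hzQ, hzn⟩ := (Subgroup.mem_inf.1 hz)
    rw [mem_conj_smul] at hzn
    have hQ' : IsPGroup p ((Q : Subgroup N).map N.subtype) := Q.2.map _
    obtain ⟨S, hS⟩ := hQ'.exists_le_sylow
    have hQS : ∀ q : N, q ∈ (Q : Subgroup N) ↔ (q : H) ∈ (S : Subgroup H) := by
      intro q
      constructor
      · intro hq
        exact hS ⟨q, hq, rfl⟩
      · intro hq
        have h1 : IsPGroup p ((S : Subgroup H).subgroupOf N) := S.2.comap_subtype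
        have h2 : (Q : Subgroup N) ≤ (S : Subgroup H).subgroupOf N := by
          intro q' hq'
          rw [Subgroup.mem_subgroupOf]
          exact hS ⟨q', hq', rfl⟩
        have h3 := Q.3 h1 h2
        rw [← h3, Subgroup.mem_subgroupOf]
        exact hq
    have hnS : (n : H) ∈ Subgroup.normalizer ((S : Subgroup H) : Set H) := by
      refine ti_all P hTI S n ((n⁻¹ * z * n : N) : H) ((hQS _).1 hzn) ?_ ?_
      · intro h
        apply hz1
        have h2 : n⁻¹ * z * n = 1 := Subtype.ext h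
        have h5 : z = n * (n⁻¹ * z * n) * n⁻¹ := by group
        rw [h5, h2]; group
      · have h2 : (n : H) * ((n⁻¹ * z * n : N) : H) * (n : H)⁻¹ = z := by
          simp only [Subgroup.coe_mul, Subgroup.coe_inv]
          group
        rw [h2]
        exact (hQS z).1 hzQ
    rw [Subgroup.mem_normalizer_iff] at hnS ⊢
    intro q
    show q ∈ (Q : Subgroup N) ↔ n * q * n⁻¹ ∈ (Q : Subgroup N)
    rw [hQS, hQS, hnS]
    simp

end Cfsg.Agent.H23.TISyl
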