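import Mathlib

set_option autoImplicit false
set_option linter.unusedSectionVars false
set_option linter.style.haveILetI false

namespace Cfsg.Agent.H23.TransSq

open MulAction

section core

variable {G : Type*} [Group G] [Finite G]

theorem of_eq_one_iff {P : Subgroup G} (y : P) :
    (Abelianization.of y = 1) ↔ (y : G) ∈ ⁅P, P⁆ := by
  have h1 : (Abelianization.of y = 1) ↔ y ∈ commutator P := by
    rw [← Abelianization.ker_of, MonoidHom.mem_ker]
  rw [h1]
  have h2 : (commutator P).map P.subtype = ⁅P, P⁆ := Subgroup.map_subtype_commutator P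
  rw [← h2]
  constructor
  · intro h; exact ⟨y, h, rfl⟩
  · rintro ⟨z, hz, hzy⟩
    have : z = y := Subtype.ext hzy
    rwa [← this]

theorem core (N P : Subgroup G) [hN : N.Normal] (htop : N ⊔ P = ⊤)
    (hP2 : IsPGroup 2 P) (hodd : Odd P.index)
    (hPh : ∀ x ∈ P, x ^ 2 ∈ (P ⊓ N) ⊔ ⁅P, P⁆)
    (hQ : ∀ x ∈ P ⊓ N, x ^ 2 ∈ ⁅P, P⁆)
    (hNodd : ∀ n ∈ N, ∃ k, Odd k ∧ n ^ k ∈ ⁅N, N⁆) :
    ∀ x ∈ P, x ^ 2 ∈ ⁅P, P⁆ := by
  classical
  have : P.FiniteIndex := inferInstance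
  let ϕ : P →* Abelianization P := Abelianization.of
  let τ : G →* Abelianization P := ϕ.transfer
  -- `A` is a 2-group
  have hA : ∀ a : Abelianization P, ∃ j : ℕ, a ^ (2 ^ j) = 1 := by
    intro a
    obtain ⟨y, rfl⟩ := QuotientGroup.mk_surjective a
    obtain ⟨j, hj⟩ := hP2 y
    refine ⟨j, ?_⟩
    show (Abelianization.of y) ^ 2 ^ j = 1
    rw [← map_pow, hj, map_one]
  have hodd2 : ∀ (a : Abelianization P) (k : ℕ), Odd k → a ^ k = 1 → a = 1 := by
    intro a k hk ha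
    obtain ⟨j, hj⟩ := hA a
    have h1 : orderOf a ∣ k := orderOf_dvd_of_pow_eq_one ha
    have h2 : orderOf a ∣ 2 ^ j := orderOf_dvd_of_pow_eq_one hj
    have h3 : Nat.Coprime k (2 ^ j) := Nat.Coprime.pow_right _ (Nat.coprime_two_right.2 hk)
    have h4 := Nat.dvd_gcd h1 h2
    rw [h3, Nat.dvd_one, orderOf_eq_one_iff] at h4
    exact h4
  have hcomm : commutator G ≤ τ.ker := Abelianization.commutator_subset_ker τ
  have hcommP : ⁅P, P⁆ ≤ τ.ker := by
    refine le_trans (Subgroup.commutator_mono le_top le_top) ?_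
    exact hcomm
  have hcommN : ⁅N, N⁆ ≤ τ.ker := by
    refine le_trans (Subgroup.commutator_mono le_top le_top) ?_
    exact hcomm
  have hτN : ∀ n ∈ N, τ n = 1 := by
    intro n hn
    obtain ⟨k, hk, hnk⟩ := hNodd n hn
    refine hodd2 _ k hk ?_
    rw [← map_pow]
    exact hcommN hnk
  -- conjugation inside `P`
  have hconj : ∀ (u y : G) (hy : y ∈ P) (huy : u⁻¹ * y * u ∈ P), ∃ (c : G) (hc : c ∈ P),
      c ∈ N ∧ ϕ ⟨u⁻¹ * y * u, huy⟩ = ϕ ⟨c, hc⟩ * ϕ ⟨y, hy⟩ := by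
    intro u y hy huy
    have hu : u ∈ (↑(N ⊔ P) : Set G) := by rw [htop]; trivial
    rw [Subgroup.normal_mul] at hu
    obtain ⟨n, hn, p, hp, rfl⟩ := hu
    have hn' : (n : G) ∈ N := hn
    have hp' : (p : G) ∈ P := hp
    have h1 : n⁻¹ * y * n = p * ((n * p)⁻¹ * y * (n * p)) * p⁻¹ := by group
    have h2 : n⁻¹ * y * n ∈ P := by
      rw [h1]
      exact P.mul_mem (P.mul_mem hp' huy) (P.inv_mem hp')
    have hcP : n⁻¹ * y * n * y⁻¹ ∈ P := P.mul_mem h2 (P.inv_mem hy)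
    have hcN : n⁻¹ * y * n * y⁻¹ ∈ N := by
      have h3 : n⁻¹ * y * n * y⁻¹ = n⁻¹ * (y * n * y⁻¹) := by group
      rw [h3]
      exact N.mul_mem (N.inv_mem hn') (hN.conj_mem n hn' y)
    refine ⟨_, hcP, hcN, ?_⟩
    have h4 : (⟨(n * p)⁻¹ * y * (n * p), huy⟩ : P) =
        (⟨p, hp'⟩ : P)⁻¹ * (⟨_, hcP⟩ * ⟨y, hy⟩) * ⟨p, hp'⟩ := by
      apply Subtype.ext
      simp only [Subgroup.coe_mul, Subgroup.coe_inv]
      group
    rw [h4, map_mul, map_mul, map_mul, map_inv]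
    exact (mul_comm _ _).trans (mul_inv_cancel_left _ _)
  -- the image of `Q`
  let Qb : Subgroup (Abelianization P) := (Subgroup.comap P.subtype N).map ϕ
  have hQb : ∀ a ∈ Qb, a ^ 2 = 1 := by
    rintro a ⟨y, hy, rfl⟩
    rw [← map_pow]
    show Abelianization.of (y ^ 2) = 1
    rw [of_eq_one_iff]
    have := hQ (y : G) ⟨y.2, hy⟩
    simpa using this
  have hτx : ∀ x (hx : x ∈ P), ∃ a ∈ Qb, τ x = a * (ϕ ⟨x, hx⟩) ^ P.index := by
    intro x hx
    letI : Fintype (Quotient (orbitRel (Subgroup.zpowers x) (G ⧸ P))) := Fintype.ofFinite _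
    have h0 := ϕ.transfer_eq_prod_quotient_orbitRel_zpowers_quot x
    have hq : ∀ q : Quotient (orbitRel (Subgroup.zpowers x) (G ⧸ P)), ∃ a ∈ Qb,
        ϕ ⟨q.out.out⁻¹ * x ^ Function.minimalPeriod (x • ·) q.out * q.out.out,
            QuotientGroup.out_conj_pow_minimalPeriod_mem P x q.out⟩ =
          a * (ϕ ⟨x, hx⟩) ^ Function.minimalPeriod (x • ·) q.out := by
      intro q
      obtain ⟨c, hc, hcN, h1⟩ := hconj q.out.out (x ^ Function.minimalPeriod (x • ·) q.out)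
        (P.pow_mem hx _) (QuotientGroup.out_conj_pow_minimalPeriod_mem P x q.out)
      refine ⟨ϕ ⟨c, hc⟩, ⟨⟨c, hc⟩, hcN, rfl⟩, ?_⟩
      rw [h1, ← map_pow]
      rfl
    choose a ha hae using hq
    refine ⟨∏ q, a q, Subgroup.prod_mem _ fun q _ => ha q, ?_⟩
    show ϕ.transfer x = _
    rw [h0, Finset.prod_congr rfl fun q _ => hae q, Finset.prod_mul_distrib,
      Finset.prod_pow_eq_pow_sum, ← Subgroup.index_eq_sum_minimalPeriod]
  intro x hx
  obtain ⟨a, ha, hτ⟩ := hτx x hx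
  have h2 : τ (x ^ 2) = 1 := by
    have hle : (P ⊓ N) ⊔ ⁅P, P⁆ ≤ τ.ker := sup_le (fun y hy => hτN y hy.2) hcommP
    exact hle (hPh x hx)
  have h3 : ((ϕ ⟨x, hx⟩) ^ 2) ^ P.index = 1 := by
    rw [map_pow, hτ, mul_pow, hQb a ha, one_mul] at h2
    rw [← pow_mul, mul_comm, pow_mul]
    exact h2
  have h4 := hodd2 _ _ hodd h3
  have h5 : Abelianization.of ((⟨x, hx⟩ : P) ^ 2) = 1 := by
    rw [map_pow]; exact h4
  rw [of_eq_one_iff] at h5
  simpa using h5

end core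

theorem main {G : Type*} [Group G] [Finite G] (N : Subgroup G) [hN : N.Normal] (P : Sylow 2 G)
    (hP : ∀ x ∈ (P : Subgroup G), x ^ 2 ∈ ((P : Subgroup G) ⊓ N) ⊔ ⁅(P : Subgroup G), (P : Subgroup G)⁆)
    (hQ : ∀ x ∈ (P : Subgroup G) ⊓ N, x ^ 2 ∈ ⁅(P : Subgroup G) ⊓ N, (P : Subgroup G) ⊓ N⁆)
    (hodd : Odd (Nat.card (Abelianization N))) :
    ∀ x ∈ (P : Subgroup G), x ^ 2 ∈ ⁅(P : Subgroup G), (P : Subgroup G)⁆ := by
  classical
  haveI : Fact (Nat.Prime 2) := ⟨Nat.prime_two⟩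
  let PP : Subgroup G := (P : Subgroup G)
  let M : Subgroup G := N ⊔ PP
  have hNM : N ≤ M := le_sup_left
  have hPM : PP ≤ M := le_sup_right
  let N' : Subgroup M := N.subgroupOf M
  let P' : Subgroup M := PP.subgroupOf M
  have hmapP : P'.map M.subtype = PP := Subgroup.map_subgroupOf_eq_of_le hPM
  have hmapN : N'.map M.subtype = N := Subgroup.map_subgroupOf_eq_of_le hNM
  have hmem : ∀ (H : Subgroup M) (y : M), y ∈ H ↔ (y : G) ∈ H.map M.subtype := by
    intro H y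
    constructor
    · intro h; exact ⟨y, h, rfl⟩
    · rintro ⟨z, hz, hzy⟩
      have : z = y := Subtype.ext hzy
      rwa [← this]
  have hcP : (⁅P', P'⁆ : Subgroup M).map M.subtype = ⁅PP, PP⁆ := by
    rw [Subgroup.map_commutator, hmapP]
  have hcN : (⁅N', N'⁆ : Subgroup M).map M.subtype = ⁅N, N⁆ := by
    rw [Subgroup.map_commutator, hmapN]
  haveI hN' : N'.Normal := Subgroup.normal_subgroupOf
  have hsup : (P' ⊓ N').map M.subtype = PP ⊓ N := by
    ext y
    constructor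
    · rintro ⟨z, ⟨h1, h2⟩, rfl⟩
      exact ⟨h1, h2⟩
    · rintro ⟨h1, h2⟩
      exact ⟨⟨y, hPM h1⟩, ⟨h1, h2⟩, rfl⟩
  have key := core N' P' (by
      rw [eq_top_iff]
      rintro ⟨y, hy⟩ -
      have hy2 : y ∈ (↑(N ⊔ PP) : Set G) := hy
      rw [Subgroup.normal_mul] at hy2
      obtain ⟨n, hn, p, hp, rfl⟩ := hy2
      have h1 : (⟨n * p, hy⟩ : M) = ⟨n, hNM hn⟩ * ⟨p, hPM hp⟩ := rfl
      rw [h1]
      exact Subgroup.mul_mem_sup hn hp)
    (P.2.comap_subtype)
    (by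
      have h1 : PP.index = P'.index * M.index := by
        have := Subgroup.relIndex_mul_index hPM
        rw [← this]
        rfl
      have h2 : ¬ 2 ∣ PP.index := P.not_dvd_index
      rw [← Nat.not_even_iff_odd, even_iff_two_dvd]
      intro h3
      exact h2 (h1 ▸ h3.trans (dvd_mul_right _ _)))
    (by
      intro x hx
      rw [hmem, Subgroup.map_sup, hsup, hcP]
      exact hP x.1 hx)
    (by
      intro x hx
      rw [hmem, hcP]
      have h1 := hQ x.1 ⟨hx.1, hx.2⟩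
      exact Subgroup.commutator_mono inf_le_left inf_le_left h1)
    (by
      intro n hn
      refine ⟨Nat.card (Abelianization N), hodd, ?_⟩
      rw [hmem, hcN]
      let a : N := ⟨n.1, hn⟩
      have h1 : (Abelianization.of a) ^ Nat.card (Abelianization N) = 1 := pow_card_eq_one'
      rw [← map_pow] at h1
      have h2 : a ^ Nat.card (Abelianization N) ∈ commutator N := by
        rw [← Abelianization.ker_of, MonoidHom.mem_ker]; exact h1
      have h3 := Subgroup.mem_map_of_mem N.subtype h2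
      rw [Subgroup.map_subtype_commutator] at h3
      simpa [a] using h3)
  intro x hx
  have h1 := key ⟨x, hPM hx⟩ hx
  rw [hmem, hcP] at h1
  simpa using h1

end Cfsg.Agent.H23.TransSq
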