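import Cfsg.Agent.Lib.H23.CharAvg
import Cfsg.Agent.Lib.H22.Ord
import Cfsg.Agent.Lib.H21.ModP
import Cfsg.Agent.Lib.H21.PowCongr
import Cfsg.Agent.Lib.H21.CharLinear

/-!
# Irreducible characters nonzero on exactly two classes (Gagola)
-/

set_option autoImplicit false
set_option linter.unusedSectionVars false
set_option linter.style.haveILetI false
set_option linter.unusedSimpArgs false

namespace Cfsg.Agent.H23

open Cfsg Cfsg.Agent.H21 Module
open scoped ComplexConjugate

universe u

section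

variable {G : Type u} [Group G] [Fintype G]

/-- `χ` is irreducible, and nonzero exactly on `1` and the class of `x ≠ 1`. -/
structure TwoClass (χ : G → ℂ) (x : G) : Prop where
  irr : IsIrrCharacter G χ
  ne_one : x ≠ 1
  supp : ∀ g, χ g ≠ 0 ↔ g = 1 ∨ IsConj x g
  big : 2 < Nat.card G

theorem exists_twoClass (hG : 2 < Nat.card G) (χ : IrrCharacter G)
    (hχ : Nat.card {C : ConjClasses G // ∃ g ∈ C.carrier, (χ : G → ℂ) g ≠ 0} = 2) :
    ∃ x, TwoClass (χ : G → ℂ) x := by
  classical
  have h10 : (χ : G → ℂ) 1 ≠ 0 := H06.irr_one_ne_zero' χ.2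
  obtain ⟨a, b, hab, hall⟩ := Nat.card_eq_two_iff.mp hχ
  have hcases : ∀ c : {C : ConjClasses G // ∃ g ∈ C.carrier, (χ : G → ℂ) g ≠ 0}, c = a ∨ c = b := by
    intro c
    have : c ∈ ({a, b} : Set _) := by rw [hall]; trivial
    simpa using this
  let o : {C : ConjClasses G // ∃ g ∈ C.carrier, (χ : G → ℂ) g ≠ 0} :=
    ⟨ConjClasses.mk 1, 1, ConjClasses.mem_carrier_mk, h10⟩
  obtain ⟨c, hc, hne⟩ : ∃ c, (c = a ∨ c = b) ∧ c ≠ o := by
    by_cases h : a = o
    · exact ⟨b, Or.inr rfl, fun hb => hab (h.trans hb.symm)⟩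
    · exact ⟨a, Or.inl rfl, h⟩
  obtain ⟨g, hg, hg0⟩ := c.2
  have hgc : ConjClasses.mk g = c.1 := by
    rw [ConjClasses.mem_carrier_iff_mk_eq] at hg
    exact hg
  have hcases2 : ∀ d : {C : ConjClasses G // ∃ g ∈ C.carrier, (χ : G → ℂ) g ≠ 0}, d = o ∨ d = c := by
    intro d
    rcases hc with rfl | rfl
    · have hob : o = b := by
        rcases hcases o with h | h
        · exact absurd h.symm hne
        · exact h
      rcases hcases d with h | h
      · exact Or.inr h
      · exact Or.inl (h.trans hob.symm)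
    · have hoa : o = a := by
        rcases hcases o with h | h
        · exact h
        · exact absurd h.symm hne
      rcases hcases d with h | h
      · exact Or.inl (h.trans hoa.symm)
      · exact Or.inr h
  refine ⟨g, χ.2, ?_, ?_, hG⟩
  · rintro rfl
    apply hne
    apply Subtype.ext
    rw [← hgc]
  · intro y
    constructor
    · intro hy
      rcases hcases2 ⟨ConjClasses.mk y, y, ConjClasses.mem_carrier_mk, hy⟩ with h | h
      · left
        have h2 := congrArg Subtype.val h
        simp only [o] at h2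
        have h3 := ConjClasses.mk_eq_mk_iff_isConj.mp h2
        have h4 := isConj_one_right.mp h3.symm
        exact h4
      · right
        have h2 := congrArg Subtype.val h
        simp only at h2
        rw [← hgc] at h2
        exact (ConjClasses.mk_eq_mk_iff_isConj.mp h2).symm
    · rintro (rfl | h)
      · exact h10
      · obtain ⟨c', rfl⟩ := isConj_iff.mp h
        rw [H21.isCharacter_conj (H21.isCharacter_of_irr χ.2)]
        exact hg0

namespace TwoClass

variable {χ : G → ℂ} {x : G}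

theorem char (h : TwoClass χ x) : IsCharacter G χ := isCharacter_of_irr h.irr

theorem one_ne (h : TwoClass χ x) : χ 1 ≠ 0 := H06.irr_one_ne_zero' h.irr

theorem x_ne (h : TwoClass χ x) : χ x ≠ 0 := (h.supp x).mpr (Or.inr (IsConj.refl x))

theorem conj_eq (h : TwoClass χ x) {y : G} (hy : IsConj x y) : χ y = χ x := by
  obtain ⟨c, rfl⟩ := isConj_iff.mp hy
  exact isCharacter_conj h.char _ _

theorem zero_of (h : TwoClass χ x) {g : G} (h1 : g ≠ 1) (h2 : ¬ IsConj x g) : χ g = 0 := by
  by_contra h0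
  rcases (h.supp g).mp h0 with h3 | h3
  · exact h1 h3
  · exact h2 h3

/-- The class of `x`. -/
noncomputable def cls (x : G) : Finset G := by
  classical exact Finset.univ.filter (fun g => IsConj x g)

theorem mem_cls {g : G} : g ∈ cls x ↔ IsConj x g := by
  classical
  simp [cls]

/-- The size of the class of `x`. -/
noncomputable def m (x : G) : ℕ := (cls x).card

theorem m_pos : 0 < m x := Finset.card_pos.mpr ⟨x, mem_cls.mpr (IsConj.refl x)⟩

theorem m_eq_index : m x = (Subgroup.centralizer ({x} : Set G)).index := by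
  classical
  haveI : Fintype (IrrCharacter G) := Fintype.ofFinite _
  have h1 := card_isConj_eq_index x
  rw [← h1, m, Nat.card_eq_fintype_card, Fintype.card_subtype]
  simp only [cls]
  congr 1
  ext g
  simp only [Finset.mem_filter, Finset.mem_univ, true_and]
  exact isConj_comm

/-- The identity is the sum over the class. -/
theorem one_not_mem (h : TwoClass χ x) : (1 : G) ∉ cls x := by
  rw [mem_cls]
  intro h1
  exact h.ne_one (isConj_one_right.mp h1.symm)

theorem sum_eq {A : Type*} [AddCommMonoid A] (h : TwoClass χ x) (f : G → A)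
    (hf : ∀ g, g ≠ 1 → ¬ IsConj x g → f g = 0) :
    ∑ g, f g = f 1 + ∑ c ∈ cls x, f c := by
  classical
  have hnot := h.one_not_mem
  rw [← Finset.sum_insert hnot]
  symm
  apply Finset.sum_subset (Finset.subset_univ _)
  intro g _ hg
  simp only [Finset.mem_insert, mem_cls, not_or] at hg
  exact hf g hg.1 hg.2

/-- A two-class character is nontrivial. -/
theorem not_trivial (h : TwoClass χ x) : χ ≠ fun _ => 1 := by
  classical
  intro h1
  have hall : ∀ g, g ≠ 1 → IsConj x g := by
    intro g hg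
    have h2 : χ g ≠ 0 := by rw [h1]; exact one_ne_zero
    rcases (h.supp g).mp h2 with h3 | h3
    · exact absurd h3 hg
    · exact h3
  have hcard : Nat.card G = m x + 1 := by
    have h2 : (Finset.univ : Finset G) = insert 1 (cls x) := by
      ext g
      simp only [Finset.mem_univ, Finset.mem_insert, true_iff, mem_cls]
      by_cases hg : g = 1
      · exact Or.inl hg
      · exact Or.inr (hall g hg)
    rw [Nat.card_eq_fintype_card, ← Finset.card_univ, h2, Finset.card_insert_of_notMem h.one_not_mem]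
    rfl
  have hdvd : m x ∣ Nat.card G := by
    rw [m_eq_index]
    exact Subgroup.index_dvd_card _
  rw [hcard] at hdvd
  have h3 : m x ∣ 1 := (Nat.dvd_add_right (dvd_refl _)).mp hdvd
  have h4 : m x = 1 := Nat.dvd_one.mp h3
  have := h.big
  omega

theorem sum_zero (h : TwoClass χ x) : ∑ g, χ g = 0 := by
  have h1 := H06.classInner_irr_ne h.irr isIrrCharacter_one h.not_trivial
  unfold classInner at h1
  simp only [map_one, mul_one] at h1
  have hc : (Nat.card G : ℂ) ≠ 0 := by exact_mod_cast Nat.card_pos.ne'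
  exact (mul_eq_zero.mp h1).resolve_left (inv_ne_zero hc)

theorem key_eq (h : TwoClass χ x) : χ 1 + (m x : ℂ) * χ x = 0 := by
  have h1 := h.sum_zero
  rw [h.sum_eq χ (fun g h1 h2 => h.zero_of h1 h2)] at h1
  have h2 : ∑ c ∈ cls x, χ c = (m x : ℂ) * χ x := by
    rw [Finset.sum_congr rfl (fun c hc => h.conj_eq (mem_cls.mp hc))]
    simp [m]
  rwa [h2] at h1

theorem exists_a (h : TwoClass χ x) :
    ∃ a : ℕ, 0 < a ∧ χ x = -(a : ℂ) ∧ χ 1 = (m x : ℂ) * a := by
  have hd := one_eq_charDegree h.char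
  have hdpos := irr_charDegree_pos h.irr
  have hm := m_pos (x := x)
  have hmC : (m x : ℂ) ≠ 0 := by exact_mod_cast hm.ne'
  have hk := h.key_eq
  have hx : χ x = (((-(charDegree χ : ℚ) / (m x : ℚ) : ℚ)) : ℂ) := by
    push_cast
    rw [hd] at hk
    field_simp
    linear_combination hk
  have hint : IsIntegral ℤ (((-(charDegree χ : ℚ) / (m x : ℚ) : ℚ)) : ℂ) := by
    rw [← hx]
    exact isCharacter_isIntegral h.char x
  obtain ⟨n, hn⟩ := isInt_of_isIntegral_rat _ hint
  have hxn : χ x = (n : ℂ) := by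
    rw [hx, hn]
    simp
  have hZ : (charDegree χ : ℤ) + (m x : ℤ) * n = 0 := by
    rw [hd, hxn] at hk
    exact_mod_cast hk
  have hnneg : n < 0 := by
    by_contra hc
    have : 0 ≤ n := not_lt.mp hc
    have h3 : 0 ≤ (m x : ℤ) * n := by positivity
    have h4 : (0 : ℤ) < charDegree χ := by exact_mod_cast hdpos
    omega
  refine ⟨(-n).toNat, by omega, ?_, ?_⟩
  · rw [hxn]
    have : (((-n).toNat : ℤ)) = -n := Int.toNat_of_nonneg (by omega)
    have h5 : (((-n).toNat : ℕ) : ℂ) = -(n : ℂ) := by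
      have h7 := congrArg (Int.cast : ℤ → ℂ) this
      rw [Int.cast_natCast, Int.cast_neg] at h7
      exact h7
    rw [h5]; simp
  · rw [hd]
    have : (((-n).toNat : ℤ)) = -n := Int.toNat_of_nonneg (by omega)
    have h6 : (charDegree χ : ℤ) = (m x : ℤ) * ((-n).toNat : ℤ) := by
      rw [this]; linarith
    exact_mod_cast h6

theorem inv_conj (h : TwoClass χ x) : IsConj x x⁻¹ := by
  obtain ⟨a, ha, hx, -⟩ := h.exists_a
  have h1 : χ x⁻¹ ≠ 0 := by
    rw [isCharacter_inv h.char, hx]
    simp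
    exact ha.ne'
  rcases (h.supp _).mp h1 with h2 | h2
  · exact absurd (inv_eq_one.mp h2) h.ne_one
  · exact h2

theorem inv_mem_class (h : TwoClass χ x) {c : G} (hc : IsConj x c) : IsConj x c⁻¹ := by
  have h1 : IsConj x⁻¹ c⁻¹ := by
    obtain ⟨g, rfl⟩ := isConj_iff.mp hc
    exact isConj_iff.mpr ⟨g, by group⟩
  exact h.inv_conj.trans h1

/-- The key closure property. -/
theorem mul_closed (h : TwoClass χ x) {c c' : G} (hc : IsConj x c) (hc' : IsConj x c') :
    χ (c⁻¹ * c') ≠ 0 := by
  classical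
  haveI : Fintype (IrrCharacter G) := Fintype.ofFinite _
  intro hu
  set u := c⁻¹ * c' with hudef
  obtain ⟨a, ha, hx, -⟩ := h.exists_a
  have h0 := H22.sum_conj_mul_char (⟨χ, h.irr⟩ : IrrCharacter G) x u
  simp only at h0
  rw [hu, mul_zero, zero_div] at h0
  have hnotconj : ¬ IsConj x u := fun h1 => ((h.supp u).mpr (Or.inr h1)) hu
  have hterm : ∀ b : G, χ (b * x * b⁻¹ * u) = 0 ∨ χ (b * x * b⁻¹ * u) = -(a : ℂ) := by
    intro b
    by_cases h2 : χ (b * x * b⁻¹ * u) = 0
    · exact Or.inl h2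
    · right
      rcases (h.supp _).mp h2 with h3 | h3
      · exfalso
        apply hnotconj
        have h4 : u = (b * x * b⁻¹)⁻¹ := (inv_eq_of_mul_eq_one_right h3).symm
        rw [h4]
        exact h.inv_mem_class (isConj_iff.mpr ⟨b, rfl⟩)
      · rw [h.conj_eq h3, hx]
  have hre : ∑ b : G, (χ (b * x * b⁻¹ * u)).re = 0 := by
    have := congrArg Complex.re h0
    simpa using this
  have hnonpos : ∀ b ∈ (Finset.univ : Finset G), (χ (b * x * b⁻¹ * u)).re ≤ 0 := by
    intro b _
    rcases hterm b with h2 | h2 <;> rw [h2] <;> simp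
  obtain ⟨b, rfl⟩ := isConj_iff.mp hc
  have h3 := (Finset.sum_eq_zero_iff_of_nonpos hnonpos).mp hre b (Finset.mem_univ _)
  have h4 : b * x * b⁻¹ * u = c' := by
    rw [hudef]; group
  rw [h4, h.conj_eq hc', hx] at h3
  simp at h3
  omega

/-- The support is closed under products. -/
theorem mul_mem' (h : TwoClass χ x) {a b : G} (ha : χ a ≠ 0) (hb : χ b ≠ 0) : χ (a * b) ≠ 0 := by
  rcases (h.supp a).mp ha with rfl | ha'
  · simpa using hb
  rcases (h.supp b).mp hb with rfl | hb'
  · simpa using ha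
  have := h.mul_closed (h.inv_mem_class ha') hb'
  simpa using this

theorem inv_mem' (h : TwoClass χ x) {a : G} (ha : χ a ≠ 0) : χ a⁻¹ ≠ 0 := by
  rw [isCharacter_inv h.char]
  simpa using ha

/-- The support as a subgroup. -/
def suppSubgroup (h : TwoClass χ x) : Subgroup G where
  carrier := {g | χ g ≠ 0}
  mul_mem' := fun ha hb => h.mul_mem' ha hb
  one_mem' := h.one_ne
  inv_mem' := fun ha => h.inv_mem' ha

theorem mem_suppSubgroup (h : TwoClass χ x) {g : G} : g ∈ h.suppSubgroup ↔ χ g ≠ 0 := Iff.rfl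

/-- Conjugates of `x` play the same role. -/
theorem of_conj (h : TwoClass χ x) {y : G} (hy : IsConj x y) : TwoClass χ y := by
  refine ⟨h.irr, ?_, ?_, h.big⟩
  · rintro rfl
    exact h.ne_one (isConj_one_right.mp hy.symm)
  · intro g
    rw [h.supp g]
    constructor
    · rintro (h1 | h1)
      · exact Or.inl h1
      · exact Or.inr (hy.symm.trans h1)
    · rintro (h1 | h1)
      · exact Or.inl h1
      · exact Or.inr (hy.trans h1)

theorem faithful (h : TwoClass χ x) {g : G} (hg : χ g = χ 1) : g = 1 := by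
  by_contra h1
  obtain ⟨a, ha, hx, h1'⟩ := h.exists_a
  have h2 : χ g ≠ 0 := by rw [hg]; exact h.one_ne
  rcases (h.supp g).mp h2 with h3 | h3
  · exact h1 h3
  · rw [h.conj_eq h3, hx, h1'] at hg
    have h4 : ((m x * a + a : ℕ) : ℂ) = 0 := by
      push_cast
      linear_combination -hg
    have h5 : m x * a + a = 0 := by exact_mod_cast h4
    omega

end TwoClass

/-- The package of a two-class character together with the subgroup it is supported on. -/
structure TC (χ : G → ℂ) (x : G) (N : Subgroup G) : Prop extends TwoClass χ x where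
  mem : ∀ g, g ∈ N ↔ χ g ≠ 0

namespace TC

open TwoClass

variable {χ : G → ℂ} {x : G} {N : Subgroup G}

theorem mem_iff (h : TC χ x N) {g : G} : g ∈ N ↔ g = 1 ∨ IsConj x g := by
  rw [h.mem, h.supp]

theorem x_mem (h : TC χ x N) : x ∈ N := h.mem_iff.mpr (Or.inr (IsConj.refl x))

theorem conj_of_mem (h : TC χ x N) {g : G} (hg : g ∈ N) (h1 : g ≠ 1) : IsConj x g :=
  (h.mem_iff.mp hg).resolve_left h1

theorem of_conj (h : TC χ x N) {y : G} (hy : IsConj x y) : TC χ y N :=
  { h.toTwoClass.of_conj hy with mem := h.mem }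

theorem of_mem (h : TC χ x N) {y : G} (hy : y ∈ N) (h1 : y ≠ 1) : TC χ y N :=
  h.of_conj (h.conj_of_mem hy h1)

theorem normal (h : TC χ x N) : N.Normal := by
  constructor
  intro n hn g
  rw [h.mem] at hn ⊢
  rwa [isCharacter_conj h.char]

theorem sum_N (h : TC χ x N) [Fintype N] {A : Type*} [AddCommMonoid A] (f : G → A) :
    ∑ n : N, f n = f 1 + ∑ c ∈ cls x, f c := by
  classical
  rw [← Finset.sum_insert h.one_not_mem]
  symm
  refine Finset.sum_subtype _ (fun g => ?_) f
  simp only [Finset.mem_insert, mem_cls]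
  exact h.mem_iff.symm

theorem card_N (h : TC χ x N) : Nat.card N = m x + 1 := by
  classical
  haveI : Fintype N := Fintype.ofFinite _
  have := h.sum_N (A := ℕ) (fun _ => 1)
  simp only [Finset.sum_const, smul_eq_mul, mul_one] at this
  rw [Nat.card_eq_fintype_card, ← Finset.card_univ, this]
  simp [m, add_comm]

/-- Every nontrivial normal subgroup contains `N`. -/
theorem le_of_normal (h : TC χ x N) (K : Subgroup G) [hK : K.Normal] (hne : K ≠ ⊥) : N ≤ K := by
  classical
  haveI : Fintype K := Fintype.ofFinite _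
  obtain ⟨k₀, hk₀, hk₀1⟩ := K.bot_or_exists_ne_one.resolve_left hne
  have hker : ¬ ∀ k ∈ K, χ k = χ 1 := fun h1 => hk₀1 (h.faithful (h1 k₀ hk₀))
  have h0 := sum_mul_normal_of_irr K h.irr hker 1
  simp only [mul_one] at h0
  have hex : ∃ k ∈ K, k ≠ 1 ∧ χ k ≠ 0 := by
    by_contra hc
    push Not at hc
    have h2 : ∑ k : K, χ k = χ 1 := by
      rw [Finset.sum_eq_single (1 : K)]
      · simp
      · intro b _ hb
        exact hc b b.2 (fun h3 => hb (Subtype.ext h3))
      · intro h3; exact absurd (Finset.mem_univ _) h3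
    rw [h2] at h0
    exact h.one_ne h0
  obtain ⟨k, hkK, hk1, hk0⟩ := hex
  have hxk : IsConj x k := ((h.supp k).mp hk0).resolve_left hk1
  intro n hn
  rcases h.mem_iff.mp hn with rfl | hn'
  · exact K.one_mem
  · obtain ⟨g, rfl⟩ := isConj_iff.mp (hxk.symm.trans hn')
    exact hK.conj_mem k hkK g

/-- An irreducible character not containing `N` in its kernel is `χ`. -/
theorem eq_of_not_ker (h : TC χ x N) {ψ : G → ℂ} (hψ : IsIrrCharacter G ψ)
    (hne : ¬ ∀ n ∈ N, ψ n = ψ 1) : ψ = χ := by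
  classical
  haveI : Fintype N := Fintype.ofFinite _
  haveI := h.normal
  by_contra hc
  have h0 := H06.classInner_irr_ne hψ h.irr hc
  obtain ⟨a, ha, hx, h1'⟩ := h.exists_a
  have hs := sum_mul_normal_of_irr N hψ hne 1
  simp only [mul_one] at hs
  rw [h.sum_N ψ] at hs
  unfold classInner at h0
  have hc0 : (Nat.card G : ℂ) ≠ 0 := by exact_mod_cast Nat.card_pos.ne'
  have h2 := (mul_eq_zero.mp h0).resolve_left (inv_ne_zero hc0)
  rw [h.sum_eq (fun g => ψ g * conj (χ g)) (fun g h3 h4 => by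
    rw [h.zero_of h3 h4]; simp)] at h2
  have h3 : ∑ c ∈ cls x, ψ c * conj (χ c) = (-(a : ℂ)) * ∑ c ∈ cls x, ψ c := by
    rw [Finset.mul_sum]
    refine Finset.sum_congr rfl fun c hc => ?_
    rw [h.conj_eq (mem_cls.mp hc), hx]
    simp [mul_comm]
  rw [h3, h1'] at h2
  have h4 : ∑ c ∈ cls x, ψ c = - ψ 1 := by linear_combination hs
  rw [h4] at h2
  simp only [map_mul, map_natCast] at h2
  have h5 : ψ 1 * (((m x * a + a : ℕ) : ℂ)) = 0 := by
    push_cast
    linear_combination h2
  have h6 := H06.irr_one_ne_zero' hψ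
  have h7 : ((m x * a + a : ℕ) : ℂ) = 0 := (mul_eq_zero.mp h5).resolve_left h6
  have h8 : m x * a + a = 0 := by exact_mod_cast h7
  omega

/-- Numerics. -/
theorem card_formula (h : TC χ x N) :
    ∃ a : ℕ, 0 < a ∧ χ x = -(a : ℂ) ∧ χ 1 = (m x : ℂ) * a ∧
      Nat.card G = m x * (a ^ 2 * (m x + 1)) ∧
      Nat.card (Subgroup.centralizer ({x} : Set G)) = a ^ 2 * (m x + 1) := by
  obtain ⟨a, ha, hx, h1⟩ := h.exists_a
  refine ⟨a, ha, hx, h1, ?_⟩
  have hsum := sum_norm_sq_eq h.irr
  rw [h.sum_eq (fun g => ‖χ g‖ ^ 2) (fun g h3 h4 => by rw [h.zero_of h3 h4]; simp)] at hsum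
  have h3 : ∑ c ∈ cls x, ‖χ c‖ ^ 2 = (m x : ℝ) * (a : ℝ) ^ 2 := by
    rw [Finset.sum_congr rfl (fun c hc => by rw [h.conj_eq (mem_cls.mp hc), hx])]
    simp [m]
  rw [h3, h1] at hsum
  have h4 : ‖((m x : ℂ) * (a : ℂ))‖ = (m x : ℝ) * a := by
    simp
  rw [h4] at hsum
  have h5 : Nat.card G = m x * (a ^ 2 * (m x + 1)) := by
    have : (Nat.card G : ℝ) = ((m x * (a ^ 2 * (m x + 1)) : ℕ) : ℝ) := by
      push_cast
      rw [← hsum]
      ring
    exact_mod_cast this
  refine ⟨h5, ?_⟩
  have h6 := Subgroup.index_mul_card (Subgroup.centralizer ({x} : Set G))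
  rw [← m_eq_index, h5] at h6
  exact Nat.eq_of_mul_eq_mul_left m_pos h6

/-- Integrality: a subgroup `Q` of the centralizer of `x` meeting `N` trivially has order dividing
`a = -χ x`. -/
theorem card_dvd (h : TC χ x N) {a : ℕ} (hx : χ x = -(a : ℂ)) (Q : Subgroup G)
    (hcomm : ∀ t ∈ Q, Commute x t) (hQN : ∀ t ∈ Q, t ∈ N → t = 1) : Nat.card Q ∣ a := by
  classical
  haveI : Fintype Q := Fintype.ofFinite _
  have h1 := isIntegral_average h.char x Q hcomm
  have h2 : ∑ t : Q, χ (x * t) = χ x := by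
    rw [Finset.sum_eq_single (1 : Q)]
    · simp
    · intro t _ ht
      by_contra h3
      have h4 : x * t ∈ N := (h.mem _).mpr h3
      have h5 : (t : G) ∈ N := by
        have := N.mul_mem (N.inv_mem h.x_mem) h4
        simpa using this
      exact ht (Subtype.ext (hQN t t.2 h5))
    · intro h3; exact absurd (Finset.mem_univ _) h3
  rw [h2, hx] at h1
  have h3 : (Nat.card Q : ℂ)⁻¹ * -(a : ℂ) = ((-(a : ℚ) / (Nat.card Q : ℚ) : ℚ) : ℂ) := by
    push_cast
    ring
  rw [h3] at h1
  obtain ⟨n, hn⟩ := isInt_of_isIntegral_rat _ h1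
  have hQ : (Nat.card Q : ℚ) ≠ 0 := by exact_mod_cast Nat.card_pos.ne'
  have h4 : -(a : ℚ) = n * (Nat.card Q : ℚ) := by
    rw [div_eq_iff hQ] at hn
    exact hn
  have h5 : -(a : ℤ) = n * (Nat.card Q : ℤ) := by exact_mod_cast h4
  have h6 : (Nat.card Q : ℤ) ∣ (a : ℤ) := ⟨-n, by linarith⟩
  exact_mod_cast h6

end TC

end

end Cfsg.Agent.H23
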