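import Cfsg.Agent.Lib.H23.TwoClass
import Cfsg.Prelude.Def_Transfer

/-!
# Two-class characters: the support is elementary abelian
-/

set_option autoImplicit false
set_option linter.unusedSectionVars false
set_option linter.style.haveILetI false
set_option linter.unusedSimpArgs false

namespace Cfsg.Agent.H23

open Cfsg Cfsg.Agent.H21 Module
open scoped ComplexConjugate

universe u

variable {G : Type u} [Group G] [Fintype G]

theorem orderOf_eq_of_isConj' {a b : G} (h : IsConj a b) : orderOf a = orderOf b := by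
  obtain ⟨c, rfl⟩ := isConj_iff.mp h
  have : c * a * c⁻¹ = MulAut.conj c a := rfl
  rw [this]
  exact (orderOf_injective (MulAut.conj c).toMonoidHom (MulAut.conj c).injective a).symm

namespace TC

open TwoClass

variable {χ : G → ℂ} {x : G} {N : Subgroup G}

theorem exists_prime (h : TC χ x N) : ∃ p : ℕ, p.Prime ∧ orderOf x = p := by
  have h1 : orderOf x ≠ 1 := fun h2 => h.ne_one (orderOf_eq_one_iff.mp h2)
  obtain ⟨q, hq, hqd⟩ := Nat.exists_prime_and_dvd h1
  refine ⟨q, hq, ?_⟩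
  have h2 : orderOf x ≠ 0 := (orderOf_pos x).ne'
  have h3 := orderOf_pow_orderOf_div h2 hqd
  set y := x ^ (orderOf x / q) with hy
  have hyN : y ∈ N := N.pow_mem h.x_mem _
  have hy1 : y ≠ 1 := by
    intro h4
    rw [h4, orderOf_one] at h3
    exact hq.one_lt.ne h3
  rw [orderOf_eq_of_isConj' (h.conj_of_mem hyN hy1), h3]

theorem orderOf_of_mem (h : TC χ x N) {y : G} (hy : y ∈ N) (h1 : y ≠ 1) :
    orderOf y = orderOf x :=
  (orderOf_eq_of_isConj' (h.conj_of_mem hy h1)).symm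

theorem pow_eq_one (h : TC χ x N) {p : ℕ} (hp : orderOf x = p) {y : G} (hy : y ∈ N) : y ^ p = 1 := by
  by_cases h1 : y = 1
  · simp [h1]
  · rw [← hp, ← h.orderOf_of_mem hy h1]
    exact pow_orderOf_eq_one y

theorem isPGroup (h : TC χ x N) {p : ℕ} (hp : orderOf x = p) : IsPGroup p N := by
  intro g
  refine ⟨1, ?_⟩
  apply Subtype.ext
  simpa using h.pow_eq_one hp g.2

theorem comm (h : TC χ x N) {y w : G} (hy : y ∈ N) (hw : w ∈ N) : y * w = w * y := by
  obtain ⟨p, hp, hpx⟩ := h.exists_prime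
  haveI : Fact p.Prime := ⟨hp⟩
  have hPG := h.isPGroup hpx
  haveI : Nontrivial N := ⟨⟨⟨x, h.x_mem⟩, 1, fun h2 => h.ne_one (congrArg Subtype.val h2)⟩⟩
  haveI : Nontrivial (Subgroup.center N) := hPG.center_nontrivial
  obtain ⟨z, hz⟩ := exists_ne (1 : Subgroup.center N)
  have hz1 : ((z : N) : G) ≠ 1 := fun h2 => hz (Subtype.ext (Subtype.ext h2))
  have hzc : ∀ w : N, ((z : N) : G) * w = w * ((z : N) : G) := fun w => by
    have := (Subgroup.mem_center_iff.mp z.2 w).symm
    exact congrArg Subtype.val this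
  by_cases hy1 : y = 1
  · simp [hy1]
  have hzN := h.of_mem (z : N).2 hz1
  obtain ⟨g, rfl⟩ := isConj_iff.mp (hzN.conj_of_mem hy hy1)
  haveI := h.normal
  have hw' : g⁻¹ * w * g ∈ N := by
    have := ‹N.Normal›.conj_mem w hw g⁻¹
    simpa using this
  have := hzc ⟨_, hw'⟩
  simp only at this
  calc g * ((z : N) : G) * g⁻¹ * w = g * (((z : N) : G) * (g⁻¹ * w * g)) * g⁻¹ := by group
    _ = g * ((g⁻¹ * w * g) * ((z : N) : G)) * g⁻¹ := by rw [this]
    _ = w * (g * ((z : N) : G) * g⁻¹) := by group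

theorem isElementaryAbelian (h : TC χ x N) {p : ℕ} (hp : orderOf x = p) :
    IsElementaryAbelian p N := by
  refine ⟨⟨⟨fun a b => Subtype.ext (h.comm a.2 b.2)⟩⟩, fun a ha => h.pow_eq_one hp ha⟩

end TC

/-- The existence of the package. -/
theorem exists_TC (hG : 2 < Nat.card G) (χ : IrrCharacter G)
    (hχ : Nat.card {C : ConjClasses G // ∃ g ∈ C.carrier, (χ : G → ℂ) g ≠ 0} = 2) :
    ∃ x N, TC (χ : G → ℂ) x N := by
  obtain ⟨x, hx⟩ := exists_twoClass hG χ hχ
  exact ⟨x, hx.suppSubgroup, hx, fun _ => Iff.rfl⟩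

end Cfsg.Agent.H23
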