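import Cfsg.Agent.Lib.H23.TwoClass2
import Cfsg.Agent.Lib.H06.CharNormal

/-!
# Two-class characters: centralizers, inertia groups, cosets
-/

set_option autoImplicit false
set_option linter.unusedSectionVars false
set_option linter.style.haveILetI false
set_option linter.unusedSimpArgs false

namespace Cfsg.Agent.H23

open Cfsg Cfsg.Agent.H21 Module
open scoped ComplexConjugate

universe u

variable {G : Type u} [Group G] [Fintype G]

namespace TC

open TwoClass

variable {χ : G → ℂ} {x : G} {N : Subgroup G}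

/-- The elements of a coset of `N` outside `N` are conjugate. -/
theorem coset_conj (h : TC χ x N) {y n : G} (hy : y ∉ N) (hn : n ∈ N) : IsConj y (n * y) := by
  classical
  haveI : Fintype (IrrCharacter G) := Fintype.ofFinite _
  apply H22.isConj_of_forall_irr_eq
  intro ψ
  by_cases hψ : ∀ k ∈ N, (ψ : G → ℂ) k = (ψ : G → ℂ) 1
  · exact (character_mul_of_mem_ker (isCharacter_of_irr ψ.2) (hψ n hn) y).symm
  · have h1 : (ψ : G → ℂ) = χ := h.eq_of_not_ker ψ.2 hψ
    have h2 : χ y = 0 := by
      by_contra h3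
      exact hy ((h.mem y).mpr h3)
    have h3 : χ (n * y) = 0 := by
      by_contra h4
      have h5 := (h.mem _).mpr h4
      apply hy
      have := N.mul_mem (N.inv_mem hn) h5
      simpa using this
    rw [h1, h2, h3]

theorem isConj_iff_quotient (h : TC χ x N) [N.Normal] {y z : G} (hz : z ∉ N) :
    IsConj y z ↔ IsConj (y : G ⧸ N) (z : G ⧸ N) := by
  constructor
  · intro h1
    obtain ⟨c, rfl⟩ := isConj_iff.mp h1
    exact isConj_iff.mpr ⟨(c : G ⧸ N), rfl⟩
  · intro h1
    obtain ⟨c, hc⟩ := isConj_iff.mp h1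
    obtain ⟨g, rfl⟩ := QuotientGroup.mk_surjective c
    have h2 : ((g * y * g⁻¹ * z⁻¹ : G) : G ⧸ N) = 1 := by
      rw [QuotientGroup.mk_mul, QuotientGroup.mk_mul, QuotientGroup.mk_mul, QuotientGroup.mk_inv,
        QuotientGroup.mk_inv, hc]
      simp
    have h3 : g * y * g⁻¹ * z⁻¹ ∈ N := (QuotientGroup.eq_one_iff _).mp h2
    have h4 := h.coset_conj hz h3
    have h5 : (g * y * g⁻¹ * z⁻¹) * z = g * y * g⁻¹ := by group
    rw [h5] at h4
    have h6 : IsConj y (g * y * g⁻¹) := isConj_iff.mpr ⟨g, rfl⟩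
    exact h6.trans h4.symm

/-- The centralizer of an element outside `N` has the same order as that of its image in `G/N`. -/
theorem card_centralizer_eq (h : TC χ x N) [hNn : N.Normal] {z : G} (hz : z ∉ N) :
    Nat.card (Subgroup.centralizer ({z} : Set G)) =
      Nat.card (Subgroup.centralizer ({(z : G ⧸ N)} : Set (G ⧸ N))) := by
  classical
  haveI : Fintype (IrrCharacter G) := Fintype.ofFinite _
  haveI : Fintype (G ⧸ N) := Fintype.ofFinite _
  haveI : Fintype (IrrCharacter (G ⧸ N)) := Fintype.ofFinite _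
  haveI : Fintype N := Fintype.ofFinite _
  -- class sizes
  have h1 : ((∑ y : G, if IsConj y z then (1 : ℂ) else 0)) =
      (Nat.card N : ℂ) * ∑ q : G ⧸ N, if IsConj q (z : G ⧸ N) then (1 : ℂ) else 0 := by
    rw [← H06.sum_quotient_mk N (fun q => if IsConj q (z : G ⧸ N) then (1 : ℂ) else 0)]
    refine Finset.sum_congr rfl fun y _ => ?_
    by_cases hy : IsConj y z
    · rw [if_pos hy, if_pos ((h.isConj_iff_quotient hz).mp hy)]
    · rw [if_neg hy, if_neg (fun h2 => hy ((h.isConj_iff_quotient hz).mpr h2))]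
  have h2 : ∀ {L : Type u} [Group L] [Fintype L] (w : L),
      (∑ y : L, if IsConj y w then (1 : ℂ) else 0) =
        ((Subgroup.centralizer ({w} : Set L)).index : ℂ) := by
    intro L _ _ w
    haveI : Fintype (IrrCharacter L) := Fintype.ofFinite _
    rw [← card_isConj_eq_index, Nat.card_eq_fintype_card, Fintype.card_subtype,
      Finset.sum_boole]
  have h2a := h2 z
  have h2b := h2 (z : G ⧸ N)
  rw [h2a] at h1
  have h1' : ((Subgroup.centralizer ({z} : Set G)).index : ℂ) = (Nat.card N : ℂ) * ((Subgroup.centralizer ({(z : G ⧸ N)} : Set (G ⧸ N))).index : ℂ) := by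
    rw [h1, ← h2b]
    congr!
  clear h1
  have h1 := h1'
  have h3 : (Subgroup.centralizer ({z} : Set G)).index =
      Nat.card N * (Subgroup.centralizer ({(z : G ⧸ N)} : Set (G ⧸ N))).index := by
    exact_mod_cast h1
  have h4 := Subgroup.index_mul_card (Subgroup.centralizer ({z} : Set G))
  have h5 := Subgroup.index_mul_card (Subgroup.centralizer ({(z : G ⧸ N)} : Set (G ⧸ N)))
  have h6 : Nat.card G = Nat.card N * Nat.card (G ⧸ N) := by
    rw [mul_comm]
    exact N.index_mul_card.symm
  rw [h3, h6, ← h5] at h4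
  have hNpos : 0 < Nat.card N := Nat.card_pos
  have hipos : 0 < (Subgroup.centralizer ({(z : G ⧸ N)} : Set (G ⧸ N))).index :=
    Nat.pos_of_ne_zero Subgroup.index_ne_zero_of_finite
  have h7 := Nat.eq_of_mul_eq_mul_left (Nat.mul_pos hNpos hipos)
    (by simpa only [mul_assoc] using h4 : (Nat.card N * (Subgroup.centralizer ({(z : G ⧸ N)} : Set (G ⧸ N))).index) * Nat.card (Subgroup.centralizer ({z} : Set G)) = (Nat.card N * (Subgroup.centralizer ({(z : G ⧸ N)} : Set (G ⧸ N))).index) * Nat.card (Subgroup.centralizer ({(z : G ⧸ N)} : Set (G ⧸ N))))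
  exact h7

/-- A subgroup centralizing an element outside `N`: `|A| |N|` divides `|G|`. -/
theorem card_mul_dvd (h : TC χ x N) [hNn : N.Normal] {z : G} (hz : z ∉ N) (A : Subgroup G)
    (hA : A ≤ Subgroup.centralizer ({z} : Set G)) : Nat.card A * Nat.card N ∣ Nat.card G := by
  have h1 : Nat.card A ∣ Nat.card (Subgroup.centralizer ({z} : Set G)) :=
    Subgroup.card_dvd_of_le hA
  rw [h.card_centralizer_eq hz] at h1
  have h2 : Nat.card (Subgroup.centralizer ({(z : G ⧸ N)} : Set (G ⧸ N))) ∣ Nat.card (G ⧸ N) :=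
    Subgroup.card_subgroup_dvd_card _
  have h3 := h1.trans h2
  have h6 : Nat.card G = Nat.card (G ⧸ N) * Nat.card N := N.index_mul_card.symm
  rw [h6]
  exact Nat.mul_dvd_mul_right h3 _

section P

variable {p : ℕ} [hp : Fact p.Prime]

theorem card_N_pow (h : TC χ x N) (hNp : IsPGroup p N) : ∃ e : ℕ, 0 < e ∧ Nat.card N = p ^ e := by
  obtain ⟨e, he⟩ := IsPGroup.iff_card.mp hNp
  refine ⟨e, ?_, he⟩
  rcases Nat.eq_zero_or_pos e with rfl | h1
  · have := h.card_N
    rw [this] at he
    have hm := m_pos (x := x)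
    simp at he
    omega
  · exact h1

theorem not_dvd_m (h : TC χ x N) (hNp : IsPGroup p N) : ¬ p ∣ m x := by
  obtain ⟨e, he, hc⟩ := h.card_N_pow hNp
  intro h1
  rw [h.card_N] at hc
  have h2 : p ∣ m x + 1 := by
    rw [hc]
    exact dvd_pow_self p he.ne'
  have h3 := (Nat.dvd_add_right h1).mp h2
  exact hp.out.one_lt.ne' (Nat.dvd_one.mp h3)

/-- `C_G(x)` is a `p`-group. -/
theorem centralizer_isPGroup (h : TC χ x N) (hNp : IsPGroup p N) :
    IsPGroup p (Subgroup.centralizer ({x} : Set G)) := by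
  classical
  obtain ⟨a, ha, hx, -, -, hcard⟩ := h.card_formula
  obtain ⟨e, he, hc⟩ := h.card_N_pow hNp
  have hcard' : Nat.card (Subgroup.centralizer ({x} : Set G)) = a ^ 2 * p ^ e := by
    rw [hcard, ← hc, h.card_N]
  set A := Subgroup.centralizer ({x} : Set G) with hA
  have hprime : ∀ {q : ℕ}, q.Prime → q ∣ Nat.card A → q = p := by
    intro q hq hqd
    by_contra hne
    haveI : Fact q.Prime := ⟨hq⟩
    have hqa : q ∣ a := by
      rw [hcard'] at hqd
      rcases (Nat.Prime.dvd_mul hq).mp hqd with h1 | h1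
      · exact hq.dvd_of_dvd_pow h1
      · exact absurd ((Nat.prime_dvd_prime_iff_eq hq hp.out).mp (hq.dvd_of_dvd_pow h1)) hne
    let S : Sylow q A := default
    let Q : Subgroup G := (S : Subgroup A).map A.subtype
    have hQcard : Nat.card Q = q ^ (Nat.card A).factorization q := by
      have h1 : Nat.card Q = Nat.card (S : Subgroup A) :=
        Nat.card_congr (Subgroup.equivMapOfInjective _ _ A.subtype_injective).symm.toEquiv
      rw [h1]
      exact S.card_eq_multiplicity
    have hQ1 : ∀ t ∈ Q, Commute x t := by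
      rintro t ⟨s, -, rfl⟩
      have := Subgroup.mem_centralizer_iff.mp s.2 x (Set.mem_singleton x)
      exact this
    have hQN : ∀ t ∈ Q, t ∈ N → t = 1 := by
      intro t htQ htN
      have h1 : IsPGroup q Q := IsPGroup.of_card hQcard
      obtain ⟨k, hk⟩ := h1 ⟨t, htQ⟩
      obtain ⟨j, hj⟩ := hNp ⟨t, htN⟩
      have hk' : t ^ (q ^ k) = 1 := congrArg Subtype.val hk
      have hj' : t ^ (p ^ j) = 1 := congrArg Subtype.val hj
      have hcop : Nat.Coprime (q ^ k) (p ^ j) :=
        Nat.Coprime.pow _ _ ((Nat.coprime_primes hq hp.out).mpr hne)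
      have h2 := orderOf_dvd_of_pow_eq_one hk'
      have h3 := orderOf_dvd_of_pow_eq_one hj'
      have h4 : orderOf t ∣ 1 := by
        rw [← hcop.gcd_eq_one]
        exact Nat.dvd_gcd h2 h3
      exact orderOf_eq_one_iff.mp (Nat.dvd_one.mp h4)
    have hdvd := h.card_dvd hx Q hQ1 hQN
    rw [hQcard] at hdvd
    have ha0 : a ≠ 0 := ha.ne'
    have h5 := (hq.pow_dvd_iff_le_factorization ha0).mp hdvd
    have h6 : (Nat.card A).factorization q = 2 * a.factorization q := by
      rw [hcard', Nat.factorization_mul (pow_ne_zero _ ha0) (pow_ne_zero _ hp.out.ne_zero),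
        Nat.factorization_pow, Nat.factorization_pow]
      simp [Nat.Prime.factorization hp.out, Finsupp.single_apply, Ne.symm hne]
    have h7 : 1 ≤ a.factorization q := (hq.dvd_iff_one_le_factorization ha0).mp hqa
    omega
  apply IsPGroup.of_card (n := (Nat.card A).primeFactorsList.length)
  exact Nat.eq_prime_pow_of_unique_prime_dvd Nat.card_pos.ne' hprime

/-- `C_G(x)` is a Sylow subgroup. -/
theorem not_dvd_index (h : TC χ x N) (hNp : IsPGroup p N) :
    ¬ p ∣ (Subgroup.centralizer ({x} : Set G)).index := by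
  rw [← m_eq_index]
  exact h.not_dvd_m hNp

/-- `N` is contained in `C_G(y)` for all `y ∈ N`. -/
theorem le_centralizer (h : TC χ x N) {y : G} (hy : y ∈ N) :
    N ≤ Subgroup.centralizer ({y} : Set G) := by
  intro n hn
  rw [Subgroup.mem_centralizer_iff]
  rintro _ rfl
  exact h.comm hy hn

end P

end TC

end Cfsg.Agent.H23
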