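import Cfsg.Agent.Lib.H23.TwoClass3
import Cfsg.Agent.Lib.H21.CharLinear

/-!
# Two-class characters: inertia groups
-/

set_option autoImplicit false
set_option linter.unusedSectionVars false
set_option linter.style.haveILetI false
set_option linter.unusedSimpArgs false

namespace Cfsg.Agent.H23

open Cfsg Cfsg.Agent.H21 Module
open scoped ComplexConjugate

universe u

variable {G : Type u} [Group G] [Fintype G]

namespace TC

open TwoClass

variable {χ : G → ℂ} {x : G} {N : Subgroup G}

/-- The inertia group of a function on a normal subgroup. -/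
def inertia (N : Subgroup G) [hNn : N.Normal] (μ : N → ℂ) : Subgroup G where
  carrier := {g | H06.twist N μ g = μ}
  mul_mem' := by
    intro a b ha hb
    simp only [Set.mem_ofPred_eq] at ha hb ⊢
    rw [H06.twist_mul, ha, hb]
  one_mem' := H06.twist_one N μ
  inv_mem' := by
    intro a ha
    simp only [Set.mem_ofPred_eq] at ha ⊢
    have h1 := H06.twist_mul N μ a a⁻¹
    rw [ha, mul_inv_cancel, H06.twist_one] at h1
    exact h1.symm

theorem mem_inertia {N : Subgroup G} [hNn : N.Normal] {μ : N → ℂ} {g : G} :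
    g ∈ inertia N μ ↔ H06.twist N μ g = μ := Iff.rfl

theorem card_inertia (h : TC χ x N) [hNn : N.Normal] {μ : N → ℂ} (hμ : IsIrrCharacter N μ)
    (hne : μ ≠ fun _ => 1) :
    Nat.card (inertia N μ) = Nat.card (Subgroup.centralizer ({x} : Set G)) := by
  classical
  haveI : Fintype N := Fintype.ofFinite _
  have hcomm : ∀ a b : N, a * b = b * a := fun a b => Subtype.ext (h.comm a.2 b.2)
  have hdeg : charDegree μ = 1 := irr_degree_one_of_comm hcomm hμ
  have hμc := isCharacter_of_irr hμ
  have hμ1 : μ 1 = 1 := linear_one hμc hdeg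
  -- sums over N vanish
  have hsum0 : ∑ n : N, μ n = 0 := by
    have h1 := H06.classInner_irr_ne hμ isIrrCharacter_one hne
    unfold classInner at h1
    simp only [map_one, mul_one] at h1
    have hc : (Nat.card N : ℂ) ≠ 0 := by exact_mod_cast Nat.card_pos.ne'
    exact (mul_eq_zero.mp h1).resolve_left (inv_ne_zero hc)
  have hsum0' : ∑ n : N, conj (μ n) = 0 := by
    rw [← map_sum, hsum0, map_zero]
  let E : N → ℂ := fun n => ∑ g : G, μ ⟨g * n * g⁻¹, hNn.conj_mem n n.2 g⟩
  have hE1 : E 1 = (Nat.card G : ℂ) := by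
    simp only [E]
    have h1 : ∀ g : G, μ ⟨g * ((1 : N) : G) * g⁻¹, hNn.conj_mem _ (1 : N).2 g⟩ = 1 := by
      intro g
      have : (⟨g * ((1 : N) : G) * g⁻¹, hNn.conj_mem _ (1 : N).2 g⟩ : N) = 1 :=
        Subtype.ext (by simp)
      rw [this, hμ1]
    simp only [h1, Finset.sum_const, Finset.card_univ, nsmul_eq_mul, mul_one,
      Nat.card_eq_fintype_card]
  let X : N := ⟨x, h.x_mem⟩
  have hEconst : ∀ n : N, n ≠ 1 → E n = E X := by
    intro n hn
    have hn' : (n : G) ≠ 1 := fun h1 => hn (Subtype.ext h1)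
    obtain ⟨c, hc⟩ := isConj_iff.mp (h.conj_of_mem n.2 hn')
    simp only [E]
    refine Fintype.sum_equiv (Equiv.mulRight c) _ _ fun g => ?_
    congr 1
    apply Subtype.ext
    simp only [Equiv.coe_mulRight, X]
    rw [← hc]
    group
  have hEsum : ∑ n : N, E n = 0 := by
    simp only [E]
    rw [Finset.sum_comm]
    refine Finset.sum_eq_zero fun g _ => ?_
    have : ∑ n : N, μ ⟨g * n * g⁻¹, hNn.conj_mem n n.2 g⟩ = ∑ n : N, μ n := by
      refine Fintype.sum_equiv (MulAut.conjNormal g : MulAut N).toEquiv _ _ fun n => ?_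
      rfl
    rw [this, hsum0]
  have hcardN : (Finset.univ.erase (1 : N)).card = m x := by
    rw [Finset.card_erase_of_mem (Finset.mem_univ _), Finset.card_univ,
      ← Nat.card_eq_fintype_card, h.card_N]
    simp
  have hsplit1 : (Nat.card G : ℂ) + (m x : ℂ) * E X = 0 := by
    rw [← Finset.add_sum_erase Finset.univ E (Finset.mem_univ (1 : N))] at hEsum
    rw [hE1] at hEsum
    rw [Finset.sum_congr rfl (fun n hn => hEconst n (Finset.ne_of_mem_erase hn))] at hEsum
    rw [Finset.sum_const, hcardN, nsmul_eq_mul] at hEsum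
    exact hEsum
  have hsplit2 : ∑ n : N, E n * conj (μ n) = (Nat.card G : ℂ) - E X := by
    rw [← Finset.add_sum_erase Finset.univ _ (Finset.mem_univ (1 : N)), hE1, hμ1, map_one, mul_one]
    rw [Finset.sum_congr rfl (fun n hn => by rw [hEconst n (Finset.ne_of_mem_erase hn)])]
    rw [← Finset.mul_sum]
    have h1 : ∑ n ∈ Finset.univ.erase (1 : N), conj (μ n) = -1 := by
      have := Finset.add_sum_erase Finset.univ (fun n => conj (μ n)) (Finset.mem_univ (1 : N))
      simp only [hμ1, map_one] at this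
      rw [hsum0'] at this
      linear_combination this
    rw [h1]
    ring
  -- the count
  have hcount : (Nat.card (inertia N μ) : ℂ) = ∑ g : G, classInner (H06.twist N μ g) μ := by
    simp only [H06.classInner_irr_fun (H06.isIrrCharacter_twist N hμ _) hμ]
    rw [Finset.sum_boole]
    congr 1
    rw [Nat.card_eq_fintype_card, Fintype.card_subtype]
    congr 1
    ext g
    simp [mem_inertia]
  have hinner : ∑ g : G, classInner (H06.twist N μ g) μ =
      (Nat.card N : ℂ)⁻¹ * ∑ n : N, E n * conj (μ n) := by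
    simp only [classInner, H06.twist_def, E, Finset.sum_mul]
    rw [← Finset.mul_sum, Finset.sum_comm]
  have hcN : (Nat.card N : ℂ) = (m x : ℂ) + 1 := by
    rw [h.card_N]; push_cast; rfl
  have hmC : (m x : ℂ) ≠ 0 := by exact_mod_cast (m_pos (x := x)).ne'
  have hN0 : (Nat.card N : ℂ) ≠ 0 := by exact_mod_cast Nat.card_pos.ne'
  have hGc : (Nat.card G : ℂ) = (m x : ℂ) * (Nat.card (Subgroup.centralizer ({x} : Set G)) : ℂ) := by
    have := Subgroup.index_mul_card (Subgroup.centralizer ({x} : Set G))
    rw [← m_eq_index] at this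
    exact_mod_cast this.symm
  have hEX : E X = -(Nat.card (Subgroup.centralizer ({x} : Set G)) : ℂ) := by
    rw [hGc] at hsplit1
    have : (m x : ℂ) * ((Nat.card (Subgroup.centralizer ({x} : Set G)) : ℂ) + E X) = 0 := by
      linear_combination hsplit1
    have h2 := (mul_eq_zero.mp this).resolve_left hmC
    linear_combination h2
  have hfinal : (Nat.card (inertia N μ) : ℂ) = (Nat.card (Subgroup.centralizer ({x} : Set G)) : ℂ) := by
    rw [hcount, hinner, hsplit2, hEX, hGc]
    rw [inv_mul_eq_iff_eq_mul₀ hN0, hcN]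
    ring
  exact_mod_cast hfinal

section P

variable {p : ℕ} [hp : Fact p.Prime]

theorem inertia_isPGroup (h : TC χ x N) [hNn : N.Normal] (hNp : IsPGroup p N) {μ : N → ℂ}
    (hμ : IsIrrCharacter N μ) (hne : μ ≠ fun _ => 1) : IsPGroup p (inertia N μ) := by
  obtain ⟨k, hk⟩ := IsPGroup.iff_card.mp (h.centralizer_isPGroup hNp)
  apply IsPGroup.of_card (n := k)
  rw [h.card_inertia hμ hne, hk]

theorem inertia_not_dvd_index (h : TC χ x N) [hNn : N.Normal] (hNp : IsPGroup p N) {μ : N → ℂ}
    (hμ : IsIrrCharacter N μ) (hne : μ ≠ fun _ => 1) : ¬ p ∣ (inertia N μ).index := by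
  have h1 := Subgroup.index_mul_card (inertia N μ)
  have h2 := Subgroup.index_mul_card (Subgroup.centralizer ({x} : Set G))
  rw [h.card_inertia hμ hne, ← h2] at h1
  have h3 := Nat.eq_of_mul_eq_mul_right Nat.card_pos h1
  rw [h3]
  exact h.not_dvd_index hNp

end P

end TC

end Cfsg.Agent.H23
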