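import Cfsg.Agent.Lib.H23.TwoClass4
import Cfsg.Agent.Lib.H01.Fitting

/-!
# Two-class characters: Sylow subgroups
-/

set_option autoImplicit false
set_option linter.unusedSectionVars false
set_option linter.style.haveILetI false
set_option linter.unusedSimpArgs false

namespace Cfsg.Agent.H23

open Cfsg Cfsg.Agent.H21 Module
open scoped ComplexConjugate commutatorElement

universe u

variable {G : Type u} [Group G] [Fintype G]

namespace TC

open TwoClass

variable {χ : G → ℂ} {x : G} {N : Subgroup G} {p : ℕ} [hp : Fact p.Prime]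

theorem le_sylow (h : TC χ x N) [hNn : N.Normal] (hNp : IsPGroup p N) (P : Sylow p G) :
    N ≤ (P : Subgroup G) :=
  (Cfsg.Agent.H01.le_pCore hNn hNp).trans (Cfsg.Agent.H01.pCore_le_sylow p P)

/-- An element centralized by a Sylow subgroup lies in `N`. -/
theorem mem_of_sylow_le (h : TC χ x N) [hNn : N.Normal] (hNp : IsPGroup p N) (P : Sylow p G) {z : G}
    (hz : (P : Subgroup G) ≤ Subgroup.centralizer ({z} : Set G)) : z ∈ N := by
  by_contra hzN
  have h1 := h.card_mul_dvd hzN _ hz
  obtain ⟨e, he, hc⟩ := h.card_N_pow hNp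
  rw [hc, P.card_eq_multiplicity, ← pow_add] at h1
  have h2 := (hp.out.pow_dvd_iff_le_factorization Nat.card_pos.ne').mp h1
  omega

/-- For `y ∈ N#`, `C_G(y)` is the Sylow subgroup containing a Sylow subgroup it contains. -/
theorem sylow_eq_centralizer (h : TC χ x N) (hNp : IsPGroup p N) (P : Sylow p G) {y : G}
    (hy : y ∈ N) (hy1 : y ≠ 1)
    (hle : (P : Subgroup G) ≤ Subgroup.centralizer ({y} : Set G)) :
    (P : Subgroup G) = Subgroup.centralizer ({y} : Set G) := by
  have h' := h.of_mem hy hy1
  exact (P.is_maximal' (h'.centralizer_isPGroup hNp) hle).symm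

/-- `Z(P) = N` iff `P` is normal. -/
theorem center_eq_iff (h : TC χ x N) [hNn : N.Normal] (hNp : IsPGroup p N) (P : Sylow p G) :
    (Subgroup.center ↥(P : Subgroup G)).map (P : Subgroup G).subtype = N ↔
      (P : Subgroup G).Normal := by
  have hNP := h.le_sylow hNp P
  constructor
  · intro heq
    have hall : ∀ y ∈ N, y ≠ 1 → (P : Subgroup G) = Subgroup.centralizer ({y} : Set G) := by
      intro y hy hy1
      apply h.sylow_eq_centralizer hNp P hy hy1
      intro u hu
      rw [← heq] at hy
      obtain ⟨z, hz, rfl⟩ := hy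
      rw [Subgroup.mem_centralizer_singleton_iff]
      have := (Subgroup.mem_center_iff.mp hz ⟨u, hu⟩)
      exact congrArg Subtype.val this
    constructor
    intro u hu g
    have hx1 := hall x h.x_mem h.ne_one
    have hy : g⁻¹ * x * g ∈ N := by
      have := hNn.conj_mem x h.x_mem g⁻¹
      simpa using this
    have hy1 : g⁻¹ * x * g ≠ 1 := by
      intro h1
      apply h.ne_one
      have : x = g * (g⁻¹ * x * g) * g⁻¹ := by group
      rw [this, h1]; group
    have h2 := hall _ hy hy1
    rw [h2] at hu
    rw [hx1, Subgroup.mem_centralizer_singleton_iff]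
    have h3 := Subgroup.mem_centralizer_singleton_iff.mp hu
    calc (g * u * g⁻¹) * x = g * (u * (g⁻¹ * x * g)) * g⁻¹ := by group
      _ = g * ((g⁻¹ * x * g) * u) * g⁻¹ := by rw [h3]
      _ = x * (g * u * g⁻¹) := by group
  · intro hnorm
    apply le_antisymm
    · rintro _ ⟨z, hz, rfl⟩
      apply h.mem_of_sylow_le hNp P
      intro u hu
      rw [Subgroup.mem_centralizer_singleton_iff]
      have := (Subgroup.mem_center_iff.mp hz ⟨u, hu⟩)
      exact congrArg Subtype.val this
    · intro y hy
      by_cases hy1 : y = 1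
      · rw [hy1]; exact Subgroup.one_mem _
      · have h' := h.of_mem hy hy1
        let Q : Sylow p G := (h'.centralizer_isPGroup hNp).toSylow (h'.not_dvd_index hNp)
        have hQ : (Q : Subgroup G) = Subgroup.centralizer ({y} : Set G) := IsPGroup.toSylow_coe _ _
        haveI : P.Normal := hnorm
        have hPQ : (P : Subgroup G) = Q := by
          have := Sylow.unique_of_normal P hnorm
          rw [Subsingleton.elim P Q]
        refine ⟨⟨y, hNP hy⟩, SetLike.mem_coe.mpr (Subgroup.mem_center_iff.mpr ?_), rfl⟩
        rintro ⟨u, hu⟩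
        apply Subtype.ext
        rw [hPQ, hQ] at hu
        exact Subgroup.mem_centralizer_singleton_iff.mp hu

/-- `N` is a term of the upper central series of `P`. -/
theorem exists_upper (h : TC χ x N) [hNn : N.Normal] (hNp : IsPGroup p N) (P : Sylow p G) :
    ∃ i : ℕ, Subgroup.upperCentralSeries ↥(P : Subgroup G) i = N.subgroupOf (P : Subgroup G) := by
  classical
  haveI : Fintype (P : Subgroup G) := Fintype.ofFinite _
  haveI : Fintype (IrrCharacter (P : Subgroup G)) := Fintype.ofFinite _
  have hNP := h.le_sylow hNp P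
  set N₀ := N.subgroupOf (P : Subgroup G) with hN₀
  have hPnil : Group.IsNilpotent ↥(P : Subgroup G) := P.2.isNilpotent
  obtain ⟨c, hc⟩ := Group.IsNilpotent.nilpotent' (G := ↥(P : Subgroup G))
  by_cases hall : ∀ i, Subgroup.upperCentralSeries ↥(P : Subgroup G) i ≤ N₀
  · refine ⟨c, ?_⟩
    apply le_antisymm (hall c)
    rw [hc]
    exact le_top
  · push Not at hall
    have hex : ∃ i, ¬ Subgroup.upperCentralSeries ↥(P : Subgroup G) i ≤ N₀ := hall
    let i₁ := Nat.find hex
    have hi₁ : ¬ Subgroup.upperCentralSeries ↥(P : Subgroup G) i₁ ≤ N₀ := Nat.find_spec hex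
    have hi₁0 : i₁ ≠ 0 := by
      intro h0
      apply hi₁
      rw [h0, Subgroup.upperCentralSeries_zero]
      exact bot_le
    obtain ⟨i, hi⟩ : ∃ i, i₁ = i + 1 := ⟨i₁ - 1, by omega⟩
    have hile : Subgroup.upperCentralSeries ↥(P : Subgroup G) i ≤ N₀ := by
      have := Nat.find_min hex (m := i) (by omega)
      exact not_not.mp this
    rw [hi] at hi₁
    obtain ⟨z, hz, hzN⟩ := SetLike.not_le_iff_exists.mp hi₁
    have hzG : (z : G) ∉ N := fun h1 => hzN (Subgroup.mem_subgroupOf.mpr h1)
    refine ⟨i, ?_⟩
    -- class of z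
    have hclass : Nat.card {w : (P : Subgroup G) // IsConj w z} ≤
        Nat.card (Subgroup.upperCentralSeries ↥(P : Subgroup G) i) := by
      let f : {w : (P : Subgroup G) // IsConj w z} → Subgroup.upperCentralSeries ↥(P : Subgroup G) i :=
        fun w => ⟨w.1 * z⁻¹, by
          obtain ⟨g, hg⟩ := isConj_iff.mp w.2.symm
          have h1 := Subgroup.mem_upperCentralSeries_succ_iff.mp hz g
          have h2 := Subgroup.inv_mem _ h1
          have h3 : w.1 * z⁻¹ = ⁅z, g⁆⁻¹ := by
            rw [← hg, commutatorElement_def]; group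
          rw [h3]
          exact h2⟩
      apply Nat.card_le_card_of_injective f
      intro a b hab
      apply Subtype.ext
      have := congrArg Subtype.val hab
      simpa [f] using this
    rw [card_isConj_eq_index] at hclass
    -- the centralizer of z in P
    set C := Subgroup.centralizer ({z} : Set (P : Subgroup G)) with hC
    let A : Subgroup G := C.map (P : Subgroup G).subtype
    have hAcard : Nat.card A = Nat.card C :=
      Nat.card_congr (Subgroup.equivMapOfInjective _ _ (P : Subgroup G).subtype_injective).symm.toEquiv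
    have hA : A ≤ Subgroup.centralizer ({(z : G)} : Set G) := by
      rintro _ ⟨w, hw, rfl⟩
      rw [Subgroup.mem_centralizer_singleton_iff]
      have := Subgroup.mem_centralizer_singleton_iff.mp hw
      exact congrArg Subtype.val this
    have hdvd := h.card_mul_dvd hzG A hA
    have hCp : IsPGroup p C := P.2.to_subgroup C
    obtain ⟨j, hj⟩ := IsPGroup.iff_card.mp hCp
    obtain ⟨e, he, hce⟩ := h.card_N_pow hNp
    rw [hAcard, hj, hce, ← pow_add] at hdvd
    have hdvd2 := P.pow_dvd_card_of_pow_dvd_card hdvd
    -- sizes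
    have h1 : C.index * Nat.card C = Nat.card (P : Subgroup G) := C.index_mul_card
    have h2 : p ^ e ≤ C.index := by
      rw [hj] at h1
      rw [← h1, pow_add, mul_comm] at hdvd2
      exact Nat.le_of_dvd (Nat.pos_of_ne_zero Subgroup.index_ne_zero_of_finite)
        (Nat.dvd_of_mul_dvd_mul_right (pow_pos hp.out.pos j) hdvd2)
    have hN₀card : Nat.card N₀ = p ^ e := by
      rw [← hce, hN₀]
      exact Nat.card_congr (Subgroup.subgroupOfEquivOfLe hNP).toEquiv
    apply Subgroup.eq_of_le_of_card_ge hile
    rw [hN₀card]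
    exact h2.trans hclass

end TC

end Cfsg.Agent.H23
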