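import Cfsg.Agent.Lib.H23.TwoClass5
import Cfsg.Agent.Lib.H01.Solv2
import Cfsg.Agent.Lib.H01.Frob
import Cfsg.Agent.Lib.H15.BaerSuzuki
import Cfsg.Agent.Lib.H18.Prod
import Cfsg.Agent.Lib.H19.Basic
import Mathlib.GroupTheory.SchurZassenhaus

/-!
# Two-class characters: `N = O_p(G)` forces a doubly transitive Frobenius group
-/

set_option autoImplicit false
set_option linter.unusedSectionVars false
set_option linter.style.haveILetI false
set_option linter.unusedSimpArgs false

namespace Cfsg.Agent.H23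

open Cfsg Cfsg.Agent.H21 Module
open scoped ComplexConjugate commutatorElement

universe u

variable {G : Type u} [Group G] [Fintype G]

namespace TC

open TwoClass

variable {χ : G → ℂ} {x : G} {N : Subgroup G} {p : ℕ} [hp : Fact p.Prime]

/-- `C_G(N) ≤ N` when `N = O_p(G)`. -/
theorem centralizer_le (h : TC χ x N) [hNn : N.Normal] (hNp : IsPGroup p N)
    (hcore : N = pCore p G) : Subgroup.centralizer (N : Set G) ≤ N := by
  have hpg : IsPGroup p (Subgroup.centralizer (N : Set G)) := by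
    apply (h.centralizer_isPGroup hNp).to_le
    apply Subgroup.centralizer_le
    simpa using h.x_mem
  rw [hcore] at hNn hpg ⊢
  exact H01.le_pCore (H01.centralizer_normal hNn) hpg

theorem mem_of_comm_all (h : TC χ x N) [hNn : N.Normal] (hNp : IsPGroup p N)
    (hcore : N = pCore p G) {y : G} (hy : ∀ n ∈ N, y * n = n * y) : y ∈ N := by
  apply h.centralizer_le hNp hcore
  rw [Subgroup.mem_centralizer_iff]
  intro n hn
  exact (hy n hn).symm

/-- The fixed points of an element `y` with `y² ∈ N` on `N`, when `p = 2`. -/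
theorem card_fixed_sq (h : TC χ x N) [hNn : N.Normal] (hp2 : p = 2) (hNp : IsPGroup p N)
    (hcore : N = pCore p G) {y : G} (hy : y ^ 2 ∈ N) :
    Nat.card N < Nat.card ↥(N ⊓ Subgroup.centralizer ({y} : Set G)) ^ 2 := by
  classical
  subst hp2
  have hord : orderOf x = 2 := by
    obtain ⟨q, hq, hqx⟩ := h.exists_prime
    obtain ⟨k, hk⟩ := IsPGroup.iff_orderOf.mp hNp ⟨x, h.x_mem⟩
    have h2 : orderOf x = 2 ^ k := by
      rw [← hk]
      exact (Subgroup.orderOf_mk x h.x_mem).symm
    rw [hqx] at h2 ⊢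
    have h3 : q ∣ 2 ^ k := by rw [h2]
    exact (Nat.prime_dvd_prime_iff_eq hq Nat.prime_two).mp (hq.dvd_of_dvd_pow h3)
  have hsq : ∀ n ∈ N, n * n = 1 := by
    intro n hn
    have := h.pow_eq_one hord hn
    rwa [pow_two] at this
  have hN2 : 2 ≤ Nat.card N := by
    rw [h.card_N]
    have := m_pos (x := x)
    omega
  by_cases hyN : y ∈ N
  · have h1 : N ⊓ Subgroup.centralizer ({y} : Set G) = N := by
      apply inf_eq_left.mpr
      exact h.le_centralizer hyN
    rw [h1]
    nlinarith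
  -- the norm map
  have hconj : ∀ n ∈ N, y⁻¹ * n * y ∈ N := by
    intro n hn
    have := hNn.conj_mem n hn y⁻¹
    simpa using this
  let T : N →* N := MonoidHom.mk' (fun n => ⟨y⁻¹ * n * y * n, N.mul_mem (hconj n n.2) n.2⟩) (by
    intro a b
    apply Subtype.ext
    simp only [Subgroup.coe_mul]
    have h1 : y⁻¹ * (a * b) * y = (y⁻¹ * a * y) * (y⁻¹ * b * y) := by group
    rw [h1]
    have h2 := h.comm (hconj b b.2) a.2
    calc (y⁻¹ * a * y) * (y⁻¹ * b * y) * (a * b)
        = (y⁻¹ * a * y) * ((y⁻¹ * b * y) * a) * b := by group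
      _ = (y⁻¹ * a * y) * (a * (y⁻¹ * b * y)) * b := by rw [h2]
      _ = _ := by group)
  have hT : ∀ n : N, ((T n : N) : G) = y⁻¹ * n * y * n := fun n => rfl
  have hcomm2 : ∀ n ∈ N, y ^ 2 * n = n * y ^ 2 := fun n hn => h.comm hy hn
  -- squares in the coset
  have hsqr : ∀ n : N, (y * n) ^ 2 = y ^ 2 * (T n : N) := by
    intro n
    rw [hT, pow_two, pow_two]
    group
  have hcoset : ∀ n : N, IsConj y (y * n) := by
    intro n
    have := h.coset_conj hyN (hNn.conj_mem n n.2 y)
    have h2 : y * n * y⁻¹ * y = y * n := by group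
    rwa [h2] at this
  have hker_iff : ∀ n : N, n ∈ T.ker ↔ y * n = n * y := by
    intro n
    rw [MonoidHom.mem_ker]
    constructor
    · intro h1
      have h2 : y⁻¹ * n * y * n = 1 := by
        have := congrArg Subtype.val h1
        simpa [hT] using this
      have h3 : y⁻¹ * n * y = n := by
        have h4 := hsq n n.2
        calc y⁻¹ * n * y = (y⁻¹ * n * y * n) * n := by
              rw [mul_assoc (y⁻¹ * n * y), h4, mul_one]
          _ = n := by rw [h2, one_mul]
      calc y * n = y * (y⁻¹ * n * y) := by rw [h3]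
        _ = n * y := by group
    · intro h1
      apply Subtype.ext
      rw [hT]
      have h3 : y⁻¹ * n * y = n := by
        rw [mul_assoc, ← h1]
        group
      rw [h3]
      exact hsq n n.2
  have hmapker : (T.ker).map N.subtype = N ⊓ Subgroup.centralizer ({y} : Set G) := by
    ext g
    constructor
    · rintro ⟨n, hn, rfl⟩
      exact Subgroup.mem_inf.mpr ⟨n.2, Subgroup.mem_centralizer_singleton_iff.mpr ((hker_iff n).mp hn).symm⟩
    · intro hg'
      obtain ⟨hg, hg2⟩ := Subgroup.mem_inf.mp hg'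
      exact ⟨⟨g, hg⟩, (hker_iff _).mpr (Subgroup.mem_centralizer_singleton_iff.mp hg2).symm, rfl⟩
  have hcardker : Nat.card ↥(N ⊓ Subgroup.centralizer ({y} : Set G)) = Nat.card T.ker := by
    rw [← hmapker]
    exact Nat.card_congr (Subgroup.equivMapOfInjective _ _ N.subtype_injective).symm.toEquiv
  -- range is strictly inside the kernel
  have hrk : T.range ≤ T.ker := by
    rintro _ ⟨n, rfl⟩
    rw [MonoidHom.mem_ker]
    apply Subtype.ext
    rw [hT, hT]
    set b : G := y⁻¹ * n * y with hb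
    have hbN : b ∈ N := hconj n n.2
    have h1 : y⁻¹ * b * y = n := by
      have h4 : y⁻¹ * b * y = (y ^ 2)⁻¹ * (n * y ^ 2) := by
        rw [hb, pow_two]; group
      rw [h4, ← hcomm2 n n.2]
      group
    have h3 : y⁻¹ * (b * n) * y = n * b := by
      have : y⁻¹ * (b * n) * y = (y⁻¹ * b * y) * (y⁻¹ * n * y) := by group
      rw [this, h1]
    rw [h3]
    calc (n : G) * b * (b * n) = n * (b * b) * n := by group
      _ = 1 := by rw [hsq b hbN, mul_one, hsq n n.2]
  let w : N := ⟨y ^ 2, hy⟩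
  have hwker : w ∈ T.ker := by
    rw [hker_iff]
    show y * y ^ 2 = y ^ 2 * y
    group
  have hwrange : w ∉ T.range := by
    rintro ⟨n₀, hn₀⟩
    have h1 : (y * n₀) ^ 2 = 1 := by
      rw [hsqr, hn₀]
      exact hsq _ hy
    have h2 : IsConj (y ^ 2) 1 := by
      have := (hcoset n₀).pow 2
      rwa [h1] at this
    have h3 : y ^ 2 = 1 := isConj_one_right.mp h2.symm
    have h4 : ∀ n : N, (T n : N) = 1 := by
      intro n
      have h5 := (hcoset n).pow 2
      rw [hsqr, h3, one_mul] at h5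
      have h6 := isConj_one_right.mp h5
      exact Subtype.ext h6
    apply hyN
    apply h.mem_of_comm_all hNp hcore
    intro n hn
    exact (hker_iff ⟨n, hn⟩).mp (by
      rw [MonoidHom.mem_ker]
      exact h4 ⟨n, hn⟩)
  have hlt : Nat.card T.range < Nat.card T.ker := by
    by_contra hle
    have heq := Subgroup.eq_of_le_of_card_ge hrk (not_lt.mp hle)
    rw [heq] at hwrange
    exact hwrange hwker
  have hprod : Nat.card T.ker * Nat.card T.range = Nat.card N := by
    have h1 := T.ker.card_mul_index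
    rw [Subgroup.index_ker] at h1
    exact h1
  rw [hcardker, ← hprod, pow_two]
  exact Nat.mul_lt_mul_of_pos_left hlt Nat.card_pos

/-- Two elements with square in `N` have a common nontrivial fixed point on `N`, when `p = 2`. -/
theorem exists_common_fixed (h : TC χ x N) [hNn : N.Normal] (hp2 : p = 2) (hNp : IsPGroup p N)
    (hcore : N = pCore p G) {y₁ y₂ : G} (hy₁ : y₁ ^ 2 ∈ N) (hy₂ : y₂ ^ 2 ∈ N) :
    ∃ v ∈ N, v ≠ 1 ∧ Commute v y₁ ∧ Commute v y₂ := by
  classical
  set C₁ := N ⊓ Subgroup.centralizer ({y₁} : Set G) with hC₁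
  set C₂ := N ⊓ Subgroup.centralizer ({y₂} : Set G) with hC₂
  have h1 := h.card_fixed_sq hp2 hNp hcore hy₁
  have h2 := h.card_fixed_sq hp2 hNp hcore hy₂
  have h3 := H18.card_mul_card_le (A := C₁) (B := C₂) (L := N) inf_le_left inf_le_left
  by_cases hbot : C₁ ⊓ C₂ = ⊥
  · exfalso
    rw [hbot] at h3
    simp only [Subgroup.card_bot, mul_one] at h3
    have h4 : Nat.card N ^ 2 < (Nat.card C₁ * Nat.card C₂) ^ 2 := by
      rw [mul_pow]
      have hNpos : 0 < Nat.card N := Nat.card_pos
      calc Nat.card N ^ 2 = Nat.card N * Nat.card N := pow_two _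
        _ < Nat.card C₁ ^ 2 * Nat.card C₂ ^ 2 := Nat.mul_lt_mul'' h1 h2
    have h5 := lt_of_pow_lt_pow_left₀ 2 (Nat.zero_le _) h4
    omega
  · obtain ⟨v, hv, hv1⟩ := (C₁ ⊓ C₂).bot_or_exists_ne_one.resolve_left hbot
    refine ⟨v, hv.1.1, hv1, ?_, ?_⟩
    · exact Subgroup.mem_centralizer_singleton_iff.mp hv.1.2
    · exact Subgroup.mem_centralizer_singleton_iff.mp hv.2.2

/-- For `p = 2`: `G/N` has no involution when `N = O_2(G)`. -/
theorem mem_of_sq_mem (h : TC χ x N) [hNn : N.Normal] (hp2 : p = 2) (hNp : IsPGroup p N)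
    (hcore : N = pCore p G) {y : G} (hy : y ^ 2 ∈ N) : y ∈ N := by
  classical
  let Sg : Set (Subgroup G) := {X | ∃ y : G, y ^ 2 ∈ N ∧ X = N ⊔ Subgroup.zpowers y}
  have hpair : ∀ y₁ y₂ : G, y₁ ^ 2 ∈ N → y₂ ^ 2 ∈ N →
      IsPGroup p ↥((N ⊔ Subgroup.zpowers y₁) ⊔ (N ⊔ Subgroup.zpowers y₂)) := by
    intro y₁ y₂ h₁ h₂
    obtain ⟨v, hv, hv1, hc₁, hc₂⟩ := h.exists_common_fixed hp2 hNp hcore h₁ h₂
    have h' := h.of_mem hv hv1
    apply (h'.centralizer_isPGroup hNp).to_le
    have hN := h.le_centralizer hv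
    refine sup_le (sup_le hN ?_) (sup_le hN ?_)
    · rw [Subgroup.zpowers_le, Subgroup.mem_centralizer_singleton_iff]
      exact hc₁.symm
    · rw [Subgroup.zpowers_le, Subgroup.mem_centralizer_singleton_iff]
      exact hc₂.symm
  have hF : H15.PFam p Sg := by
    constructor
    · rintro _ ⟨y₁, h₁, rfl⟩
      have := hpair y₁ y₁ h₁ h₁
      rwa [sup_idem] at this
    · rintro _ ⟨y₁, h₁, rfl⟩ g
      refine ⟨g * y₁ * g⁻¹, ?_, ?_⟩
      · have h2 := hNn.conj_mem _ h₁ g
        have h3 : (g * y₁ * g⁻¹) ^ 2 = g * y₁ ^ 2 * g⁻¹ := by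
          rw [pow_two, pow_two]; group
        rwa [h3]
      · rw [Subgroup.map_sup]
        congr 1
        · ext z
          constructor
          · rintro ⟨n, hn, rfl⟩
            exact hNn.conj_mem n hn g
          · intro hz
            refine ⟨g⁻¹ * z * g, ?_, ?_⟩
            · have := hNn.conj_mem z hz g⁻¹
              simpa using this
            · simp [mul_assoc]
        · rw [MonoidHom.map_zpowers]
          rfl
    · rintro _ ⟨y₁, h₁, rfl⟩ _ ⟨y₂, h₂, rfl⟩
      exact hpair y₁ y₂ h₁ h₂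
  have hS := H15.isPGroup_sSup_of_pFam _ G Sg rfl hF
  have hnorm : (sSup Sg).Normal := by
    constructor
    intro n hn g
    have hle : sSup Sg ≤ (sSup Sg).comap (MulAut.conj g).toMonoidHom := by
      refine sSup_le ?_
      intro Y hY
      rw [← Subgroup.map_le_iff_le_comap]
      exact le_sSup (hF.conj Y hY g)
    exact hle hn
  have hle : sSup Sg ≤ N := by
    rw [hcore]
    exact H01.le_pCore hnorm hS
  apply hle
  apply (le_sSup (⟨y, hy, rfl⟩ : N ⊔ Subgroup.zpowers y ∈ Sg) : _ ≤ sSup Sg)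
  exact Subgroup.mem_sup_right (Subgroup.mem_zpowers y)

/-- For `p = 2`: `C_G(x) = N`. -/
theorem centralizer_eq_of_two (h : TC χ x N) [hNn : N.Normal] (hp2 : p = 2) (hNp : IsPGroup p N)
    (hcore : N = pCore p G) : Subgroup.centralizer ({x} : Set G) = N := by
  classical
  apply le_antisymm _ (h.le_centralizer h.x_mem)
  intro u hu
  have hPG := h.centralizer_isPGroup hNp
  subst hp2
  have hex : ∃ k : ℕ, u ^ (2 ^ k) ∈ N := by
    obtain ⟨k, hk⟩ := hPG ⟨u, hu⟩
    refine ⟨k, ?_⟩
    have := congrArg Subtype.val hk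
    simp only [Subgroup.coe_pow, Subgroup.coe_one] at this
    rw [this]
    exact N.one_mem
  have hmin := fun (m : ℕ) (hm : m < Nat.find hex) => Nat.find_min hex hm
  have hspec := Nat.find_spec hex
  by_cases h0 : Nat.find hex = 0
  · rw [h0] at hspec
    simpa using hspec
  · exfalso
    obtain ⟨j, hj⟩ : ∃ j, Nat.find hex = j + 1 := ⟨Nat.find hex - 1, by omega⟩
    have h1 : ¬ u ^ (2 ^ j) ∈ N := hmin j (by omega)
    apply h1
    apply h.mem_of_sq_mem rfl hNp hcore
    rw [hj] at hspec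
    rw [← pow_mul, ← pow_succ]
    exact hspec

end TC

end Cfsg.Agent.H23
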