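import Cfsg.Agent.Lib.H23.TwoClass6

/-!
# Two-class characters: `N = O_p(G)`, odd `p`, and the Frobenius conclusion
-/

set_option autoImplicit false
set_option linter.unusedSectionVars false
set_option linter.style.haveILetI false
set_option linter.unusedSimpArgs false

namespace Cfsg.Agent.H23

open Cfsg Cfsg.Agent.H21 Module
open scoped ComplexConjugate commutatorElement

universe u

variable {G : Type u} [Group G] [Fintype G]

namespace TC

open TwoClass

variable {χ : G → ℂ} {x : G} {N : Subgroup G} {p : ℕ} [hp : Fact p.Prime]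

theorem orderOf_x (h : TC χ x N) (hNp : IsPGroup p N) : orderOf x = p := by
  obtain ⟨q, hq, hqx⟩ := h.exists_prime
  obtain ⟨k, hk⟩ := IsPGroup.iff_orderOf.mp hNp ⟨x, h.x_mem⟩
  have h2 : orderOf x = p ^ k := by
    rw [← hk]
    exact (Subgroup.orderOf_mk x h.x_mem).symm
  rw [hqx] at h2 ⊢
  have h3 : q ∣ p ^ k := by rw [h2]
  exact (Nat.prime_dvd_prime_iff_eq hq hp.out).mp (hq.dvd_of_dvd_pow h3)

/-- An involution inverts `N` when `p` is odd. -/
theorem involution_inverts (h : TC χ x N) [hNn : N.Normal] (hp2 : p ≠ 2) (hNp : IsPGroup p N)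
    {t : G} (ht : orderOf t = 2) {n : G} (hn : n ∈ N) : t * n * t⁻¹ = n⁻¹ := by
  have htt : t * t = 1 := by
    have := pow_orderOf_eq_one t
    rwa [ht, pow_two] at this
  have htinv : t⁻¹ = t := inv_eq_of_mul_eq_one_left htt
  have hconj : t * n * t⁻¹ ∈ N := hNn.conj_mem n hn t
  set w := n * (t * n * t⁻¹) with hw
  have hwN : w ∈ N := N.mul_mem hn hconj
  have hcomm : t * w = w * t := by
    have h1 := h.comm hn hconj
    have h2 : t * w = (t * n * t⁻¹) * (t * (t * n * t⁻¹) * t⁻¹) * t := by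
      rw [hw]; group
    have h3 : t * (t * n * t⁻¹) * t⁻¹ = n := by
      calc t * (t * n * t⁻¹) * t⁻¹ = (t * t) * n * (t⁻¹ * t⁻¹) := by group
        _ = n := by rw [htinv, htt]; simp
    rw [h2, h3, ← h1]
  by_cases hw1 : w = 1
  · exact eq_inv_of_mul_eq_one_right hw1
  · exfalso
    have h' := h.of_mem hwN hw1
    have hpg := h'.centralizer_isPGroup hNp
    have htC : t ∈ Subgroup.centralizer ({w} : Set G) :=
      Subgroup.mem_centralizer_singleton_iff.mpr hcomm
    obtain ⟨k, hk⟩ := IsPGroup.iff_orderOf.mp hpg ⟨t, htC⟩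
    have h2 : orderOf t = p ^ k := by
      rw [← hk]
      exact (Subgroup.orderOf_mk t htC).symm
    rw [ht] at h2
    have h3 : p ∣ 2 := by
      have : k ≠ 0 := by
        rintro rfl
        simp at h2
      rw [h2]
      exact dvd_pow_self p this
    exact hp2 ((Nat.prime_dvd_prime_iff_eq hp.out Nat.prime_two).mp h3)

/-- `N ∩ C(t) = 1`. -/
theorem eq_one_of_inverted (h : TC χ x N) (hp2 : p ≠ 2) (hNp : IsPGroup p N) {n : G} (hn : n ∈ N)
    (hinv : n = n⁻¹) : n = 1 := by
  have h1 : n ^ p = 1 := h.pow_eq_one (h.orderOf_x hNp) hn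
  have h2 : n ^ 2 = 1 := by
    rw [pow_two]
    nth_rewrite 2 [hinv]
    simp
  have hcop : Nat.Coprime p 2 := (Nat.coprime_primes hp.out Nat.prime_two).mpr hp2
  have h3 := orderOf_dvd_of_pow_eq_one h1
  have h4 := orderOf_dvd_of_pow_eq_one h2
  have h5 : orderOf n ∣ 1 := by
    rw [← hcop.gcd_eq_one]
    exact Nat.dvd_gcd h3 h4
  exact orderOf_eq_one_iff.mp (Nat.dvd_one.mp h5)

/-- For odd `p`: `C_G(x) = N` when `N = O_p(G)`. -/
theorem centralizer_eq_of_odd (h : TC χ x N) [hNn : N.Normal] (hp2 : p ≠ 2) (hNp : IsPGroup p N)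
    (hcore : N = pCore p G) : Subgroup.centralizer ({x} : Set G) = N := by
  classical
  have hord := h.orderOf_x hNp
  have hodd : Odd p := hp.out.odd_of_ne_two hp2
  obtain ⟨e, he, hce⟩ := h.card_N_pow hNp
  -- an involution
  have hm2 : 2 ∣ m x := by
    have h1 : m x + 1 = p ^ e := by rw [← h.card_N, hce]
    have h2 : Odd (p ^ e) := hodd.pow
    rw [← h1] at h2
    have : Even (m x) := by
      rcases Nat.even_or_odd (m x) with h3 | h3
      · exact h3
      · exact absurd (h3.add_one) (Nat.not_even_iff_odd.mpr h2)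
    exact this.two_dvd
  have h2G : 2 ∣ Nat.card G := by
    rw [← Subgroup.index_mul_card (Subgroup.centralizer ({x} : Set G)), ← m_eq_index]
    exact hm2.mul_right _
  obtain ⟨t, ht⟩ := exists_prime_orderOf_dvd_card' (G := G) 2 h2G
  have htt : t * t = 1 := by
    have := pow_orderOf_eq_one t
    rwa [ht, pow_two] at this
  have htinv : t⁻¹ = t := inv_eq_of_mul_eq_one_left htt
  have hI : ∀ {n : G}, n ∈ N → t * n * t⁻¹ = n⁻¹ := fun hn => h.involution_inverts hp2 hNp ht hn
  -- decomposition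
  have hdec : ∀ g : G, ∃ s ∈ N, s⁻¹ * g ∈ Subgroup.centralizer ({t} : Set G) := by
    intro g
    set n₁ := t⁻¹ * (g * t * g⁻¹) with hn₁
    have hn₁N : n₁ ∈ N := by
      apply h.mem_of_comm_all hNp hcore
      intro n hn
      set b := g⁻¹ * n * g with hb
      have hbN : b ∈ N := by
        have := hNn.conj_mem n hn g⁻¹
        simpa [hb] using this
      have h1 : t * b = b⁻¹ * t := by
        have := hI hbN
        calc t * b = (t * b * t⁻¹) * t := by group
          _ = b⁻¹ * t := by rw [this]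
      have h2 : t⁻¹ * n⁻¹ = n * t⁻¹ := by
        have := hI (N.inv_mem hn)
        rw [inv_inv] at this
        rw [htinv]
        calc t * n⁻¹ = (t * n⁻¹ * t⁻¹) * t := by group
          _ = n * t := by rw [this]
      have h3 : g * b⁻¹ = n⁻¹ * g := by rw [hb]; group
      have h4 : g⁻¹ * n = b * g⁻¹ := by rw [hb]; group
      calc n₁ * n = t⁻¹ * g * t * (g⁻¹ * n) := by rw [hn₁]; group
        _ = t⁻¹ * g * (t * b) * g⁻¹ := by rw [h4]; group
        _ = t⁻¹ * (g * b⁻¹) * t * g⁻¹ := by rw [h1]; group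
        _ = (t⁻¹ * n⁻¹) * g * t * g⁻¹ := by rw [h3]; group
        _ = n * n₁ := by rw [h2, hn₁]; group
    refine ⟨(n₁⁻¹) ^ ((p + 1) / 2), N.pow_mem (N.inv_mem hn₁N) _, ?_⟩
    set s := (n₁⁻¹) ^ ((p + 1) / 2) with hs
    have hsN : s ∈ N := N.pow_mem (N.inv_mem hn₁N) _
    have hss : s * s = n₁⁻¹ := by
      have h1 : (p + 1) / 2 + (p + 1) / 2 = p + 1 := by
        obtain ⟨r, hr⟩ := hodd
        omega
      rw [hs, ← pow_add, h1, pow_succ, h.pow_eq_one hord (N.inv_mem hn₁N), one_mul]
    have h1 : g * t = s * s * t * g := by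
      have h2 : t * n₁ = n₁⁻¹ * t := by
        have := hI hn₁N
        calc t * n₁ = (t * n₁ * t⁻¹) * t := by group
          _ = n₁⁻¹ * t := by rw [this]
      have h3 : g * t * g⁻¹ = t * n₁ := by rw [hn₁]; group
      rw [hss, ← h2, ← h3]
      group
    have h2 : t * s⁻¹ = s * t := by
      have := hI (N.inv_mem hsN)
      rw [inv_inv] at this
      calc t * s⁻¹ = (t * s⁻¹ * t⁻¹) * t := by group
        _ = s * t := by rw [this]
    rw [Subgroup.mem_centralizer_singleton_iff]
    calc s⁻¹ * g * t = s⁻¹ * (g * t) := by group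
      _ = s * t * g := by rw [h1]; group
      _ = t * s⁻¹ * g := by rw [h2]
      _ = t * (s⁻¹ * g) := by group
  -- the intersection
  set P := Subgroup.centralizer ({x} : Set G) with hP
  set K := Subgroup.centralizer ({t} : Set G) with hK
  set Q := P ⊓ K with hQ
  have hNP : N ≤ P := h.le_centralizer h.x_mem
  have hPp : IsPGroup p P := h.centralizer_isPGroup hNp
  have hQN : ∀ {y : G}, y ∈ K → y ∈ N → y = 1 := by
    intro y hyK hyN
    apply h.eq_one_of_inverted hp2 hNp hyN
    have h1 := hI hyN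
    have h2 := Subgroup.mem_centralizer_singleton_iff.mp hyK
    rw [← h1, ← h2]
    group
  have hdecP : ∀ u ∈ P, ∃ s ∈ N, s⁻¹ * u ∈ Q := by
    intro u hu
    obtain ⟨s, hs, hsK⟩ := hdec u
    exact ⟨s, hs, P.mul_mem (P.inv_mem (hNP hs)) hu, hsK⟩
  apply le_antisymm _ hNP
  by_cases hQbot : Q = ⊥
  · intro u hu
    obtain ⟨s, hs, hsQ⟩ := hdecP u hu
    rw [hQbot, Subgroup.mem_bot] at hsQ
    have : u = s := by
      have h1 : s * (s⁻¹ * u) = s := by rw [hsQ, mul_one]
      simpa using h1
    rw [this]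
    exact hs
  · exfalso
    have hQp : IsPGroup p Q := hPp.to_le inf_le_left
    haveI : Nontrivial Q := (Subgroup.nontrivial_iff_ne_bot Q).mpr hQbot
    haveI : Nontrivial (Subgroup.center Q) := hQp.center_nontrivial
    obtain ⟨y₀, hy₀⟩ := exists_ne (1 : Subgroup.center Q)
    set y : G := ((y₀ : Q) : G) with hy
    have hy1 : y ≠ 1 := fun h1 => hy₀ (Subtype.ext (Subtype.ext h1))
    have hyQ : y ∈ Q := (y₀ : Q).2
    have hyN : y ∉ N := fun h1 => hy1 (hQN hyQ.2 h1)
    let A : Subgroup G := Q ⊔ Subgroup.zpowers x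
    have hAC : A ≤ Subgroup.centralizer ({y} : Set G) := by
      refine sup_le ?_ ?_
      · intro q hq
        rw [Subgroup.mem_centralizer_singleton_iff]
        have := Subgroup.mem_center_iff.mp y₀.2 ⟨q, hq⟩
        exact congrArg Subtype.val this
      · rw [Subgroup.zpowers_le, Subgroup.mem_centralizer_singleton_iff]
        exact (Subgroup.mem_centralizer_singleton_iff.mp hyQ.1).symm
    have hAP : A ≤ P := by
      refine sup_le inf_le_left ?_
      rw [Subgroup.zpowers_le]
      exact hNP h.x_mem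
    have hdvd := h.card_mul_dvd hyN A hAC
    obtain ⟨i, hi⟩ := IsPGroup.iff_card.mp (hPp.to_le hAP)
    rw [hi, hce, ← pow_add] at hdvd
    let Syl : Sylow p G := hPp.toSylow (h.not_dvd_index hNp)
    have hdvd2 := Syl.pow_dvd_card_of_pow_dvd_card hdvd
    have hSyl : (Syl : Subgroup G) = P := IsPGroup.toSylow_coe _ _
    rw [hSyl] at hdvd2
    have hle1 : p ^ (i + e) ≤ Nat.card P := Nat.le_of_dvd Nat.card_pos hdvd2
    have hle2 : Nat.card P ≤ Nat.card N * Nat.card Q := by
      rw [← Nat.card_prod]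
      let f : N × Q → P := fun a => ⟨(a.1 : G) * (a.2 : G), P.mul_mem (hNP a.1.2) (a.2.2.1)⟩
      apply Nat.card_le_card_of_surjective f
      rintro ⟨u, hu⟩
      obtain ⟨s, hs, hsQ⟩ := hdecP u hu
      refine ⟨(⟨s, hs⟩, ⟨s⁻¹ * u, hsQ⟩), ?_⟩
      apply Subtype.ext
      simp [f]
    have hle3 : Nat.card A ≤ Nat.card Q := by
      rw [pow_add, ← hi, ← hce, mul_comm] at hle1
      exact Nat.le_of_mul_le_mul_left (hle1.trans hle2) Nat.card_pos
    have hQA : Q = A := Subgroup.eq_of_le_of_card_ge le_sup_left hle3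
    have hxQ : x ∈ Q := by
      rw [hQA]
      exact Subgroup.mem_sup_right (Subgroup.mem_zpowers x)
    exact h.ne_one (hQN hxQ.2 h.x_mem)

/-- The centralizers of all nonidentity elements of `N` are the same. -/
theorem centralizer_of_mem (h : TC χ x N) [hNn : N.Normal]
    (hS : Subgroup.centralizer ({x} : Set G) = N) {y : G} (hy : y ∈ N) (hy1 : y ≠ 1) {g : G}
    (hg : Commute g y) : g ∈ N := by
  obtain ⟨c, rfl⟩ := isConj_iff.mp (h.conj_of_mem hy hy1)
  have h1 : c⁻¹ * g * c ∈ Subgroup.centralizer ({x} : Set G) := by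
    rw [Subgroup.mem_centralizer_singleton_iff]
    have h2 : g * (c * x * c⁻¹) = (c * x * c⁻¹) * g := hg
    calc c⁻¹ * g * c * x = c⁻¹ * (g * (c * x * c⁻¹)) * c := by group
      _ = c⁻¹ * ((c * x * c⁻¹) * g) * c := by rw [h2]
      _ = x * (c⁻¹ * g * c) := by group
  rw [hS] at h1
  have := hNn.conj_mem _ h1 c
  have h3 : c * (c⁻¹ * g * c) * c⁻¹ = g := by group
  rwa [h3] at this

/-- The Frobenius conclusion. -/
theorem exists_frobenius (h : TC χ x N) [hNn : N.Normal] (hNp : IsPGroup p N)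
    (hS : Subgroup.centralizer ({x} : Set G) = N) :
    ∃ H : Subgroup G, IsFrobeniusComplement H ∧ frobeniusKernel H = (N : Set G) ∧
      Nat.card H + 1 = Nat.card N := by
  classical
  obtain ⟨a, ha, -, -, hG, hC⟩ := h.card_formula
  have hN := h.card_N
  rw [hS, hN] at hC
  have ha1 : a ^ 2 = 1 := by
    have h1 : 1 * (m x + 1) = a ^ 2 * (m x + 1) := by rw [one_mul]; exact hC
    exact (Nat.eq_of_mul_eq_mul_right (Nat.succ_pos _) h1).symm
  rw [ha1, one_mul] at hG
  have hindex : N.index = m x := by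
    have h1 := N.index_mul_card
    rw [hN, hG] at h1
    exact Nat.eq_of_mul_eq_mul_right (Nat.succ_pos _) h1
  have hcop : Nat.Coprime (Nat.card N) N.index := by
    rw [hN, hindex]
    simp
  obtain ⟨H, hH⟩ := Subgroup.exists_right_complement'_of_coprime hcop
  have hHcard : Nat.card H = m x := by
    rw [← hindex]
    have h1 := N.card_mul_index
    have h2 := hH.card_mul_card
    exact Nat.eq_of_mul_eq_mul_left Nat.card_pos (h2.trans h1.symm)
  have hm2 : 2 ≤ m x := by
    have hbig := h.big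
    have hm := m_pos (x := x)
    by_contra hc
    have : m x = 1 := by omega
    rw [this] at hG
    omega
  have hdisj : ∀ {y : G}, y ∈ N → y ∈ H → y = 1 := by
    intro y h1 h2
    exact Subgroup.disjoint_def.mp hH.disjoint h1 h2
  have hdec : ∀ g : G, ∃ n ∈ N, ∃ k ∈ H, n * k = g := by
    intro g
    obtain ⟨⟨n, k⟩, hnk⟩ := hH.2 g
    exact ⟨n, n.2, k, k.2, hnk⟩
  refine ⟨H, ⟨?_, ?_, ?_⟩, ?_, ?_⟩
  · rintro rfl
    simp at hHcard
    omega
  · rintro rfl
    exact h.ne_one (hdisj h.x_mem (Subgroup.mem_top x))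
  · intro g hg
    rw [eq_bot_iff]
    intro u hu
    obtain ⟨huH, hug⟩ := Subgroup.mem_inf.mp hu
    rw [H19.mem_conj_smul] at hug
    obtain ⟨n, hn, k, hk, rfl⟩ := hdec g
    set h' := k * ((n * k)⁻¹ * u * (n * k)) * k⁻¹ with hh'
    have hh'H : h' ∈ H := H.mul_mem (H.mul_mem hk hug) (H.inv_mem hk)
    have hu' : u = n * h' * n⁻¹ := by rw [hh']; group
    have h1 : u * h'⁻¹ ∈ N := by
      rw [hu']
      have h2 := hNn.conj_mem n⁻¹ (N.inv_mem hn) h'
      have h3 : n * h' * n⁻¹ * h'⁻¹ = n * (h' * n⁻¹ * h'⁻¹) := by group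
      rw [h3]
      exact N.mul_mem hn h2
    have h2 : u * h'⁻¹ ∈ H := H.mul_mem huH (H.inv_mem hh'H)
    have h3 : u = h' := by
      have := hdisj h1 h2
      exact mul_inv_eq_one.mp this
    by_cases hn1 : n = 1
    · exfalso
      apply hg
      rw [hn1, one_mul]
      exact hk
    · have h4 : Commute h' n := by
        have h5 : n * h' * n⁻¹ = h' := by rw [← hu', h3]
        have h6 : n * h' = h' * n := by
          calc n * h' = (n * h' * n⁻¹) * n := by group
            _ = h' * n := by rw [h5]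
        exact h6.symm
      have h5 := h.centralizer_of_mem hS hn hn1 h4
      have h6 := hdisj h5 hh'H
      rw [Subgroup.mem_bot, h3, h6]
  · ext y
    simp only [frobeniusKernel, Set.mem_ofPred_eq, SetLike.mem_coe]
    constructor
    · rintro (rfl | hy)
      · exact N.one_mem
      · by_contra hyN
        obtain ⟨n, hn, k, hk, rfl⟩ := hdec y
        have hkN : k ∉ N := fun h1 => hyN (N.mul_mem hn h1)
        obtain ⟨c, hc⟩ := isConj_iff.mp (h.coset_conj hkN hn)
        apply hy c
        rw [H19.mem_conj_smul, ← hc]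
        have : c⁻¹ * (c * k * c⁻¹) * c = k := by group
        rw [this]
        exact hk
    · intro hy
      by_cases hy1 : y = 1
      · exact Or.inl hy1
      · right
        intro g hg
        rw [H19.mem_conj_smul] at hg
        have h1 : g⁻¹ * y * g ∈ N := by
          have := hNn.conj_mem y hy g⁻¹
          simpa using this
        have h2 := hdisj h1 hg
        apply hy1
        have h3 : y = g * (g⁻¹ * y * g) * g⁻¹ := by group
        rw [h3, h2]
        group
  · rw [hHcard, hN]

/-- The converse direction. -/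
theorem eq_pCore_of_frobenius (h : TC χ x N) [hNn : N.Normal] (hNp : IsPGroup p N) {H : Subgroup G}
    (hH : IsFrobeniusComplement H) (hker : frobeniusKernel H = (N : Set G))
    (hc : Nat.card H + 1 = Nat.card N) : N = pCore p G := by
  apply le_antisymm (H01.le_pCore hNn hNp)
  have h1 := H01.card_frobeniusKernel hH
  rw [hker] at h1
  have h1' : Nat.card N = H.index := h1
  have h2 := H.card_mul_index
  have h3 := N.index_mul_card
  rw [h1'] at h3
  have hidx : N.index = Nat.card H :=
    Nat.eq_of_mul_eq_mul_right (Nat.pos_of_ne_zero Subgroup.index_ne_zero_of_finite) (h3.trans h2.symm)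
  obtain ⟨e, he, hce⟩ := h.card_N_pow hNp
  have hnd : ¬ p ∣ N.index := by
    rw [hidx]
    intro h4
    have h5 : p ∣ Nat.card H + 1 := by
      rw [hc, hce]
      exact dvd_pow_self p he.ne'
    have h6 := (Nat.dvd_add_right h4).mp h5
    exact hp.out.one_lt.ne' (Nat.dvd_one.mp h6)
  have h7 := H01.pCore_le_sylow p (hNp.toSylow hnd)
  rwa [IsPGroup.toSylow_coe] at h7

end TC

end Cfsg.Agent.H23
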